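import Cfsg.Statements.S3297

/-! Pieces of S3297 (Suzuki groups by local fusion): hypotheses `HA`, `HB`, `HC`, the set `Zs`
(`Ω₁ Z(P)`) and the propositions `PR`, `PS`, `PT`, `PU`. -/

open Cfsg

namespace H9.Lf

universe u

variable {G : Type u} [Group G]

/-- fusion in `P` by elements of `L` is realised in `N_L(P)` -/
def HA (L P : Subgroup G) : Prop :=
  ∀ x ∈ P, ∀ y ∈ P, (∃ g ∈ L, g * x * g⁻¹ = y) →
    ∃ n ∈ L, n ∈ Subgroup.normalizer (P : Set G) ∧ n * x * n⁻¹ = y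

def HB (p : ℕ) (P : Subgroup G) : Prop :=
  ∀ x ∈ P, orderOf x = p → HasNormalPComplement p ↥(Subgroup.centralizer ({x} : Set G))

def HC (p : ℕ) (G : Type u) [Group G] : Prop :=
  ∀ x y : G, orderOf x = p → orderOf y = p → IsPSolvable p ↥(Subgroup.closure ({x, y} : Set G))

/-- `x ∈ Ω₁ Z(P)` -/
def Zs (p : ℕ) (P : Subgroup G) (x : G) : Prop := x ∈ P ∧ x ^ p = 1 ∧ ∀ y ∈ P, x * y = y * x

/-- reduction: every nontrivial normal subgroup contains `P`, controls its own fusion, and some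
element of `N(P)` moves an element of `Ω₁ Z(P)`. -/
def PR : Prop := ∀ (G : Type u) [Group G] [Finite G] (p : ℕ) [Fact p.Prime] (P : Sylow p G),
  pPrimeCore p G = ⊥ → ¬ (P : Subgroup G).Normal → HA ⊤ (P : Subgroup G) → HB p (P : Subgroup G) →
  (∀ M : Subgroup G, M.Normal → M ≠ ⊥ → (P : Subgroup G) ≤ M ∧ HA M (P : Subgroup G)) ∧
  ∃ n ∈ Subgroup.normalizer ((P : Subgroup G) : Set G), ∃ z, Zs p (P : Subgroup G) z ∧
    n * z * n⁻¹ ≠ z

/-- structure of `⟨x', y⟩`: with `a` a `p`-power-order power of `x' y` (e.g. its `p`-part) -/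
def PS : Prop := ∀ (G : Type u) [Group G] [Finite G] (p : ℕ) [Fact p.Prime] (P : Sylow p G),
  HA ⊤ (P : Subgroup G) → HC p G → ∀ x y g : G, Zs p (P : Subgroup G) x → Zs p (P : Subgroup G) y →
  (∀ a ∈ Subgroup.zpowers (g * x * g⁻¹ * y), (∃ k, a ^ p ^ k = 1) →
    ∃ t, Zs p (P : Subgroup G) (t * a * t⁻¹)) ∧
  (¬ p ∣ orderOf (g * x * g⁻¹ * y) → IsConj x y⁻¹)

/-- the simple case for `p = 2` -/
def PT : Prop := ∀ (G : Type u) [Group G] [Finite G] [IsSimpleGroup G] (P : Sylow 2 G),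
  ¬ IsMulCommutative G → HA ⊤ (P : Subgroup G) → HB 2 (P : Subgroup G) →
  (IsElementaryAbelian 2 (P : Subgroup G) ∧ ∀ x ∈ (P : Subgroup G), ∀ y ∈ (P : Subgroup G),
    x ≠ 1 → y ≠ 1 → ∃ g : G, g * x * g⁻¹ = y) ∨ Lie.IsoSuzuki G

/-- from the normal Suzuki subgroup to `G` -/
def PU : Prop := ∀ (G : Type u) [Group G] [Finite G] (P : Sylow 2 G) (L : Subgroup G),
  L.Normal → ¬ (P : Subgroup G).Normal →
  (∀ M : Subgroup G, M.Normal → M ≠ ⊥ → (P : Subgroup G) ≤ M) → (P : Subgroup G) ≤ L →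
  HA L (P : Subgroup G) → HB 2 (P : Subgroup G) → Lie.IsoSuzuki L → L = ⊤

end H9.Lf
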