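import Mathlib
import Cfsg.Agent.H17.Syl

/-! Composition length `len` of subgroups through subnormal chains `Ch`: additivity `len_add`, products `len_pi`, the
bound `len_le` by the number of prime factors, and the base bound `base_bd`. -/

set_option autoImplicit false
set_option linter.unusedSectionVars false

namespace H9.CL
open Subgroup H17 ArithmeticFunction
open scoped ArithmeticFunction.Omega

variable {G G' : Type*} [Group G] [Group G']

/-- subnormal chains of length `l` -/
inductive Ch (A : Subgroup G) : Subgroup G → ℕ → Prop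
  | refl : Ch A A 0
  | step {B C : Subgroup G} {l : ℕ} : Ch A B l → B < C → C ≤ normalizer (B : Set G) → Ch A C (l + 1)

variable {A B C : Subgroup G} {l : ℕ}

theorem Ch.le (h : Ch A B l) : A ≤ B := by
  induction h with
  | refl => exact le_rfl
  | step _ h _ ih => exact ih.trans h.le

theorem Ch.trans {k : ℕ} (h : Ch A B l) (h' : Ch B C k) : Ch A C (l + k) := by
  induction h' with
  | refl => exact h
  | step _ h1 h2 ih => exact ih.step h1 h2

theorem om_lt [Finite G] (h : A < B) : Ω (Nat.card A) < Ω (Nat.card B) := by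
  have h1 := card_mul_relIndex h.le
  have h2 : A.relIndex B ≠ 0 := fun e => by simp [e, Nat.card_pos.ne] at h1
  rw [← h1, cardFactors_mul Nat.card_pos.ne' h2, lt_add_iff_pos_right, cardFactors_pos_iff_one_lt]
  have := mt relIndex_eq_one.1 h.not_ge
  omega

theorem Ch.om [Finite G] (h : Ch A B l) : l + Ω (Nat.card A) ≤ Ω (Nat.card B) := by
  induction h with
  | refl => simp
  | step _ h _ ih => have := om_lt h; omega

theorem Ch.comap (f : G' →* G) (h : Ch A B l) (hB : B ≤ f.range) : Ch (A.comap f) (B.comap f) l := by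
  induction h with
  | refl => exact .refl
  | step _ h1 h2 ih =>
    refine (ih (h1.le.trans hB)).step (lt_of_le_not_ge (comap_mono h1.le) fun e => h1.not_ge fun x hx => ?_)
      ((comap_mono h2).trans (le_normalizer_comap f))
    obtain ⟨y, rfl⟩ := hB hx
    exact e hx

theorem Ch.hom (f : G →* G') (h : Ch A B l) :
    ∃ a b, l ≤ a + b ∧ Ch (A ⊓ f.ker) (B ⊓ f.ker) a ∧ Ch (A.map f) (B.map f) b := by
  induction h with
  | refl => exact ⟨0, 0, le_rfl, .refl, .refl⟩
  | @step B C l _ h1 h2 ih =>
    obtain ⟨a, b, h3, h4, h5⟩ := ih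
    have k1 := inf_le_left.trans (le_normalizer_inf h2 (le_normalizer_of_normal (H := f.ker))) (a := C ⊓ f.ker)
    have k2 := (map_mono h2).trans (le_normalizer_map f)
    rcases (inf_le_inf_right f.ker h1.le).eq_or_lt with e | e <;> rcases (map_mono (f := f) h1.le).eq_or_lt with e' | e'
    · refine absurd (fun x hx => ?_) h1.not_ge
      obtain ⟨y, hy, e2⟩ := e'.ge (mem_map_of_mem f hx)
      simpa using mul_mem hy (e.ge (mem_inf.2 ⟨mul_mem (inv_mem (h1.le hy)) hx, by simp [e2]⟩)).1
    · exact ⟨a, b + 1, by omega, e ▸ h4, h5.step e' k2⟩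
    · exact ⟨a + 1, b, by omega, h4.step e k1, e' ▸ h5⟩
    · exact ⟨a + 1, b + 1, by omega, h4.step e k1, h5.step e' k2⟩

/-- composition length -/
noncomputable def len (B : Subgroup G) : ℕ := sSup {l | Ch ⊥ B l}

variable [Finite G] [Finite G']

theorem Ch.le_len (h : Ch ⊥ B l) : l ≤ len B := le_csSup ⟨_, fun _ h => le_of_add_le_left h.om⟩ h

theorem ch_one (h : B ≠ ⊥) : Ch ⊥ B 1 := Ch.refl.step (bot_lt_iff_ne_bot.2 h) le_normalizer_of_normal

theorem ch_len (B : Subgroup G) : Ch ⊥ B (len B) := Nat.sSup_mem (s := {l | Ch ⊥ B l})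
  ((eq_or_ne B ⊥).elim (fun e => ⟨0, e ▸ .refl⟩) fun e => ⟨1, ch_one e⟩) ⟨_, fun _ h => le_of_add_le_left h.om⟩

theorem len_le (B : Subgroup G) : len B ≤ Ω (Nat.card B) := le_of_add_le_left (ch_len B).om

theorem len_bot : len (⊥ : Subgroup G) = 0 := by simpa using len_le (⊥ : Subgroup G)

theorem len_le_add (f : G →* G') (B : Subgroup G) : len B ≤ len (B ⊓ f.ker) + len (B.map f) := by
  obtain ⟨a, b, h1, h2, h3⟩ := (ch_len B).hom f
  rw [bot_inf_eq] at h2
  rw [Subgroup.map_bot] at h3
  exact h1.trans (add_le_add h2.le_len h3.le_len)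

theorem len_map {f : G →* G'} (hf : Function.Injective f) (B : Subgroup G) : len (B.map f) = len B := by
  refine le_antisymm (Ch.le_len ?_) (by simpa [(f.ker_eq_bot_iff).2 hf, len_bot] using len_le_add f B)
  simpa [comap_map_eq_self_of_injective hf, (f.ker_eq_bot_iff).2 hf] using (ch_len (B.map f)).comap f (map_le_range f B)

theorem len_top (B : Subgroup G) : len (⊤ : Subgroup B) = len B := by
  rw [← len_map B.subtype_injective, ← MonoidHom.range_eq_map, range_subtype]

theorem len_add (f : G →* G') (B : Subgroup G) : len B = len (B ⊓ f.ker) + len (B.map f) := by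
  refine (len_le_add f B).antisymm ?_
  have h1 := (ch_len (B.map f)).comap (f.comp B.subtype) (by rw [MonoidHom.range_comp, range_subtype])
  rw [MonoidHom.comap_bot, show (B.map f).comap (f.comp B.subtype) = ⊤ from eq_top_iff.2 fun x _ =>
    mem_map_of_mem f x.2] at h1
  have := ((ch_len _).trans h1).le_len
  rwa [len_top, ← len_map B.subtype_injective, ← MonoidHom.comap_ker, ← subgroupOf, subgroupOf_map_subtype,
    inf_comm] at this

theorem len_simple [IsSimpleGroup G] : len (⊤ : Subgroup G) ≤ 1 := by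
  suffices ∀ (B : Subgroup G) l, Ch ⊥ B l → B = ⊤ → l ≤ 1 from this _ _ (ch_len _) rfl
  rintro B l (_ | ⟨h1, h2, h3⟩) e
  · simp
  · subst e
    rcases (normalizer_eq_top_iff.1 (top_le_iff.1 h3)).eq_bot_or_eq_top with rfl | rfl
    · simpa using h1.om
    · exact absurd h2 (lt_irrefl _)

theorem len_pi {ι : Type*} [Fintype ι] (K : ι → Subgroup G) : len (Subgroup.pi Set.univ K) = ∑ i, len (K i) := by
  classical
  have : ∀ S : Finset ι, len (Subgroup.pi Set.univ fun i => if i ∈ S then K i else ⊥) = ∑ i ∈ S, len (K i) := fun S => by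
    induction S using Finset.induction_on with
    | empty => simp [len_bot, pi_bot]
    | insert a S ha ih =>
      rw [Finset.sum_insert ha, len_add (Pi.evalMonoidHom (fun _ => G) a), ← ih, add_comm]
      congr 2
      · exact le_antisymm (by rintro _ ⟨x, hx, rfl⟩; simpa using hx a trivial) fun x hx =>
          ⟨Pi.mulSingle a x, fun i _ => by by_cases e : i = a <;> simp [e, hx], by simp⟩
      · ext x
        simp only [mem_inf, mem_pi, Set.mem_univ, forall_const, MonoidHom.mem_ker, Pi.evalMonoidHom_apply]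
        refine ⟨fun h i => ?_, fun h => ⟨fun i => ?_, by simpa [ha] using h a⟩⟩ <;> by_cases e : i = a
        · simp [e, h.2]
        · simpa [e] using h.1 i
        · simp [e, show x a = 1 by simpa [ha] using h a]
        · simpa [e] using h i
  simpa using this Finset.univ

theorem om_le (n : ℕ) : Ω n ≤ Nat.log 2 n := by
  rcases eq_or_ne n 0 with rfl | h
  · simp
  refine Nat.le_log_of_pow_le one_lt_two ?_
  simpa [Nat.prod_primeFactorsList h, cardFactors_apply] using
    List.pow_card_le_prod n.primeFactorsList 2 fun p hp => (Nat.prime_of_mem_primeFactorsList hp).two_le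

theorem base_bd {N M : Subgroup G} [N.Normal] (h : M ⊓ centralizer N = ⊥) (P : Subgroup G) (hP : P ≤ N) :
    Ω (Nat.card (M ⊓ centralizer P : Subgroup G)) + Ω (Nat.card P) * Nat.log 2 (Nat.card N - 1) ≤
      Ω (Nat.card N) * Nat.log 2 (Nat.card N - 1) := by
  induction P using WellFoundedGT.induction with
  | ind P ih =>
  rcases hP.eq_or_lt with rfl | h1
  · simp [h]
  obtain ⟨x, hx, h2⟩ := SetLike.exists_of_lt h1
  have h3 : P < P ⊔ zpowers x := left_lt_sup.2 (mt zpowers_le.1 h2)
  have h4 := ih _ h3 (sup_le hP (zpowers_le.2 hx))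
  have h5 := Nat.mul_le_mul_right (Nat.log 2 (Nat.card N - 1)) (om_lt h3)
  have h6 : M ⊓ centralizer (P ⊔ zpowers x : Subgroup G) ≤ M ⊓ centralizer P :=
    inf_le_inf_left _ (centralizer_le (le_sup_left (a := P)))
  letI := MulAction.compHom G (MulAut.conj.comp (M ⊓ centralizer (P : Set G)).subtype)
  have h7 := MulAction.index_stabilizer (M ⊓ centralizer (P : Set G) : Subgroup G) x
  have h11 : MulAction.stabilizer (M ⊓ centralizer (P : Set G) : Subgroup G) x =
      (M ⊓ centralizer (P ⊔ zpowers x : Subgroup G)).subgroupOf _ := by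
    ext ⟨y, hy⟩
    refine ⟨fun e => ⟨hy.1, le_centralizer_iff.1 (sup_le (le_centralizer_iff.1 (zpowers_le.2 hy.2)) (zpowers_le.2 ?_))
      (mem_zpowers _)⟩, fun e => mul_inv_eq_iff_eq_mul.2 (e.2 x (mem_sup_right (mem_zpowers x))).symm⟩
    rw [← centralizer_singleton_eq_zpowers, mem_centralizer_singleton_iff]
    exact (mul_inv_eq_iff_eq_mul.1 e).symm
  rw [h11] at h7
  have h8 : (MulAction.orbit (M ⊓ centralizer (P : Set G) : Subgroup G) x).ncard ≤ Nat.card N - 1 := by
    rw [show Nat.card N = (N : Set G).ncard from rfl, ← Set.ncard_diff_singleton_of_mem (one_mem N)]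
    refine Set.ncard_le_ncard ?_
    rintro _ ⟨y, rfl⟩
    exact ⟨Normal.conj_mem ‹_› x hx y, fun e => h2 (by rw [conj_eq_one_iff.1 e]; exact one_mem _)⟩
  have h9 := card_mul_relIndex h6
  have h10 := (om_le _).trans (Nat.log_mono_right (h7.le.trans h8))
  rw [← h9, cardFactors_mul Nat.card_pos.ne' fun e => Nat.card_pos.ne (by rwa [e] at h9)]
  rw [Nat.succ_mul] at h5
  unfold relIndex
  omega

end H9.CL
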