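import Cfsg.Agent.H9.CL
import Cfsg.Agent.S0723

/-! The composition length of a permutation group of degree `n` with `r` orbits is at most `4 (n - r) / 3` (`bd`); the
primitive case is `prim`. -/

set_option autoImplicit false
set_option linter.unusedSectionVars false

namespace H9.CL
open Subgroup H17 ArithmeticFunction MulAction
open scoped ArithmeticFunction.Omega Pointwise

universe u

/-- the bound for groups of order `< n` -/
def Bd (n : ℕ) : Prop := ∀ (G : Type u) [Group G] [Finite G] (B : Subgroup G), Nat.card B < n →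
  ∀ (X R : Type u) [Finite X] [MulAction G X] (f : X → R), (∀ b ∈ B, (∀ x : X, b • x = x) → b = 1) → f.Surjective →
    (∀ b ∈ B, ∀ x, f (b • x) = f x) → 3 * len B + 4 * Nat.card R ≤ 4 * Nat.card X

theorem arith {n : ℕ} (h : 2 ≤ Ω n) : 3 * (Ω n + Ω n * Nat.log 2 (n - 1)) + 4 ≤ 4 * n := by
  by_cases h1 : n ≤ 32
  · interval_cases n <;> simp_all [cardFactors_apply, Nat.log, Nat.primeFactorsList_ofNat] <;> decide
  have h2 := Nat.pow_log_le_self 2 (show n - 1 ≠ 0 by omega)
  have h3 : Ω n ≤ Nat.log 2 (n - 1) + 1 := (om_le n).trans ((Nat.log_mono_right (by omega)).trans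
    (Nat.log_mul_base one_lt_two (show n - 1 ≠ 0 by omega)).le)
  have h4 : 5 ≤ Nat.log 2 (n - 1) := Nat.le_log_of_pow_le one_lt_two (by omega)
  generalize Nat.log 2 (n - 1) = L at *
  have h5 : 3 * ((L + 1) * (L + 1)) + 4 ≤ 4 * 2 ^ L := by
    clear h2 h3
    induction L, h4 using Nat.le_induction with
    | base => norm_num
    | succ L h ih => rw [pow_succ]; nlinarith
  have := Nat.mul_le_mul_right (L + 1) h3
  rw [mul_add_one] at this
  omega

variable {G : Type u} [Group G] [Finite G] {M N : Subgroup G} [N.Normal]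

theorem card_lt (h : M ≠ ⊤) : Nat.card M < Nat.card G :=
  M.card_le_card_group.lt_of_ne (mt (eq_top_of_card_eq M) h)

theorem supp_bd (ih : Bd.{u} (Nat.card G)) (hM : M ≠ ⊤) (h : M ⊓ centralizer N = ⊥) {T : Type} [Group T] [Finite T]
    [IsSimpleGroup T] (hT : ¬ IsMulCommutative T) {m : ℕ} (hm : 0 < m) (e : N ≃* (Fin m → T)) :
    3 * len M + 4 + 4 * m ≤ 4 * (m * Nat.card T) := by
  classical
  letI := MulAction.compHom N (MulAut.conjNormal : G →* MulAut N)
  obtain ⟨t, ht⟩ := exists_ne (1 : T)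
  let X : SubMulAction G N := ⟨{x | x ≠ 1 ∧ ∃ i, ∀ j ≠ i, e x j = 1}, fun g x ⟨h1, i, h2⟩ => ⟨by
    simpa [MulAction.compHom_smul_def] using h1, by
    have k : ∀ j, ∃ i, ∃ β : T →* T, ∀ y, e (g⁻¹ • e.symm y) j = β (y i) := fun j => Sc.factor hT
      ((Pi.evalMonoidHom (fun _ => T) j).comp (e.symm.trans ((MulAut.conjNormal g⁻¹).trans e)).toMonoidHom)
      ((Function.surjective_eval (β := fun _ : Fin m => T) j).comp
        (e.symm.trans ((MulAut.conjNormal g⁻¹).trans e)).surjective)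
    choose τ β hτ using k
    have k2 : ∀ i s, (∀ j, τ j = i → β j s = 1) → s = 1 := fun i s k => by
      have : g⁻¹ • e.symm (Pi.mulSingle i s) = 1 := e.injective (funext fun j => by
        by_cases c : τ j = i <;> simp [hτ, c, k])
      simpa [MulAction.compHom_smul_def] using this
    have k3 : τ.Injective := Finite.injective_iff_surjective.2 fun i => by_contra fun c =>
      ht (k2 i t fun j c' => absurd ⟨j, c'⟩ c)
    refine ⟨τ i, fun j hj => k2 j _ fun l c => ?_⟩
    subst c
    rw [← hτ, e.symm_apply_apply, inv_smul_smul, h2 l fun c => hj (by rw [c])]⟩⟩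
  have h3 : ∀ i s, s ≠ 1 → e.symm (Pi.mulSingle i s) ∈ X := fun i s hs => ⟨by simpa, i, fun j c => by simp [c]⟩
  have h4 := ih G M (card_lt hM) X PUnit
    (fun _ => ⟨⟩) (fun b hb k => mem_bot.1 (h ▸ mem_inf.2 ⟨hb, fun x hx => by
      have := pi_mem_of_mulSingle_mem (H := ((MulAut.conjNormal b).toMonoidHom.eqLocus
        (.id N)).comap e.symm.toMonoidHom) (e ⟨x, hx⟩) fun i => by
        by_cases c : e ⟨x, hx⟩ i = 1
        · simp [c]
        · exact congrArg Subtype.val (k ⟨_, h3 i _ c⟩)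
      exact (mul_inv_eq_iff_eq_mul.1 (by simpa using congrArg Subtype.val this)).symm⟩))
    (fun _ => ⟨⟨_, h3 ⟨0, hm⟩ t ht⟩, rfl⟩) fun _ _ _ => rfl
  have h5 := Nat.card_le_card_of_surjective (fun x : Fin m × {s : T // s ≠ 1} => (⟨_, h3 x.1 x.2 x.2.2⟩ : X))
    fun ⟨x, h1, i, h2⟩ => ⟨(i, ⟨e x i, fun c => h1 (e.injective (funext fun j => by by_cases d : j = i <;> simp [d, c, h2]))⟩),
      Subtype.ext (e.symm_apply_eq.2 (funext fun j => by by_cases d : j = i <;> simp [d, h2]))⟩
  have := Fintype.ofFinite T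
  obtain ⟨k, hk⟩ : ∃ k, Nat.card T = k + 1 := ⟨_, (Nat.succ_pred_eq_of_pos Nat.card_pos).symm⟩
  rw [Nat.card_prod, Nat.card_eq_fintype_card (α := {s : T // s ≠ 1}), Fintype.card_subtype_compl,
    ← Nat.card_eq_fintype_card, hk] at h5
  simp at h4 h5
  rw [hk, mul_add_one]; omega

theorem prim (ih : Bd.{u} (Nat.card G)) (hM : IsCoatom M) (hc : ∀ N : Subgroup G, N.Normal → N ≤ M → N = ⊥) :
    3 * len (⊤ : Subgroup G) + 4 ≤ 4 * M.index := by
  classical
  obtain ⟨N, _, h1, -, h2⟩ := H16.exists_minimal_normal_le (⊤ : Subgroup G) fun e => hM.1 (top_le_iff.1 (e ▸ bot_le))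
  have h3 : ¬ N ≤ M := fun e => h1 (hc N ‹_› e)
  have h4 : M ⊔ N = ⊤ := hM.2 _ (left_lt_sup.2 h3)
  have h5 : len (⊤ : Subgroup G) + len (M ⊓ N) = len N + len M := by
    rw [len_add (QuotientGroup.mk' N) ⊤, len_add (QuotientGroup.mk' N) M, ← h4, Subgroup.map_sup, QuotientGroup.ker_mk',
      QuotientGroup.map_mk'_self, sup_bot_eq, inf_eq_right.2 le_sup_right]
    omega
  have h6 := ih G M (card_lt hM.1) (G ⧸ M) (ULift Prop) (fun x => ⟨x = (1 : G)⟩) (fun b _ k => mem_bot.1
    (hc _ M.normalCore_normal M.normalCore_le ▸ (normalCore_eq_ker M ▸ Equiv.ext k))) (fun ⟨p⟩ => by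
      obtain ⟨g, -, hg⟩ := SetLike.exists_of_lt hM.lt_top
      by_cases c : p
      · exact ⟨(1 : G), by simp [c]⟩
      · exact ⟨g, by simp [c, QuotientGroup.eq, hg]⟩) fun b hb x => by
      rw [smul_eq_iff_eq_inv_smul, show b⁻¹ • ((1 : G) : G ⧸ M) = (1 : G) from QuotientGroup.eq.2 (by simpa)]
  rw [← index, Nat.card_ulift, Nat.card_eq_fintype_card, Fintype.card_prop] at h6
  have h7 : ∀ K : Subgroup G, K ≤ centralizer N → M ≤ normalizer (K : Set G) → M ⊓ K = ⊥ := fun K a b =>
    hc _ (normalizer_eq_top_iff.1 (top_le_iff.1 (h4 ▸ sup_le (le_normalizer_inf le_normalizer b)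
      ((le_centralizer_iff.1 (inf_le_right.trans a)).trans (centralizer_le_normalizer _))))) inf_le_left
  have h8 := h7 _ le_rfl le_normalizer_of_normal
  have h9 : M.relIndex N = M.index := by
    have a := card_sup_mul_card_inf (H := M) (N := N) le_normalizer_of_normal
    rw [h4, card_top, ← card_mul_index M, ← card_mul_relIndex (inf_le_right : M ⊓ N ≤ N), inf_relIndex_right,
      mul_assoc, mul_comm M.index] at a
    exact (mul_left_cancel₀ Nat.card_pos.ne' (mul_left_cancel₀ Nat.card_pos.ne' a)).symm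
  by_cases h10 : IsMulCommutative N
  · have h11 := h7 N (le_centralizer_iff_isMulCommutative.2 h10) le_normalizer_of_normal
    have h12 := base_bd h8 ⊥ bot_le
    have h13 := len_le N
    have h14 := len_le M
    rw [← inf_relIndex_right, h11, relIndex_bot_left] at h9
    rw [centralizer_eq_top_iff_subset.2 (SetLike.coe_subset_coe.2 bot_le)] at h12
    simp only [inf_top_eq, card_bot, cardFactors_one, zero_mul, add_zero, h9] at h12 h13
    by_cases h15 : 2 ≤ Ω M.index
    · have := arith h15; omega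
    · omega
  obtain ⟨T, _, m, _, hm, ⟨e⟩⟩ := H16.exists_pi_of_minimal_normal N h1 h2
  have : Finite T := .of_injective (fun t => e.symm fun _ => t) fun a b k => congrFun (e.symm.injective k) ⟨0, hm⟩
  have hT : ¬ IsMulCommutative T := fun k => h10 ⟨⟨fun a b => e.injective (funext fun i => by
    simp [k.1.1 (e a i)])⟩⟩
  have k1 : ∀ e : N ≃* (Fin m → T), ∃ D : Subgroup (Fin m → T), (∀ x, x ∈ D ↔ (e.symm x : G) ∈ M) ∧ D.index = M.index ∧
      len D = len (M ⊓ N) ∧ len N ≤ m := fun e => by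
    have a : (N.subtype.comp e.symm.toMonoidHom).range = N := by
      rw [MonoidHom.range_comp, MonoidHom.range_eq_top.2 e.symm.surjective, ← MonoidHom.range_eq_map, range_subtype]
    have b : Function.Injective (N.subtype.comp e.symm.toMonoidHom) := N.subtype_injective.comp e.symm.injective
    refine ⟨M.comap (N.subtype.comp e.symm.toMonoidHom), fun _ => Iff.rfl, by rw [index_comap, a, h9],
      by rw [← len_map b, map_comap_eq, a, inf_comm], ?_⟩
    rw [← a, MonoidHom.range_eq_map, len_map b, ← pi_top Set.univ, len_pi]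
    simpa using Finset.sum_le_card_nsmul Finset.univ (fun _ : Fin m => len (⊤ : Subgroup T)) 1 fun _ _ => len_simple
  have k2 := supp_bd ih hM.1 h8 hT hm e
  suffices m ≤ len (M ⊓ N) + 1 ∨ m * Nat.card T ≤ M.index by
    obtain ⟨-, -, -, -, k3⟩ := k1 e
    omega
  rcases Cfsg.Agent.S0723.core hT hm N h2 e M hM h3 with ⟨K, k3, k4⟩ | ⟨e, k, c, k3, k4, k5⟩ <;>
    obtain ⟨D, k6, k7, k8, -⟩ := k1 e <;> rw [← k7, ← k8]
  · obtain rfl : D = Subgroup.pi Set.univ K := Subgroup.ext fun x => by simp [k6, k4, mem_pi]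
    rw [len_pi, index_pi]
    by_cases k9 : ∃ i, K i = ⊥
    · obtain ⟨i, k9⟩ := k9
      right
      rw [← Finset.prod_erase_mul _ _ (Finset.mem_univ i), k9, index_bot]
      refine Nat.mul_le_mul_right _ (le_trans ?_ (Finset.pow_card_le_prod _ _ 2 fun j _ => one_lt_index_of_ne_top (k3 j)))
      have := Nat.lt_two_pow_self (n := m - 1)
      simp; omega
    · push Not at k9
      have := Finset.card_nsmul_le_sum Finset.univ (fun i => len (K i)) 1 fun i _ => (ch_one (k9 i)).le_len
      simp at this; omega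
  obtain ⟨t, ht⟩ := exists_ne (1 : T)
  have k9 : ∀ x, x ∈ D ↔ ∀ i j, c i = c j → x i = x j := fun x => by simp [k6, k5]
  by_cases k10 : m ≤ 2
  · have := (ch_one (B := D) fun e => ht (congrFun (mem_bot (G := Fin m → T).1
      (e ▸ (k9 fun _ => t).2 fun _ _ _ => rfl)) ⟨0, hm⟩)).le_len
    omega
  have k11 := Finset.mul_card_image_le_card (f := c) Finset.univ 2 fun a ha => by
    obtain ⟨i, -, rfl⟩ := Finset.mem_image.1 ha
    rw [← Fintype.card_subtype, ← Nat.card_eq_fintype_card,
      (k4 _).resolve_right (Nat.card_ne_zero.2 ⟨⟨⟨i, rfl⟩⟩, inferInstance⟩)]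
    exact k3
  have k12 := Nat.card_le_card_of_injective (fun (x : D) (a : Finset.univ.image c) => x.1 (Finset.mem_image.1 a.2).choose)
    fun x y e => Subtype.ext (funext fun i => by
      have a := (Finset.mem_image.1 (Finset.mem_image_of_mem c (Finset.mem_univ i))).choose_spec.2
      rw [← (k9 _).1 x.2 _ _ a, ← (k9 _).1 y.2 _ _ a]
      exact congrFun e ⟨_, Finset.mem_image_of_mem c (Finset.mem_univ i)⟩)
  have k13 : 4 ≤ Nat.card T := by
    by_contra! k
    have := Finite.one_lt_card (α := T)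
    have : Fact (Nat.card T).Prime := ⟨by interval_cases Nat.card T <;> norm_num⟩
    have := isCyclic_of_prime_card (α := T) rfl
    exact hT inferInstance
  have k14 := (card_mul_index D).ge.trans (Nat.mul_le_mul_right _ k12)
  simp only [Nat.card_fun, Nat.card_eq_fintype_card (α := Fin m), Fintype.card_fin, Nat.card_eq_finsetCard,
    Finset.card_univ] at k11 k14
  generalize (Finset.univ.image c).card = l at *
  obtain ⟨j, rfl⟩ : ∃ j, m = l + (j + 2) := ⟨m - l - 2, by omega⟩
  rw [pow_add] at k14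
  refine .inr (le_trans ?_ (Nat.le_of_mul_le_mul_left k14 (by positivity)))
  rw [pow_succ]
  refine Nat.mul_le_mul_right _ (le_trans ?_ (Nat.pow_le_pow_left k13 _))
  have := Nat.lt_two_pow_self (n := j)
  have : 2 ^ j ≤ 4 ^ j := Nat.pow_le_pow_left (by norm_num) j
  rw [pow_succ]; omega

theorem top_bd (ih : Bd.{u} (Nat.card G)) {X R : Type u} [Finite X] [MulAction G X] (f : X → R)
    (h1 : ∀ b : G, (∀ x : X, b • x = x) → b = 1) (h2 : f.Surjective) (h3 : ∀ (b : G) x, f (b • x) = f x) :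
    3 * len (⊤ : Subgroup G) + 4 * Nat.card R ≤ 4 * Nat.card X := by
  by_cases h : ∃ N : Subgroup G, N.Normal ∧ N ≠ ⊥ ∧ ∃ (g : G) (x : X), g • x ∉ orbit N x
  · obtain ⟨N, _, h4, g, x, h5⟩ := h
    let Y : SubMulAction G (Set X) := ⟨Set.range (orbit N), by
      rintro g _ ⟨x, rfl⟩; exact ⟨_, (smul_orbit_eq_orbit_smul N x g).symm⟩⟩
    let p : X → Y := fun x => ⟨_, x, rfl⟩
    have hp : ∀ (g : G) x, p (g • x) = g • p x := fun g x => Subtype.ext (smul_orbit_eq_orbit_smul N x g).symm
    have hs : p.Surjective := fun ⟨_, x, e⟩ => ⟨x, Subtype.ext e⟩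
    have hf : ∀ x, f (Function.surjInv hs (p x)) = f x := fun x => by
      obtain ⟨n, e⟩ := orbit_eq_iff.1 (congrArg Subtype.val (Function.surjInv_eq hs (p x)))
      exact e ▸ h3 n x
    have k1 : (toPermHom G Y).ker ≠ ⊤ := fun e => h5 (orbit_eq_iff.1 (congrArg Subtype.val ((hp g x).trans
      (Equiv.congr_fun (show g ∈ (toPermHom G Y).ker from e ▸ mem_top g) _))))
    have k2 : N ≤ (toPermHom G Y).ker := fun n hn => Equiv.ext fun y => by
      obtain ⟨x, rfl⟩ := hs y
      exact (hp n x).symm.trans (Subtype.ext (orbit_smul (⟨n, hn⟩ : N) x))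
    have k3 := ih G _ (card_lt k1) X Y p (fun b _ => h1 b) hs fun b hb x => (hp b x).trans (Equiv.congr_fun hb _)
    have k4 := ih _ (toPermHom G Y).range (by
      rw [← index_ker, ← card_mul_index (toPermHom G Y).ker]
      exact (Nat.lt_mul_iff_one_lt_left (Nat.pos_of_ne_zero index_ne_zero_of_finite)).2
        ((one_lt_card_iff_ne_bot _).2 (ne_bot_of_le_ne_bot h4 k2))) Y R (f ∘ Function.surjInv hs)
      (fun b _ k => Equiv.ext k) (fun r => (h2 r).elim fun x e => ⟨p x, (hf x).trans e⟩) (by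
        rintro _ ⟨g, rfl⟩ y
        obtain ⟨x, rfl⟩ := hs y
        exact (congrArg _ (hp g x).symm).trans ((hf _).trans ((h3 g x).trans (hf x).symm)))
    have := len_add (toPermHom G Y) ⊤
    rw [top_inf_eq, ← MonoidHom.range_eq_map] at this
    omega
  push Not at h
  by_cases h4 : ∀ (g : G) (x : X), g • x = x
  · rw [show (⊤ : Subgroup G) = ⊥ from eq_bot_iff.2 fun g _ => h1 g (h4 g), len_bot]
    simpa using Nat.card_le_card_of_surjective f h2
  push Not at h4
  obtain ⟨g, a, h4⟩ := h4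
  obtain ⟨M, hM, h5⟩ := (eq_top_or_exists_le_coatom (stabilizer G a)).resolve_left fun e => h4 (e.ge (mem_top g))
  have h6 := prim ih hM fun N _ k => by_contra fun e => hM.1 (eq_top_iff.2 fun g _ => by
    obtain ⟨n, e⟩ := h N ‹_› e g a
    simpa using mul_mem (k n.2) (h5 (show n.1⁻¹ * g ∈ stabilizer G a by
      rw [mem_stabilizer_iff, mul_smul, inv_smul_eq_iff]; exact e.symm)))
  have h7 := (index_antitone h5).trans_eq (index_stabilizer G a)
  have h8 := Set.ncard_add_ncard_compl (orbit G a)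
  have h9 : (Set.univ : Set R).ncard ≤ (orbit G a)ᶜ.ncard + 1 := (Set.ncard_le_ncard (t := insert (f a) (f '' (orbit G a)ᶜ))
    fun r _ => by
      obtain ⟨x, rfl⟩ := h2 r
      by_cases c : x ∈ orbit G a
      · obtain ⟨g, rfl⟩ := c
        exact .inl (h3 g a)
      · exact .inr ⟨x, c, rfl⟩).trans ((Set.ncard_insert_le _ _).trans (by gcongr; exact Set.ncard_image_le))
  rw [Set.ncard_univ] at h9
  omega

theorem bd (n : ℕ) : Bd.{u} n := by
  induction n using Nat.strong_induction_on with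
  | _ n ih =>
  intro G _ _ B hB X R _ _ f h1 h2 h3
  exact len_top B ▸ top_bd (ih _ hB) f (fun b k => Subtype.ext (h1 b b.2 k)) h2 fun b => h3 b b.2

end H9.CL
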