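import Cfsg.Agent.H7.GA
import Mathlib.GroupTheory.SpecificGroups.Cyclic
import Mathlib.Tactic.IntervalCases
import Mathlib.Tactic.LinearCombination
import Mathlib.Tactic.Positivity
/-! Symmetric difference sets in generalized dihedral groups (`H9.DB.DS`): the two non-existence
results `DS.odd` and `DS.two` needed for Wielandt's theorem on dihedral regular subgroups. -/

set_option autoImplicit false

namespace H9.DB
open Finset H7 MonoidAlgebra

variable {C : Type*} [CommGroup C] [Fintype C]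

/-- The two halves `A`, `B` of a symmetric difference set. -/
structure DS (A B : C → ℤ) (γ : ℤ) : Prop where
  a01 : ∀ x, A x = 0 ∨ A x = 1
  b01 : ∀ x, B x = 0 ∨ B x = 1
  sym : ∀ x, A x⁻¹ = A x
  e1 : ∀ y, y ≠ 1 → ∑ x, A x * A (x⁻¹ * y) + ∑ x, B x * B (x * y) = γ
  e2 : ∀ y, 2 * ∑ x, A x * B (x * y) = γ

theorem sum_sh (f : C → ℤ) (y : C) : ∑ x, f (y * x) = ∑ x, f x := Equiv.sum_comp (Equiv.mulLeft y) f

theorem le_sum_of_inv {A : C → ℤ} (h0 : ∀ x, 0 ≤ A x) {H : Finset C}
    (hH : ∀ u ∈ H, ∀ x, A (x * u) = A x) (x : C) : #H * A x ≤ ∑ x, A x := by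
  rw [← sum_sh _ x, ← nsmul_eq_mul, ← sum_const, sum_congr rfl fun u hu => (hH u hu x).symm]
  exact sum_le_sum_of_subset_of_nonneg (subset_univ _) fun _ _ _ => h0 _

namespace DS
variable {A B : C → ℤ} {γ : ℤ} (h : DS A B γ)
include h

theorem e1' [DecidableEq C] (y : C) : ∑ x, A x * A (x⁻¹ * y) + ∑ x, B x * B (x * y) =
    γ + if y = 1 then ∑ x, A x + ∑ x, B x - γ else 0 := by
  split_ifs with hy
  · subst hy
    rw [sum_congr rfl (g := A) fun x _ => by
      rw [mul_one, h.sym]; rcases h.a01 x with e | e <;> simp [e],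
      sum_congr rfl (g := B) (f := fun x => B x * B (x * 1)) fun x _ => by
        rw [mul_one]; rcases h.b01 x with e | e <;> simp [e]]
    ring
  · rw [h.e1 y hy, add_zero]

theorem s1 : (∑ x, A x) ^ 2 + (∑ x, B x) ^ 2 =
    γ * Fintype.card C + (∑ x, A x + ∑ x, B x - γ) := by
  classical
  have := sum_congr rfl fun y (_ : y ∈ univ) => h.e1' y
  rw [sum_add_distrib, sum_comm, sum_comm (f := fun y x => B x * B (x * y))] at this
  simp only [← mul_sum, sum_sh, ← sum_mul, sum_add_distrib, sum_const, card_univ, nsmul_eq_mul,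
    sum_ite_eq', mem_univ, if_true] at this
  linear_combination this

theorem s2 : 2 * ((∑ x, A x) * ∑ x, B x) = γ * Fintype.card C := by
  have := sum_congr rfl fun y (_ : y ∈ univ) => h.e2 y
  rw [← mul_sum, sum_comm] at this
  simp only [← mul_sum, sum_sh, ← sum_mul, sum_const, card_univ, nsmul_eq_mul] at this
  linear_combination this

theorem bound {H : Finset C} (hH : ∀ u ∈ H, ∀ x, A (x * u) = A x) :
    #H * ((∑ x, A x) * (Fintype.card C - ∑ x, A x)) ≤
      Fintype.card C * (∑ x, A x + ∑ x, B x - γ) := by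
  classical
  set a := ∑ x, A x with ha
  set b := ∑ x, B x with hb
  set m : ℤ := (Fintype.card C : ℤ) with hm
  have hm0 : 0 < m := by rw [hm]; exact_mod_cast Fintype.card_pos
  let c : ℤ[C] := ofFun fun _ => 1
  have hc : ∀ f : C → ℤ, ofFun f * c = (∑ x, f x) • c := fun f => ga_ext fun y => by
    rw [coeff_mul_sum, coeff_smul']; simp [c]
  have h1 : ofFun A * ofFun A + ofFun (fun x => B x⁻¹) * ofFun B = γ • c + (a + b - γ) • 1 :=
    ga_ext fun y => by
      simp only [coeff_add', coeff_mul_sum, coeff_smul', coeff_ofFun, coeff_one', c]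
      rw [← Equiv.sum_comp (Equiv.inv C) fun x => B x⁻¹ * B (x⁻¹ * y)]
      simpa using h.e1' y
  have h2 : (2 : ℤ) • (ofFun A * ofFun B) = γ • c := ga_ext fun y => by
    simp only [coeff_mul_sum, coeff_smul', coeff_ofFun, c]
    rw [← Equiv.sum_comp (Equiv.inv C) fun x => A x * B (x⁻¹ * y)]
    simpa [h.sym] using h.e2 y
  have hA := hc A
  have hB := hc B
  have hC : c * c = m • c := (hc fun _ => 1).trans (by simp [hm])
  let Z : C → ℤ := fun x => m * A x - a
  have hZ : ofFun Z = m • ofFun A - a • c := ga_ext fun y => by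
    rw [coeff_sub', coeff_smul', coeff_smul']; simp [Z, c]
  have h3 : ofFun Z * ofFun B = 0 := by
    apply smul_right_injective _ (two_ne_zero (α := ℤ))
    have := congrArg (· • c) h.s2
    simp only [← ha, ← hb, ← hm] at this hA hB
    simp only [hZ, zsmul_eq_mul, Int.cast_mul, Int.cast_ofNat] at *
    linear_combination m * h2 - 2 * a * hB - this
  have h4 : (ofFun Z * ofFun Z) * (ofFun Z * ofFun Z) =
      (m ^ 2 * (a + b - γ)) • (ofFun Z * ofFun Z) := by
    have h5 : ofFun Z * c = 0 := by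
      simp only [← ha] at hA
      simp only [hZ, zsmul_eq_mul] at *
      linear_combination m * hA - a * hC
    have h6 : m • ofFun A = ofFun Z + a • c := by rw [hZ]; abel
    generalize ofFun Z = z at *
    simp only [zsmul_eq_mul, Int.cast_mul, Int.cast_pow, Int.cast_sub, Int.cast_add, mul_one] at *
    linear_combination (z * z * m ^ 2) * h1 - (z * z * (m * ofFun A + z + a * c)) * h6 -
      (z * m ^ 2 * ofFun fun x => B x⁻¹) * h3 - (z * (2 * z * a + a ^ 2 * c - m ^ 2 * γ)) * h5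
  let Y : C → ℤ := fun y => ∑ x, Z x * Z (x⁻¹ * y)
  have hY : ∀ y, (ofFun Z * ofFun Z).coeff y = Y y := fun y => by simp [coeff_mul_sum, Y]
  have zs : ∀ x, Z x⁻¹ = Z x := fun x => by simp [Z, h.sym]
  have ys : ∀ y, Y y⁻¹ = Y y := fun y => by
    simp only [Y]
    refine Fintype.sum_equiv (Equiv.inv C) _ _ fun x => ?_
    rw [Equiv.inv_apply, zs x, ← mul_inv, zs, inv_inv]
  have h7 := congrArg (·.coeff 1) h4
  simp only [coeff_mul_sum (ofFun Z * ofFun Z), coeff_smul', hY, mul_one, ys] at h7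
  have h8 : Y 1 = m * (a * (m - a)) := by
    simp only [Y, mul_one, zs]
    rw [sum_congr rfl (g := fun x => (m ^ 2 - 2 * m * a) * A x + a ^ 2) fun x _ => by
      rcases h.a01 x with e | e <;> simp [Z, e] <;> ring]
    simp only [sum_add_distrib, ← mul_sum, ← ha, sum_const, card_univ, nsmul_eq_mul, ← hm]
    ring
  have h9 : #H * (Y 1 * Y 1) ≤ ∑ y, Y y * Y y := by
    rw [← nsmul_eq_mul, ← sum_const, sum_congr rfl (g := fun u => Y u * Y u) fun u hu => by
      simp only [Y, Z, hH u hu, mul_one]]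
    exact sum_le_sum_of_subset_of_nonneg (subset_univ _) fun _ _ _ => mul_self_nonneg _
  rw [h7, h8] at h9
  have a0 : 0 ≤ a := sum_nonneg fun x _ => by rcases h.a01 x with e | e <;> simp [e]
  have a1 : a ≤ m := by
    have : a ≤ ∑ _x : C, (1 : ℤ) := sum_le_sum fun x _ => by rcases h.a01 x with e | e <;> simp [e]
    simpa using this
  have h10 : 0 ≤ a + b - γ := by nlinarith [h.s1, h.s2, sq_nonneg (a - b)]
  rcases (mul_nonneg a0 (sub_nonneg.2 a1)).eq_or_lt with e | e
  · rw [← e, mul_zero]; positivity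
  · have : 0 < m ^ 2 * (a * (m - a)) := by positivity
    refine le_of_mul_le_mul_left ?_ this
    nlinarith

theorem odd {H : Finset C} (hH : ∀ u ∈ H, ∀ x, A (x * u) = A x) (h3 : 3 ≤ #H) (a1 : ∃ x, A x = 1)
    (a0 : ∃ x, A x = 0) (b1 : ∃ x, B x = 1) (b0 : ∃ x, B x = 0) : False := by
  have k1 := h.bound hH
  have k2 := h.s1
  have k3 := h.s2
  obtain ⟨x1, a1⟩ := a1
  obtain ⟨x0, a0⟩ := a0
  obtain ⟨y1, b1⟩ := b1
  obtain ⟨y0, b0⟩ := b0
  have k4 := le_sum_of_inv (fun x => by rcases h.a01 x with e | e <;> simp [e]) hH x1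
  have k5 := le_sum_of_inv (A := fun x => 1 - A x) (H := H) (fun x => by
    rcases h.a01 x with e | e <;> simp [e]) (fun u hu x => by simp [hH u hu]) x0
  have k6 : B y1 ≤ ∑ x, B x := single_le_sum (fun x _ => by
    rcases h.b01 x with e | e <;> simp [e]) (mem_univ y1)
  have k7 : 1 - B y0 ≤ ∑ x, (1 - B x) := single_le_sum (f := fun x => 1 - B x) (fun x _ => by
    rcases h.b01 x with e | e <;> simp [e]) (mem_univ y0)
  simp only [a1, a0, b1, b0, sum_sub_distrib, sum_const, card_univ, nsmul_eq_mul, mul_one,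
    sub_zero] at k4 k5 k6 k7
  have h3' : (3 : ℤ) ≤ #H := by exact_mod_cast h3
  generalize ∑ x, A x = a at *
  generalize ∑ x, B x = b at *
  generalize (Fintype.card C : ℤ) = m at *
  generalize (#H : ℤ) = n at *
  have k8 : 3 * (a * (m - a)) ≤ m * (a - b) ^ 2 := by
    nlinarith [mul_nonneg (sub_nonneg.2 h3') (mul_nonneg (show 0 ≤ a by omega) (show 0 ≤ m - a by omega))]
  have k9 : γ = a + b - (a - b) ^ 2 := by linear_combination k2 - k3
  subst k9
  obtain ⟨d, rfl⟩ : ∃ d, b = a + d := ⟨b - a, by ring⟩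
  have k10 : d ^ 2 * (m - 3) ≤ 3 * (d * (m - 2 * a - d)) := by nlinarith
  have k11 : d ≤ 2 := by
    by_contra! e
    have : d * (m - 3) ≤ 3 * (m - 2 * a - d) := le_of_mul_le_mul_left (a := d) (by linarith) (by omega)
    nlinarith
  have k12 : -2 ≤ d := by
    by_contra! e
    have : -d * (m - 3) ≤ 3 * -(m - 2 * a - d) :=
      le_of_mul_le_mul_left (a := -d) (by linarith) (by omega)
    nlinarith
  have k13 : 3 ≤ a := by omega
  have k14 : 3 ≤ m - a := by omega
  clear k1 k2 k4 k5 k8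
  interval_cases d <;> nlinarith

theorem two [DecidableEq C] {K : Subgroup C} {g z : C} (hg : ∀ x, x ∈ Subgroup.zpowers g) (hK : g ∉ K)
    (hA : ∀ x, A x = 1 → x ∈ K) (hz : orderOf z = 2) (hH : ∀ x, A (x * z) = A x)
    (a1 : ∃ x, A x = 1) (b1 : ∃ x, B x = 1) : False := by
  classical
  have hz1 : z ≠ 1 := by rintro rfl; simp at hz
  have hA' : ∀ x, x ∉ K → A x = 0 := fun x hx => (h.a01 x).resolve_right fun e => hx (hA x e)
  obtain ⟨x1, a1⟩ := a1
  obtain ⟨y1, b1⟩ := b1
  have k4 := le_sum_of_inv (A := A) (fun x => by rcases h.a01 x with e | e <;> simp [e]) (H := {1, z})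
    (fun u hu x => by rcases mem_insert.1 hu with e | e <;> simp_all) x1
  rw [card_pair hz1.symm, a1] at k4
  have k6 : B y1 ≤ ∑ x, B x := single_le_sum (fun x _ => by
    rcases h.b01 x with e | e <;> simp [e]) (mem_univ y1)
  let W : C → ℤ := fun y => ∑ k : K, B (y * k)
  have w1 : ∀ y, 2 * ((∑ x, A x) * W y) = γ * Fintype.card K := fun y => by
    have := sum_congr rfl fun (k : K) (_ : k ∈ univ) => h.e2 (y * k)
    rw [← mul_sum, sum_comm, sum_const, card_univ, nsmul_eq_mul, mul_comm _ γ] at this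
    rw [← this, sum_mul]
    congr 1
    refine sum_congr rfl fun x _ => ?_
    by_cases hx : x ∈ K
    · rw [← mul_sum]
      congr 1
      exact Fintype.sum_equiv (Equiv.mulLeft (⟨x, hx⟩ : K)).symm _ _ fun k => by
        simp [mul_left_comm]
    · simp [hA' x hx]
  have w2 : ∀ y, W y = W 1 := fun y => by
    have := (w1 y).trans (w1 1).symm
    exact mul_left_cancel₀ (by omega) (mul_left_cancel₀ two_ne_zero this)
  have w3 : ∀ y, ∑ k : K, ∑ x, B x * B (x * (y * k)) = (∑ x, B x) * W 1 := fun y => by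
    rw [sum_comm, sum_mul]
    exact sum_congr rfl fun x _ => by rw [← mul_sum, ← w2 (x * y)]; simp [W, mul_assoc]
  have w4 := sum_congr rfl fun (k : K) (_ : k ∈ univ) => h.e1' (1 * k)
  have w5 := sum_congr rfl fun (k : K) (_ : k ∈ univ) => h.e1 (g * k) fun e =>
    hK (by rw [eq_inv_of_mul_eq_one_left e]; exact inv_mem k.2)
  have w6 : ∀ y ∉ K, ∑ x, A x * A (x⁻¹ * y) = 0 := fun y hy => sum_eq_zero fun x _ => by
    by_cases hx : x ∈ K
    · rw [hA' (x⁻¹ * y) (by rwa [K.mul_mem_cancel_left (inv_mem hx)]), mul_zero]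
    · rw [hA' x hx, zero_mul]
  have w7 : ∑ k : K, ∑ x, A x * A (x⁻¹ * (1 * k)) = (∑ x, A x) ^ 2 := by
    rw [sum_comm, sq, sum_mul]
    refine sum_congr rfl fun x _ => ?_
    by_cases hx : x ∈ K
    · rw [← mul_sum, ← sum_sh A x⁻¹]
      congr 1
      exact Fintype.sum_of_injective Subtype.val Subtype.val_injective _ _ (fun y hy => hA' _ (by
        rw [K.mul_mem_cancel_left (inv_mem hx)]; simpa using hy)) (by simp)
    · simp [hA' x hx]
  rw [sum_add_distrib, w3, w7] at w4
  rw [sum_add_distrib, w3, sum_eq_zero fun (k : K) _ => w6 _ (by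
    rwa [K.mul_mem_cancel_right k.2])] at w5
  simp only [one_mul, OneMemClass.coe_eq_one, sum_add_distrib, sum_ite_eq', mem_univ, if_true] at w4
  have k2 := h.s1
  have k3 := h.s2
  have e1 := h.e1 g fun e => hK (e ▸ one_mem K)
  have e2 := h.e1 z hz1
  rw [w6 g hK] at e1
  rw [sum_congr rfl (g := A) fun x _ => by
      rw [hH, h.sym]; rcases h.a01 x with e | e <;> simp [e]] at e2
  obtain ⟨a, ha⟩ : ∃ a, ∑ x, A x = a := ⟨_, rfl⟩
  obtain ⟨b, hb⟩ : ∃ b, ∑ x, B x = b := ⟨_, rfl⟩
  rw [ha] at k4 e2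
  rw [hb, b1] at k6
  rw [ha, hb] at w4 k2 k3
  rw [hb] at w5
  have k7 : b = 2 * a := mul_left_cancel₀ (show b ≠ 0 by omega) (by
    linear_combination k2 - k3 - w4 + w5)
  have k8 : γ = 3 * a - a ^ 2 := by rw [k7] at w4 w5; linear_combination w4 - w5
  have k9 : 4 * a = (3 - a) * Fintype.card C := mul_left_cancel₀ (show a ≠ 0 by omega) (by
    rw [k7, k8] at k3; linear_combination k3)
  have k10 : a = 2 := by
    have : (0 : ℤ) ≤ Fintype.card C := by positivity
    have : a < 3 := by nlinarith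
    omega
  subst k10
  have ho : orderOf g = 8 := by
    rw [orderOf_eq_card_of_forall_mem_zpowers hg, Nat.card_eq_fintype_card]; omega
  have hs : ∀ f : C → ℤ, ∑ x, f x = ∑ i ∈ range 8, f (g ^ i) := fun f => by
    rw [sum_range]
    refine (Fintype.sum_bijective (fun j : Fin 8 => g ^ (j : ℕ)) ?_ _ _ fun j => rfl).symm
    rw [Fintype.bijective_iff_injective_and_card]
    exact ⟨fun i j h => Fin.ext (pow_injOn_Iio_orderOf (i.2.trans_eq ho.symm)
      (j.2.trans_eq ho.symm) h), by rw [Fintype.card_fin]; omega⟩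
  have h8 : g ^ 8 = 1 := ho ▸ pow_orderOf_eq_one g
  obtain rfl : z = g ^ 4 := by
    obtain ⟨i, hi, rfl⟩ := mem_image.1 (mem_zpowers_iff_mem_range_orderOf.1 (hg z))
    rw [orderOf_pow, ho] at hz
    rw [ho, mem_range] at hi
    interval_cases i <;> simp_all
  rw [hs] at hb e1 e2
  have h9 : ∀ n, g ^ (n + 8) = g ^ n := fun n => by rw [pow_add, h8, mul_one]
  simp only [← pow_succ, ← pow_add, sum_range_succ, sum_range_zero, h9 0, h9 1, h9 2, h9 3,
    Nat.reduceAdd] at hb e1 e2
  rcases h.b01 (g ^ 0) with c0 | c0 <;> rcases h.b01 (g ^ 1) with c1 | c1 <;>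
    rcases h.b01 (g ^ 2) with c2 | c2 <;> rcases h.b01 (g ^ 3) with c3 | c3 <;>
    rcases h.b01 (g ^ 4) with c4 | c4 <;> rcases h.b01 (g ^ 5) with c5 | c5 <;>
    rcases h.b01 (g ^ 6) with c6 | c6 <;> rcases h.b01 (g ^ 7) with c7 | c7 <;>
    simp only [c0, c1, c2, c3, c4, c5, c6, c7] at hb e1 e2 <;> omega

end DS

end H9.DB
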