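import Cfsg.Agent.H9.DB1
import Cfsg.Agent.H10.Schur
import Mathlib.NumberTheory.LSeries.PrimesInAP
/-! Wielandt's theorem that dihedral groups are B-groups (`H9.DB.DH.two`): Schur rings over a
dihedral group `DH r s`, the key lemma `DH.key` (sets whose reflection part is invariant under a
subgroup of prime order), multipliers, and the rational case `DH.rat`. -/

set_option autoImplicit false

namespace H9.DB
open Finset H7 MonoidAlgebra H10 H10.Reg MulAction
open scoped Classical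

variable {C H G Ω : Type*} [CommGroup C] [Fintype C] [Group H] [Fintype H] [Group G] [MulAction G Ω]

/-- `H` is the generalized dihedral group of `C` with rotations `r` and reflections `s`. -/
structure DH (r s : C → H) : Prop where
  rr : ∀ a b, r a * r b = r (a * b)
  rs : ∀ a b, r a * s b = s (a⁻¹ * b)
  sr : ∀ a b, s a * r b = s (a * b)
  ss : ∀ a b, s a * s b = r (a⁻¹ * b)
  bij : Function.Bijective (Sum.elim r s)

/-- Indicator function. -/
noncomputable def ind (R : Type*) [Zero R] [One R] (V : H → Prop) (x : H) : R := if V x then 1 else 0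

theorem card_Hs [IsCyclic C] {p : ℕ} (h : p ∣ Fintype.card C) :
    #(univ.filter fun u : C => u ^ p = 1) = p := by
  have := IsCyclic.card_powMonoidHom_ker (G := C) p
  rw [Nat.card_eq_fintype_card (α := C), Nat.gcd_eq_right h, Nat.card_eq_fintype_card,
    Fintype.card_subtype] at this
  simpa [MonoidHom.mem_ker] using this

theorem sum_fib {R : Type*} [AddCommMonoid R] (p : ℕ) (i : C) (F : C → R) :
    ∑ c, (if c ^ p = i ^ p then F c else 0) = ∑ u ∈ univ.filter fun u : C => u ^ p = 1, F (i * u) := by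
  rw [sum_filter, ← Equiv.sum_comp (Equiv.mulLeft i)]
  simp [mul_pow]

theorem exists_prime_pow [IsCyclic C] {x y : C} (h : orderOf x = orderOf y) (n : ℕ) :
    ∃ q, n < q ∧ q.Prime ∧ x ^ q = y := by
  have h1 : Subgroup.zpowers x = (powMonoidHom (orderOf x) : C →* C).ker :=
    Subgroup.eq_of_le_of_card_ge (Subgroup.zpowers_le.2 (pow_orderOf_eq_one x)) (by
      rw [IsCyclic.card_powMonoidHom_ker, Nat.card_zpowers]
      exact Nat.gcd_le_right _ (orderOf_pos x))
  obtain ⟨k, rfl⟩ := (mem_powers_iff_mem_zpowers.2 (h1 ▸ (h ▸ pow_orderOf_eq_one y : y ^ orderOf x = 1)) :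
    y ∈ Submonoid.powers x)
  have h2 : k.Coprime (orderOf x) := by
    have h3 := orderOf_pow (n := k) x
    rw [← h] at h3
    exact Nat.Coprime.symm ((Nat.div_eq_self.1 h3.symm).resolve_left (orderOf_pos x).ne')
  obtain ⟨q, h3, h4, h5⟩ := Nat.forall_exists_prime_gt_and_modEq n (orderOf_pos x).ne' h2
  exact ⟨q, h3, h4, pow_eq_pow_iff_modEq.2 h5⟩

theorem ord_eq {p : ℕ} (hp : p.Prime) {x : C} (h : p ∣ orderOf x) :
    orderOf x = p * orderOf (x ^ p) := by
  rw [orderOf_pow, Nat.gcd_eq_right h, Nat.mul_div_cancel' h]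

namespace DH
variable {r s : C → H} (d : DH r s)
include d

theorem r1 : r 1 = 1 := by simpa using d.rr 1 1
theorem ri (a : C) : (r a)⁻¹ = r a⁻¹ := inv_eq_of_mul_eq_one_right (by rw [d.rr, mul_inv_cancel, d.r1])
theorem si (a : C) : (s a)⁻¹ = s a := inv_eq_of_mul_eq_one_right (by rw [d.ss, inv_mul_cancel, d.r1])
theorem rinj : Function.Injective r := fun a b h => Sum.inl_injective (d.bij.1 h)
theorem sinj : Function.Injective s := fun a b h => Sum.inr_injective (d.bij.1 h)
theorem ne (a b : C) : r a ≠ s b := fun h => by cases d.bij.1 (a₁ := .inl a) (a₂ := .inr b) h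
theorem s1 (a : C) : s a ≠ 1 := d.r1 ▸ (d.ne 1 a).symm
theorem r_eq {a : C} : r a = 1 ↔ a = 1 := d.r1 ▸ d.rinj.eq_iff
theorem cases (x : H) : (∃ a, r a = x) ∨ ∃ a, s a = x := by
  obtain ⟨a | a, h⟩ := d.bij.2 x
  exacts [.inl ⟨a, h⟩, .inr ⟨a, h⟩]

theorem sum {R : Type*} [AddCommMonoid R] (F : H → R) : ∑ x, F x = ∑ c, F (r c) + ∑ c, F (s c) :=
  (Fintype.sum_bijective _ d.bij _ _ fun _ => rfl).symm.trans (Fintype.sum_sum_type _)

theorem card : Fintype.card H = 2 * Fintype.card C := by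
  simpa [two_mul] using d.sum fun _ => (1 : ℕ)

theorem pow_eq {q : ℕ} [hq : Fact q.Prime] (f : H → ZMod q) (hf : ∀ c, f (r c⁻¹) = f (r c)) :
    ofFun f ^ q = ∑ c, single (r (c ^ q)) (f (r c)) + (∑ c, single (s c) (f (s c))) ^ q := by
  haveI := charP_of_injective_algebraMap' (ZMod q) (A := (ZMod q)[H]) q
  haveI := charP_of_injective_algebraMap' (ZMod q) (A := (ZMod q)[C]) q
  have h1 : ofFun f = ∑ c, single (r c) (f (r c)) + ∑ c, single (s c) (f (s c)) := by
    rw [eq_sum_single (ofFun f), d.sum]; simp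
  rw [h1, add_pow_char_of_commute]
  · congr 1
    have := congrArg (mapDomainRingHom (ZMod q) (MonoidHom.mk' r fun a b => (d.rr a b).symm))
      (sum_pow_char q univ fun c => single c (f (r c)))
    rw [map_pow] at this
    simpa [single_pow, map_sum] using this
  · simp only [Commute, SemiconjBy, sum_mul_sum, single_mul_single, d.rs, d.sr]
    rw [sum_comm]
    exact sum_congr rfl fun b _ => Fintype.sum_equiv (Equiv.inv C) _ _ fun a => by
      simp [hf, mul_comm]

theorem coeff_r {R : Type*} [CommRing R] (F : C → C) (f : C → R) (y : C) :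
    (∑ c, single (r (F c)) (f c)).coeff (r y) = ∑ c, if F c = y then f c else 0 := by
  simp [coeff_sum', Finsupp.single_apply, d.rinj.eq_iff]

theorem coeff_s {R : Type*} [CommRing R] (F : C → C) (f : C → R) (y : C) :
    (∑ c, single (r (F c)) (f c)).coeff (s y) = 0 := by
  simp [coeff_sum', Finsupp.single_apply, d.ne]

theorem coeff_odd {R : Type*} [CommRing R] {N : R[H]} (h : ∀ y, N.coeff (r y) = 0) (j : ℕ) (y : C) :
    (N ^ (2 * j + 1)).coeff (r y) = 0 := by
  induction j generalizing y with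
  | zero => simpa using h y
  | succ j ih =>
    have h1 : ∀ y, (N * N).coeff (s y) = 0 := fun y => by
      simp [coeff_mul_sum, d.sum, d.si, d.ss, h]
    rw [show 2 * (j + 1) + 1 = 2 + (2 * j + 1) by ring, pow_add, sq, coeff_mul_sum, d.sum]
    simp [d.ri, d.rr, h1, ih]

theorem frob {q : ℕ} [hq : Fact q.Prime] (h2 : q ≠ 2) (f : H → ZMod q)
    (hf : ∀ c, f (r c⁻¹) = f (r c)) (y : C) :
    (ofFun f ^ q).coeff (r y) = ∑ c, if c ^ q = y then f (r c) else 0 := by
  obtain ⟨j, hj⟩ := hq.out.odd_of_ne_two h2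
  have := d.coeff_odd (N := ∑ c, single (s c) (f (s c))) (fun y => by
    simp [coeff_sum', Finsupp.single_apply, (d.ne _ _).symm]) j y
  rw [← hj] at this
  rw [d.pow_eq f hf, coeff_add', d.coeff_r, this, add_zero]

variable {ι : H →* G} {a : Ω} (ρ : Reg ι a) [IsPreprimitive G Ω] (hC : 1 < Fintype.card C)
include ρ

omit d [Fintype C] [IsPreprimitive G Ω] in
theorem inv_pow {R : Type*} [CommRing R] {f : H → R} (h : Inv ι a f) (n : ℕ) :
    Inv ι a (ofFun f ^ n).coeff := by
  induction n with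
  | zero =>
    intro x z e
    rw [pow_zero, coeff_one', coeff_one']
    exact if_congr ⟨fun hx => ρ.eq_one (hx ▸ e), fun hz => ρ.eq_one (hz ▸ e.symm)⟩ rfl rfl
  | succ n ih =>
    have := Inv.mul ρ ih h
    convert this using 2
    rw [pow_succ, coeff_mul_sum]; rfl

theorem ex_s {y : H} (hy : y ≠ 1) : ∃ c, E ι a y (s c) := by
  by_contra! h
  have := ρ.eq_top (K := (MonoidHom.mk' r fun a b => (d.rr a b).symm).range) hy fun z e =>
    (d.cases z).elim id fun ⟨c, hc⟩ => (h c (hc ▸ e)).elim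
  obtain ⟨c, hc⟩ : s 1 ∈ (MonoidHom.mk' r fun a b => (d.rr a b).symm).range := this ▸ trivial
  exact d.ne _ _ hc

theorem sym (y : H) : E ι a y y⁻¹ := by
  by_cases hy : y = 1
  · rw [hy, inv_one]; exact E.refl _
  obtain ⟨c, e⟩ := d.ex_s ρ hy
  exact e.trans (d.si c ▸ (ρ.inv e).symm)

theorem symf {R : Type*} {f : H → R} (h : Inv ι a f) (c : C) : f (r c⁻¹) = f (r c) :=
  (h _ _ (d.ri c ▸ d.sym ρ (r c))).symm

omit d [Fintype C] [IsPreprimitive G Ω] ρ [Fintype H] in
theorem inv_ind (R : Type*) [Zero R] [One R] {V : H → Prop} (h : Inv ι a V) : Inv ι a (ind R V) :=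
  fun x y e => by simp only [ind, h x y e]

omit d [Fintype C] [IsPreprimitive G Ω] ρ [Fintype H] in
theorem inv_cl (y : H) : Inv ι a (E ι a y) :=
  fun _ _ e => propext ⟨fun h => h.trans e, fun h => h.trans e.symm⟩

omit d [Fintype C] [IsPreprimitive G Ω] [Fintype H] in
theorem inv_ne : Inv ι a (· ≠ (1 : H)) := fun _ _ e => propext
  ⟨fun h hz => h (ρ.eq_one (hz ▸ e.symm)), fun h hz => h (ρ.eq_one (hz ▸ e))⟩

include hC in
theorem ex_r (y : H) : ∃ c, E ι a y (r c) := by
  by_contra! h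
  have hy : y ≠ 1 := fun e => h 1 (by rw [e, d.r1]; exact E.refl _)
  have h0 : ∀ c, ind ℕ (E ι a y) (r c) = 0 := fun c => if_neg (h c)
  have h1 := Inv.mul ρ (inv_ind ℕ (inv_cl y)) (inv_ind ℕ (inv_cl y))
  have h2 := ρ.eq_top (K := Subgroup.zpowers y) hy fun z e => by
    by_cases hz : y * z = 1
    · rw [eq_inv_of_mul_eq_one_right hz]; simp
    obtain ⟨c, hc⟩ := d.ex_s ρ hz
    have := h1 _ _ hc
    simp only [d.sum (fun x => _ * ind ℕ _ (x⁻¹ * s c)), d.si, d.ss, h0, mul_zero, zero_mul,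
      sum_const_zero, add_zero] at this
    have := sum_eq_zero_iff.1 this y (mem_univ _)
    simp [ind, e, E.refl] at this
  obtain ⟨c, rfl⟩ := (d.cases y).resolve_left fun ⟨c, hc⟩ => h c (hc ▸ E.refl _)
  have h3 : Nat.card (Subgroup.zpowers (s c)) ∣ 2 := by
    rw [Nat.card_zpowers, orderOf_dvd_iff_pow_eq_one, sq, d.ss, inv_mul_cancel, d.r1]
  rw [h2, Subgroup.card_top, Nat.card_eq_fintype_card, d.card] at h3
  have := Nat.le_of_dvd two_pos h3
  omega

omit d [Fintype C] [Fintype H] in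
theorem stab {V : H → Prop} (h : Inv ι a V) {u : H} (hu : u ≠ 1) (hV : ∀ z, V (u * z) ↔ V z)
    {x : H} (hx : V x) (y : H) : V y := by
  let K : Subgroup H :=
    { carrier := {g | ∀ z, V (g * z) ↔ V z}
      one_mem' := by simp
      mul_mem' := fun {g k} hg hk z => by rw [mul_assoc, hg, hk]
      inv_mem' := fun {g} hg z => by rw [← hg, mul_inv_cancel_left] }
  have : y * x⁻¹ ∈ K := ρ.eq_top (K := K) hu (fun g e z => by
    obtain ⟨φ, rfl, h1, h2⟩ := ρ.perm' e
    obtain ⟨v, hv⟩ := φ.surjective (φ u * z)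
    have := h2 u v
    rw [hv, inv_mul_cancel_left] at this
    rw [← hv, ← h _ _ this, ← hV (u⁻¹ * v), mul_inv_cancel_left, h _ _ (h1 v)]) ▸ Subgroup.mem_top _
  simpa using (this x).2 hx

section key
variable [IsCyclic C] {p : ℕ} [hp : Fact p.Prime] (hpC : p ∣ Fintype.card C)
include hpC

theorem meet {V : H → Prop} (h : Inv ι a V) (h1 : ¬ V 1) {x : H} (hx : V x)
    (hB : ∀ u, u ^ p = 1 → ∀ c, V (s (c * u)) ↔ V (s c)) :
    (∀ u, u ^ p = 1 → ∀ c, c ^ p ≠ 1 → V (r c) → V (r (c * u))) ∧ ∃ u, u ^ p = 1 ∧ V (r u) := by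
  obtain ⟨w, hw⟩ := exists_prime_orderOf_dvd_card p hpC
  have hw1 : w ≠ 1 := by rintro rfl; exact hp.out.one_lt.ne (by simpa using hw)
  have hwp : w ^ p = 1 := hw ▸ pow_orderOf_eq_one w
  have k1 : ∀ u, u ^ p = 1 → ∀ c, c ^ p ≠ 1 → V (r c) → V (r (c * u)) := fun u hu c hc hV => by
    have h2 := inv_pow ρ (inv_ind (ZMod p) h) p
    have h3 : (∑ c, single (s c) (ind (ZMod p) V (s c))) ^ p = 0 := by
      refine pow_eq_zero_of_le hp.out.two_le (ga_ext fun y => ?_)
      simp only [sq, sum_mul_sum, single_mul_single, d.ss, coeff_sum', coeff_single,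
        Finsupp.single_apply, coeff_zero']
      rw [← sum_product', univ_product_univ]
      letI : MulAction (Subgroup.zpowers w) (C × C) := inferInstance
      refine sum_eq_zero_of_pgroup (p := p) (by simp) (P := Subgroup.zpowers w)
        (IsPGroup.of_card (n := 1) (by rw [Nat.card_zpowers, hw, pow_one])) _ (fun v z => ?_)
        fun z hz => absurd (by simpa using congrArg Prod.fst (hz ⟨w, Subgroup.mem_zpowers w⟩)) hw1
      have hv : (v : C) ^ p = 1 := by
        obtain ⟨_, k, rfl⟩ := v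
        simp only [← zpow_natCast, ← zpow_mul, mul_comm k]
        rw [zpow_mul, zpow_natCast, hwp, one_zpow]
      change (if r ((v * z.1)⁻¹ * (v * z.2)) = y then ind _ V (s (v * z.1)) * ind _ V (s (v * z.2))
        else 0) = _
      rw [show ((v : C) * z.1)⁻¹ * (v * z.2) = z.1⁻¹ * z.2 by group]
      simp only [ind, mul_comm (v : C), hB _ hv]
    obtain ⟨e, he⟩ := d.ex_s ρ (d.r_eq.not.2 hc)
    have h4 := h2 _ _ he
    rw [d.pow_eq _ (d.symf ρ (inv_ind _ h)), h3, add_zero, d.coeff_r, d.coeff_s, sum_fib] at h4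
    simp only [ind, sum_boole, ZMod.natCast_eq_zero_iff] at h4
    have h5 := eq_of_subset_of_card_le (filter_subset (fun u => V (r (c * u))) _)
      ((card_Hs hpC).le.trans (Nat.le_of_dvd (card_pos.2 ⟨1, by simpa using hV⟩) h4))
    exact (mem_filter.1 (h5.ge (by simpa using hu))).2
  refine ⟨k1, by_contra fun k2 => h1 (stab ρ h (u := r w) (d.r_eq.not.2 hw1) (fun z => ?_) hx 1)⟩
  push Not at k2
  obtain ⟨c, rfl⟩ | ⟨c, rfl⟩ := d.cases z
  · rw [d.rr, mul_comm]
    refine ⟨fun e => ?_, fun e => k1 w hwp c (fun e' => k2 c e' e) e⟩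
    simpa using k1 w⁻¹ (by simp [hwp]) _ (fun e' => k2 _ e' e) e
  · rw [d.rs, mul_comm, hB _ (by simp [hwp])]

theorem big {V : H → Prop} (h : Inv ι a V) (h1 : ¬ V 1) {x : H} (hx : V x)
    (hB : ∀ u, u ^ p = 1 → ∀ c, V (s (c * u)) ↔ V (s c)) :
    Fintype.card H < 2 * #(univ.filter V) := by
  obtain ⟨k1, -⟩ := d.meet ρ hpC h h1 hx hB
  let F : H → ℕ := fun y => ∑ x, ind ℕ V x * ind ℕ V (x⁻¹ * y)
  have f1 : Inv ι a F := Inv.mul ρ (inv_ind ℕ h) (inv_ind ℕ h)
  have f2 : ∀ u, u ^ p = 1 → ∀ c, F (s (c * u)) = F (s c) := fun u hu c => by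
    simp only [F, d.sum (fun x => _ * ind ℕ V (x⁻¹ * s _)), d.ri, d.si, d.rs, d.ss, ← mul_assoc]
    congr 1
    · simp only [ind, hB u hu]
    · refine Fintype.sum_equiv (Equiv.mulRight u⁻¹) _ _ fun x => ?_
      simp only [Equiv.coe_mulRight, ind, hB u⁻¹ (by simp [hu]), mul_inv_rev, inv_inv,
        mul_comm u, mul_right_comm _ u]
  let T := univ.filter fun x => V x ∧ ∀ u, u ^ p = 1 → x ≠ r u
  have f3 : ∀ u, u ^ p = 1 → #T ≤ F (r u) := fun u hu => by
    rw [card_filter]
    refine sum_le_sum fun x _ => ?_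
    split_ifs with e
    · have : V (x⁻¹ * r u) := by
        obtain ⟨c, rfl⟩ | ⟨c, rfl⟩ := d.cases x
        · rw [d.ri, d.rr]
          exact k1 u hu _ (fun e' => e.2 c (by simpa using e') rfl) (d.symf ρ h c ▸ e.1)
        · rw [d.si, d.sr, hB u hu]; exact e.1
      simp [ind, e.1, this]
    · exact Nat.zero_le _
  have f4 : ∀ y, #T ≤ F y := fun y => by
    by_cases hy : y = 1
    · rw [hy, ← d.r1]; exact f3 1 (one_pow p)
    obtain ⟨-, u, hu, -, e⟩ := d.meet ρ hpC (V := fun z => z ≠ 1 ∧ F z = F y)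
      (fun z z' e => by simp only [inv_ne ρ z z' e, f1 z z' e]) (by simp) ⟨hy, rfl⟩
      fun u hu c => by simp [d.s1, f2 u hu]
    exact e ▸ f3 u hu
  have f5 : ∑ y, F y = #(univ.filter V) * #(univ.filter V) := by
    rw [sum_comm]
    have e : ∀ x : H, ∑ y, ind ℕ V (x⁻¹ * y) = #(univ.filter V) := fun x =>
      (Equiv.sum_comp (Equiv.mulLeft x⁻¹) (ind ℕ V)).trans (card_filter _ _).symm
    simp only [← mul_sum, e, ← sum_mul]
    rw [card_filter]; rfl
  have f6 := card_nsmul_le_sum univ F _ fun y _ => f4 y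
  have f7 : p ≤ #T := by
    obtain ⟨c, hc⟩ := d.ex_s ρ (y := x) fun e => h1 (e ▸ hx)
    rw [← card_Hs hpC]
    refine card_le_card_of_injOn (fun u => s (c * u)) (fun u hu => ?_)
      fun u _ v _ e => mul_left_cancel (d.sinj e)
    simp only [T, coe_filter, mem_univ, true_and, Set.mem_setOf_eq] at hu ⊢
    exact ⟨(hB u hu c).2 (h _ _ hc ▸ hx), fun v _ => (d.ne _ _).symm⟩
  have f8 : #(insert 1 (univ.filter V)) ≤ #T + p := by
    conv_rhs => rw [← card_Hs hpC, ← card_image_of_injective _ d.rinj]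
    refine (card_le_card fun z hz => ?_).trans (card_union_le _ _)
    simp only [T, mem_insert, mem_union, mem_filter, mem_univ, true_and, mem_image] at hz ⊢
    rcases hz with rfl | hz
    · exact .inr ⟨1, one_pow p, d.r1⟩
    · by_contra! e
      obtain ⟨u, h2, h3⟩ := e.1 hz
      exact e.2 u h2 h3.symm
  rw [card_insert_of_notMem (by simpa using h1)] at f8
  rw [f5, card_univ, smul_eq_mul] at f6
  by_contra! e
  have f9 : 0 < #(univ.filter V) := card_pos.2 ⟨x, by simpa using hx⟩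
  have f10 : #(univ.filter V) * #(univ.filter V) < #(univ.filter V) * (2 * #T) :=
    Nat.mul_lt_mul_of_pos_left (by omega) f9
  have f11 := Nat.mul_le_mul_right #T e
  linarith

theorem key {F : H → ℤ} (h : Inv ι a F) (hB : ∀ u, u ^ p = 1 → ∀ c, F (s (c * u)) = F (s c))
    {y : H} (hy : y ≠ 1) : F y = F (s 1) := by
  by_contra e
  have h1 := fun y (hy : y ≠ 1) => d.big ρ hpC (V := fun z => z ≠ 1 ∧ F z = F y)
    (fun z z' e => by simp only [inv_ne ρ z z' e, h z z' e]) (by simp) ⟨hy, rfl⟩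
    fun u hu c => by simp [d.s1, hB u hu]
  have h3 := h1 y hy
  have h4 := h1 _ (d.s1 1)
  have h2 : ∀ {A B : Finset H}, Disjoint A B → Fintype.card H < 2 * #A → Fintype.card H < 2 * #B →
      False := fun h2 _ _ => by
    have := card_le_univ (_ ∪ _ : Finset H) |>.trans_eq' (card_union_of_disjoint h2)
    omega
  refine h2 (disjoint_left.2 fun z h h' => ?_) h3 h4
  simp only [mem_filter] at h h'
  exact e (h.2.2.symm.trans h'.2.2)

theorem ds {W : H → Prop} (h : Inv ι a W) (hA : ∀ u, u ^ p = 1 → ∀ c, W (r (c * u)) ↔ W (r c)) :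
    ∃ γ, DS (fun c => ind ℤ W (r c)) (fun c => ind ℤ W (s c)) γ := by
  have sy := d.symf ρ (inv_ind ℤ h)
  have e2 : ∀ y, ∑ x, ind ℤ W x * ind ℤ W (x⁻¹ * s y) =
      2 * ∑ x, ind ℤ W (r x) * ind ℤ W (s (x * y)) := fun y => by
    simp only [d.sum (fun x => _ * ind ℤ W (x⁻¹ * s _)), d.ri, d.si, d.rs, d.ss, inv_inv, two_mul]
    congr 1
    exact (Fintype.sum_equiv (Equiv.mulRight y) _ _ fun x => by simp [mul_comm, sy]).symm
  have k := fun y hy => d.key ρ hpC (Inv.mul ρ (inv_ind ℤ h) (inv_ind ℤ h)) (fun u hu c => by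
    simp only [e2]
    congr 1
    refine Fintype.sum_equiv (Equiv.mulRight u) _ _ fun x => ?_
    simp only [Equiv.coe_mulRight, ind, hA u hu, mul_assoc, mul_comm u]) (y := y) hy
  refine ⟨_, fun x => by unfold ind; split_ifs <;> simp, fun x => by unfold ind; split_ifs <;> simp,
    sy, fun y hy => ?_, fun y => (e2 y).symm.trans (k _ (d.s1 y))⟩
  rw [← k _ (d.r_eq.not.2 hy), d.sum]
  simp only [d.ri, d.si, d.rr, d.sr]

end key

end DH

end H9.DB
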