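import Cfsg.Agent.H9.DB2
import Mathlib.Combinatorics.Enumerative.DoubleCounting
/-! Wielandt's theorem that dihedral groups are B-groups (`H9.DB.DH.two`): multipliers of the Schur
ring (`DH.mult`), the rational case (`DH.sing`, `DH.rat`) and the final count. -/

set_option autoImplicit false

namespace H9.DB
open Finset H7 MonoidAlgebra H10 H10.Reg MulAction
open scoped Classical

variable {C H G Ω : Type*} [CommGroup C] [Fintype C] [Group H] [Fintype H] [Group G] [MulAction G Ω]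

theorem aug_pow {R : Type*} [CommRing R] (x : R[H]) (n : ℕ) :
    ∑ g, (x ^ n).coeff g = (∑ g, x.coeff g) ^ n := by
  induction n with
  | zero => simp [coeff_one']
  | succ n ih =>
    simp only [pow_succ, coeff_mul_sum]
    rw [sum_comm, ← ih, sum_mul]
    refine sum_congr rfl fun g _ => ?_
    rw [← mul_sum, ← Equiv.sum_comp (Equiv.mulLeft g⁻¹) x.coeff]; rfl

theorem ord_pow_of {q : ℕ} (hq : q.Prime) (h : Fintype.card C < q) (c : C) :
    orderOf (c ^ q) = orderOf c :=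
  (Nat.Coprime.symm ((Nat.Prime.coprime_iff_not_dvd hq).2 fun e =>
    (Nat.le_of_dvd Fintype.card_pos (e.trans orderOf_dvd_card)).not_gt h)).orderOf_pow

omit [Group H] [Fintype H] in
theorem ind_congr {R : Type*} [Zero R] [One R] {V : H → Prop} {x y : H} (h : V x ↔ V y) :
    ind R V x = ind R V y := if_congr h rfl rfl

namespace DH
variable {r s : C → H} (d : DH r s) {ι : H →* G} {a : Ω} (ρ : Reg ι a) [IsPreprimitive G Ω]
  (hC : 1 < Fintype.card C)
include d ρ hC

theorem mult {q : ℕ} (hq : q.Prime) (hq' : Fintype.card H < q) {V : H → Prop} (h : Inv ι a V) :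
    ∃ W : H → Prop, Inv ι a W ∧ (∀ c, W (r (c ^ q)) ↔ V (r c)) ∧
      #(univ.filter W) = #(univ.filter V) := by
  haveI := Fact.mk hq
  have h1 := d.card
  have h2 := inv_pow ρ (inv_ind (ZMod q) h) q
  have bij : Function.Bijective fun c : C => c ^ q := (powCoprime (G := C) (n := q) (Nat.Coprime.symm
    ((Nat.Prime.coprime_iff_not_dvd hq).2 fun e => by
      rw [Nat.card_eq_fintype_card] at e
      have := Nat.le_of_dvd Fintype.card_pos e
      omega))).bijective
  have h3 : ∀ c, (ofFun (ind (ZMod q) V) ^ q).coeff (r (c ^ q)) = ind _ V (r c) := fun c => by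
    rw [d.frob (by omega) _ (d.symf ρ (inv_ind _ h))]
    have : ∀ x : C, x ^ q = c ^ q ↔ x = c := fun x => bij.1.eq_iff
    simp [this]
  refine ⟨fun g => (ofFun (ind (ZMod q) V) ^ q).coeff g = 1, fun x y e => by simp only [h2 x y e],
    fun c => by simp [h3, ind], ?_⟩
  have h4 := aug_pow (ofFun (ind (ZMod q) V)) q
  rw [ZMod.pow_card, sum_congr rfl (g := fun g => if (ofFun (ind (ZMod q) V) ^ q).coeff g = 1
    then 1 else 0) fun g _ => by
      obtain ⟨c, hc⟩ := d.ex_r ρ hC g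
      obtain ⟨c, rfl⟩ := bij.2 c
      rw [h2 _ _ hc, h3]
      simp only [ind]
      split_ifs <;> simp_all] at h4
  simp only [coeff_ofFun, ind, sum_boole] at h4
  have := (ZMod.natCast_eq_natCast_iff' _ _ _).1 h4
  rw [Nat.mod_eq_of_lt ((card_le_univ _).trans_lt hq'),
    Nat.mod_eq_of_lt ((card_le_univ _).trans_lt hq')] at this
  convert this

variable [IsCyclic C]

theorem mult_iff {q : ℕ} (hq : q.Prime) (hq' : Fintype.card H < q) (x y : C) :
    E ι a (r (x ^ q)) (r (y ^ q)) ↔ E ι a (r x) (r y) := by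
  have k : ∀ {q : ℕ}, q.Prime → Fintype.card H < q → ∀ x y : C,
      E ι a (r (x ^ q)) (r (y ^ q)) → E ι a (r x) (r y) := fun hq hq' x y e => by
    obtain ⟨W, h1, h2, -⟩ := d.mult ρ hC hq hq' (inv_cl (ι := ι) (a := a) (r x))
    exact (h2 y).1 (h1 _ _ e ▸ (h2 x).2 (E.refl _))
  refine ⟨k hq hq' x y, fun e => ?_⟩
  obtain ⟨g, hg⟩ := IsCyclic.exists_monoid_generator (α := C)
  obtain ⟨q', h1, h2, h3⟩ := exists_prime_pow (ord_pow_of hq (by have := d.card; omega) g)
    (Fintype.card H)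
  have h4 : ∀ x : C, (x ^ q) ^ q' = x := fun x => by
    obtain ⟨n, rfl⟩ := hg x
    simp only
    rw [← pow_mul, ← pow_mul, mul_comm n, pow_mul, pow_mul, h3]
  exact k h2 h1 _ _ (by rwa [h4, h4])

theorem card_cl {x y : C} (h : orderOf x = orderOf y) :
    #(univ.filter (E ι a (r x))) = #(univ.filter (E ι a (r y))) ∧
      #(univ.filter fun c => E ι a (r x) (r c)) = #(univ.filter fun c => E ι a (r y) (r c)) := by
  obtain ⟨q, h1, h2, rfl⟩ := exists_prime_pow h (Fintype.card H)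
  obtain ⟨W, h3, h4, h5⟩ := d.mult ρ hC h2 h1 (inv_cl (ι := ι) (a := a) (r x))
  have bij : Function.Bijective fun c : C => c ^ q := (powCoprime (G := C) (n := q) (Nat.Coprime.symm
    ((Nat.Prime.coprime_iff_not_dvd h2).2 fun e => by
      rw [Nat.card_eq_fintype_card] at e
      have := Nat.le_of_dvd Fintype.card_pos e
      have := d.card
      omega))).bijective
  refine ⟨h5 ▸ congrArg _ (filter_congr fun z _ => ?_), card_bijective _ bij fun c => by
    simp [d.mult_iff ρ hC h2 h1]⟩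
  obtain ⟨c, hc⟩ := d.ex_r ρ hC z
  obtain ⟨c, rfl⟩ := bij.2 c
  rw [h3 _ _ hc, h4, inv_cl _ _ _ hc, d.mult_iff ρ hC h2 h1]

theorem sing {V : H → Prop} (h : Inv ι a V)
    (hr : ∀ x y, orderOf x = orderOf y → V (r x) → V (r y)) {p : ℕ} (hp : p.Prime) (h2 : p ≠ 2)
    {x y : C} (hx : p ∣ orderOf x) (hy : p ∣ orderOf y) (hV : V (r x)) : V (r y) := by
  haveI := Fact.mk hp
  by_contra hV'
  have hpC : p ∣ Fintype.card C := hx.trans orderOf_dvd_card
  have hr' : ∀ x y, orderOf x = orderOf y → ind (ZMod p) V (r x) = ind _ V (r y) := fun x y e =>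
    if_congr ⟨hr _ _ e, hr _ _ e.symm⟩ rfl rfl
  let F := fun g => ind (ZMod p) V g - (ofFun (ind (ZMod p) V) ^ p).coeff g
  have f1 : Inv ι a (fun g => F g = 1) := fun g g' e => by
    simp only [F, inv_pow ρ (inv_ind (ZMod p) h) p _ _ e, inv_ind _ h _ _ e]
  have f2 : ∀ t y : C, p ∣ orderOf t → t ^ p = y ^ p → F (r y) = ind _ V (r t) := fun t y ht e => by
    simp only [F]
    rw [d.frob h2 _ (d.symf ρ (inv_ind _ h))]
    by_cases hy : p ∣ orderOf y
    · rw [hr' t y (by rw [ord_eq hp ht, ord_eq hp hy, e]), sub_eq_self]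
      by_cases h3 : ∃ c, c ^ p = y
      · obtain ⟨c, rfl⟩ := h3
        rw [sum_fib, sum_congr rfl (g := fun _ => ind _ V (r c)) fun u hu => hr' _ _ (by
          have : (c * u) ^ p = c ^ p := by simpa [mul_pow] using hu
          rw [ord_eq hp ((this ▸ hy).trans (orderOf_pow_dvd p)),
            ord_eq hp (hy.trans (orderOf_pow_dvd p)), this]), sum_const, card_Hs hpC]
        simp
      · exact sum_eq_zero fun c _ => if_neg fun e => h3 ⟨c, e⟩
    · have h3 := (Nat.Prime.coprime_iff_not_dvd hp).2 hy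
      obtain ⟨k, hk⟩ := exists_pow_eq_self_of_coprime h3
      rw [← pow_mul, mul_comm, pow_mul] at hk
      have h4 : orderOf (y ^ k) = orderOf y :=
        Nat.dvd_antisymm (orderOf_pow_dvd k) (by simpa [hk] using orderOf_pow_dvd (x := y ^ k) p)
      conv_lhs => rw [← hk, sum_fib, hk]
      rw [← add_sum_erase _ _ (a := 1) (by simp), mul_one, hr' _ _ h4,
        sum_congr rfl (g := fun _ => ind _ V (r t)) fun u hu => hr' _ _ (by
          simp only [mem_erase, mem_filter, mem_univ, true_and] at hu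
          have h5 : orderOf u = p := orderOf_eq_prime hu.2 hu.1
          rw [(Commute.all _ _).orderOf_mul_eq_mul_orderOf_of_coprime (by rw [h4, h5]; exact h3.symm),
            h4, h5, ord_eq hp ht, e, h3.symm.orderOf_pow, mul_comm]),
        sum_const, card_erase_of_mem (by simp), card_Hs hpC, nsmul_eq_mul, Nat.cast_pred hp.pos]
      simp
  have f3 : ∀ t y : C, p ∣ orderOf t → t ^ p = y ^ p → (F (r y) = 1 ↔ V (r t)) := fun t y ht e => by
    rw [f2 t y ht e]; simp [ind]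
  obtain ⟨w, hw⟩ := exists_prime_orderOf_dvd_card p hpC
  have f4 : ∀ u, u ^ p = 1 → ∀ c, F (r (c * u)) = 1 ↔ F (r c) = 1 := fun u hu c => by
    obtain ⟨t, h3, h4⟩ : ∃ t, p ∣ orderOf t ∧ t ^ p = c ^ p := by
      by_cases hc : p ∣ orderOf c
      · exact ⟨c, hc, rfl⟩
      refine ⟨c * w, ?_, by rw [mul_pow, ← hw, pow_orderOf_eq_one, mul_one]⟩
      rw [(Commute.all _ _).orderOf_mul_eq_mul_orderOf_of_coprime
        (hw ▸ ((Nat.Prime.coprime_iff_not_dvd hp).2 hc).symm), hw]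
      exact dvd_mul_left _ _
    rw [f3 t _ h3 h4, f3 t _ h3 (by rw [mul_pow, hu, mul_one, h4])]
  obtain ⟨γ, D⟩ := d.ds ρ hpC f1 f4
  have n1 : ∀ x : C, p ∣ orderOf x → r x ≠ 1 := fun x hx => d.r_eq.not.2 fun e =>
    hp.one_lt.ne' (by simpa [e] using hx)
  obtain ⟨c, hc⟩ := d.ex_s ρ (n1 x hx)
  obtain ⟨c', hc'⟩ := d.ex_s ρ (n1 y hy)
  have e1 := (f3 x x hx rfl).2 hV
  have e2 := (f3 y y hy rfl).not.2 hV'
  exact D.odd (H := univ.filter fun u => u ^ p = 1)
    (fun u hu x => ind_congr (f4 u (by simpa using hu) x))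
    (by rw [card_Hs hpC]; have := hp.two_le; omega) ⟨x, if_pos e1⟩ ⟨y, if_neg e2⟩
    ⟨c, if_pos (f1 _ _ hc ▸ e1)⟩ ⟨c', if_neg (f1 _ _ hc' ▸ e2)⟩

theorem rat {V : H → Prop} (h : Inv ι a V)
    (hr : ∀ x y, orderOf x = orderOf y → V (r x) → V (r y)) {g : C}
    (hg : ∀ x, x ∈ Subgroup.zpowers g) (hV : V (r g)) {y : H} (hy : y ≠ 1) : V y := by
  by_contra hy'
  have og : orderOf g = Fintype.card C := by
    rw [orderOf_eq_card_of_forall_mem_zpowers hg, Nat.card_eq_fintype_card]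
  have s1 : ∀ x, ¬ V (r x) → ∀ p, p.Prime → p ∣ orderOf x → p = 2 := fun x hx p hp e => by
    by_contra h2
    exact hx (d.sing ρ hC h hr hp h2 (og ▸ e.trans orderOf_dvd_card) e hV)
  obtain ⟨x0, e0⟩ := d.ex_r ρ hC y
  have n0 : x0 ≠ 1 := fun e => hy (ρ.eq_one (by rw [e, d.r1] at e0; exact e0.symm))
  have v0 : ¬ V (r x0) := h _ _ e0 ▸ hy'
  have p2 : 2 ∣ Fintype.card C := by
    obtain ⟨p, h1, h2⟩ := Nat.exists_prime_and_dvd (orderOf_eq_one_iff.not.2 n0)
    exact (s1 _ v0 p h1 h2 ▸ h2).trans orderOf_dvd_card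
  obtain ⟨z, hz⟩ := exists_prime_orderOf_dvd_card 2 p2
  have z2 : z ^ 2 = 1 := hz ▸ pow_orderOf_eq_one z
  have z1 : z ≠ 1 := by rintro rfl; simp at hz
  have uz : ∀ u : C, u ^ 2 = 1 → u = 1 ∨ u = z := fun u hu => by
    have := eq_of_subset_of_card_le (s := {1, z}) (t := univ.filter fun u : C => u ^ 2 = 1)
      (by simp [insert_subset_iff, z2]) (by rw [card_Hs p2, card_pair z1.symm])
    simpa using this.ge (by simpa using hu : u ∈ _)
  let W : H → Prop := fun x => if x = 1 then ¬ V (r z) else ¬ V x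
  have w1 : Inv ι a W := fun x x' e => by
    have := inv_ne ρ x x' e
    simp only [W, h x x' e, not_iff_not.1 this.to_iff]
  have w2 : ∀ c, W (r c) → W (r (c * z)) := fun c hc => by
    simp only [W, d.r_eq] at hc ⊢
    by_cases h1 : c ^ 2 = 1
    · rcases uz c h1 with rfl | rfl
      · simpa [z1] using hc
      · simpa [z1, ← sq, z2] using hc
    have h2 : (c * z) ^ 2 = c ^ 2 := by rw [mul_pow, z2, mul_one]
    rw [if_neg (by rintro rfl; simp at h1)] at hc
    rw [if_neg fun e => h1 (by rw [← h2, e, one_pow])]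
    obtain ⟨p, h3, h4⟩ := Nat.exists_prime_and_dvd (orderOf_eq_one_iff.not.2 h1)
    obtain rfl := s1 c hc p h3 (h4.trans (orderOf_pow_dvd 2))
    exact fun e => hc (hr _ _ (by
      rw [ord_eq h3 ((h2 ▸ h4).trans (orderOf_pow_dvd 2)), ord_eq h3 (h4.trans (orderOf_pow_dvd 2)),
        h2]) e)
  have w3 : ∀ c, W (r (c * z)) ↔ W (r c) := fun c =>
    ⟨fun e => by simpa [mul_assoc, ← sq, z2] using w2 _ e, w2 c⟩
  obtain ⟨γ, D⟩ := d.ds ρ p2 w1 fun u hu c => by
    rcases uz u hu with rfl | rfl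
    exacts [by rw [mul_one], w3 c]
  obtain ⟨l, h1, h2, h3⟩ : ∃ l, l.Prime ∧ l ∣ Fintype.card C ∧
      ∀ x, ¬ V (r x) → orderOf x ∣ Fintype.card C / l := by
    by_cases hm : ∃ l, l.Prime ∧ l ∣ Fintype.card C ∧ l ≠ 2
    · obtain ⟨l, h1, h2, h3⟩ := hm
      refine ⟨l, h1, h2, fun x hx => Nat.Coprime.dvd_of_dvd_mul_left
        (((Nat.Prime.coprime_iff_not_dvd h1).2 fun e => h3 (s1 x hx l h1 e)).symm) ?_⟩
      rw [Nat.mul_div_cancel' h2]; exact orderOf_dvd_card
    · push Not at hm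
      refine ⟨2, Nat.prime_two, p2, fun x hx => ?_⟩
      obtain ⟨t, ht⟩ := orderOf_dvd_card (x := x)
      obtain ⟨p, h3, h4⟩ := Nat.exists_prime_and_dvd (n := t) (by
        rintro rfl; exact hx (hr _ _ (by rw [og, ht, mul_one]) hV))
      obtain rfl := hm p h3 (ht ▸ h4.mul_left _)
      rw [ht, Nat.mul_div_assoc _ h4]; exact dvd_mul_right _ _
  obtain ⟨c, hc⟩ := d.ex_s ρ hy
  have wy : W y := by simpa [W, hy] using hy'
  refine D.two (K := (powMonoidHom (Fintype.card C / l) : C →* C).ker) hg (fun e => ?_)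
    (fun x hx => ?_) hz (fun x => ind_congr (w3 x)) ⟨x0, if_pos (w1 _ _ e0 ▸ wy)⟩
    ⟨c, if_pos (w1 _ _ hc ▸ wy)⟩
  · exact (Nat.le_of_dvd (Nat.div_pos (Nat.le_of_dvd Fintype.card_pos h2) h1.pos)
      (og.symm.dvd.trans (orderOf_dvd_of_pow_eq_one e))).not_gt (Nat.div_lt_self Fintype.card_pos h1.one_lt)
  · by_cases e : x = 1
    · rw [e]; exact one_mem _
    refine orderOf_dvd_iff_pow_eq_one.1 (h3 x ?_)
    simpa [ind, W, d.r_eq, e] using hx

/-- Wielandt: a primitive group with a regular dihedral subgroup is doubly transitive. -/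
theorem two : IsMultiplyPretransitive G Ω 2 := by
  obtain ⟨g, hg⟩ := IsCyclic.exists_generator (α := C)
  have g1 : r g ≠ 1 := d.r_eq.not.2 fun e => by
    have := orderOf_eq_card_of_forall_mem_zpowers hg
    rw [e, orderOf_one, Nat.card_eq_fintype_card] at this
    omega
  have h1 : ∀ z, z ≠ 1 → #(univ.filter (E ι a z)) = #(univ.filter (E ι a (r g))) ∧
      #(univ.filter fun c => E ι a z (r c)) = #(univ.filter fun c => E ι a (r g) (r c)) :=
    fun z hz => by
    obtain ⟨x, x', e1, e2, e3⟩ := d.rat ρ hC (V := fun z => ∃ x x', E ι a z (r x) ∧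
      orderOf x = orderOf x' ∧ E ι a (r x') (r g)) (fun z z' e => propext
        ⟨fun ⟨x, x', e1, e2⟩ => ⟨x, x', e.symm.trans e1, e2⟩,
          fun ⟨x, x', e1, e2⟩ => ⟨x, x', e.trans e1, e2⟩⟩) (fun t t' e ⟨x, x', e1, e2, e3⟩ => by
        obtain ⟨q, h1, h2, rfl⟩ := exists_prime_pow e (Fintype.card H)
        exact ⟨x ^ q, x', (d.mult_iff ρ hC h2 h1 _ _).2 e1,
          (ord_pow_of h2 (by have := d.card; omega) x).trans e2, e3⟩)
      hg ⟨g, g, E.refl _, rfl, E.refl _⟩ hz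
    have k : ∀ {u v}, E ι a u v → E ι a u = E ι a v := fun e => funext fun _ => propext
      ⟨e.symm.trans, e.trans⟩
    rw [k e1, ← k e3]
    exact d.card_cl ρ hC e2
  have h2 := sum_card_bipartiteAbove_eq_sum_card_bipartiteBelow (s := univ.erase (1 : H))
    (t := univ.erase (1 : C)) fun z c => E ι a z (r c)
  rw [sum_congr rfl (g := fun _ => #(univ.filter fun c => E ι a (r g) (r c))) fun z hz => by
      rw [← (h1 z (ne_of_mem_erase hz)).2, bipartiteAbove]
      congr 1; ext c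
      simpa using fun e e' => ne_of_mem_erase hz (ρ.eq_one (by rw [e', d.r1] at e; exact e.symm)),
    sum_congr (s₁ := univ.erase (1 : C)) rfl (g := fun _ => #(univ.filter (E ι a (r g)))) fun c hc => by
      rw [← (h1 _ (d.r_eq.not.2 (ne_of_mem_erase hc))).1, bipartiteBelow]
      congr 1; ext z
      simp only [mem_filter, mem_erase, mem_univ, and_true, true_and]
      exact ⟨fun e => e.2.symm, fun e => ⟨fun e' => ne_of_mem_erase hc
        (d.r_eq.1 (ρ.eq_one (e' ▸ e.symm))), e.symm⟩⟩,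
    sum_const, sum_const, card_erase_of_mem (mem_univ _), card_erase_of_mem (mem_univ _),
    card_univ, card_univ, smul_eq_mul, smul_eq_mul] at h2
  have h3 : Fintype.card H - 1 ≤ #(univ.filter (E ι a (r g))) := by
    refine Nat.le_of_dvd (card_pos.2 ⟨_, by simpa using E.refl _⟩)
      (Nat.Coprime.dvd_of_dvd_mul_left ?_ ⟨_, h2.symm⟩)
    rw [d.card, show 2 * Fintype.card C - 1 = 1 + (Fintype.card C - 1) * 2 by omega]
    simp
  have h4 := eq_of_subset_of_card_le (s := univ.filter (E ι a (r g))) (t := univ.erase 1)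
    (fun z hz => mem_erase.2 ⟨fun e => g1 (ρ.eq_one (e ▸ (mem_filter.1 hz).2.symm)), mem_univ _⟩)
    (by rwa [card_erase_of_mem (mem_univ _)])
  have h5 : ∀ z, z ≠ 1 → E ι a (r g) z := fun z hz =>
    (mem_filter.1 (h4.ge (mem_erase.2 ⟨hz, mem_univ _⟩))).2
  exact ρ.two_of fun x y hx hy => (h5 x hx).symm.trans (h5 y hy)

end DH

end H9.DB
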