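import Mathlib

/-! Two-point stabilizers of a doubly transitive group: lines `Ln`, the bound `bound_fx`, orbit counting, and the
inequality `key` (the average of `n / fix g` over a nontrivial two-point stabilizer is at least 2). -/

set_option autoImplicit false

namespace H9.Der
open Finset
open scoped Classical

variable {G Ω : Type*} [Group G] [Fintype G] [MulAction G Ω] [Fintype Ω]

/-- number of fixed points -/
noncomputable def fx (Ω : Type*) [MulAction G Ω] [Fintype Ω] (g : G) : ℕ := (univ.filter fun x : Ω => g • x = x).card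
/-- two-point stabilizer -/
noncomputable def St (G : Type*) [Group G] [Fintype G] [MulAction G Ω] (a b : Ω) : Finset G :=
  univ.filter fun g => g • a = a ∧ g • b = b
/-- the points fixed by the two-point stabilizer -/
noncomputable def Ln (G : Type*) [Group G] [Fintype G] [MulAction G Ω] (a b : Ω) : Finset Ω :=
  univ.filter fun x => ∀ g ∈ St G a b, g • x = x
/-- orbit of the two-point stabilizer -/
noncomputable def Ob (G : Type*) [Group G] [Fintype G] [MulAction G Ω] (a b x : Ω) : Finset Ω :=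
  (St G a b).image fun g => g • x
/-- double transitivity -/
def T2 (G Ω : Type*) [Group G] [MulAction G Ω] : Prop :=
  ∀ a b c d : Ω, a ≠ b → c ≠ d → ∃ g : G, g • a = c ∧ g • b = d

omit [Fintype Ω] in
lemma mem_St {a b : Ω} {g : G} : g ∈ St G a b ↔ g • a = a ∧ g • b = b := by simp [St]
lemma mem_Ln {a b x : Ω} : x ∈ Ln G a b ↔ ∀ g ∈ St G a b, g • x = x := by simp [Ln]
omit [Fintype Ω] in
lemma mem_Ob {a b x y : Ω} : y ∈ Ob G a b x ↔ ∃ g ∈ St G a b, g • x = y := by simp [Ob]
omit [Fintype Ω] in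
lemma one_St (a b : Ω) : (1 : G) ∈ St G a b := by simp [mem_St]
omit [Fintype Ω] in
lemma mul_St {a b : Ω} {g h : G} (hg : g ∈ St G a b) (hh : h ∈ St G a b) : g * h ∈ St G a b := by
  rw [mem_St] at *; simp [mul_smul, hg.1, hg.2, hh.1, hh.2]
omit [Fintype Ω] in
lemma inv_St {a b : Ω} {g : G} (hg : g ∈ St G a b) : g⁻¹ ∈ St G a b := by
  rw [mem_St] at *; simp [inv_smul_eq_iff, hg.1, hg.2]
omit [Fintype Ω] in
lemma St_comm (a b : Ω) : St G a b = St G b a := by ext g; simp [mem_St, and_comm]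
lemma left_Ln (a b : Ω) : a ∈ Ln G a b := mem_Ln.2 fun _ hg => (mem_St.1 hg).1
lemma right_Ln (a b : Ω) : b ∈ Ln G a b := mem_Ln.2 fun _ hg => (mem_St.1 hg).2

omit [Fintype Ω] in
lemma conj_St {a b : Ω} (u g : G) : u * g * u⁻¹ ∈ St G (u • a) (u • b) ↔ g ∈ St G a b := by
  simp [mem_St, mul_smul]

omit [Fintype Ω] in
lemma card_St_smul (a b : Ω) (u : G) : (St G (u • a) (u • b)).card = (St G a b).card := by
  symm
  refine card_bij (fun g _ => u * g * u⁻¹) (fun g hg => (conj_St u g).2 hg) (fun g _ h _ e => by simpa using e) ?_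
  intro g hg
  exact ⟨u⁻¹ * g * u, by rw [← conj_St u]; simpa [mul_assoc] using hg, by group⟩

omit [Fintype Ω] in
lemma card_St (h : T2 G Ω) {a b c d : Ω} (hab : a ≠ b) (hcd : c ≠ d) : (St G c d).card = (St G a b).card := by
  obtain ⟨u, rfl, rfl⟩ := h a b c d hab hcd
  exact card_St_smul a b u

omit [Fintype Ω] in
lemma St_eq (h : T2 G Ω) {a b c d : Ω} (hab : a ≠ b) (hcd : c ≠ d) (hs : St G a b ⊆ St G c d) :
    St G c d = St G a b :=
  (eq_of_subset_of_card_le hs (card_St h hab hcd).le).symm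

lemma St_eq_of_Ln (h : T2 G Ω) {a b c d : Ω} (hab : a ≠ b) (hcd : c ≠ d) (hc : c ∈ Ln G a b) (hd : d ∈ Ln G a b) :
    St G c d = St G a b :=
  St_eq h hab hcd fun g hg => mem_St.2 ⟨mem_Ln.1 hc g hg, mem_Ln.1 hd g hg⟩

lemma Ln_eq (h : T2 G Ω) {a b c d : Ω} (hab : a ≠ b) (hcd : c ≠ d) (hc : c ∈ Ln G a b) (hd : d ∈ Ln G a b) :
    Ln G c d = Ln G a b := by
  ext x; rw [mem_Ln, mem_Ln, St_eq_of_Ln h hab hcd hc hd]

lemma smul_Ln {a b x : Ω} (u : G) : u • x ∈ Ln G (u • a) (u • b) ↔ x ∈ Ln G a b := by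
  rw [mem_Ln, mem_Ln]
  constructor
  · intro H g hg
    have := H _ ((conj_St u g).2 hg)
    simpa [mul_smul] using this
  · intro H g hg
    have := H (u⁻¹ * g * u) (by rw [← conj_St u]; simpa [mul_assoc] using hg)
    rw [mul_smul, mul_smul, inv_smul_eq_iff] at this
    exact this

lemma card_Ln (h : T2 G Ω) {a b c d : Ω} (hab : a ≠ b) (hcd : c ≠ d) : (Ln G c d).card = (Ln G a b).card := by
  obtain ⟨u, rfl, rfl⟩ := h a b c d hab hcd
  symm
  refine card_bij (fun x _ => u • x) (fun x hx => (smul_Ln u).2 hx) (fun x _ y _ e => by simpa using e) ?_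
  intro y hy
  exact ⟨u⁻¹ • y, by rw [← smul_Ln u]; simpa using hy, by simp⟩

lemma two_le_Ln {a b : Ω} (hab : a ≠ b) : 2 ≤ (Ln G a b).card := by
  rw [← card_pair hab]
  apply card_le_card
  intro x hx
  rcases mem_insert.1 hx with rfl | hx
  · exact left_Ln _ _
  · rw [mem_singleton.1 hx]; exact right_Ln _ _

/-- a nonidentity element fixes at most `(n-1)/(f-1)` points -/
lemma bound_fx (h : T2 G Ω) {a b : Ω} (hab : a ≠ b) {g : G} {τ : Ω} (hτ : g • τ ≠ τ) :
    fx Ω g * ((Ln G a b).card - 1) ≤ Fintype.card Ω - 1 := by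
  set F := univ.filter fun x : Ω => g • x = x with hF
  have hne : ∀ x ∈ F, τ ≠ x := by
    intro x hx e
    subst e
    exact hτ (by simpa [hF] using hx)
  have hd : (F : Set Ω).PairwiseDisjoint fun x => (Ln G τ x).erase τ := by
    intro x hx y hy hxy
    rw [Function.onFun, disjoint_left]
    intro z hz hz'
    rw [mem_erase] at hz hz'
    have e1 := Ln_eq h (hne x hx) (Ne.symm hz.1) (left_Ln _ _) hz.2
    have e2 := Ln_eq h (hne y hy) (Ne.symm hz.1) (left_Ln _ _) hz'.2
    have hy' : y ∈ Ln G τ x := by rw [← e1, e2]; exact right_Ln _ _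
    have e3 := Ln_eq h (hne x hx) hxy (right_Ln _ _) hy'
    have : τ ∈ Ln G x y := by rw [e3]; exact left_Ln _ _
    apply hτ
    refine mem_Ln.1 this g (mem_St.2 ⟨?_, ?_⟩)
    · simpa [hF] using hx
    · simpa [hF] using hy
  have h1 := card_biUnion hd
  have h2 : (F.biUnion fun x => (Ln G τ x).erase τ).card ≤ (univ.erase τ).card := by
    apply card_le_card
    intro z hz
    obtain ⟨x, _, hz⟩ := mem_biUnion.1 hz
    exact mem_erase.2 ⟨(mem_erase.1 hz).1, mem_univ _⟩
  rw [card_erase_of_mem (mem_univ _), card_univ, h1] at h2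
  rw [sum_congr rfl (g := fun _ => (Ln G a b).card - 1)] at h2
  · simpa [fx, hF] using h2
  · intro x hx
    rw [card_erase_of_mem (left_Ln _ _), card_Ln h hab (hne x hx)]

omit [Fintype Ω] in
/-- orbit-stabilizer -/
lemma card_Ob (a b x : Ω) :
    (Ob G a b x).card * ((St G a b).filter fun g => g • x = x).card = (St G a b).card := by
  symm
  rw [card_eq_sum_card_image (fun g : G => g • x) (St G a b)]
  rw [sum_congr rfl (g := fun _ => ((St G a b).filter fun g => g • x = x).card)]
  · simp [Ob]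
  · intro y hy
    obtain ⟨u, hu, rfl⟩ := mem_image.1 hy
    symm
    refine card_bij (fun g _ => u * g) ?_ (fun g _ g' _ e => by simpa using e) ?_
    · intro g hg
      rw [mem_filter] at *
      exact ⟨mul_St hu hg.1, by rw [mul_smul, hg.2]⟩
    · intro g hg
      rw [mem_filter] at hg
      exact ⟨u⁻¹ * g, mem_filter.2 ⟨mul_St (inv_St hu) hg.1, by rw [mul_smul, hg.2]; simp⟩, by simp⟩

omit [Fintype Ω] in
lemma self_Ob (a b x : Ω) : x ∈ Ob G a b x := mem_Ob.2 ⟨1, one_St _ _, one_smul _ _⟩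

omit [Fintype Ω] in
lemma Ob_eq {a b x y : Ω} (hy : y ∈ Ob G a b x) : Ob G a b y = Ob G a b x := by
  obtain ⟨u, hu, rfl⟩ := mem_Ob.1 hy
  ext z
  rw [mem_Ob, mem_Ob]
  constructor
  · rintro ⟨g, hg, rfl⟩; exact ⟨g * u, mul_St hg hu, by rw [mul_smul]⟩
  · rintro ⟨g, hg, rfl⟩; exact ⟨g * u⁻¹, mul_St hg (inv_St hu), by rw [mul_smul]; simp⟩

lemma two_le_Ob {a b x : Ω} (hx : x ∉ Ln G a b) : 2 ≤ (Ob G a b x).card := by
  rw [mem_Ln] at hx
  push Not at hx
  obtain ⟨g, hg, hx⟩ := hx
  rw [← card_pair hx]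
  apply card_le_card
  intro y hy
  rcases mem_insert.1 hy with rfl | hy
  · exact mem_Ob.2 ⟨g, hg, rfl⟩
  · rw [mem_singleton.1 hy]; exact self_Ob _ _ _

/-- points in orbits of length at least three -/
noncomputable def Big (G : Type*) [Group G] [Fintype G] [MulAction G Ω] (a b : Ω) : Finset Ω :=
  univ.filter fun x => 3 ≤ (Ob G a b x).card

lemma mem_Big {a b x : Ω} : x ∈ Big G a b ↔ 3 ≤ (Ob G a b x).card := by simp [Big]

omit [Fintype Ω] in
lemma card_Ob_smul (a b x : Ω) (u : G) : (Ob G (u • a) (u • b) (u • x)).card = (Ob G a b x).card := by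
  symm
  refine card_bij (fun y _ => u • y) ?_ (fun x _ y _ e => by simpa using e) ?_
  · intro y hy
    obtain ⟨g, hg, rfl⟩ := mem_Ob.1 hy
    exact mem_Ob.2 ⟨u * g * u⁻¹, (conj_St u g).2 hg, by simp [mul_smul]⟩
  · intro y hy
    obtain ⟨g, hg, rfl⟩ := mem_Ob.1 hy
    exact ⟨(u⁻¹ * g * u) • x, mem_Ob.2 ⟨_, by rw [← conj_St u]; simpa [mul_assoc] using hg, rfl⟩,
      by simp [mul_smul]⟩

lemma card_Big (h : T2 G Ω) {a b c d : Ω} (hab : a ≠ b) (hcd : c ≠ d) : (Big G c d).card = (Big G a b).card := by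
  obtain ⟨u, rfl, rfl⟩ := h a b c d hab hcd
  symm
  refine card_bij (fun x _ => u • x) (fun x hx => ?_) (fun x _ y _ e => by simpa using e) ?_
  · rw [mem_Big] at *; rwa [card_Ob_smul]
  · intro y hy
    refine ⟨u⁻¹ • y, ?_, by simp⟩
    rw [mem_Big] at *
    rw [← card_Ob_smul _ _ _ u]; simpa using hy

lemma Ob_sub_Big {a b x : Ω} (hx : x ∈ Big G a b) : Ob G a b x ⊆ Big G a b := by
  intro y hy
  rw [mem_Big] at *
  rwa [Ob_eq hy]

omit [Fintype Ω] in
lemma three_le_card {s : Finset Ω} {x y z : Ω} (hx : x ∈ s) (hy : y ∈ s) (hz : z ∈ s) (hxy : x ≠ y) (hxz : x ≠ z)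
    (hyz : y ≠ z) : 3 ≤ s.card := by
  have : ({x, y, z} : Finset Ω).card = 3 := card_eq_three.2 ⟨x, y, z, hxy, hxz, hyz, rfl⟩
  rw [← this]
  apply card_le_card
  intro w hw
  simp only [mem_insert, mem_singleton] at hw
  rcases hw with rfl | rfl | rfl <;> assumption

/-- outside `Big` two elements moving a point move it to the same place -/
lemma eq_of_not_Big {a b x : Ω} (hx : x ∉ Big G a b) {g k : G} (hg : g ∈ St G a b) (hk : k ∈ St G a b)
    (h1 : g • x ≠ x) (h2 : k • x ≠ x) : g • x = k • x := by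
  by_contra hne
  exact hx (mem_Big.2 (three_le_card (mem_Ob.2 ⟨g, hg, rfl⟩) (mem_Ob.2 ⟨k, hk, rfl⟩) (self_Ob _ _ _) hne h1 h2))

lemma sq_fix {a b x : Ω} (hx : x ∉ Big G a b) {g : G} (hg : g ∈ St G a b) : (g * g) • x = x := by
  by_contra hne
  by_cases h1 : g • x = x
  · exact hne (by rw [mul_smul, h1, h1])
  · have := eq_of_not_Big hx (mul_St hg hg) hg hne h1
    rw [mul_smul] at this
    exact h1 (by simpa using this)

section
variable [FaithfulSMul G Ω]

omit [Fintype G] [Fintype Ω] in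
lemma exists_move {g : G} (hg : g ≠ 1) : ∃ x : Ω, g • x ≠ x := by
  by_contra H
  push Not at H
  exact hg (FaithfulSMul.eq_of_smul_eq_smul (α := Ω) fun x => by rw [H x, one_smul])

lemma comm_of_Big {a b : Ω} (hB : Big G a b = ∅) {g k : G} (hg : g ∈ St G a b) (hk : k ∈ St G a b) :
    g * k = k * g := by
  have sq : ∀ u ∈ St G a b, u * u = 1 := by
    intro u hu
    by_contra hne
    obtain ⟨x, hx⟩ := exists_move (Ω := Ω) hne
    exact hx (sq_fix (by simp [hB]) hu)
  have h1 := sq _ hg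
  have h2 := sq _ hk
  have h3 := sq _ (mul_St hg hk)
  calc g * k = g * (k * g * k * g) * k * (g * g)⁻¹ * 1 := by
        have : k * g * k * g = 1 := by
          have : k * g * k * g = k * (g * k * (g * k)) * k⁻¹ := by group
          rw [this, h3]; simp
        rw [this, h1]; simp
    _ = k * g := by
        rw [h1]
        have e : g * (k * g * k * g) * k = (g * k * (g * k)) * (g * k) := by group
        rw [e, h3]
        have hg' : g⁻¹ = g := inv_eq_of_mul_eq_one_right h1
        have hk' : k⁻¹ = k := inv_eq_of_mul_eq_one_right h2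
        have : (g * k)⁻¹ = g * k := inv_eq_of_mul_eq_one_right h3
        rw [mul_inv_rev, hg', hk'] at this
        simp [this]

omit [FaithfulSMul G Ω] in
lemma exists_fix {a b c δ : Ω} (hB : Big G a b = ∅) {t k : G} (ht : t ∈ St G a b) (htc : t • c ≠ c)
    (hk : k ∈ St G a b) (hkc : k • c = c) (hkδ : k • δ ≠ δ) : ∃ t' ∈ St G a b, t' • c ≠ c ∧ t' • δ = δ := by
  by_cases h1 : t • δ = δ
  · exact ⟨t, ht, htc, h1⟩
  · have := eq_of_not_Big (x := δ) (by simp [hB]) ht hk h1 hkδ
    refine ⟨k⁻¹ * t, mul_St (inv_St hk) ht, ?_, by rw [mul_smul, this]; simp⟩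
    rw [mul_smul, Ne, inv_smul_eq_iff, hkc]
    exact htc

lemma half_line (h : T2 G Ω) (hB : ∀ a b : Ω, a ≠ b → Big G a b = ∅) {a b c δ : Ω} (hab : a ≠ b)
    (hc : c ∉ Ln G a b) {k : G} (hk : k ∈ St G a b) (hkc : k • c = c) (hkδ : k • δ ≠ δ) {t : G}
    (ht : t ∈ St G a b) : t • c ∈ Ln G a c := by
  by_cases htc : t • c = c
  · rw [htc]; exact right_Ln _ _
  have hac : a ≠ c := fun e => hc (e ▸ left_Ln _ _)
  have haδ : a ≠ δ := fun e => hkδ (e ▸ (mem_St.1 hk).1)
  obtain ⟨t', ht', ht'c, ht'δ⟩ := exists_fix (hB a b hab) ht htc hk hkc hkδ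
  have hb : b ∉ Ln G a c := fun hb => hc (by rw [Ln_eq h hac hab (left_Ln _ _) hb]; exact right_Ln _ _)
  have hb' := hb
  rw [mem_Ln] at hb'
  push Not at hb'
  obtain ⟨u, hu, hub⟩ := hb'
  have hk' : k ∈ St G a c := mem_St.2 ⟨(mem_St.1 hk).1, hkc⟩
  obtain ⟨u', hu', hu'b, hu'δ⟩ := exists_fix (hB a c hac) hu hub hk' (mem_St.1 hk).2 hkδ
  have c1 : t' * u' = u' * t' := comm_of_Big (hB a δ haδ) (mem_St.2 ⟨(mem_St.1 ht').1, ht'δ⟩)
    (mem_St.2 ⟨(mem_St.1 hu').1, hu'δ⟩)
  rw [eq_of_not_Big (x := c) (by simp [hB a b hab]) ht ht' htc ht'c, mem_Ln]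
  intro v hv
  have c2 : v * t' = t' * v := by
    by_cases hvb : v • b = b
    · exact comm_of_Big (hB a b hab) (mem_St.2 ⟨(mem_St.1 hv).1, hvb⟩) ht'
    · have e := eq_of_not_Big (x := b) (by simp [hB a c hac]) hv hu' hvb hu'b
      have hw : u'⁻¹ * v ∈ St G a b := mem_St.2 ⟨(mem_St.1 (mul_St (inv_St hu') hv)).1, by rw [mul_smul, e]; simp⟩
      have c3 := comm_of_Big (hB a b hab) hw ht'
      calc v * t' = u' * (u'⁻¹ * v * t') := by group
        _ = u' * t' * (u'⁻¹ * v) := by rw [c3]; group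
        _ = t' * v := by rw [← c1]; group
  rw [← mul_smul, c2, mul_smul, (mem_St.1 hv).2]

/-- if all orbits have length at most two, three noncollinear points have trivial stabilizer -/
lemma eq_one_of_Big (h : T2 G Ω) (hB : ∀ a b : Ω, a ≠ b → Big G a b = ∅) {a b c : Ω} (hab : a ≠ b)
    (hc : c ∉ Ln G a b) {k : G} (hk : k ∈ St G a b) (hkc : k • c = c) : k = 1 := by
  by_contra hne
  obtain ⟨δ, hδ⟩ := exists_move (Ω := Ω) hne
  have hc' := hc
  rw [mem_Ln] at hc'
  push Not at hc'
  obtain ⟨t, ht, htc⟩ := hc'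
  have hac : a ≠ c := fun e => hc (e ▸ left_Ln _ _)
  have hbc : b ≠ c := fun e => hc (e ▸ right_Ln _ _)
  have hcL : c ∉ Ln G b a := by
    rw [Ln_eq h hab hab.symm (right_Ln _ _) (left_Ln _ _)]; exact hc
  have h1 := half_line h hB hab hc hk hkc hδ ht
  have h2 := half_line h hB hab.symm hcL (St_comm (G := G) a b ▸ hk) hkc hδ (St_comm (G := G) a b ▸ ht)
  have e1 := Ln_eq h hac htc h1 (right_Ln _ _)
  have e2 := Ln_eq h hbc htc h2 (right_Ln _ _)
  have hb : b ∈ Ln G a c := by rw [← e1, e2]; exact left_Ln _ _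
  apply hc
  rw [Ln_eq h hac hab (left_Ln _ _) hb]
  exact right_Ln _ _

omit [FaithfulSMul G Ω] in
lemma Big_ne_three (h : T2 G Ω) (hn : 7 ≤ Fintype.card Ω) {a b : Ω} (hab : a ≠ b) : (Big G a b).card ≠ 3 := by
  intro h3
  obtain ⟨x, hx⟩ : (Big G a b).Nonempty := card_pos.1 (by omega)
  have hO : ∀ y ∈ Big G a b, Ob G a b y = Big G a b := fun y hy =>
    eq_of_subset_of_card_le (Ob_sub_Big hy) (by rw [h3]; exact mem_Big.1 hy)
  -- an element of order three supported on `Big`
  obtain ⟨g, hg, hgx⟩ : ∃ g ∈ St G a b, (g * g) • x ≠ x := by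
    by_contra H
    push Not at H
    obtain ⟨p, q, r, hpq, hpr, hqr, e⟩ := card_eq_three.1 h3
    obtain ⟨y, z, hy, hz, hxy, hxz, hyz, e'⟩ : ∃ y z, y ∈ Big G a b ∧ z ∈ Big G a b ∧ x ≠ y ∧ x ≠ z ∧ y ≠ z ∧
        ∀ w ∈ Big G a b, w = x ∨ w = y ∨ w = z := by
      rw [e] at hx ⊢
      simp only [mem_insert, mem_singleton] at hx ⊢
      rcases hx with rfl | rfl | rfl
      · exact ⟨q, r, by simp, by simp, hpq, hpr, hqr, fun w hw => hw⟩
      · exact ⟨p, r, by simp, by simp, hpq.symm, hqr, hpr, fun w hw => by tauto⟩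
      · exact ⟨p, q, by simp, by simp, hpr.symm, hqr.symm, hpq, fun w hw => by tauto⟩
    obtain ⟨u, hu, hux⟩ := mem_Ob.1 (hO x hx ▸ hy)
    obtain ⟨v, hv, hvx⟩ := mem_Ob.1 (hO x hx ▸ hz)
    have huy : u • y = x := by rw [← hux, ← mul_smul]; exact H u hu
    have hvz : v • z = x := by rw [← hvx, ← mul_smul]; exact H v hv
    have huz : u • z = z := by
      rcases e' (u • z) (Ob_sub_Big hz (mem_Ob.2 ⟨u, hu, rfl⟩)) with e1 | e1 | e1
      · exact absurd (by simpa using e1.trans huy.symm) hyz.symm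
      · exact absurd (by simpa using e1.trans hux.symm) hxz.symm
      · exact e1
    have hvy : v • y = y := by
      rcases e' (v • y) (Ob_sub_Big hy (mem_Ob.2 ⟨v, hv, rfl⟩)) with e1 | e1 | e1
      · exact absurd (by simpa using e1.trans hvz.symm) hyz
      · exact e1
      · exact absurd (by simpa using e1.trans hvx.symm) hxy.symm
    have := H (u * v) (mul_St hu hv)
    simp only [mul_smul, hvx, huz, hvz, hux] at this
    exact hxy this.symm
  set k := g * g with hk
  have hkS : k ∈ St G a b := mul_St hg hg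
  have hsupp : ∀ y : Ω, k • y ≠ y → y ∈ Big G a b := fun y hy => by
    by_contra hy'; exact hy (sq_fix hy' hg)
  -- `k` moves three points in a cycle
  have hcyc : ∀ y : Ω, k • y ≠ y → k • k • y ≠ y := by
    intro y hy e
    have hyB := hsupp y hy
    have hgy : g • y ≠ y := fun e1 => hy (by rw [hk, mul_smul, e1, e1])
    have m1 : g • y ∈ Big G a b := Ob_sub_Big hyB (mem_Ob.2 ⟨g, hg, rfl⟩)
    have m2 : k • y ∈ Big G a b := Ob_sub_Big hyB (mem_Ob.2 ⟨k, hkS, rfl⟩)
    have m3 : g • k • y ∈ Big G a b := Ob_sub_Big hyB (mem_Ob.2 ⟨g * k, mul_St hg hkS, by rw [mul_smul]⟩)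
    have n12 : g • y ≠ k • y := by rw [hk, mul_smul]; simpa using hgy.symm
    have hE : Big G a b = {y, g • y, k • y} := by
      symm
      apply eq_of_subset_of_card_le
      · intro w hw
        simp only [mem_insert, mem_singleton] at hw
        rcases hw with rfl | rfl | rfl <;> assumption
      · rw [h3]
        exact (card_eq_three.2 ⟨_, _, _, hgy.symm, hy.symm, n12, rfl⟩).ge
    rw [hE] at m3
    simp only [mem_insert, mem_singleton] at m3
    rcases m3 with e1 | e1 | e1
    · have : k • k • y = g • y := by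
        conv_lhs => rw [hk, mul_smul, ← hk, e1]
      exact hgy (this.symm.trans e)
    · exact hy (by simpa using e1)
    · rw [hk, mul_smul] at e1
      exact hy (by
        have e2 : g • g • y = g • y := by simpa using e1
        exact absurd (by simpa using e2) hgy)
  have hsup : ∀ (c d : Ω) (u : G), c ≠ d → u * k * u⁻¹ ∈ St G c d → Big G c d = (Big G a b).image (u • ·) := by
    intro c d u hcd hu
    symm
    apply eq_of_subset_of_card_le
    · intro w hw
      obtain ⟨y, hy, rfl⟩ := mem_image.1 hw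
      have hky : k • y ≠ y := by
        intro e
        have hE : Big G a b = {x, k • x, k • k • x} := by
          symm
          apply eq_of_subset_of_card_le
          · intro w hw
            simp only [mem_insert, mem_singleton] at hw
            rcases hw with rfl | rfl | rfl
            · exact hx
            · exact Ob_sub_Big hx (mem_Ob.2 ⟨k, hkS, rfl⟩)
            · exact Ob_sub_Big hx (mem_Ob.2 ⟨k * k, mul_St hkS hkS, by rw [mul_smul]⟩)
          · rw [h3]
            exact (card_eq_three.2 ⟨_, _, _, hgx.symm, (hcyc x hgx).symm, by simpa using hgx.symm, rfl⟩).ge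
        rw [hE] at hy
        simp only [mem_insert, mem_singleton] at hy
        rcases hy with rfl | rfl | rfl
        · exact hgx e
        · exact hgx (by simpa using e)
        · exact hgx (by simpa using e)
      rw [mem_Big]
      refine three_le_card (self_Ob _ _ _) (mem_Ob.2 ⟨_, hu, rfl⟩) (mem_Ob.2 ⟨_, mul_St hu hu, rfl⟩) ?_ ?_ ?_
      · simpa [mul_smul] using hky.symm
      · simpa [mul_smul] using (hcyc y hky).symm
      · simpa [mul_smul] using hky.symm
    · rw [card_Big h hab hcd, card_image_of_injective _ (MulAction.injective u)]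
  have haB : a ∉ Big G a b := by
    rw [mem_Big]
    have : Ob G a b a ⊆ {a} := by
      intro y hy
      obtain ⟨u, hu, rfl⟩ := mem_Ob.1 hy
      simp [(mem_St.1 hu).1]
    have := card_le_card this
    simp at this
    omega
  have hxa : x ≠ a := fun e => haB (e ▸ hx)
  obtain ⟨u, hux, huk⟩ := h x (k • x) x a hgx.symm hxa
  set T := Big G a b ∪ (Big G a b).image (u • ·) with hT
  have hTc : T.card ≤ 5 := by
    have h1 := card_union_add_card_inter (Big G a b) ((Big G a b).image (u • ·))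
    have h2 : 0 < (Big G a b ∩ (Big G a b).image (u • ·)).card :=
      card_pos.2 ⟨x, mem_inter.2 ⟨hx, mem_image.2 ⟨x, hx, hux⟩⟩⟩
    rw [card_image_of_injective _ (MulAction.injective u), h3, ← hT] at h1
    omega
  obtain ⟨c, hc, d, hd, hcd⟩ : ∃ c ∈ Tᶜ, ∃ d ∈ Tᶜ, c ≠ d := one_lt_card.1 (by rw [card_compl]; omega)
  have fix1 : ∀ w ∈ Tᶜ, k • w = w := fun w hw => by
    by_contra e
    exact mem_compl.1 hw (mem_union_left _ (hsupp w e))
  have fix2 : ∀ w ∈ Tᶜ, (u * k * u⁻¹) • w = w := fun w hw => by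
    by_contra e
    refine mem_compl.1 hw (mem_union_right _ (mem_image.2 ⟨u⁻¹ • w, hsupp _ fun e' => e ?_, by simp⟩))
    rw [mul_smul, mul_smul, e']; simp
  have e1 := hsup c d 1 hcd (by simpa using mem_St.2 ⟨fix1 c hc, fix1 d hd⟩)
  have e2 := hsup c d u hcd (mem_St.2 ⟨fix2 c hc, fix2 d hd⟩)
  have : a ∈ Big G c d := by
    rw [e2]; exact mem_image.2 ⟨k • x, Ob_sub_Big hx (mem_Ob.2 ⟨k, hkS, rfl⟩), huk⟩
  rw [e1] at this
  exact haB (by simpa using this)

omit [FaithfulSMul G Ω] in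
lemma sum_fx (a b : Ω) : ∑ g ∈ St G a b, fx Ω g = ∑ x : Ω, ((St G a b).filter fun g => g • x = x).card := by
  simp only [fx, card_filter]
  exact sum_comm

omit [FaithfulSMul G Ω] in
/-- few orbits -/
lemma sum_fx_le {a b : Ω} (hB : 4 ≤ (Big G a b).card) :
    2 * ∑ g ∈ St G a b, fx Ω g + 2 * (St G a b).card ≤ (St G a b).card * (Fintype.card Ω + (Ln G a b).card) := by
  set m := (St G a b).card with hm
  set s : Ω → ℕ := fun x => ((St G a b).filter fun g => g • x = x).card with hs
  have hos : ∀ x, (Ob G a b x).card * s x = m := fun x => card_Ob a b x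
  have hd : Disjoint (Ln G a b) (Big G a b) := by
    rw [disjoint_left]
    intro x hx hx'
    rw [mem_Big] at hx'
    have : Ob G a b x ⊆ {x} := by
      intro y hy
      obtain ⟨u, hu, rfl⟩ := mem_Ob.1 hy
      simp [mem_Ln.1 hx u hu]
    have := card_le_card this
    simp at this
    omega
  have h1 : ∑ x ∈ Ln G a b, s x ≤ (Ln G a b).card * m := by
    rw [← smul_eq_mul]; exact sum_le_card_nsmul _ _ _ fun x _ => card_filter_le _ _
  have h2 : 2 * ∑ x ∈ (Ln G a b ∪ Big G a b)ᶜ, s x ≤ (Ln G a b ∪ Big G a b)ᶜ.card * m := by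
    rw [mul_sum, ← smul_eq_mul]
    refine sum_le_card_nsmul _ _ _ fun x hx => ?_
    rw [← hos x]
    exact Nat.mul_le_mul_right _ (two_le_Ob fun h => mem_compl.1 hx (mem_union_left _ h))
  have h3 : 2 * ∑ x ∈ Big G a b, s x + 2 * m ≤ (Big G a b).card * m := by
    by_cases h6 : 6 ≤ (Big G a b).card
    · have : 3 * ∑ x ∈ Big G a b, s x ≤ (Big G a b).card * m := by
        rw [mul_sum, ← smul_eq_mul]
        refine sum_le_card_nsmul _ _ _ fun x hx => ?_
        rw [← hos x]
        exact Nat.mul_le_mul_right _ (mem_Big.1 hx)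
      have h7 : 6 * m ≤ (Big G a b).card * m := Nat.mul_le_mul_right _ h6
      omega
    · have hO : ∀ x ∈ Big G a b, Ob G a b x = Big G a b := by
        intro x hx
        by_contra hne
        obtain ⟨y, hy, hy'⟩ := exists_of_ssubset (ssubset_of_subset_of_ne (Ob_sub_Big hx) hne)
        have hdd : Disjoint (Ob G a b x) (Ob G a b y) := by
          rw [disjoint_left]
          intro z hz hz'
          exact hy' (by rw [← Ob_eq hz, Ob_eq hz']; exact self_Ob _ _ _)
        have := card_le_card (union_subset (Ob_sub_Big hx) (Ob_sub_Big hy))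
        rw [card_union_of_disjoint hdd] at this
        have := mem_Big.1 hx
        have := mem_Big.1 hy
        omega
      have : (Big G a b).card * ∑ x ∈ Big G a b, s x = (Big G a b).card * m := by
        rw [mul_sum, sum_congr rfl (g := fun _ => m) fun x hx => by rw [← hos x, hO x hx]]
        simp
      have h8 := Nat.eq_of_mul_eq_mul_left (by omega) this
      have h7 : 4 * m ≤ (Big G a b).card * m := Nat.mul_le_mul_right _ hB
      omega
  rw [sum_fx, ← sum_add_sum_compl (Ln G a b ∪ Big G a b), sum_union hd]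
  have h4 : (Ln G a b ∪ Big G a b)ᶜ.card + ((Ln G a b).card + (Big G a b).card) = Fintype.card Ω := by
    rw [← card_union_of_disjoint hd, add_comm, card_add_card_compl]
  rw [← h4]
  change 2 * (∑ x ∈ Ln G a b, s x + ∑ x ∈ Big G a b, s x + ∑ x ∈ (Ln G a b ∪ Big G a b)ᶜ, s x) + 2 * m ≤ _
  nlinarith

omit [FaithfulSMul G Ω] in
lemma card_G (h : T2 G Ω) {a b : Ω} (hab : a ≠ b) :
    Fintype.card G = Fintype.card Ω * (Fintype.card Ω - 1) * (St G a b).card := by
  rw [← card_univ, card_eq_sum_card_fiberwise (f := fun g : G => (g • a, g • b)) (t := (univ : Finset Ω).offDiag)]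
  · rw [sum_congr rfl (g := fun _ => (St G a b).card)]
    · simp [offDiag_card, Nat.mul_sub]
    · rintro ⟨c, d⟩ hp
      obtain ⟨u, rfl, rfl⟩ := h a b c d hab (mem_offDiag.1 hp).2.2
      symm
      refine card_bij (fun g _ => u * g) ?_ (fun g _ g' _ e => by simpa using e) ?_
      · intro g hg
        rw [mem_St] at hg
        simp [mul_smul, hg.1, hg.2]
      · intro g hg
        simp only [mem_filter, mem_univ, true_and, Prod.mk.injEq] at hg
        exact ⟨u⁻¹ * g, mem_St.2 ⟨by rw [mul_smul, hg.1]; simp, by rw [mul_smul, hg.2]; simp⟩, by simp⟩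
  · intro g _
    simpa using hab

/-- no doubly transitive group of degree 7 and order 84 -/
lemma not_84 (hn : Fintype.card Ω = 7) (hG : Fintype.card G = 84) {a b : Ω} (hab : a ≠ b) {t : G} (ht : t ∈ St G a b) :
    t = 1 := by
  have : Fact (Nat.Prime 7) := ⟨by norm_num⟩
  obtain ⟨P⟩ : Nonempty (Sylow 7 G) := inferInstance
  have hc : Nat.card G = 84 := by rw [Nat.card_eq_fintype_card, hG]
  have hP : Nat.card P = 7 := by
    rw [Sylow.card_eq_multiplicity, hc]
    have : (84 : ℕ) = 7 * 12 := by norm_num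
    rw [this, Nat.factorization_mul (by norm_num) (by norm_num)]
    simp [Nat.Prime.factorization (by norm_num : Nat.Prime 7), Nat.factorization_eq_zero_of_not_dvd]
  have hi : (P : Subgroup G).index = 12 := by
    have := (P : Subgroup G).card_mul_index
    rw [hP, hc] at this
    omega
  have h1 := card_sylow_modEq_one 7 G
  have h2 := P.card_dvd_index
  rw [hi] at h2
  have h3 : Nat.card (Sylow 7 G) = 1 := by
    have := Nat.le_of_dvd (by norm_num) h2
    unfold Nat.ModEq at h1
    interval_cases (Nat.card (Sylow 7 G)) <;> simp_all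
  have : Subsingleton (Sylow 7 G) := (Nat.card_eq_one_iff_unique.1 h3).1
  have hN : (P : Subgroup G).Normal := Sylow.normal_of_subsingleton P
  -- nonidentity elements of `P` have no fixed points
  have hgen : ∀ y ∈ (P : Subgroup G), y ≠ 1 → ∀ z ∈ (P : Subgroup G), z ∈ Subgroup.zpowers y := by
    intro y hy hy1 z hz
    have := mem_zpowers_of_prime_card (G := P) (p := 7) hP (g := ⟨y, hy⟩) (g' := ⟨z, hz⟩) (by simpa using hy1)
    obtain ⟨k, hk⟩ := this
    exact ⟨k, by simpa using congrArg Subtype.val hk⟩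
  have hfree : ∀ y ∈ (P : Subgroup G), ∀ x : Ω, y • x = x → y = 1 := by
    intro y hy x hx
    by_contra hy1
    obtain ⟨w, hw⟩ := exists_move (Ω := Ω) hy1
    have hinj : Function.Injective fun z : P => (z : G) • w := by
      intro z z' e
      by_contra hne
      have hz : ((z' : G)⁻¹ * z) ≠ 1 := fun e' => hne (Subtype.ext (by rw [inv_mul_eq_one] at e'; exact e'.symm))
      obtain ⟨k, hk⟩ := hgen _ (mul_mem (inv_mem z'.2) z.2) hz y hy
      have : ((z' : G)⁻¹ * z) ∈ MulAction.stabilizer G w := by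
        simp only [MulAction.mem_stabilizer_iff, mul_smul, inv_smul_eq_iff]; exact e
      exact hw (by rw [← hk]; exact zpow_mem this k)
    have hbij := hinj.bijective_of_nat_card_le (by rw [Nat.card_eq_fintype_card, hn]; exact hP.ge)
    obtain ⟨z, hz⟩ := hbij.2 x
    obtain ⟨k, hk⟩ := hgen y hy hy1 z z.2
    apply hw
    have hz' : (z : G) • w = x := hz
    have : (z : G) • y • w = (z : G) • w := by
      simp only at hk
      rw [← mul_smul, ← hk, (Commute.zpow_self y k).eq, mul_smul, hk, hz', hx]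
    simpa using this
  have hinj : Function.Injective fun z : P => (z : G) • a := by
    intro z z' e
    apply Subtype.ext
    have := hfree _ (mul_mem (inv_mem z'.2) z.2) a (by simp only [mul_smul, inv_smul_eq_iff]; exact e)
    rw [inv_mul_eq_one] at this
    exact this.symm
  have hbij := hinj.bijective_of_nat_card_le (by rw [Nat.card_eq_fintype_card, hn]; exact hP.ge)
  obtain ⟨y, hy⟩ := hbij.2 b
  have hy' : (y : G) • a = b := hy
  have hy1 : (y : G) ≠ 1 := fun e => hab (by rw [← hy', e, one_smul])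
  rw [mem_St] at ht
  have hc : (y : G)⁻¹ * (t * y * t⁻¹) = 1 := hfree _ (mul_mem (inv_mem y.2) (hN.conj_mem _ y.2 t)) a (by
    rw [mul_smul, inv_smul_eq_iff, mul_smul, mul_smul, (inv_smul_eq_iff.2 ht.1.symm : t⁻¹ • a = a), hy', ht.2])
  have hcomm : Commute t y := by
    rw [inv_mul_eq_one] at hc
    rw [Commute, SemiconjBy]
    conv_rhs => rw [hc]
    group
  by_contra h1
  obtain ⟨w, hw⟩ := exists_move (Ω := Ω) h1
  obtain ⟨z, hz⟩ := hbij.2 w
  obtain ⟨k, hk⟩ := hgen _ y.2 hy1 z z.2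
  apply hw
  have hz' : (z : G) • a = w := hz
  simp only at hk
  rw [← hz', ← mul_smul, ← hk, (hcomm.zpow_right k).eq, mul_smul, ht.1]

omit [Fintype G] [FaithfulSMul G Ω] in
lemma fx_one : fx Ω (1 : G) = Fintype.card Ω := by simp [fx]

omit [FaithfulSMul G Ω] in
lemma Ln_le_fx {a b : Ω} {g : G} (hg : g ∈ St G a b) : (Ln G a b).card ≤ fx Ω g :=
  card_le_card fun _ hx => mem_filter.2 ⟨mem_univ _, mem_Ln.1 hx g hg⟩

omit [Fintype G] [FaithfulSMul G Ω] in
lemma fx_parity {t : G} (ht : t * t = 1) : Fintype.card Ω ≡ fx Ω t [MOD 2] := by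
  have : Fact (Nat.Prime 2) := ⟨Nat.prime_two⟩
  have := Equiv.Perm.card_fixedPoints_modEq (p := 2) (n := 1) (f := fun x : Ω => t • x) (by
    funext x
    change t • t • x = x
    rw [← mul_smul, ht, one_smul])
  convert this using 1
  rw [fx, Fintype.card_subtype]
  congr 1

/-- the average of `n / fix g` over a nontrivial two-point stabilizer is at least two -/
theorem key (h : T2 G Ω) (hn : 7 ≤ Fintype.card Ω) {a b : Ω} (hab : a ≠ b) (hm : 2 ≤ (St G a b).card) :
    2 * ((St G a b).card : ℚ) ≤ ∑ g ∈ St G a b, (Fintype.card Ω : ℚ) / fx Ω g := by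
  set n := Fintype.card Ω with hn'
  set m := (St G a b).card with hm'
  set f := (Ln G a b).card with hf'
  have hf2 : 2 ≤ f := two_le_Ln hab
  have hpos : ∀ g ∈ St G a b, 2 ≤ fx Ω g := fun g hg => hf2.trans (Ln_le_fx hg)
  have hE : ((St G a b).erase 1).card + 1 = m := card_erase_add_one (one_St a b)
  have hEq : ((((St G a b).erase 1).card : ℕ) : ℚ) = m - 1 := by rw [← hE]; push_cast; ring
  have hsplit : ∑ g ∈ St G a b, (n : ℚ) / fx Ω g = 1 + ∑ g ∈ (St G a b).erase 1, (n : ℚ) / fx Ω g := by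
    rw [← add_sum_erase _ _ (one_St a b), fx_one, div_self (by positivity)]
  have hbd : ∀ g ∈ (St G a b).erase 1, fx Ω g * (f - 1) ≤ n - 1 := fun g hg => by
    obtain ⟨τ, hτ⟩ := exists_move (Ω := Ω) (mem_erase.1 hg).1
    exact bound_fx h hab hτ
  have hmq : (2 : ℚ) ≤ m := by exact_mod_cast hm
  have hnq : (7 : ℚ) ≤ n := by exact_mod_cast hn
  have easy : (∀ g ∈ (St G a b).erase 1, 3 * fx Ω g ≤ n) → 2 * (m : ℚ) ≤ ∑ g ∈ St G a b, (n : ℚ) / fx Ω g := by
    intro H
    have : ((St G a b).erase 1).card • (3 : ℚ) ≤ ∑ g ∈ (St G a b).erase 1, (n : ℚ) / fx Ω g := by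
      refine card_nsmul_le_sum _ _ _ fun g hg => ?_
      have := hpos g (mem_erase.1 hg).2
      rw [le_div_iff₀ (by positivity)]
      exact_mod_cast H g hg
    rw [nsmul_eq_mul, hEq] at this
    rw [hsplit]; linarith
  by_cases hf4 : 4 ≤ f
  · refine easy fun g hg => ?_
    have h1 := hbd g hg
    have : fx Ω g * 3 ≤ fx Ω g * (f - 1) := Nat.mul_le_mul_left _ (by omega)
    omega
  by_cases hB0 : Big G a b = ∅
  · have hB : ∀ c d : Ω, c ≠ d → Big G c d = ∅ := fun c d hcd => by
      rw [← card_eq_zero, card_Big h hab hcd, hB0, card_empty]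
    have hle : ∀ g ∈ (St G a b).erase 1, fx Ω g ≤ f := fun g hg => by
      refine card_le_card fun x hx => ?_
      by_contra hx'
      exact (mem_erase.1 hg).1 (eq_one_of_Big h hB hab hx' (mem_erase.1 hg).2 (mem_filter.1 hx).2)
    refine easy fun g hg => ?_
    have h1 := hle g hg
    by_contra hlt
    have h2 := Ln_le_fx (mem_erase.1 hg).2
    have hgg : g * g = 1 := by
      by_contra hne
      obtain ⟨x, hx⟩ := exists_move (Ω := Ω) hne
      exact hx (sq_fix (by simp [hB0]) (mem_erase.1 hg).2)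
    have h3 := fx_parity (Ω := Ω) hgg
    unfold Nat.ModEq at h3
    have hn7 : n = 7 := by omega
    obtain ⟨c, hc⟩ := exists_move (Ω := Ω) (mem_erase.1 hg).1
    have hcL : c ∉ Ln G a b := fun e => hc (mem_Ln.1 e g (mem_erase.1 hg).2)
    have hsub : (St G a b).erase 1 ⊆ {g} := by
      intro k hk
      have hkc : k • c ≠ c := fun e => (mem_erase.1 hk).1 (eq_one_of_Big h hB hab hcL (mem_erase.1 hk).2 e)
      have e := eq_of_not_Big (x := c) (by simp [hB0]) (mem_erase.1 hk).2 (mem_erase.1 hg).2 hkc hc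
      have := eq_one_of_Big h hB hab hcL (mul_St (inv_St (mem_erase.1 hg).2) (mem_erase.1 hk).2)
        (by rw [mul_smul, e]; simp)
      rw [inv_mul_eq_one] at this
      simp [this]
    have h4 := card_le_card hsub
    rw [card_singleton] at h4
    have hG := card_G h hab
    rw [← hn', ← hm', hn7, (by omega : m = 2)] at hG
    exact (mem_erase.1 hg).1 (not_84 hn7 hG hab (mem_erase.1 hg).2)
  have hB4 : 4 ≤ (Big G a b).card := by
    obtain ⟨x, hx⟩ := nonempty_iff_ne_empty.2 hB0
    have h1 := (mem_Big.1 hx).trans (card_le_card (Ob_sub_Big hx))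
    have h2 := Big_ne_three h hn hab
    omega
  have hW := sum_fx_le hB4
  rw [← hn', ← hm', ← hf'] at hW
  set W := ∑ g ∈ St G a b, fx Ω g with hW'
  have hWq : (W : ℚ) = ∑ g ∈ St G a b, (fx Ω g : ℚ) := by rw [hW']; push_cast; rfl
  have hdiv : ∀ s : Finset G, ∑ g ∈ s, (n : ℚ) / fx Ω g = n * ∑ g ∈ s, (1 : ℚ) ^ 2 / fx Ω g := fun s => by
    rw [mul_sum]; exact sum_congr rfl fun g _ => by ring
  by_cases hf : f = 2
  · have hT := sq_sum_div_le_sum_sq_div (St G a b) (fun _ => (1 : ℚ)) (g := fun g => (fx Ω g : ℚ))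
      fun g hg => by have := hpos g hg; positivity
    rw [← hWq, sum_const, nsmul_eq_mul, mul_one, ← hm'] at hT
    have hW0 : (0 : ℚ) < W := by
      rw [hWq]; exact sum_pos (fun g hg => by have := hpos g hg; positivity) ⟨1, one_St _ _⟩
    have h1 : (2 : ℚ) * W ≤ m * n := by
      rw [hf] at hW
      have : 2 * W ≤ m * n := by nlinarith
      exact_mod_cast this
    rw [hdiv]
    refine le_trans ?_ (mul_le_mul_of_nonneg_left hT (by positivity))
    rw [← mul_div_assoc, le_div_iff₀ hW0]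
    nlinarith
  have hf3 : f = 3 := by omega
  rw [hf3] at hW hbd
  have h1 : (2 : ℚ) * W ≤ m * (n + 1) := by
    have : 2 * W ≤ m * (n + 1) := by nlinarith
    exact_mod_cast this
  rw [hsplit]
  by_cases hc : n + 1 ≤ 2 * m
  · have : ((St G a b).erase 1).card • (2 * n / (n - 1) : ℚ) ≤ ∑ g ∈ (St G a b).erase 1, (n : ℚ) / fx Ω g := by
      refine card_nsmul_le_sum _ _ _ fun g hg => ?_
      have := hpos g (mem_erase.1 hg).2
      have h2 : fx Ω g * 2 + 1 ≤ n := by have := hbd g hg; omega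
      have h3 : (fx Ω g : ℚ) * 2 + 1 ≤ n := by exact_mod_cast h2
      rw [div_le_div_iff₀ (by linarith) (by positivity)]
      nlinarith
    rw [nsmul_eq_mul, hEq] at this
    have hcq : (n : ℚ) + 1 ≤ 2 * m := by exact_mod_cast hc
    have h2 : 2 * (m : ℚ) - 1 ≤ (m - 1) * (2 * n / (n - 1)) := by
      rw [← mul_div_assoc, le_div_iff₀ (by linarith)]
      nlinarith
    linarith
  · have hT := sq_sum_div_le_sum_sq_div ((St G a b).erase 1) (fun _ => (1 : ℚ)) (g := fun g => (fx Ω g : ℚ))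
      fun g hg => by have := hpos g (mem_erase.1 hg).2; positivity
    have hW1 : ∑ g ∈ (St G a b).erase 1, (fx Ω g : ℚ) = W - n := by
      rw [hWq, ← add_sum_erase _ _ (one_St a b), fx_one]; ring
    have hW0 : (0 : ℚ) < W - n := by
      rw [← hW1]
      exact sum_pos (fun g hg => by have := hpos g (mem_erase.1 hg).2; positivity) (card_pos.1 (by omega))
    rw [hW1, sum_const, nsmul_eq_mul, mul_one, hEq] at hT
    have hcq : 2 * (m : ℚ) ≤ n := by exact_mod_cast (by omega : 2 * m ≤ n)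
    have h2 : 2 * (m : ℚ) - 1 ≤ n * ((m - 1) ^ 2 / (W - n)) := by
      rw [← mul_div_assoc, le_div_iff₀ hW0]
      have : (2 * (m : ℚ) - 1) * (2 * (W - n)) ≤ (2 * m - 1) * (m * (n + 1) - 2 * n) :=
        mul_le_mul_of_nonneg_left (by linarith) (by linarith)
      nlinarith
    rw [hdiv]
    have := mul_le_mul_of_nonneg_left hT (by positivity : (0 : ℚ) ≤ n)
    linarith

omit [FaithfulSMul G Ω] in
lemma sum_pairs (φ : G → ℚ) : ∑ g : G, (fx Ω g : ℚ) * (fx Ω g - 1) * φ g =
    ∑ p ∈ (univ : Finset Ω).offDiag, ∑ g ∈ St G p.1 p.2, φ g := by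
  have : ∀ g : G, (fx Ω g : ℚ) * (fx Ω g - 1) * φ g =
      ∑ p ∈ (univ : Finset Ω).offDiag, if g • p.1 = p.1 ∧ g • p.2 = p.2 then φ g else 0 := by
    intro g
    rw [← sum_filter, sum_const, nsmul_eq_mul]
    congr 1
    have e : ((univ : Finset Ω).offDiag.filter fun p => g • p.1 = p.1 ∧ g • p.2 = p.2) =
        (univ.filter fun x : Ω => g • x = x).offDiag := by
      ext p; simp [mem_offDiag]; tauto
    rw [e, offDiag_card, Nat.cast_sub (Nat.le_mul_self _), fx]
    push_cast; ring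
  rw [sum_congr rfl fun g _ => this g, sum_comm]
  refine sum_congr rfl fun p _ => ?_
  rw [St, sum_filter]

omit [FaithfulSMul G Ω] in
lemma burnside (X : Type*) [MulAction G X] [Fintype X] :
    ∑ g : G, fx X g = Fintype.card (Quotient (MulAction.orbitRel G X)) * Fintype.card G := by
  rw [← MulAction.sum_card_fixedBy_eq_card_orbits_mul_card_group G X]
  refine sum_congr rfl fun g _ => ?_
  rw [fx, Fintype.card_subtype]
  congr 1

omit [FaithfulSMul G Ω] [Fintype G] in
lemma fx_prod (g : G) : fx (Ω × Ω) g = fx Ω g * fx Ω g := by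
  rw [fx, fx, ← card_product]
  congr 1
  ext p; simp [Prod.ext_iff]

omit [FaithfulSMul G Ω] in
lemma sum_fx_univ [MulAction.IsPretransitive G Ω] [Nonempty Ω] : ∑ g : G, fx Ω g = Fintype.card G := by
  rw [burnside, Fintype.card_eq_one_iff_nonempty_unique.2, one_mul]
  have : Subsingleton (Quotient (MulAction.orbitRel G Ω)) := ⟨fun x y => by
    induction x using Quotient.inductionOn
    induction y using Quotient.inductionOn
    exact Quotient.sound (MulAction.mem_orbit_iff.2 (MulAction.exists_smul_eq G _ _))⟩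
  exact ⟨@uniqueOfSubsingleton _ _ (Quotient.mk _ (Classical.arbitrary Ω))⟩

omit [FaithfulSMul G Ω] in
lemma sum_sq_of_not (h : ¬ T2 G Ω) : 3 * Fintype.card G ≤ ∑ g : G, fx Ω g * fx Ω g := by
  rw [sum_congr rfl fun g _ => (fx_prod g).symm, burnside]
  refine Nat.mul_le_mul_right _ ?_
  unfold T2 at h
  push Not at h
  obtain ⟨a, b, c, d, hab, hcd, H⟩ := h
  rw [← card_univ]
  refine three_le_card (x := Quotient.mk _ (a, a)) (y := Quotient.mk _ (a, b)) (z := Quotient.mk _ (c, d))
    (mem_univ _) (mem_univ _) (mem_univ _) ?_ ?_ ?_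
  · intro e
    obtain ⟨g, hg⟩ := MulAction.mem_orbit_iff.1 (Quotient.exact e)
    simp only [Prod.smul_mk, Prod.mk.injEq] at hg
    exact hab (by simpa using hg.1.trans hg.2.symm)
  · intro e
    obtain ⟨g, hg⟩ := MulAction.mem_orbit_iff.1 (Quotient.exact e)
    simp only [Prod.smul_mk, Prod.mk.injEq] at hg
    exact hcd (by simpa using hg.1.trans hg.2.symm)
  · intro e
    obtain ⟨g, hg⟩ := MulAction.mem_orbit_iff.1 (Quotient.exact e.symm)
    simp only [Prod.smul_mk, Prod.mk.injEq] at hg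
    exact H g hg.1 hg.2

omit [FaithfulSMul G Ω] in
/-- the derangement identity -/
lemma der_eq [MulAction.IsPretransitive G Ω] [Nonempty Ω] :
    (Fintype.card Ω : ℚ) * (univ.filter fun g : G => ∀ x : Ω, g • x ≠ x).card =
      ∑ g : G, (fx Ω g : ℚ) * (fx Ω g - 1) + ∑ g : G, (fx Ω g : ℚ) * (fx Ω g - 1) * (Fintype.card Ω / fx Ω g - 1) := by
  have h1 : ∑ g : G, (fx Ω g : ℚ) = Fintype.card G := by exact_mod_cast sum_fx_univ (G := G) (Ω := Ω)
  have h2 : ∀ g : G, (Fintype.card Ω : ℚ) * (if ∀ x : Ω, g • x ≠ x then 1 else 0) =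
      (fx Ω g : ℚ) * (fx Ω g - 1) + (fx Ω g : ℚ) * (fx Ω g - 1) * (Fintype.card Ω / fx Ω g - 1)
        - Fintype.card Ω * (fx Ω g - 1) := by
    intro g
    split_ifs with hg
    · have : fx Ω g = 0 := by rw [fx, card_eq_zero, filter_eq_empty_iff]; exact fun x _ => hg x
      simp [this]
    · have : (fx Ω g : ℚ) ≠ 0 := by
        push Not at hg
        obtain ⟨x, hx⟩ := hg
        have : 0 < fx Ω g := card_pos.2 ⟨x, mem_filter.2 ⟨mem_univ _, hx⟩⟩
        positivity
      field_simp; ring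
  rw [card_filter, Nat.cast_sum, mul_sum, sum_congr rfl fun g _ => by rw [Nat.cast_ite, Nat.cast_one, Nat.cast_zero, h2 g],
    sum_sub_distrib, sum_add_distrib, ← mul_sum, sum_sub_distrib, h1]
  simp

end

end H9.Der
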