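import Cfsg.Agent.H15.Kl0
import Cfsg.Agent.H7.PPart
import Mathlib.GroupTheory.FixedPointFree

/-! Piece `PE` of S4606: an automizer of even order has order prime to `p` (`H9.KlE.pE`). -/

set_option autoImplicit false

namespace H9.KlE
open Subgroup Cfsg H7 H15.Kl
open scoped commutatorElement
universe u

theorem pE : PE.{u} := by
  intro G _ _ p hp D h2 hC hF hD D1 e2 ep
  set φ := D.normalizerMonoidHom with hφ
  have hc : Nat.card φ.range = (centralizer (D : Set G)).relIndex (normalizer (D : Set G)) := by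
    rw [← index_ker, hφ, normalizerMonoidHom_ker]; rfl
  rw [← hc] at e2 ep
  obtain ⟨⟨σ, n, hn⟩, hσ⟩ := exists_prime_orderOf_dvd_card' 2 e2
  obtain ⟨⟨ρ, m, hm⟩, hρ⟩ := exists_prime_orderOf_dvd_card' p ep
  rw [← orderOf_coe] at hσ hρ
  dsimp only at hσ hρ
  have nσ : ¬ p ∣ orderOf σ := by
    rw [hσ]; exact fun h => h2 ((Nat.prime_dvd_prime_iff_eq hp.out Nat.prime_two).1 h)
  have σ1 : σ ≠ 1 := by rintro rfl; simp at hσ
  have act : ∀ (a : normalizer (D : Set G)) (x : D), ((φ a x : D) : G) = a * x * (a : G)⁻¹ :=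
    fun _ _ => rfl
  have inv : ∀ x, σ x = x⁻¹ := by
    have t1 : φ (pr p n) = σ := by rw [← pr_map, hn, pr_of_not_dvd nσ]
    have fp : MonoidHom.FixedPointFree σ := fun x hx => by
      by_contra x1
      refine σ1 (MulEquiv.ext fun y => Subtype.ext ?_)
      have := hF D (pr p n : normalizer (D : Set G)) x hD (pr p n).2
        (by rw [orderOf_coe]; exact not_dvd_orderOf_pr n) x.2 (fun e => x1 (Subtype.ext e))
        (by have := act (pr p n) x
            rw [t1, hx] at this
            exact eq_mul_inv_iff_mul_eq.1 this) y y.2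
      rw [← t1, act, ← this.eq]; simp
    have i2 : Function.Involutive σ := fun x => by
      have : σ ^ 2 = 1 := hσ ▸ pow_orderOf_eq_one σ
      rw [← MulAut.mul_apply, ← sq, this]; rfl
    exact congrFun (fp.coe_eq_inv_of_involutive i2)
  have cm : Commute ρ σ := MulEquiv.ext fun x => by simp [inv]
  have pρ : IsPE p ρ := ⟨1, by rw [hρ, pow_one]⟩
  have a1 : φ (pp p (m * n)) = ρ := by rw [← pp_map, map_mul, hm, hn, pp_mul_of pρ nσ cm]
  have a2 : φ (pr p (m * n)) = σ := by rw [← pr_map, map_mul, hm, hn, pr_mul_of pρ nσ cm]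
  have ρ1 : ρ ≠ 1 := by rintro rfl; exact hp.out.one_lt.ne (by simpa using hρ)
  have dD : p ∣ Nat.card D := by
    haveI := (nontrivial_iff_ne_bot D).2 D1
    obtain ⟨k, hk, e⟩ := hD.nontrivial_iff_card.1 inferInstance
    rw [e]; exact dvd_pow_self p hk.ne'
  obtain ⟨x, hx, x1⟩ := pρ.isPGroup_zpowers.exists_fixed_point_of_prime_dvd_card_of_fixed_point D dD
    (a := 1) fun g => map_one (g : MulAut D)
  have hx : ρ x = x := hx ⟨ρ, mem_zpowers ρ⟩
  obtain ⟨k, hk⟩ := (isPE_pp (p := p) (m * n)).exists_pow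
  have := hC (pp p (m * n) : normalizer (D : Set G)) (pr p (m * n) : normalizer (D : Set G)) x
    (fun e => ρ1 (by rw [← a1, show pp p (m * n) = 1 from Subtype.ext e, map_one]))
    ⟨k, congrArg Subtype.val hk⟩ (congrArg Subtype.val (commute_pp_pr (m * n)).eq)
    (by have := act (pp p (m * n)) x
        rw [a1, hx] at this
        exact (eq_mul_inv_iff_mul_eq.1 this).symm)
    (by rw [orderOf_coe]; exact not_dvd_orderOf_pr _)
  rw [commutatorElement_def, ← act, a2, inv] at this
  have e : x⁻¹ * x⁻¹ = 1 := Subtype.ext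
    ((isPE_of_mem hD (mul_mem (inv_mem x.2) (inv_mem x.2))).eq_one this)
  refine x1 (Subtype.ext ((isPE_of_mem hD x.2).eq_one fun h => h2 ?_)).symm
  rw [orderOf_coe, ← orderOf_inv] at h
  exact (Nat.prime_dvd_prime_iff_eq hp.out Nat.prime_two).1
    (h.trans (orderOf_dvd_of_pow_eq_one (by rw [sq, e])))

end H9.KlE
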