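import Cfsg.Agent.H9.PSg

/-! A Bessel inequality on a group `P` with a central subgroup `Z` and a group of automorphisms
acting semiregularly on `Z#` modulo inner ones (`bessel`), and the arithmetic of S3297 (`num1`,
`num2`). -/

open H5 Cfsg
open scoped ComplexConjugate

namespace H9.Lf

variable {P : Type*} [Group P] [Fintype P]

theorem cent_mul {β : P → ℂ} (hβ : IsIrrCharacter P β) {z : P} (hz : ∀ u, z * u = u * z) (w : P) :
    β 1 * β (z * w) = β z * β w := by
  have h := hβ.sum_conj_mul z w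
  simp only [← hz, mul_inv_cancel_right, Finset.sum_const, Finset.card_univ, nsmul_eq_mul,
    ← Nat.card_eq_fintype_card] at h
  have h1 := hβ.apply_one_ne_zero
  have h2 := card_ne_zero_complex (G := P)
  field_simp at h
  linear_combination h

open Classical in
theorem sumZ_zero {β : P → ℂ} (hβ : IsIrrCharacter P β) {Z : Subgroup P}
    (hZ : ∀ z ∈ Z, ∀ u, z * u = u * z) {z0 : P} (h0 : z0 ∈ Z) (h1 : β z0 ≠ β 1) :
    ∑ z with z ∈ Z, β z = 0 := by
  have e : ∑ z with z ∈ Z, β (z0 * z) = ∑ z with z ∈ Z, β z :=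
    Finset.sum_equiv (Equiv.mulLeft z0) (fun z => by simp [Z.mul_mem_cancel_left h0])
      fun z _ => rfl
  have e2 : β 1 * ∑ z with z ∈ Z, β (z0 * z) = β z0 * ∑ z with z ∈ Z, β z := by
    simp only [Finset.mul_sum, cent_mul hβ (hZ z0 h0)]
  rw [e] at e2
  exact (mul_eq_mul_right_iff.1 e2).resolve_left h1.symm

theorem ne_of_fpf {β : P → ℂ} (hβ : IsIrrCharacter P β) {Z : Subgroup P}
    (hZ : ∀ z ∈ Z, ∀ u, z * u = u * z) {z0 : P} (h0 : z0 ∈ Z) (h1 : β z0 ≠ β 1) {α : MulAut P}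
    (hα : ∀ z ∈ Z, α z ∈ Z) (hf : ∀ z ∈ Z, α z = z → z = 1) : ∃ u, β (α u) ≠ β u := by
  by_contra! hh
  let f : Z → Z := fun z => ⟨(z : P)⁻¹ * α z, mul_mem (inv_mem z.2) (hα z z.2)⟩
  have hi : Function.Injective f := fun a b e => by
    have e1 : (a : P)⁻¹ * α a = (b : P)⁻¹ * α b := congrArg Subtype.val e
    have e2 : α (a * b⁻¹ : Z) = (a * b⁻¹ : Z) := by
      have : α a = a * ((b : P)⁻¹ * α b) := by rw [← e1]; group
      simp only [Subgroup.coe_mul, Subgroup.coe_inv, map_mul, map_inv, this]; group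
    exact Subtype.ext (mul_inv_eq_one.1 (hf _ (a * b⁻¹).2 e2))
  obtain ⟨z, hz⟩ := Finite.surjective_of_injective hi ⟨z0, h0⟩
  have hz : (z : P)⁻¹ * α z = z0 := congrArg Subtype.val hz
  have e1 := cent_mul hβ (hZ z z.2) z0
  have e2 := cent_mul hβ (hZ z z.2) (z : P)⁻¹
  rw [← hz, mul_inv_cancel_left, hh, hz] at e1
  rw [mul_inv_cancel] at e2
  have : β z ≠ 0 := fun e => hβ.apply_one_ne_zero (by rw [e, zero_mul] at e2; simpa using e2)
  exact h1 (mul_left_cancel₀ this (by linear_combination -e1))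

open Classical in
theorem bessel {N : Type*} [Group N] [Fintype N] (φ : N →* MulAut P) (N0 : Subgroup N)
    (h0 : ∀ n ∈ N0, ∃ s, ∀ u, φ n u = s * u * s⁻¹) {Z : Subgroup P}
    (hZ : ∀ z ∈ Z, ∀ u, z * u = u * z) (hα : ∀ n, ∀ z ∈ Z, φ n z ∈ Z)
    (hf : ∀ n ∉ N0, ∀ z ∈ Z, φ n z = z → z = 1) {ψ : P → ℂ} (hψ : IsCharacter P ψ)
    (hi : ∀ n u, ψ (φ n u) = ψ u) {z0 : P} (hz : z0 ∈ Z) (h1 : ψ z0 ≠ ψ 1) :
    ‖∑ z with z ∈ Z, ψ z‖ ^ 2 / Nat.card Z + N0.index * Nat.card P ≤ ∑ u, ‖ψ u‖ ^ 2 := by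
  obtain ⟨m, hm, he⟩ := hψ.exists_nat
  obtain ⟨β, hb, mb⟩ : ∃ β : IrrCharacter P, (β : P → ℂ) z0 ≠ (β : P → ℂ) 1 ∧ m β ≠ 0 := by
    by_contra! hh
    apply h1
    rw [he]
    simp only [Finset.sum_apply, Pi.smul_apply, smul_eq_mul]
    refine Finset.sum_congr rfl fun β _ => ?_
    by_cases e : (β : P → ℂ) z0 = (β : P → ℂ) 1
    · rw [e]
    · simp [hh β e]
  set b : N → P → ℂ := fun n u => (β : P → ℂ) (φ n u) with hbd
  have bi : ∀ n, IsIrrCharacter P (b n) := fun n => β.2.comp_equiv (φ n)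
  have bb : ∀ n n', classInner (b n) (b n') = if n * n'⁻¹ ∈ N0 then 1 else 0 := by
    intro n n'
    rw [(bi n).classInner_eq (bi n')]
    congr 1
    refine propext ⟨fun e => ?_, fun e => ?_⟩
    · by_contra hn
      obtain ⟨u, hu⟩ := ne_of_fpf β.2 hZ hz hb (hα (n * n'⁻¹)) (hf _ hn)
      apply hu
      have := congrFun e (φ n'⁻¹ u)
      simpa [hbd] using this
    · obtain ⟨s, hs⟩ := h0 _ e
      funext u
      have := hs (φ n' u)
      simp only [map_mul, map_inv, MulAut.mul_apply, MulAut.inv_apply_self] at this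
      simp only [hbd, this, β.2.isClassFunction _ _]
  set S := ∑ z with z ∈ Z, ψ z with hS
  set I : P → ℂ := fun u => if u ∈ Z then 1 else 0 with hI
  set θ : P → ℂ := (Nat.card N0 : ℂ)⁻¹ • ∑ n, b n with hθ
  have c0 := card_ne_zero_complex (G := N0)
  have cP := card_ne_zero_complex (G := P)
  have cZ := card_ne_zero_complex (G := Z)
  have cN : (Fintype.card N : ℂ) = N0.index * Nat.card N0 := by
    rw [← Nat.card_eq_fintype_card, ← N0.index_mul_card]; push_cast; ring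
  have inI : ∀ f : P → ℂ, classInner f I = (Nat.card P : ℂ)⁻¹ * ∑ z with z ∈ Z, f z := by
    intro f
    rw [classInner, Finset.sum_filter]
    congr 1
    exact Finset.sum_congr rfl fun u _ => by simp only [hI]; split_ifs <;> simp
  have i1 : classInner ψ I = (Nat.card P : ℂ)⁻¹ * S := inI ψ
  have i2 : classInner I I = (Nat.card P : ℂ)⁻¹ * Nat.card Z := by
    rw [inI, Finset.sum_congr rfl (g := fun _ => (1 : ℂ)) fun u hu => by
      simp [hI, (Finset.mem_filter.1 hu).2]]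
    simp [Fintype.card_subtype]
  have i3 : classInner θ I = 0 := by
    rw [hθ, classInner_smul_left, classInner_sum_left, Finset.sum_eq_zero, mul_zero]
    intro n _
    rw [inI, sumZ_zero (bi n) hZ (hα n⁻¹ z0 hz) (by simpa [hbd] using hb), mul_zero]
  have i4 : classInner ψ θ = N0.index * m β := by
    rw [hθ, classInner_smul_right, classInner_sum_right,
      Finset.sum_congr rfl (g := fun _ => (m β : ℂ)) fun n _ => by
        rw [← hm, ← classInner_comp_equiv (φ := ψ) (ψ := β) (φ n)]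
        simp only [hi, hbd]]
    simp only [map_inv₀, map_natCast, Finset.sum_const, Finset.card_univ, nsmul_eq_mul, cN]
    field_simp
  have i5 : classInner θ θ = N0.index := by
    rw [hθ, classInner_smul_right, classInner_smul_left, classInner_sum_right,
      Finset.sum_congr rfl (g := fun _ => (Nat.card N0 : ℂ)) fun n _ => by
        rw [classInner_sum_left]
        simp only [bb]
        rw [← Equiv.sum_comp (Equiv.mulRight n)]
        simp [Fintype.card_subtype]]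
    simp only [map_inv₀, map_natCast, Finset.sum_const, Finset.card_univ, nsmul_eq_mul, cN]
    field_simp
  set a : ℂ := S / Nat.card Z with ha
  have key : classInner (ψ - a • I - θ) (ψ - a • I - θ) = classInner ψ ψ -
      (Nat.card P : ℂ)⁻¹ * (S * conj S / Nat.card Z) - 2 * (N0.index * m β) + N0.index := by
    simp only [classInner_sub_left, classInner_sub_right, classInner_smul_left,
      classInner_smul_right]
    rw [← classInner_conj_symm (φ := ψ) (ψ := I), ← classInner_conj_symm (φ := θ) (ψ := I),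
      ← classInner_conj_symm (φ := ψ) (ψ := θ), i1, i2, i3, i4, i5, ha]
    simp only [map_mul, map_inv₀, map_natCast, map_div₀, map_zero]
    field_simp
    ring
  rw [classInner_self, classInner_self, Complex.mul_conj, Complex.normSq_eq_norm_sq] at key
  have key : (Nat.card P : ℝ)⁻¹ * ∑ g, ‖(ψ - a • I - θ) g‖ ^ 2 = (Nat.card P : ℝ)⁻¹ * ∑ g, ‖ψ g‖ ^ 2 -
      (Nat.card P : ℝ)⁻¹ * (‖S‖ ^ 2 / Nat.card Z) - 2 * (N0.index * m β) + N0.index := by
    apply Complex.ofReal_injective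
    push_cast at key ⊢
    exact key
  have p0 : (0 : ℝ) < Nat.card P := by exact_mod_cast Nat.card_pos
  have p1 : (0 : ℝ) ≤ ∑ g, ‖(ψ - a • I - θ) g‖ ^ 2 := by positivity
  have p2 : (1 : ℝ) ≤ m β := by exact_mod_cast Nat.pos_of_ne_zero mb
  have p3 : (0 : ℝ) ≤ N0.index := by positivity
  have key2 : ∑ g, ‖(ψ - a • I - θ) g‖ ^ 2 = ∑ g, ‖ψ g‖ ^ 2 - ‖S‖ ^ 2 / Nat.card Z -
      Nat.card P * (2 * (N0.index * m β) - N0.index) := by
    field_simp at key ⊢
    linear_combination key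
  nlinarith [mul_nonneg (mul_nonneg p0.le p3) (sub_nonneg.2 p2)]

theorem num1 {ι : Type*} (B : Finset ι) (s n : ι → ℝ) {o : ι} (ho : o ∈ B) {X r E : ℝ}
    (so : s o = X) (no : n o = 1) (hn : ∀ i ∈ B, 0 < n i) (hr : 0 ≤ r)
    (h3 : ∀ i ∈ B, i ≠ o → (n i + s i) ^ 2 ≤ r ^ 2 * n i ^ 2) (h1 : ∑ i ∈ B, s i ^ 2 = X * E) :
    ∑ i ∈ B, s i ^ 3 / n i ≤ X ^ 3 + (r - 1) * (X * E - X ^ 2) := by
  classical
  rw [← h1, ← Finset.add_sum_erase _ _ ho, ← Finset.add_sum_erase _ _ ho, so, no, div_one,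
    add_sub_cancel_left, Finset.mul_sum]
  gcongr with i hi
  have h := h3 i (Finset.mem_of_mem_erase hi) (Finset.ne_of_mem_erase hi)
  have p := hn i (Finset.mem_of_mem_erase hi)
  have : n i + s i ≤ r * n i := by
    rw [← mul_pow] at h
    exact (abs_le_of_sq_le_sq' h (by positivity)).2
  rw [div_le_iff₀ p]
  nlinarith [mul_le_mul_of_nonneg_left this (sq_nonneg (s i))]

theorem num2 {q e c : ℕ} (hq : Odd q) (e2 : 2 ≤ e) (eq : e + 1 ≤ q) (hc : q ∣ c) (c0 : 0 < c)
    {r A : ℝ} (hr : 0 ≤ r) (rq : r ^ 2 = q)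
    (h : e * c * A ≤ (q - 1) ^ 3 + (r - 1) * ((q - 1) * (e * c) - (q - 1) ^ 2))
    (h1 : ((q : ℝ) - 1) ^ 2 ≤ 2 * A) (h2 : ((q : ℝ) - 1) * (q - 1 - e) ≤ A) : c = 3 ∨ c = 5 := by
  have q3 : (3 : ℝ) ≤ q := by exact_mod_cast (by omega : 3 ≤ q)
  have r1 : 1 < r := by nlinarith
  have qc : (q : ℝ) ≤ c := by exact_mod_cast Nat.le_of_dvd c0 hc
  have E0 : (0 : ℝ) ≤ e * c := by positivity
  have k1 : (e * c : ℝ) ≤ 2 * r ^ 2 + 2 * r := by
    have h4 : (e * c : ℝ) * (q - 1) ^ 2 ≤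
        2 * ((q - 1) ^ 3 + (r - 1) * ((q - 1) * (e * c) - (q - 1) ^ 2)) := by
      nlinarith [mul_le_mul_of_nonneg_left h1 E0]
    rw [← rq] at h4
    have p : 0 < (r ^ 2 - 1) * (r - 1) ^ 2 := by
      have : 0 < r ^ 2 - 1 := by nlinarith
      have : 0 < r - 1 := by linarith
      positivity
    refine le_of_mul_le_mul_left ?_ p
    nlinarith
  obtain rfl : e = 2 := by
    by_contra hne
    have e3 : (3 : ℝ) ≤ e := by exact_mod_cast (by omega : 3 ≤ e)
    have : 3 * r ^ 2 ≤ e * c := by rw [rq]; gcongr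
    have r2 : r ≤ 2 := by nlinarith
    have : (q : ℝ) ≤ 4 := by nlinarith
    have : q ≤ 4 := by exact_mod_cast this
    obtain ⟨k, hk⟩ := hq
    omega
  obtain rfl : c = q := by
    obtain ⟨k, rfl⟩ := hc
    have : (q * k : ℝ) < q * 2 := by push_cast at k1; nlinarith
    have : q * k < q * 2 := by exact_mod_cast this
    have := Nat.lt_of_mul_lt_mul_left this
    have : k ≠ 0 := by rintro rfl; omega
    rw [show k = 1 by omega, mul_one]
  have : c < 7 := by
    by_contra hh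
    have c7 : (7 : ℝ) ≤ c := by exact_mod_cast (by omega : 7 ≤ c)
    push_cast at h h2
    have h4 : (c - 1 : ℝ) * (2 * c * (c - 3)) ≤ (c - 1) * ((c - 1) ^ 2 + (r - 1) * (c + 1)) := by
      nlinarith [mul_le_mul_of_nonneg_left h2 (by positivity : (0 : ℝ) ≤ 2 * c)]
    have h5 := le_of_mul_le_mul_left h4 (by linarith)
    have h6 : 5 * r ≤ c + 25 / 4 := by nlinarith [sq_nonneg (r - 5 / 2)]
    nlinarith [mul_le_mul_of_nonneg_right h6 (by linarith : (0 : ℝ) ≤ c + 1)]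
  obtain ⟨k, hk⟩ := hq
  omega

end H9.Lf
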