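import Cfsg.Agent.H9.Lf0
import Cfsg.Agent.H9.Lf1
import Cfsg.Agent.H7.Homo
import Cfsg.Agent.H3.PNilpotent

/-! Class counts under the hypotheses of S3297: `Zg` (`Ω₁ Z(P)`), `N0` (`P C(P)`), `pnil`,
`mem_N0`, `cnt_le`, `cnt_Z`, `mu_val`. -/

open H5 H7 Cfsg Subgroup

namespace H9.Lf

universe u

variable {G : Type u} [Group G] {p : ℕ}

def Zg (p : ℕ) (P : Subgroup G) : Subgroup G where
  carrier := {x | Zs p P x}
  one_mem' := ⟨one_mem _, one_pow _, by simp⟩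
  mul_mem' := fun {a b} ha hb => ⟨mul_mem ha.1 hb.1,
    by rw [Commute.mul_pow (ha.2.2 b hb.1), ha.2.1, hb.2.1, mul_one],
    fun y hy => by rw [mul_assoc, hb.2.2 y hy, ← mul_assoc, ha.2.2 y hy, mul_assoc]⟩
  inv_mem' := fun {a} ha => ⟨inv_mem ha.1, by rw [inv_pow, ha.2.1, inv_one],
    fun y hy => (Commute.inv_left (ha.2.2 y hy)).eq⟩

def N0 (P : Subgroup G) : Subgroup G where
  carrier := {g | ∃ s ∈ P, ∀ y ∈ P, g * y * g⁻¹ = s * y * s⁻¹}
  one_mem' := ⟨1, one_mem _, fun _ _ => rfl⟩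
  mul_mem' := fun {a b} ⟨s, hs, h⟩ ⟨t, ht, h'⟩ => ⟨s * t, mul_mem hs ht, fun y hy => by
    rw [show a * b * y * (a * b)⁻¹ = a * (b * y * b⁻¹) * a⁻¹ by group, h' y hy,
      h _ (mul_mem (mul_mem ht hy) (inv_mem ht))]; group⟩
  inv_mem' := fun {a} ⟨s, hs, h⟩ => ⟨s⁻¹, inv_mem hs, fun y hy => by
    have := h (s⁻¹ * y * s) (mul_mem (mul_mem (inv_mem hs) hy) hs)
    rw [show s * (s⁻¹ * y * s) * s⁻¹ = y by group] at this
    conv_lhs => rw [← this]
    group⟩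

theorem N0_le (P : Subgroup G) : N0 P ≤ normalizer (P : Set G) := fun g hg =>
  mem_normalizer_iff.2 fun y => by
    have k : ∀ g ∈ N0 P, ∀ y ∈ P, g * y * g⁻¹ ∈ P := fun g ⟨s, hs, h⟩ y hy => by
      rw [h y hy]; exact mul_mem (mul_mem hs hy) (inv_mem hs)
    exact ⟨k g hg y, fun h => by simpa [mul_assoc] using k _ (inv_mem hg) _ h⟩

theorem Zs.conj {P : Subgroup G} {n x : G} (hn : n ∈ normalizer (P : Set G)) (h : Zs p P x) :
    Zs p P (n * x * n⁻¹) := by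
  refine ⟨(mem_normalizer_iff.1 hn x).1 h.1, by rw [conj_pow, h.2.1]; simp, fun y hy => ?_⟩
  have := h.2.2 (n⁻¹ * y * n) ((mem_normalizer_iff.1 hn _).2 (by simpa [mul_assoc] using hy))
  calc n * x * n⁻¹ * y = n * (x * (n⁻¹ * y * n)) * n⁻¹ := by group
    _ = _ := by rw [this]; group

def cl (H : Subgroup G) (u : G) : Set G := {y | ∃ h ∈ H, h * u * h⁻¹ = y}

theorem ncard_cl (H : Subgroup G) (u : G) :
    (cl H u).ncard = (centralizer ({u} : Set G)).relIndex H := by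
  letI := MulAction.compHom G (MulAut.conj.comp H.subtype : H →* MulAut G)
  have h := MulAction.index_stabilizer H u
  rw [show MulAction.stabilizer H u = (centralizer ({u} : Set G)).subgroupOf H from ?_,
    show MulAction.orbit H u = cl H u from ?_] at h
  · exact h.symm
  · ext y
    exact ⟨fun ⟨h, e⟩ => ⟨h, h.2, e⟩, fun ⟨h, m, e⟩ => ⟨⟨h, m⟩, e⟩⟩
  · ext h
    rw [mem_subgroupOf, mem_centralizer_singleton_iff, MulAction.mem_stabilizer_iff]
    exact mul_inv_eq_iff_eq_mul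

theorem cl_N {P : Subgroup G} (ha : HA ⊤ P) {u : G} (hu : u ∈ P) :
    cl (normalizer (P : Set G)) u = {v | v ∈ P ∧ IsConj u v} := by
  ext v
  refine ⟨fun ⟨n, hn, e⟩ => ⟨e ▸ (mem_normalizer_iff.1 hn u).1 hu, isConj_iff.2 ⟨n, e⟩⟩,
    fun ⟨hv, e⟩ => ?_⟩
  obtain ⟨g, hg⟩ := isConj_iff.1 e
  obtain ⟨n, -, hn, e⟩ := ha u hu v hv ⟨g, trivial, hg⟩
  exact ⟨n, hn, e⟩

variable [Finite G] [hp : Fact p.Prime] {P : Sylow p G}

theorem pnil (hb : HB p (P : Subgroup G)) {u : G} (hu : u ∈ (P : Subgroup G)) (u1 : u ≠ 1) :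
    PNil p (centralizer ({u} : Set G)) := by
  have hd : p ∣ orderOf u := by
    by_contra h; exact u1 ((isPE_of_mem P.2 hu).eq_one h)
  have := hb (u ^ (orderOf u / p)) (pow_mem hu _)
    (orderOf_pow_orderOf_div (orderOf_pos u).ne' hd)
  obtain ⟨N, _, h1, h3⟩ := H3.hasNormalPComplement_iff_exists_normal.1
    (H3.hasNormalPComplement_of_le (show centralizer ({u} : Set G) ≤ _ from fun g hg =>
      mem_centralizer_singleton_iff.2 (Commute.pow_right (mem_centralizer_singleton_iff.1 hg) _))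
      this)
  obtain ⟨k, hk⟩ := IsPGroup.iff_card.1 h3
  exact pnil_of_normal h1 hk

omit [Finite G] hp in
theorem sylZ {x : G} (hx : Zs p (P : Subgroup G) x) :
    SylIn p (P : Subgroup G) (centralizer ({x} : Set G)) :=
  (sylIn_top P).of_le (fun y hy => mem_centralizer_singleton_iff.2 (hx.2.2 y hy).symm) le_top

theorem mem_N0 (hb : HB p (P : Subgroup G)) {x n : G} (hx : Zs p (P : Subgroup G) x) (x1 : x ≠ 1)
    (hn : n ∈ normalizer ((P : Subgroup G) : Set G)) (e : n * x * n⁻¹ = x) :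
    n ∈ N0 (P : Subgroup G) := by
  obtain ⟨π, h, -⟩ := (pnil hb hx.1 x1).exists_retract (sylZ hx)
  have m : n ∈ centralizer ({x} : Set G) :=
    mem_centralizer_singleton_iff.2 (mul_inv_eq_iff_eq_mul.1 e)
  refine ⟨π ⟨n, m⟩, (π _).2, fun y hy => ?_⟩
  have h1 := h ⟨_, (mem_normalizer_iff.1 hn y).1 hy⟩
  have h2 := h ⟨y, hy⟩
  have : π (⟨n, m⟩ * ⟨y, (sylZ hx).le hy⟩ * ⟨n, m⟩⁻¹) = _ := h1
  rw [map_mul, map_mul, map_inv, h2] at this
  exact (congrArg Subtype.val this).symm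

variable (P) in
/-- `e = [N(P) : P C(P)]` -/
noncomputable def ee : ℕ := (N0 (P : Subgroup G)).relIndex (normalizer ((P : Subgroup G) : Set G))

theorem cnt_Z (ha : HA ⊤ (P : Subgroup G)) (hb : HB p (P : Subgroup G)) {x : G}
    (hx : Zs p (P : Subgroup G) x) (x1 : x ≠ 1) :
    {v | (Zs p (P : Subgroup G) v ∧ v ≠ 1) ∧ IsConj x v}.ncard = ee P := by
  rw [show {v | (Zs p (P : Subgroup G) v ∧ v ≠ 1) ∧ IsConj x v} = cl (normalizer _) x from ?_,
    ncard_cl, ee, ← inf_relIndex_right, ← inf_relIndex_right (N0 _)]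
  · congr 1
    refine le_antisymm (fun n hn => ⟨mem_N0 hb hx x1 hn.2
      (mul_inv_eq_iff_eq_mul.2 (mem_centralizer_singleton_iff.1 hn.1)), hn.2⟩)
      fun n ⟨⟨s, hs, h⟩, hn⟩ => ⟨mem_centralizer_singleton_iff.2 (mul_inv_eq_iff_eq_mul.1 ?_), hn⟩
    rw [h x hx.1, ← hx.2.2 s hs, mul_inv_cancel_right]
  · ext v
    refine ⟨fun h => by rw [cl_N ha hx.1]; exact ⟨h.1.1.1, h.2⟩, fun ⟨n, hn, e⟩ =>
      ⟨⟨e ▸ hx.conj hn, fun e' => x1 (conj_eq_one_iff.1 (e.trans e'))⟩, isConj_iff.2 ⟨n, e⟩⟩⟩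

theorem sylC (ha : HA ⊤ (P : Subgroup G)) {u : G} (hu : u ∈ (P : Subgroup G)) :
    SylIn p (centralizer ({u} : Set G) ⊓ P) (centralizer ({u} : Set G)) := by
  obtain ⟨D, hD, hle⟩ := exists_sylIn_le (H := centralizer ({u} : Set G))
    (isPE_of_mem P.2 hu).isPGroup_zpowers (zpowers_le.2 (mem_centralizer_singleton_iff.2 rfl))
  obtain ⟨t, -, ht⟩ := (sylIn_top P).exists_cj_le hD.isPGroup le_top
  obtain ⟨n, -, hn, e⟩ := ha u hu _ (cj_le_iff'.1 ht u (hle (mem_zpowers u))) ⟨t, trivial, rfl⟩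
  have m : n⁻¹ * t ∈ centralizer ({u} : Set G) := mem_centralizer_singleton_iff.2 (by
    rw [← mul_inv_eq_iff_eq_mul, show n⁻¹ * t * u * (n⁻¹ * t)⁻¹ = n⁻¹ * (t * u * t⁻¹) * n by group,
      ← e]; group)
  have h1 := hD.cj (n⁻¹ * t)
  rw [cj_eq_of_mem m] at h1
  have h2 : cj (n⁻¹ * t) D ≤ P := by
    rw [← cj_cj, ← cj_eq_of_mem_normalizer (inv_mem hn)]; exact cj_mono _ ht
  rwa [h1.eq_of_le (P.2.to_inf_right) (le_inf h1.le h2) inf_le_left]

theorem cnt_le (ha : HA ⊤ (P : Subgroup G)) {u : G} (hu : u ∈ (P : Subgroup G)) :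
    {v | v ∈ (P : Subgroup G) ∧ IsConj u v}.ncard *
      p ^ (Nat.card (centralizer ({u} : Set G))).factorization p ≤
      ee P * Nat.card (P : Subgroup G) := by
  rw [← cl_N ha hu, ← (sylC ha hu).card, ncard_cl]
  set C := centralizer ({u} : Set G)
  have h1 := relIndex_inf_mul_relIndex C (N0 (P : Subgroup G)) (normalizer ((P : Subgroup G) : Set G))
  rw [inf_eq_left.2 (N0_le _), ← ncard_cl, show cl (N0 (P : Subgroup G)) u = cl P u from ?_,
    ncard_cl] at h1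
  · have h2 : C.relIndex (normalizer ((P : Subgroup G) : Set G)) ≤
        (C ⊓ N0 (P : Subgroup G)).relIndex (normalizer ((P : Subgroup G) : Set G)) :=
      Nat.le_of_dvd (Nat.pos_of_ne_zero index_ne_zero_of_finite)
        (relIndex_dvd_of_le_left _ (inf_le_left : C ⊓ N0 (P : Subgroup G) ≤ C))
    have h3 := (C.subgroupOf P).index_mul_card
    rw [← inf_subgroupOf_right, Nat.card_congr (subgroupOfEquivOfLe inf_le_right).toEquiv,
      inf_subgroupOf_right] at h3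
    rw [← h1] at h2
    rw [← h3, ← mul_assoc, mul_comm (ee P)]
    exact Nat.mul_le_mul_right _ h2
  · ext y
    exact ⟨fun ⟨n, ⟨s, hs, h⟩, e⟩ => ⟨s, hs, by rw [← h u hu, e]⟩,
      fun ⟨s, hs, e⟩ => ⟨s, ⟨s, hs, fun _ _ => rfl⟩, e⟩⟩

open Classical in
theorem mu_val {M : Ideal AlgInt} [PM p M] (hb : HB p (P : Subgroup G)) {y : G}
    (hy : y ∈ (P : Subgroup G)) (y1 : y ≠ 1) (g : G) :
    mu (principalBlock M G) g y = if IsConj (pp p g) y then
      ((p ^ (Nat.card (centralizer ({y} : Set G))).factorization p : ℕ) : ℂ) else 0 := by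
  have hy' := isPE_of_mem P.2 hy
  split_ifs with e
  · rw [← mu_principal_of_pnil (M := M) hy' (pnil hb hy y1)]
    exact finsum_mem_congr rfl fun χ hχ => by rw [apply_section (pnil hb hy y1) hχ e]
  · exact mu_eq_zero (isSat_of_isPBlock isPBlock_principalBlock) (by rwa [pp_of_isPE hy'])

end H9.Lf
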