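import Cfsg.Agent.H9.Lf2
import Cfsg.Agent.S1950

/-! The odd case of S3297 for simple groups: principal block sums `sumT`, `i3`, `odd`. -/

open H5 H7 Cfsg Subgroup Finset
open scoped ComplexConjugate

namespace H9.Lf

universe u

variable {G : Type u} [Group G] [Fintype G] {p : ℕ} [hp : Fact p.Prime] {P : Sylow p G}
  {M : Ideal AlgInt} [PM p M]

open Classical in
theorem mu_B (g h : G) : mu (principalBlock M G) g h =
    ∑ χ ∈ univ.filter (· ∈ principalBlock M G), (χ : G → ℂ) g * conj ((χ : G → ℂ) h) := by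
  rw [mu_eq, Finset.sum_filter]

open Classical in
theorem sumT (ha : HA ⊤ (P : Subgroup G)) (hb : HB p (P : Subgroup G)) {χ : IrrCharacter G}
    (hχ : χ ∈ principalBlock M G) :
    ∑ u with u ∈ (P : Subgroup G) ∧ u ≠ 1, ‖(χ : G → ℂ) u‖ ^ 2 ≤
      ee P * Nat.card (P : Subgroup G) := by
  set U := univ.filter fun u => u ∈ (P : Subgroup G) ∧ u ≠ 1 with hU
  set T := ∑ u ∈ U, ‖(χ : G → ℂ) u‖ ^ 2 with hT
  set F : IrrCharacter G → ℂ := fun ξ => ∑ u ∈ U, (χ : G → ℂ) u * conj ((ξ : G → ℂ) u) with hF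
  set c : G → ℕ := fun u => p ^ (Nat.card (centralizer ({u} : Set G))).factorization p with hc
  set k : G → ℕ := fun u => (U.filter fun v => IsConj u v).card with hk
  have h1 : ∑ ξ ∈ univ.filter (· ∈ principalBlock M G), F ξ * conj (F ξ) =
      ∑ u ∈ U, ((‖(χ : G → ℂ) u‖ ^ 2 * (k u * c u) : ℝ) : ℂ) := by
    simp only [hF, map_sum, Finset.sum_mul_sum, map_mul, Complex.conj_conj]
    rw [Finset.sum_comm]
    refine Finset.sum_congr rfl fun u hu => ?_
    obtain ⟨hu, u1⟩ := (mem_filter.1 hu).2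
    rw [Finset.sum_comm, Finset.sum_congr rfl (g := fun v => if IsConj u v then
      (χ : G → ℂ) u * conj ((χ : G → ℂ) u) * c u else 0) fun v hv => ?_, ← Finset.sum_filter]
    · rw [sum_const, Complex.mul_conj, Complex.normSq_eq_norm_sq, nsmul_eq_mul]
      simp only [hk]; push_cast; ring
    · have e := mu_val (M := M) hb hu u1 v
      rw [mu_B, pp_of_isPE (isPE_of_mem P.2 (mem_filter.1 hv).2.1)] at e
      rw [Finset.sum_congr rfl (g := fun ξ : IrrCharacter G => (χ : G → ℂ) u * conj ((χ : G → ℂ) v) *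
        ((ξ : G → ℂ) v * conj ((ξ : G → ℂ) u))) fun ξ _ => by ring, ← Finset.mul_sum, e]
      by_cases h : IsConj u v
      · rw [if_pos h, if_pos h.symm, χ.2.isClassFunction.eq_of_isConj h]
      · rw [if_neg h, if_neg fun h' => h h'.symm, mul_zero]
  simp only [Complex.mul_conj, Complex.normSq_eq_norm_sq] at h1
  have h1 : ∑ ξ ∈ univ.filter (· ∈ principalBlock M G), ‖F ξ‖ ^ 2 =
      ∑ u ∈ U, ‖(χ : G → ℂ) u‖ ^ 2 * (k u * c u) := by exact_mod_cast h1
  have h2 : T ^ 2 ≤ ∑ ξ ∈ univ.filter (· ∈ principalBlock M G), ‖F ξ‖ ^ 2 := by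
    refine le_trans (le_of_eq ?_) (single_le_sum (f := fun ξ => ‖F ξ‖ ^ 2)
      (fun _ _ => by positivity) (mem_filter.2 ⟨mem_univ χ, hχ⟩))
    have : F χ = (T : ℂ) := by
      simp only [hF, hT, Complex.mul_conj, Complex.normSq_eq_norm_sq]; push_cast; rfl
    rw [this, Complex.norm_real, Real.norm_eq_abs, sq_abs]
  have h3 : ∑ u ∈ U, ‖(χ : G → ℂ) u‖ ^ 2 * (k u * c u) ≤
      T * (ee P * Nat.card (P : Subgroup G)) := by
    rw [hT, Finset.sum_mul]
    refine sum_le_sum fun u hu => mul_le_mul_of_nonneg_left ?_ (by positivity)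
    have a := cnt_le ha (mem_filter.1 hu).2.1
    have b : k u ≤ {v | v ∈ (P : Subgroup G) ∧ IsConj u v}.ncard := by
      rw [hk]; dsimp only
      rw [← Set.ncard_coe_finset]
      exact Set.ncard_le_ncard fun v hv => by
        simp only [coe_filter, hU, mem_filter, Set.mem_setOf_eq] at hv ⊢
        exact ⟨hv.1.2.1, hv.2⟩
    exact_mod_cast (Nat.mul_le_mul_right _ b).trans a
  have T0 : 0 ≤ T := by positivity
  rcases T0.eq_or_lt with h | h
  · rw [← h]; positivity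
  · exact le_of_mul_le_mul_left (by nlinarith) h

open Classical in
theorem card_Zg : (Nat.card (Zg p (P : Subgroup G)) : ℕ) =
    (univ.filter fun x => Zs p (P : Subgroup G) x ∧ x ≠ 1).card + 1 := by
  rw [Nat.card_eq_fintype_card, Fintype.card_subtype, ← card_insert_of_notMem (a := 1) (by simp)]
  congr 1
  ext x
  simp only [mem_filter, mem_univ, true_and, mem_insert]
  exact ⟨fun h => by by_cases e : x = 1; exacts [Or.inl e, Or.inr ⟨h, e⟩],
    fun h => h.elim (fun e => e ▸ one_mem _) fun h => h.1⟩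

open Classical in
theorem i3 [IsSimpleGroup G] (ha : HA ⊤ (P : Subgroup G)) (hb : HB p (P : Subgroup G))
    {χ : IrrCharacter G} (hχ : χ ∈ principalBlock M G) (h1 : χ ≠ irrOne G) {z : G}
    (hz : Zs p (P : Subgroup G) z) (z1 : z ≠ 1) :
    ‖(χ : G → ℂ) 1 + ∑ x with Zs p (P : Subgroup G) x ∧ x ≠ 1, (χ : G → ℂ) x‖ ^ 2 ≤
      Nat.card (Zg p (P : Subgroup G)) * ‖(χ : G → ℂ) 1‖ ^ 2 := by
  have hT := sumT ha hb hχ
  have hle : Zg p (P : Subgroup G) ≤ P := fun x hx => hx.1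
  have := bessel (P : Subgroup G).normalizerMonoidHom
    ((N0 (P : Subgroup G)).subgroupOf _) (fun n ⟨s, hs, h⟩ => ⟨⟨s, hs⟩, fun u => Subtype.ext (h u u.2)⟩)
    (Z := (Zg p (P : Subgroup G)).subgroupOf P) (fun z hz u => Subtype.ext (hz.2.2 u u.2))
    (fun n z hz => Zs.conj n.2 hz)
    (fun n hn z hz e => by
      by_contra h
      exact hn (mem_N0 hb hz (fun e' => h (Subtype.ext e')) n.2 (congrArg Subtype.val e)))
    (χ.2.isCharacter.restrict (P : Subgroup G)) (fun n u => χ.2.isClassFunction _ _)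
    (z0 := ⟨z, hz.1⟩) hz (fun e => z1 (by
      rw [← Subgroup.mem_bot, ← χ.2.charKer_eq_bot_of_isSimpleGroup fun e' => h1 (Subtype.ext e'),
        χ.2.mem_charKer]
      exact e))
  have e1 : ∑ u : (P : Subgroup G), ‖(χ : G → ℂ) u‖ ^ 2 = ‖(χ : G → ℂ) 1‖ ^ 2 +
      ∑ u with u ∈ (P : Subgroup G) ∧ u ≠ 1, ‖(χ : G → ℂ) u‖ ^ 2 := by
    rw [← sum_insert (f := fun u => ‖(χ : G → ℂ) u‖ ^ 2) (by simp)]
    refine (sum_subtype _ (fun x => ?_) fun u => ‖(χ : G → ℂ) u‖ ^ 2).symm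
    simp only [mem_filter, mem_univ, true_and, mem_insert]
    exact ⟨fun h => h.elim (fun e => e ▸ one_mem _) fun h => h.1,
      fun h => by by_cases e : x = 1; exacts [Or.inl e, Or.inr ⟨h, e⟩]⟩
  have e2 : ∑ u : (P : Subgroup G) with u ∈ (Zg p (P : Subgroup G)).subgroupOf P, (χ : G → ℂ) u =
      (χ : G → ℂ) 1 + ∑ x with Zs p (P : Subgroup G) x ∧ x ≠ 1, (χ : G → ℂ) x := by
    rw [← sum_insert (by simp)]
    refine sum_bij (fun u _ => (u : G)) (fun u hu => ?_) (fun _ _ _ _ e => Subtype.ext e)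
      (fun x hx => ?_) fun _ _ => rfl
    · have : Zs p (P : Subgroup G) u := (mem_filter.1 hu).2
      by_cases e : (u : G) = 1 <;> simp [e, this]
    · have : x ∈ Zg p (P : Subgroup G) := by
        rcases mem_insert.1 hx with rfl | h
        exacts [one_mem _, (mem_filter.1 h).2.1]
      exact ⟨⟨x, hle this⟩, mem_filter.2 ⟨mem_univ _, this⟩, rfl⟩
  rw [Nat.card_congr (subgroupOfEquivOfLe hle).toEquiv] at this
  have h3 : ‖(χ : G → ℂ) 1 + ∑ x with Zs p (P : Subgroup G) x ∧ x ≠ 1, (χ : G → ℂ) x‖ ^ 2 /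
      Nat.card (Zg p (P : Subgroup G)) + ee P * Nat.card (P : Subgroup G) ≤ ‖(χ : G → ℂ) 1‖ ^ 2 +
      ∑ u with u ∈ (P : Subgroup G) ∧ u ≠ 1, ‖(χ : G → ℂ) u‖ ^ 2 := by
    rw [← e1, ← e2]
    exact this
  have p0 : (0 : ℝ) < Nat.card (Zg p (P : Subgroup G)) := by exact_mod_cast Nat.card_pos
  rw [mul_comm, ← div_le_iff₀ p0]
  linarith

omit [Fintype G] in
theorem not_psolv [Finite G] [IsSimpleGroup G] (hn : ¬ (P : Subgroup G).Normal) :
    ¬ IsPSolvable p G := by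
  rintro ⟨n, H, H0, Hl, -, Hn, Hi⟩
  have key : ∀ i, H i = ⊥ := by
    intro i
    induction i using Fin.induction with
    | zero => exact H0
    | succ i ih =>
      refine (Hn i.succ).eq_bot_or_eq_top.resolve_right fun e => hn ?_
      have hi := Hi i
      rw [ih, e, relIndex_top_right, index_bot] at hi
      rcases hi with ⟨m, hm⟩ | hi
      · rw [← P.3 (IsPGroup.of_card (G := (⊤ : Subgroup G)) (by rw [card_top, hm])) le_top]
        infer_instance
      · rw [eq_bot_of_card_eq (P : Subgroup G) (by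
          rw [P.card_eq_multiplicity, Nat.factorization_eq_zero_of_not_dvd
            (hp.out.coprime_iff_not_dvd.1 hi.symm), pow_zero])]
        infer_instance
  exact bot_ne_top ((key _).symm.trans Hl)

end H9.Lf

namespace H9.Lf

universe u

open Classical in
theorem odd (hS : PS.{u}) {G : Type u} [Group G] [Finite G] [IsSimpleGroup G] {p : ℕ}
    [hp : Fact p.Prime] {P : Sylow p G} (h2 : p ≠ 2) (hnn : ¬ (P : Subgroup G).Normal)
    (ha : HA ⊤ (P : Subgroup G)) (hb : HB p (P : Subgroup G)) (hc : HC p G) {m z : G}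
    (hm : m ∈ normalizer ((P : Subgroup G) : Set G)) (hz : Zs p (P : Subgroup G) z)
    (mv : m * z * m⁻¹ ≠ z) : False := by
  have := Fintype.ofFinite G
  obtain ⟨M, hM⟩ := exists_isPModular p
  haveI : PM p M := ⟨hM⟩
  have z1 : z ≠ 1 := by rintro rfl; simp at mv
  set Z := univ.filter fun x => Zs p (P : Subgroup G) x ∧ x ≠ 1 with hZ
  have mZ : ∀ {x}, x ∈ Z ↔ Zs p (P : Subgroup G) x ∧ x ≠ 1 := by simp [hZ]
  have iZ : ∀ x, x ∈ Z ↔ x⁻¹ ∈ Z := fun x => by
    rw [mZ, mZ, inv_ne_one]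
    exact and_congr_left' (inv_mem_iff (H := Zg p (P : Subgroup G))).symm
  have oZ : ∀ x ∈ Z, orderOf x = p := fun x hx => orderOf_eq_prime (mZ.1 hx).1.2.1 (mZ.1 hx).2
  have kZ : ∀ h, ∀ x ∈ Z, IsConj h x → (Z.filter (IsConj h ·)).card = ee P := fun h x hx e => by
    rw [← cnt_Z ha hb (mZ.1 hx).1 (mZ.1 hx).2, ← Set.ncard_coe_finset]
    congr 1
    ext v
    simp only [coe_filter, mZ, Set.mem_setOf_eq]
    exact and_congr_right' ⟨e.symm.trans, e.trans⟩
  set E : ℕ := ee P * Nat.card (P : Subgroup G) with hE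
  set B := univ.filter (· ∈ principalBlock M G) with hB
  set σ : IrrCharacter G → ℂ := fun χ => ∑ x ∈ Z, (χ : G → ℂ) x with hσ
  have cσ : ∀ χ, conj (σ χ) = σ χ := fun χ => by
    simp only [hσ, map_sum, ← χ.2.apply_inv]
    exact sum_equiv (Equiv.inv G) iZ fun _ _ => rfl
  obtain ⟨s, hs⟩ : ∃ s : IrrCharacter G → ℝ, ∀ χ, σ χ = s χ :=
    ⟨fun χ => (σ χ).re, fun χ => (Complex.conj_eq_iff_re.1 (cσ χ)).symm⟩
  choose n hn e1 using fun χ : IrrCharacter G => χ.2.exists_apply_one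
  have hmu : ∀ h, ∑ χ ∈ B, (χ : G → ℂ) h * σ χ =
      Nat.card (P : Subgroup G) * (Z.filter (IsConj (pp p h) ·)).card := fun h => by
    have : ∑ x ∈ Z, mu (principalBlock M G) h x = ∑ χ ∈ B, (χ : G → ℂ) h * σ χ := by
      simp only [mu_B]
      rw [sum_comm]
      exact sum_congr rfl fun χ _ => by rw [← cσ, hσ, map_sum, mul_sum]
    rw [← this, sum_congr rfl (g := fun x => if IsConj (pp p h) x then
      (Nat.card (P : Subgroup G) : ℂ) else 0) fun x hx => by
        rw [mu_val hb (mZ.1 hx).1.1 (mZ.1 hx).2, ← (sylZ (mZ.1 hx).1).card]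
        split_ifs <;> rfl, ← sum_filter,
      sum_const, nsmul_eq_mul, mul_comm]
  have I1 : ∑ χ ∈ B, s χ ^ 2 = Z.card * E := by
    have : ∑ x ∈ Z, ∑ χ ∈ B, (χ : G → ℂ) x * σ χ = ∑ x ∈ Z, (E : ℂ) :=
      sum_congr rfl fun x hx => by
        rw [hmu, pp_of_isPE (isPE_of_mem P.2 (mZ.1 hx).1.1), kZ x x hx (IsConj.refl _), hE]
        push_cast; ring
    rw [sum_comm, sum_const, nsmul_eq_mul] at this
    simp only [← sum_mul] at this
    change ∑ χ ∈ B, σ χ * σ χ = _ at this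
    simp only [hs, ← sq] at this
    exact_mod_cast this
  set W : G → G → ℕ := fun x y => (univ.filter fun g => p ∣ orderOf (g * x * g⁻¹ * y)).card with hW
  have I2 : (E : ℝ) * ∑ x ∈ Z, ∑ y ∈ Z, (W x y : ℝ) = Nat.card G * ∑ χ ∈ B, s χ ^ 3 / n χ := by
    have a : ∑ x ∈ Z, ∑ y ∈ Z, ∑ g, ∑ χ ∈ B, (χ : G → ℂ) (g * x * g⁻¹ * y) * σ χ =
        ∑ x ∈ Z, ∑ y ∈ Z, (E : ℂ) * W x y := by
      refine sum_congr rfl fun x hx => sum_congr rfl fun y hy => ?_
      rw [hW]; dsimp only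
      rw [card_filter, Nat.cast_sum, mul_sum]
      refine sum_congr rfl fun g _ => ?_
      rw [hmu]
      split_ifs with e
      · obtain ⟨t, ht⟩ := (hS G p P ha hc x y g (mZ.1 hx).1 (mZ.1 hy).1).1 _
          (pp_mem (mem_zpowers _)) (isPE_pp _).exists_pow
        rw [kZ _ _ (mZ.2 ⟨ht, fun e' => pp_eq_one_iff.1 (conj_eq_one_iff.1 e') e⟩)
          (isConj_iff.2 ⟨t, rfl⟩), hE]
        push_cast; ring
      · rw [pp_of_not_dvd e, filter_eq_empty_iff.2 fun v hv h => (mZ.1 hv).2 (isConj_one_right.1 h)]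
        simp
    have b : ∑ x ∈ Z, ∑ y ∈ Z, ∑ g, ∑ χ ∈ B, (χ : G → ℂ) (g * x * g⁻¹ * y) * σ χ =
        Nat.card G * ∑ χ ∈ B, σ χ ^ 3 / n χ := by
      rw [sum_congr rfl fun x _ => sum_congr rfl fun y _ => sum_comm,
        sum_congr rfl fun x _ => sum_comm, sum_comm, mul_sum]
      refine sum_congr rfl fun χ _ => ?_
      simp only [← sum_mul, χ.2.sum_conj_mul, e1, ← sum_div, ← mul_sum]
      change Nat.card G * σ χ * σ χ / n χ * σ χ = _
      ring
    rw [a] at b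
    simp only [← mul_sum, hs] at b
    exact_mod_cast b
  have g0 : (0 : ℝ) < Nat.card G := by exact_mod_cast Nat.card_pos
  have W1 : (Z.card : ℝ) ^ 2 * Nat.card G ≤ 2 * ∑ x ∈ Z, ∑ y ∈ Z, (W x y : ℝ) := by
    have a : ∑ x ∈ Z, ∑ y ∈ Z, (W x⁻¹ y : ℝ) = ∑ x ∈ Z, ∑ y ∈ Z, (W x y : ℝ) :=
      sum_equiv (Equiv.inv G) iZ fun _ _ => rfl
    rw [two_mul]
    nth_rewrite 1 [← a]
    rw [← sum_add_distrib, sq, mul_assoc, ← nsmul_eq_mul, ← sum_const]
    refine sum_le_sum fun x hx => ?_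
    rw [← sum_add_distrib, ← nsmul_eq_mul, ← sum_const]
    refine sum_le_sum fun y hy => ?_
    have : (univ : Finset G) ⊆ (univ.filter fun g => p ∣ orderOf (g * x⁻¹ * g⁻¹ * y)) ∪
        univ.filter fun g => p ∣ orderOf (g * x * g⁻¹ * y) := fun g _ => by
      have ox : orderOf (g * x * g⁻¹) = p := by rw [orderOf_conj', oZ x hx]
      rcases H9.PSg.psolv_pair hp.out h2 (hc _ _ ox (oZ y hy)) (ox ▸ pow_orderOf_eq_one _)
        (mZ.1 hy).1.2.1 (fun e => (mZ.1 hx).2 (conj_eq_one_iff.1 e)) with h | h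
      · exact mem_union_right _ (mem_filter.2 ⟨mem_univ _, h⟩)
      · exact mem_union_left _ (mem_filter.2 ⟨mem_univ _, by rwa [← conj_inv]⟩)
    have h1 := (card_le_card this).trans (card_union_le _ _)
    rw [card_univ, ← Nat.card_eq_fintype_card] at h1
    exact_mod_cast h1
  have W2 : (Z.card : ℝ) * (Z.card - ee P) * Nat.card G ≤ ∑ x ∈ Z, ∑ y ∈ Z, (W x y : ℝ) := by
    rw [sum_comm, mul_assoc, ← nsmul_eq_mul, ← sum_const]
    refine sum_le_sum fun y hy => ?_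
    have a := card_filter_add_card_filter_not (s := Z) (fun x => IsConj y⁻¹ x)
    rw [kZ _ _ ((iZ y).1 hy) (IsConj.refl _)] at a
    rw [show (Z.card - ee P : ℝ) = (Z.filter fun x => ¬ IsConj y⁻¹ x).card by
      rw [← a]; push_cast; ring, ← nsmul_eq_mul, ← sum_const]
    refine le_trans (sum_le_sum fun x hx => ?_)
      (sum_le_sum_of_subset_of_nonneg (filter_subset _ _) fun _ _ _ => Nat.cast_nonneg _)
    rw [hW]; dsimp only
    rw [filter_true_of_mem, card_univ, Nat.card_eq_fintype_card]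
    intro g _
    by_contra e
    exact (mem_filter.1 hx).2 ((hS G p P ha hc x y g (mZ.1 (mem_filter.1 hx).1).1
      (mZ.1 hy).1).2 e).symm
  set q := Nat.card (Zg p (P : Subgroup G)) with hq
  have qX : q = Z.card + 1 := card_Zg
  have qX' : (Z.card : ℝ) = q - 1 := by rw [qX]; push_cast; ring
  have so : s (irrOne G) = Z.card := by
    have := hs (irrOne G)
    simp only [hσ, irrOne_apply, sum_const, nsmul_eq_mul, mul_one] at this
    exact_mod_cast this.symm
  have no : (n (irrOne G) : ℝ) = 1 := by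
    have := e1 (irrOne G); rw [irrOne_apply] at this; exact_mod_cast this.symm
  have N1 := num1 B s (fun χ => n χ) (o := irrOne G) 
    (mem_filter.2 ⟨mem_univ _, irrOne_mem_principalBlock⟩) so no
    (fun χ _ => by exact_mod_cast hn χ) (Real.sqrt_nonneg q) (fun χ hχ h1 => by
      have := i3 ha hb (mem_filter.1 hχ).2 h1 hz z1
      change ‖_ + σ χ‖ ^ 2 ≤ _ at this
      rw [hs, e1, ← Complex.ofReal_natCast, ← Complex.ofReal_add, Complex.norm_real,
        Complex.norm_real, Real.norm_eq_abs, Real.norm_eq_abs, sq_abs, sq_abs] at this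
      rwa [Real.sq_sqrt (by positivity)]) I1
  have hd : q ∣ Nat.card (P : Subgroup G) := card_dvd_of_le fun x hx => hx.1
  have e2 : 2 ≤ ee P := by
    rw [← kZ z z (mZ.2 ⟨hz, z1⟩) (IsConj.refl _)]
    exact one_lt_card.2 ⟨_, mem_filter.2 ⟨mZ.2 ⟨hz.conj hm, fun e => z1 (conj_eq_one_iff.1 e)⟩,
      isConj_iff.2 ⟨m, rfl⟩⟩, z, mem_filter.2 ⟨mZ.2 ⟨hz, z1⟩, IsConj.refl _⟩, mv⟩
  have e3 : ee P + 1 ≤ q := by
    rw [← kZ z z (mZ.2 ⟨hz, z1⟩) (IsConj.refl _), qX]
    exact Nat.succ_le_succ (card_filter_le _ _)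
  have c := num2 (A := (∑ x ∈ Z, ∑ y ∈ Z, (W x y : ℝ)) / Nat.card G)
    (Odd.of_dvd_nat (by rw [P.card_eq_multiplicity]; exact (hp.out.odd_of_ne_two h2).pow) hd) e2 e3
    hd Nat.card_pos (Real.sqrt_nonneg q) (Real.sq_sqrt (by positivity))
    (by
      rw [← qX', ← mul_div_assoc, div_le_iff₀ g0]
      rw [hE] at I2 N1; push_cast at I2 N1
      rw [I2, mul_comm]; gcongr)
    (by rw [← qX', ← mul_div_assoc, le_div_iff₀ g0]; exact W1)
    (by rw [← qX', le_div_iff₀ g0]; exact W2)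
  refine not_psolv hnn ((Cfsg.Agent.S1950.result P ?_).2 hc)
  rcases c with c | c
  · exact isCyclic_of_prime_card c
  · haveI : Fact (Nat.Prime 5) := ⟨by norm_num⟩
    exact isCyclic_of_prime_card c

end H9.Lf
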