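import Cfsg.Agent.H8.Cd1

/-! Degrees prime to `p` in a group with a normal Sylow `p`-subgroup (piece D of S4930). -/

set_option autoImplicit false

open H5 H6 Cfsg Finset
open scoped commutatorElement

namespace H9.OdD

theorem pK {H : Type*} [Group H] [Finite H] (p : ℕ) [Fact p.Prime] (Q : Subgroup H) [Q.Normal]
    (hQ : IsPGroup p Q) (hi : ¬ p ∣ Q.index) {η : H → ℂ} (hη : IsIrrCharacter H η) :
    ¬ p ∣ charDegree η ↔ ⁅Q, Q⁆ ≤ charKer η :=
  ⟨fun h m hm => hη.mem_charKer.2 (H8.ker_of_le_commutator (M := ⁅Q, Q⁆) hQ le_rfl hη h ⟨m, hm⟩),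
    fun h h1 => hi (h1.trans (H8.deg_dvd_index_of_comm hη Q h))⟩

open Classical in
theorem sq_ker {G : Type*} [Group G] [Finite G] (N : Subgroup G) [N.Normal] :
    ∑ χ : IrrCharacter G, (if N ≤ charKer χ.1 then charDegree χ.1 ^ 2 else 0) = N.index := by
  have := H8.sum_deg_sq (G := G ⧸ N)
  rw [← sum_filter, sum_subtype (p := fun χ : IrrCharacter G => N ≤ charKer χ.1) _ (by simp),
    ← (irrQuotientEquiv N).sum_comp, N.index_eq_card, ← this]
  rfl

open Classical in
theorem finsum_eq {H : Type*} [Group H] [Finite H] (p : ℕ) :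
    ∑ᶠ η : {η : IrrCharacter H // ¬ p ∣ charDegree η.1}, charDegree η.1.1 ^ 2 =
      ∑ η : IrrCharacter H, (if ¬ p ∣ charDegree η.1 then charDegree η.1 ^ 2 else 0) := by
  rw [finsum_eq_sum_of_fintype, ← sum_filter,
    sum_subtype (p := fun η : IrrCharacter H => ¬ p ∣ charDegree η.1) _ (by simp)]

theorem pD {H : Type*} [Group H] [Finite H] (p : ℕ) [Fact p.Prime] (Q : Subgroup H) [Q.Normal]
    (hQ : IsPGroup p Q) (hi : ¬ p ∣ Q.index) :
    Nat.card H = Nat.card (commutator Q) *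
      ∑ᶠ η : {η : IrrCharacter H // ¬ p ∣ charDegree η.1}, charDegree η.1.1 ^ 2 := by
  classical
  have h1 : Nat.card (commutator Q) = Nat.card (⁅Q, Q⁆ : Subgroup H) := by
    rw [← Subgroup.map_subtype_commutator, Subgroup.card_map_of_injective Q.subtype_injective]
  rw [finsum_eq, h1, ← Subgroup.card_mul_index (⁅Q, Q⁆ : Subgroup H), ← sq_ker]
  congr 1
  refine sum_congr rfl fun η _ => ?_
  simp only [pK p Q hQ hi η.2]

end H9.OdD
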