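import Cfsg.Agent.H23.FSimp
import Cfsg.Agent.S2431
import Cfsg.Agent.S0246
import Cfsg.Agent.H1.Fitting
import Cfsg.Prelude.Def_Classical

/-! The 2-fusion system of `PSp₄(q)`, `q` odd: the abstract model `Md` (the centralizer of the central involution is
`(SL₂ ∘ SL₂).2`), its realization `exists_md`, and the simplicity `Md.simple`. -/

set_option autoImplicit false
set_option linter.unusedSectionVars false

namespace H9.P4
open Matrix H24 Subgroup H20 H23.FS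
open scoped MatrixGroups

variable {F : Type*} [Field F]

/-- the model -/
structure Md (F : Type*) [Field F] (G : Type*) [Group G] where
  β : SL(2, F) × SL(2, F) →* G
  τ : G
  ker : ∀ a b, β (a, b) = 1 ↔ (a = 1 ∧ b = 1) ∨ (a = -1 ∧ b = -1)
  tt : τ * τ = 1
  sw : ∀ a b, τ * β (a, b) = β (b, a) * τ
  nt : ∀ p, β p ≠ τ
  cz : ∀ g, g * β (1, -1) = β (1, -1) * g → ∃ a b, g = β (a, b) ∨ g = β (a, b) * τ
  nu : ∀ A : M2 F, 2 * A.det = 1 → ∃ ν : G, (∀ x y : SL(2, F), A * x = y * A → ν * β (x, x) = β (y, y) * ν) ∧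
    ν * β (1, -1) = τ * ν ∧ ν * τ = β (1, -1) * ν ∧ ((2 : F) • (A * A) = -1 → ν * ν = 1)

/-- block matrices for the decomposition into two hyperbolic planes -/
def blk (a b c d : M2 F) : Matrix (Fin 2 ⊕ Fin 2) (Fin 2 ⊕ Fin 2) F :=
  fromBlocks !![a 0 0, b 0 0; c 0 0, d 0 0] !![a 0 1, b 0 1; c 0 1, d 0 1] !![a 1 0, b 1 0; c 1 0, d 1 0]
    !![a 1 1, b 1 1; c 1 1, d 1 1]

theorem blk_mul (a b c d a' b' c' d' : M2 F) : blk a b c d * blk a' b' c' d' =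
    blk (a * a' + b * c') (a * b' + b * d') (c * a' + d * c') (c * b' + d * d') := by
  ext (i | i) (j | j) <;> fin_cases i <;> fin_cases j <;>
    simp [blk, Matrix.mul_apply, Fintype.sum_sum_type, Fin.sum_univ_two] <;> ring

omit [Field F] in
theorem blk_transpose (a b c d : M2 F) : (blk a b c d)ᵀ = blk aᵀ cᵀ bᵀ dᵀ := by
  ext (i | i) (j | j) <;> fin_cases i <;> fin_cases j <;> simp [blk]

omit [Field F] in
theorem blk_inj {a b c d a' b' c' d' : M2 F} : blk a b c d = blk a' b' c' d' ↔ a = a' ∧ b = b' ∧ c = c' ∧ d = d' := by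
  refine ⟨fun h => ?_, by rintro ⟨rfl, rfl, rfl, rfl⟩; rfl⟩
  have e := fun i j => congrFun (congrFun h i) j
  refine ⟨ext2 ?_ ?_ ?_ ?_, ext2 ?_ ?_ ?_ ?_, ext2 ?_ ?_ ?_ ?_, ext2 ?_ ?_ ?_ ?_⟩
  exacts [e (.inl 0) (.inl 0), e (.inl 0) (.inr 0), e (.inr 0) (.inl 0), e (.inr 0) (.inr 0),
    e (.inl 0) (.inl 1), e (.inl 0) (.inr 1), e (.inr 0) (.inl 1), e (.inr 0) (.inr 1),
    e (.inl 1) (.inl 0), e (.inl 1) (.inr 0), e (.inr 1) (.inl 0), e (.inr 1) (.inr 0),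
    e (.inl 1) (.inl 1), e (.inl 1) (.inr 1), e (.inr 1) (.inl 1), e (.inr 1) (.inr 1)]

omit [Field F] in
theorem blk_surj (m : Matrix (Fin 2 ⊕ Fin 2) (Fin 2 ⊕ Fin 2) F) : ∃ a b c d, m = blk a b c d := by
  refine ⟨!![m (.inl 0) (.inl 0), m (.inl 0) (.inr 0); m (.inr 0) (.inl 0), m (.inr 0) (.inr 0)],
    !![m (.inl 0) (.inl 1), m (.inl 0) (.inr 1); m (.inr 0) (.inl 1), m (.inr 0) (.inr 1)],
    !![m (.inl 1) (.inl 0), m (.inl 1) (.inr 0); m (.inr 1) (.inl 0), m (.inr 1) (.inr 0)],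
    !![m (.inl 1) (.inl 1), m (.inl 1) (.inr 1); m (.inr 1) (.inl 1), m (.inr 1) (.inr 1)], ?_⟩
  ext (i | i) (j | j) <;> fin_cases i <;> fin_cases j <;> simp [blk]

theorem blk_one : blk (1 : M2 F) 0 0 1 = 1 := by
  ext (i | i) (j | j) <;> fin_cases i <;> fin_cases j <;> simp [blk]

theorem blk_neg (a b c d : M2 F) : -blk a b c d = blk (-a) (-b) (-c) (-d) := by
  ext (i | i) (j | j) <;> fin_cases i <;> fin_cases j <;> simp [blk]

/-- the standard alternating `2 × 2` matrix -/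
def j2 : M2 F := !![0, -1; 1, 0]

theorem J_eq : J (Fin 2) F = blk j2 0 0 j2 := by
  ext (i | i) (j | j) <;> fin_cases i <;> fin_cases j <;> simp [blk, J, j2]

theorem mul_j2 (a : M2 F) : a * j2 * aᵀ = a.det • j2 := by
  apply ext2 <;> simp [mul_apply2, j2, det_fin_two] <;> ring

theorem det_of_j2 {a : M2 F} (h : a * j2 * aᵀ = j2) : a.det = 1 := by
  rw [mul_j2] at h
  have := congrFun (congrFun h 1) 0
  simpa [j2] using this

theorem blk_mem {a b c d : M2 F} : blk a b c d ∈ symplecticGroup (Fin 2) F ↔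
    a * j2 * aᵀ + b * j2 * bᵀ = j2 ∧ a * j2 * cᵀ + b * j2 * dᵀ = 0 ∧ c * j2 * aᵀ + d * j2 * bᵀ = 0 ∧
      c * j2 * cᵀ + d * j2 * dᵀ = j2 := by
  rw [SymplecticGroup.mem_iff, J_eq, blk_transpose, blk_mul, blk_mul, blk_inj]
  simp

/-- the block diagonal embedding -/
def βh : SL(2, F) × SL(2, F) →* symplecticGroup (Fin 2) F where
  toFun p := ⟨blk p.1.1 0 0 p.2.1, blk_mem.2 (by simp [mul_j2])⟩
  map_one' := Subtype.ext blk_one
  map_mul' p q := Subtype.ext (by simp [blk_mul])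

theorem exists_md [Fintype F] (hodd : Odd (Fintype.card F)) : Nonempty (Md F (Cfsg.PSp 2 F)) := by
  have h2 := two_ne_zero_of_odd hodd
  let m : symplecticGroup (Fin 2) F := βh (-1, -1)
  have hm : m.1 = -1 := by
    change blk _ 0 0 _ = _
    rw [← blk_one, blk_neg]; simp
  have hm1 : m ≠ 1 := fun e => by
    have : (-1 : Matrix (Fin 2 ⊕ Fin 2) (Fin 2 ⊕ Fin 2) F) = 1 := hm.symm.trans (congrArg Subtype.val e)
    have := congrFun (congrFun this (.inl 0)) (.inl 0)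
    simp at this
    exact h2 (by linear_combination -this)
  have hc : ∀ g : symplecticGroup (Fin 2) F, g ∈ center (symplecticGroup (Fin 2) F) ↔ g = 1 ∨ g = m := by
    have hmc : m ∈ center (symplecticGroup (Fin 2) F) := mem_center_iff.2 fun g => Subtype.ext (by simp [hm])
    have h1 := Cfsg.Agent.S0246.result (F := F) rfl 2 (by norm_num)
    have h3 : Nat.card (center (symplecticGroup (Fin 2) F)) ≤ 2 := h1 ▸ Nat.le_of_dvd two_pos (Nat.gcd_dvd_left _ _)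
    intro g
    refine ⟨fun hg => ?_, by rintro (rfl | rfl); exacts [one_mem _, hmc]⟩
    by_contra hne
    push Not at hne
    have : 3 ≤ Nat.card (center (symplecticGroup (Fin 2) F)) := by
      have := Fintype.ofFinite (center (symplecticGroup (Fin 2) F))
      rw [Nat.card_eq_fintype_card]
      exact Fintype.two_lt_card_iff.2 ⟨⟨g, hg⟩, 1, ⟨m, hmc⟩, by simpa using hne.1, by simpa using hne.2,
        fun e => hm1 (congrArg Subtype.val e).symm⟩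
    omega
  let π : symplecticGroup (Fin 2) F →* Cfsg.PSp 2 F := QuotientGroup.mk' _
  have hπ : ∀ g h : symplecticGroup (Fin 2) F, π g = π h ↔ g.1 = h.1 ∨ g.1 = -h.1 := by
    intro g h
    rw [← mul_inv_eq_one, ← map_inv, ← map_mul]
    change ((g * h⁻¹ : symplecticGroup (Fin 2) F) : Cfsg.PSp 2 F) = 1 ↔ _
    rw [QuotientGroup.eq_one_iff, hc, mul_inv_eq_one, mul_inv_eq_iff_eq_mul, Subtype.ext_iff, Subtype.ext_iff]
    simp [hm]
  let τ : symplecticGroup (Fin 2) F := ⟨blk 0 1 1 0, blk_mem.2 (by simp)⟩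
  have hβ : ∀ a b : SL(2, F), (βh (a, b) : symplecticGroup (Fin 2) F).1 = blk a.1 0 0 b.1 :=
    fun _ _ => rfl
  have hτ : τ.1 = blk 0 1 1 0 := rfl
  have neg0 : ∀ x : M2 F, -x = x → x = 0 := fun x h => by
    have : (2 : F) • x = 0 := by rw [two_smul]; nth_rw 1 [← h]; simp
    exact (smul_eq_zero.1 this).resolve_left h2
  refine ⟨⟨π.comp βh, π τ, fun a b => ?_, ?_, fun a b => ?_, fun p => ?_, fun g => ?_, fun A hA => ?_⟩⟩
  · rw [MonoidHom.comp_apply, ← map_one π, hπ, hβ, OneMemClass.coe_one, ← blk_one, blk_neg, blk_inj, blk_inj]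
    have e : ∀ x y : SL(2, F), x = y ↔ x.1 = y.1 := fun x y => Subtype.ext_iff
    simp [e]
  · rw [← map_mul, ← map_one π, hπ]
    left
    simp [hτ, blk_mul, blk_one]
  · simp only [MonoidHom.comp_apply]
    rw [← map_mul, ← map_mul, hπ]
    left
    simp [hτ, hβ, blk_mul]
  · obtain ⟨a, b⟩ := p
    rw [MonoidHom.comp_apply, Ne, hπ, hβ, hτ, blk_neg, blk_inj, blk_inj]
    simp
  · obtain ⟨g, rfl⟩ := QuotientGroup.mk'_surjective _ g
    obtain ⟨g, hg⟩ := g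
    obtain ⟨a, b, c, d, rfl⟩ := blk_surj g
    simp only [MonoidHom.comp_apply]
    intro h
    change π _ * _ = _ * π _ at h
    rw [← map_mul, ← map_mul, hπ] at h
    have hg' := blk_mem.1 hg
    simp only [Submonoid.coe_mul, hβ, blk_mul, blk_neg, blk_inj, Matrix.SpecialLinearGroup.coe_one,
      Matrix.SpecialLinearGroup.coe_neg] at h
    rcases h with h | h
    · have hb : b = 0 := neg0 b (by simpa using h.2.1)
      have hc : c = 0 := neg0 c (by simpa using h.2.2.1.symm)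
      subst hb hc
      refine ⟨⟨a, det_of_j2 (by simpa using hg'.1)⟩, ⟨d, det_of_j2 (by simpa using hg'.2.2.2)⟩, Or.inl ?_⟩
      exact congrArg π (Subtype.ext rfl)
    · have ha : a = 0 := neg0 a (by simpa using h.1.symm)
      have hd : d = 0 := neg0 d (by simpa using h.2.2.2)
      subst ha hd
      refine ⟨⟨b, det_of_j2 (by simpa using hg'.1)⟩, ⟨c, det_of_j2 (by simpa using hg'.2.2.2)⟩, Or.inr ?_⟩
      rw [← map_mul]
      exact congrArg π (Subtype.ext (by change blk 0 b c 0 = blk b 0 0 c * blk 0 1 1 0; simp [blk_mul]))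
  · have e1 : A * j2 * Aᵀ + A * j2 * Aᵀ = j2 := by rw [mul_j2, ← add_smul, ← two_mul, hA, one_smul]
    let ν : symplecticGroup (Fin 2) F := ⟨blk A A A (-A), blk_mem.2 (by simp [e1])⟩
    have hν : ν.1 = blk A A A (-A) := rfl
    simp only [MonoidHom.comp_apply]
    refine ⟨π ν, fun x y h => ?_, ?_, ?_, fun h => ?_⟩
    · rw [← map_mul, ← map_mul, hπ]
      left
      simp [hβ, hν, blk_mul, h]
    · rw [← map_mul, ← map_mul, hπ]
      left
      simp [hβ, hν, hτ, blk_mul]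
    · rw [← map_mul, ← map_mul, hπ]
      left
      simp [hβ, hν, hτ, blk_mul]
    · rw [← map_mul, ← map_one π, hπ]
      right
      rw [two_smul] at h
      simp [hν, blk_mul, h, ← blk_one, blk_neg]

namespace Md
variable {G : Type*} [Group G] (M : Md F G)

theorem β_eq {a b c d : SL(2, F)} : M.β (a, b) = M.β (c, d) ↔ (a = c ∧ b = d) ∨ (a = -c ∧ b = -d) := by
  rw [← mul_inv_eq_one, ← map_inv, ← map_mul, Prod.inv_mk, Prod.mk_mul_mk, M.ker]
  simp [mul_inv_eq_iff_eq_mul]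

theorem β_mul (a b c d : SL(2, F)) : M.β (a, b) * M.β (c, d) = M.β (a * c, b * d) := by rw [← map_mul]; rfl
theorem β_inv (a b : SL(2, F)) : (M.β (a, b))⁻¹ = M.β (a⁻¹, b⁻¹) := by rw [← map_inv]; rfl
theorem τ_inv : M.τ⁻¹ = M.τ := inv_eq_of_mul_eq_one_right M.tt
theorem sw' (a b : SL(2, F)) (g : G) : M.τ * (M.β (a, b) * g) = M.β (b, a) * (M.τ * g) := by
  rw [← mul_assoc, M.sw, mul_assoc]
theorem β_mul' (a b c d : SL(2, F)) (g : G) : M.β (a, b) * (M.β (c, d) * g) = M.β (a * c, b * d) * g := by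
  rw [← mul_assoc, β_mul]
theorem tt' (g : G) : M.τ * (M.τ * g) = g := by rw [← mul_assoc, M.tt, one_mul]
theorem β_ne (p q : SL(2, F) × SL(2, F)) : M.β p ≠ M.β q * M.τ := fun e =>
  M.nt (q⁻¹ * p) (by rw [map_mul, map_inv, e]; simp)

/-- symmetric subgroups containing the kernel -/
def Sy (X : Subgroup (SL(2, F) × SL(2, F))) : Prop := (∀ a b, (a, b) ∈ X → (b, a) ∈ X) ∧ ((-1, -1) ∈ X)

/-- the extension by the swap -/
def ex (X : Subgroup (SL(2, F) × SL(2, F))) (hX : Sy X) : Subgroup G where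
  carrier := {g | ∃ a b, (a, b) ∈ X ∧ (g = M.β (a, b) ∨ g = M.β (a, b) * M.τ)}
  one_mem' := ⟨1, 1, one_mem X, .inl (map_one M.β).symm⟩
  mul_mem' := by
    rintro _ _ ⟨a, b, h, rfl | rfl⟩ ⟨c, d, h', rfl | rfl⟩
    · exact ⟨_, _, mul_mem h h', .inl (M.β_mul ..)⟩
    · exact ⟨_, _, mul_mem h h', .inr (by rw [← mul_assoc, M.β_mul]; rfl)⟩
    · exact ⟨_, _, mul_mem h (hX.1 _ _ h'), .inr (by rw [mul_assoc, M.sw, ← mul_assoc, M.β_mul]; rfl)⟩
    · exact ⟨_, _, mul_mem h (hX.1 _ _ h'), .inl (by rw [mul_assoc, M.sw', M.tt, mul_one, M.β_mul]; rfl)⟩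
  inv_mem' := by
    rintro _ ⟨a, b, h, rfl | rfl⟩
    · exact ⟨_, _, inv_mem h, .inl (M.β_inv ..)⟩
    · exact ⟨_, _, hX.1 _ _ (inv_mem h), .inr (by rw [_root_.mul_inv_rev, M.τ_inv, M.β_inv, M.sw]; rfl)⟩

variable {X : Subgroup (SL(2, F) × SL(2, F))} {hX : Sy X}

theorem mem_ex {g : G} : g ∈ M.ex X hX ↔ ∃ a b, (a, b) ∈ X ∧ (g = M.β (a, b) ∨ g = M.β (a, b) * M.τ) := Iff.rfl

theorem β_mem {a b : SL(2, F)} : M.β (a, b) ∈ M.ex X hX ↔ (a, b) ∈ X := by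
  refine ⟨?_, fun h => ⟨a, b, h, .inl rfl⟩⟩
  rintro ⟨c, d, h, e | e⟩
  · rcases M.β_eq.1 e with ⟨rfl, rfl⟩ | ⟨rfl, rfl⟩
    · exact h
    · simpa using mul_mem hX.2 h
  · exact absurd e (M.β_ne _ _)

theorem τ_mem : M.τ ∈ M.ex X hX := ⟨1, 1, one_mem X, .inr (by rw [show ((1, 1) : SL(2, F) × SL(2, F)) = 1 from rfl,
  map_one, one_mul])⟩

theorem pgroup_ex (h : IsPGroup 2 X) : IsPGroup 2 (M.ex X hX) := by
  rw [pgroup_iff] at h ⊢
  have h1 : ∀ p ∈ X, ∃ k, M.β p ^ 2 ^ k = 1 := fun p hp => by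
    obtain ⟨k, hk⟩ := h p hp
    exact ⟨k, by rw [← map_pow, hk, map_one]⟩
  rintro _ ⟨a, b, hab, rfl | rfl⟩
  · exact h1 _ hab
  · obtain ⟨k, hk⟩ := h1 _ (mul_mem hab (hX.1 _ _ hab))
    refine ⟨k + 1, ?_⟩
    rw [pow_succ', pow_mul, pow_two, mul_assoc, M.sw', M.tt, mul_one, ← map_mul, hk]

variable [Fintype F]

theorem sy_prod (Q : Sylow 2 SL(2, F)) : Sy ((Q : Subgroup SL(2, F)).prod Q) :=
  ⟨fun _ _ h => ⟨h.2, h.1⟩, neg_one_mem_sylow_two Q, neg_one_mem_sylow_two Q⟩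

/-- the Sylow 2-subgroup -/
def SS (Q : Sylow 2 SL(2, F)) : Subgroup G := M.ex _ (sy_prod Q)

theorem β_SS {Q : Sylow 2 SL(2, F)} {a b : SL(2, F)} :
    M.β (a, b) ∈ M.SS Q ↔ a ∈ (Q : Subgroup SL(2, F)) ∧ b ∈ (Q : Subgroup SL(2, F)) := M.β_mem

theorem pgroup_SS (Q : Sylow 2 SL(2, F)) : IsPGroup 2 (M.SS Q) := by
  refine M.pgroup_ex (pgroup_iff.2 fun p hp => ?_)
  obtain ⟨k, hk⟩ := pgroup_iff.1 Q.2 _ hp.1
  obtain ⟨l, hl⟩ := pgroup_iff.1 Q.2 _ hp.2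
  refine ⟨k + l, Prod.ext ?_ ?_⟩
  · rw [Prod.pow_fst, pow_add, pow_mul, hk, one_pow]; rfl
  · rw [Prod.pow_snd, pow_add, mul_comm, pow_mul, hl, one_pow]; rfl

/-- quaternion generators -/
structure QG (Q : Sylow 2 SL(2, F)) (t s : SL(2, F)) : Prop where
  h2 : (2 : F) ≠ 0
  tQ : t ∈ (Q : Subgroup SL(2, F))
  sQ : s ∈ (Q : Subgroup SL(2, F))
  t0 : (t : M2 F).trace = 0
  le : (Q : Subgroup SL(2, F)) ≤ normalizer (C2 t : Set SL(2, F))
  sT : s ∉ C2 t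

theorem exists_qg (h2 : (2 : F) ≠ 0) (Q : Sylow 2 SL(2, F)) : ∃ t s, QG Q t s := by
  obtain ⟨t, tS, t0, hle, hn⟩ := sylow_two h2 Q
  obtain ⟨s, sS, sT⟩ := SetLike.not_le_iff_exists.1 hn
  exact ⟨t, s, h2, tS, sS, t0, hle, sT⟩

namespace QG
variable {Q : Sylow 2 SL(2, F)} {t s : SL(2, F)} (H : QG Q t s)
include H

theorem rs : RS t := rs_of_trace_zero H.h2 H.t0
theorem tt : t * t = -1 := mul_self_of_trace_zero H.t0
theorem sq {x : SL(2, F)} (hx : x ∈ (Q : Subgroup SL(2, F))) (h : x ∉ C2 t) : x * x = -1 :=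
  H.rs.sq_eq_neg_one H.h2 (H.le hx) h
theorem ss : s * s = -1 := H.sq H.sQ H.sT
theorem st : s * t = -(t * s) := by
  have := H.rs.inv_of_mem_norm (H.le H.sQ) H.sT (self_mem_C2 t)
  rw [show t⁻¹ = -t by rw [inv_eq_iff_mul_eq_one, mul_neg, H.tt, neg_neg], mul_inv_eq_iff_eq_mul] at this
  rw [this, neg_mul]
theorem cent {y : SL(2, F)} (h1 : y * t = t * y) (h3 : y * s = s * y) : y = 1 ∨ y = -1 := by
  have := H.rs.inv_of_mem_norm (H.le H.sQ) H.sT (z := y) (mem_centralizer_singleton_iff.2 h1)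
  rw [← h3, mul_inv_cancel_right] at this
  exact eq_of_sq_eq_one H.h2 (by rw [pow_two]; nth_rw 1 [this]; simp)
theorem t_ne : t ≠ 1 ∧ t ≠ -1 := by
  have := H.tt
  constructor <;> intro e <;> rw [e] at this <;> exact neg_one_ne_one_SL H.h2 (by simpa using this.symm)
theorem neg_mem {x : SL(2, F)} (hx : x ∈ (Q : Subgroup SL(2, F))) : -x ∈ (Q : Subgroup SL(2, F)) := by
  simpa using mul_mem (neg_one_mem_sylow_two Q) hx
theorem mem_of {a : SL(2, F)} (h1 : a * t = t * a ∨ a * t = -(t * a)) (h3 : a * s = s * a ∨ a * s = -(s * a)) :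
    a ∈ (Q : Subgroup SL(2, F)) := by
  have key : ∀ u ∈ (Q : Subgroup SL(2, F)), a * u * t = t * (a * u) → a * u * s = s * (a * u) →
      a ∈ (Q : Subgroup SL(2, F)) := fun u hu e1 e2 => by
    have : a * u ∈ (Q : Subgroup SL(2, F)) := by
      rcases H.cent e1 e2 with e | e <;> rw [e]
      exacts [one_mem _, neg_one_mem_sylow_two Q]
    exact (Subgroup.mul_mem_cancel_right _ hu).1 this
  have ts : t * s = -(s * t) := by rw [H.st, neg_neg]
  rcases h1 with h1 | h1 <;> rcases h3 with h3 | h3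
  · exact key 1 (one_mem _) (by simpa using h1) (by simpa using h3)
  · refine key t H.tQ (by rw [← mul_assoc, ← h1]) ?_
    rw [mul_assoc, ts, mul_neg, ← mul_assoc, h3, neg_mul, neg_neg, mul_assoc]
  · refine key s H.sQ ?_ (by rw [← mul_assoc, ← h3])
    rw [mul_assoc, H.st, mul_neg, ← mul_assoc, h1, neg_mul, neg_neg, mul_assoc]
  · refine key (t * s) (mul_mem H.tQ H.sQ) ?_ ?_
    · rw [mul_assoc, mul_assoc, H.st, mul_neg, mul_neg, ← mul_assoc a, h1]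
      simp [mul_assoc]
    · rw [← mul_assoc s, ← neg_neg (s * a), ← h3, neg_mul, mul_assoc a s, ← mul_assoc s, H.st]
      simp [mul_assoc]

end QG

theorem z_ne (h2 : (2 : F) ≠ 0) : M.β (1, -1) ≠ 1 := fun e => by
  rcases (M.ker _ _).1 e with h | h
  · exact neg_one_ne_one_SL h2 h.2
  · exact neg_one_ne_one_SL h2 h.1.symm

theorem z_comm {g : G} (hX : Sy X) (hg : g ∈ M.ex X hX) : g * M.β (1, -1) = M.β (1, -1) * g := by
  have e : M.τ * M.β (1, -1) = M.β (1, -1) * M.τ := by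
    rw [M.sw, M.β_eq.2 (.inr ⟨rfl, by simp⟩ : ((-1 : SL(2, F)) = 1 ∧ (1 : SL(2, F)) = -1) ∨ _)]
  obtain ⟨a, b, -, rfl | rfl⟩ := hg
  · simp [β_mul]
  · rw [mul_assoc, e, ← mul_assoc, ← mul_assoc]; simp [β_mul]

variable {Q : Sylow 2 SL(2, F)} {t s : SL(2, F)}

theorem center_SS (H : QG Q t s) {g : G} (hg : g ∈ M.SS Q) (h : ∀ y ∈ M.SS Q, g * y = y * g) :
    g = 1 ∨ g = M.β (1, -1) := by
  have n1 := neg_one_ne_one_SL H.h2
  obtain ⟨a, b, -, rfl | rfl⟩ := hg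
  · have k1 : ∀ u ∈ (Q : Subgroup SL(2, F)), a * u = u * a ∧ b * u = u * b := fun u hu => by
      have e1 := h _ (M.β_SS.2 ⟨hu, one_mem _⟩)
      have e2 := h _ (M.β_SS.2 ⟨one_mem _, hu⟩)
      rw [β_mul, β_mul, β_eq] at e1 e2
      constructor
      · refine (e1.resolve_right fun e => n1 ?_).1
        have := e.2
        rw [mul_one, one_mul, ← neg_one_mul, eq_comm, mul_eq_right] at this
        exact this
      · refine (e2.resolve_right fun e => n1 ?_).2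
        have := e.1
        rw [mul_one, one_mul, ← neg_one_mul, eq_comm, mul_eq_right] at this
        exact this
    rcases H.cent (k1 t H.tQ).1 (k1 s H.sQ).1 with rfl | rfl <;>
      rcases H.cent (k1 t H.tQ).2 (k1 s H.sQ).2 with rfl | rfl
    · exact .inl (map_one M.β)
    · exact .inr rfl
    · exact .inr (M.β_eq.2 (.inr ⟨rfl, by simp⟩))
    · exact .inl ((M.ker _ _).2 (.inr ⟨rfl, rfl⟩))
  · have e1 := h _ (M.β_SS.2 ⟨H.tQ, one_mem _⟩)
    rw [mul_assoc, M.sw, ← mul_assoc, ← mul_assoc, mul_left_inj, β_mul, β_mul, β_eq] at e1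
    exfalso
    rcases e1 with e | e
    · exact H.t_ne.1 (by simpa using e.1)
    · refine H.t_ne.2 ?_
      have := e.1
      rw [mul_one, ← neg_mul, eq_comm, mul_eq_right, neg_eq_iff_eq_neg] at this
      exact this

theorem norm_SS [Finite G] (H : QG Q t s) {g : G} (hg : g ∈ normalizer (M.SS Q : Set G)) :
    ∃ u ∈ M.SS Q, ∃ b ∈ normalizer ((Q : Subgroup SL(2, F)) : Set SL(2, F)), g = u * M.β (b, b) := by
  have hz : M.β (1, -1) ∈ M.SS Q := M.β_SS.2 ⟨one_mem _, neg_one_mem_sylow_two Q⟩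
  have key : ∀ a b, M.β (a, b) ∈ normalizer (M.SS Q : Set G) →
      ∃ u ∈ M.SS Q, ∃ c ∈ normalizer ((Q : Subgroup SL(2, F)) : Set SL(2, F)), M.β (a, b) = u * M.β (c, c) := by
    intro a b h
    refine ⟨M.β (a * b⁻¹, 1), M.β_SS.2 ⟨?_, one_mem _⟩, b, mem_normalizer_of_conj fun x hx => ?_, by simp [β_mul]⟩
    · have := mul_mem (conj_mem_of_mem_normalizer h M.τ_mem) (M.τ_mem (hX := sy_prod Q))
      rw [β_inv, mul_assoc, mul_assoc, M.sw', M.tt, mul_one, β_mul] at this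
      exact (M.β_SS.1 this).1
    · have := conj_mem_of_mem_normalizer h (M.β_SS.2 ⟨one_mem _, hx⟩)
      rw [β_inv, β_mul, β_mul] at this
      exact (M.β_SS.1 this).2
  have h1 : g * M.β (1, -1) * g⁻¹ = M.β (1, -1) := by
    refine (M.center_SS H (conj_mem_of_mem_normalizer hg hz) fun y hy => ?_).resolve_left fun e => M.z_ne H.h2 (by
      simpa [mul_inv_eq_iff_eq_mul] using e)
    have := M.z_comm _ (conj_mem_of_mem_normalizer' hg hy)
    calc g * M.β (1, -1) * g⁻¹ * y = g * (M.β (1, -1) * (g⁻¹ * y * g)) * g⁻¹ := by group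
      _ = y * (g * M.β (1, -1) * g⁻¹) := by rw [← this]; group
  rw [mul_inv_eq_iff_eq_mul] at h1
  obtain ⟨a, b, rfl | rfl⟩ := M.cz g h1
  · exact key a b hg
  · obtain ⟨u, hu, c, hc, e⟩ := key a b ((Subgroup.mul_mem_cancel_right _ (le_normalizer M.τ_mem)).1 hg)
    exact ⟨u * M.τ, mul_mem hu M.τ_mem, c, hc, by rw [e, mul_assoc, mul_assoc, M.sw]⟩

theorem syl_SS [Finite G] (H : QG Q t s) : Syl 2 (M.SS Q) ⊤ := by
  refine ⟨le_top, M.pgroup_SS Q, fun L h1 _ h3 => ?_⟩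
  by_contra hne
  obtain ⟨g, g1, g2, g3⟩ := exists_normalizer_gt h3 h1 hne
  obtain ⟨u, hu, b, hb, rfl⟩ := M.norm_SS H g3
  obtain ⟨k, hk⟩ := pElt_of_mem h3 ((Subgroup.mul_mem_cancel_left _ (h1 hu)).1 g1)
  rw [← map_pow, Prod.pow_mk, M.ker] at hk
  have : b ∈ (Q : Subgroup SL(2, F)) := mem_sylow_of_pow_mem Q hb (k := k) (by
    rcases hk with e | e <;> rw [e.1]
    exacts [one_mem _, neg_one_mem_sylow_two Q])
  exact g2 (mul_mem hu (M.β_SS.2 ⟨this, this⟩))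

/-- the similarity interchanging the two generators -/
theorem QG.exists_A (H : QG Q t s) : ∃ A : M2 F, 2 * A.det = 1 ∧ A * t = s * A ∧ A * s = t * A ∧
    (2 : F) • (A * A) = -1 := by
  have ts := H10.trace_eq_zero_of_mul_self H.ss
  have dt := t.2
  have ds := s.2
  have t0 := H.t0
  have e := congrFun (congrFun (congrArg Subtype.val H.st) 0) 0
  rw [Matrix.trace_fin_two] at t0 ts
  rw [Matrix.det_fin_two] at dt ds
  simp [Matrix.mul_apply] at e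
  obtain ⟨u, hu⟩ : ∃ u : F, 2 * u = 1 := ⟨2⁻¹, mul_inv_cancel₀ H.h2⟩
  refine ⟨u • (t.1 + s.1), ?_, ?_, ?_, ?_⟩
  · simp [Matrix.det_fin_two]; grind
  all_goals apply ext2 <;> simp [mul_apply2] <;> grind

theorem closed_SS [Finite G] (H : QG Q t s) {T : Subgroup G} (hT : SCl ⊤ (M.SS Q) T) (h1 : T ≠ ⊥) : M.SS Q ≤ T := by
  have hz : M.β (1, -1) ∈ T := by
    have : (T.subgroupOf (M.SS Q)).Normal := ⟨fun x hx g => hT.conj le_top hx g.2⟩
    have := (M.pgroup_SS Q).isNilpotent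
    obtain ⟨x, hx, hx1⟩ := (bot_or_exists_ne_one _).resolve_left (H1.normal_inf_center_ne_bot (T.subgroupOf (M.SS Q))
      fun e => h1 (by rwa [subgroupOf_eq_bot, disjoint_iff, inf_eq_left.2 hT.1] at e))
    rcases M.center_SS H x.2 (fun y hy => congrArg Subtype.val (mem_center_iff.1 hx.2 ⟨y, hy⟩).symm) with e | e
    · exact absurd (Subtype.ext e) hx1
    · exact e ▸ hx.1
  obtain ⟨A, hA, -⟩ := H.exists_A
  obtain ⟨ν, -, h2, -⟩ := M.nu A hA
  have hτ : M.τ ∈ T := by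
    have e : ν * M.β (1, -1) * ν⁻¹ = M.τ := by rw [h2, mul_inv_cancel_right]
    exact e ▸ hT.2 _ hz ν (mem_top _) (e ▸ M.τ_mem)
  have h3 : M.β (t, t⁻¹) ∈ T := by
    have := mul_mem (hT.conj le_top hτ (M.β_SS.2 ⟨H.tQ, one_mem _⟩)) hτ
    rwa [β_inv, mul_assoc, mul_assoc, M.sw', M.tt, mul_one, β_mul, inv_one, mul_one, one_mul] at this
  have h4 : ∀ y ∈ (Q : Subgroup SL(2, F)), y * y = -1 → M.β (t, y) ∈ T := fun y hy hyy => by
    obtain ⟨c, hc⟩ := isConj_iff.1 (isConj_SL_of_trace (g := t⁻¹) (rs_of_trace_zero H.h2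
      (H10.trace_eq_zero_of_mul_self hyy)) (by rw [trace_inv_SL, H.t0, H10.trace_eq_zero_of_mul_self hyy]))
    have e : M.β (1, c) * M.β (t, t⁻¹) * (M.β (1, c))⁻¹ = M.β (t, y) := by
      rw [β_inv, β_mul, β_mul, hc]; simp
    exact e ▸ hT.2 _ h3 _ (mem_top _) (e ▸ M.β_SS.2 ⟨H.tQ, hy⟩)
  have h5 : ∀ y ∈ (Q : Subgroup SL(2, F)), y * y = -1 → ∀ y' ∈ (Q : Subgroup SL(2, F)), y' * y' = -1 →
      M.β (1, y * y'⁻¹) ∈ T := fun y hy hyy y' hy' hyy' => by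
    have := mul_mem (h4 y hy hyy) (inv_mem (h4 y' hy' hyy'))
    rwa [β_inv, β_mul, mul_inv_cancel] at this
  have h6 : ∀ x ∈ (Q : Subgroup SL(2, F)), x ∈ C2 t → M.β (1, x) ∈ T := fun x hx h => by
    have := h5 _ (mul_mem hx H.sQ) (H.sq (mul_mem hx H.sQ) fun e => H.sT ((Subgroup.mul_mem_cancel_left _ h).1 e))
      s H.sQ H.ss
    rwa [mul_inv_cancel_right] at this
  have h7 : ∀ x ∈ (Q : Subgroup SL(2, F)), M.β (1, x) ∈ T := fun x hx => by
    by_cases h : x ∈ C2 t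
    · exact h6 x hx h
    · have := mul_mem (h5 x hx (H.sq hx h) t H.tQ H.tt) (h6 t H.tQ (self_mem_C2 t))
      rwa [β_mul, one_mul, inv_mul_cancel_right] at this
  have h8 : ∀ a ∈ (Q : Subgroup SL(2, F)), ∀ b ∈ (Q : Subgroup SL(2, F)), M.β (a, b) ∈ T := fun a ha b hb => by
    have := mul_mem (mul_mem (mul_mem hτ (h7 a ha)) hτ) (h7 b hb)
    rwa [M.sw, mul_assoc (M.β _) M.τ M.τ, M.tt, mul_one, β_mul, mul_one, one_mul] at this
  rintro _ ⟨a, b, h, rfl | rfl⟩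
  · exact h8 a h.1 b h.2
  · exact mul_mem (h8 a h.1 b h.2) hτ

/-- the diagonal subgroup -/
def DD (Q : Sylow 2 SL(2, F)) : Subgroup (SL(2, F) × SL(2, F)) where
  carrier := {p | p.1 ∈ (Q : Subgroup SL(2, F)) ∧ (p.2 = p.1 ∨ p.2 = -p.1)}
  one_mem' := ⟨one_mem _, .inl rfl⟩
  mul_mem' := by
    rintro ⟨a, b⟩ ⟨c, d⟩ ⟨h1, h2⟩ ⟨h3, h4⟩
    refine ⟨mul_mem h1 h3, ?_⟩
    simp only at h2 h4
    rcases h2 with rfl | rfl <;> rcases h4 with rfl | rfl <;> simp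
  inv_mem' := by
    rintro ⟨a, b⟩ ⟨h1, h2⟩
    refine ⟨inv_mem h1, ?_⟩
    simp only at h2
    rcases h2 with rfl | rfl <;> simp

theorem sy_DD (H : QG Q t s) : Sy (DD Q) := by
  refine ⟨?_, neg_one_mem_sylow_two Q, .inl rfl⟩
  rintro a b ⟨h1, h2⟩
  simp only at h1 h2
  rcases h2 with rfl | rfl
  · exact ⟨h1, .inl rfl⟩
  · exact ⟨H.neg_mem h1, .inr (by simp)⟩

theorem cen_R (H : QG Q t s) : Cen 2 ⊤ (M.ex _ (sy_DD H)) := by
  have hd : ∀ x ∈ (Q : Subgroup SL(2, F)), M.β (x, x) ∈ M.ex _ (sy_DD H) := fun x hx => M.β_mem.2 ⟨hx, .inl rfl⟩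
  have key : ∀ a b, M.β (a, b) * M.τ = M.τ * M.β (a, b) → M.β (a, b) * M.β (t, t) = M.β (t, t) * M.β (a, b) →
      M.β (a, b) * M.β (s, s) = M.β (s, s) * M.β (a, b) → M.β (a, b) ∈ M.ex _ (sy_DD H) := fun a b h1 h2 h3 => by
    rw [M.sw, mul_left_inj, β_eq] at h1
    rw [β_mul, β_mul, β_eq] at h2 h3
    exact M.β_mem.2 ⟨H.mem_of (h2.imp And.left And.left) (h3.imp And.left And.left), h1.imp And.right And.right⟩
  intro x _ _ hc
  obtain ⟨a, b, rfl | rfl⟩ := M.cz x (hc _ (M.β_mem.2 ⟨one_mem _, .inr rfl⟩))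
  · exact key a b (hc _ M.τ_mem) (hc _ (hd t H.tQ)) (hc _ (hd s H.sQ))
  · have k : ∀ y ∈ M.ex _ (sy_DD H), M.τ * y = y * M.τ → M.β (a, b) * y = y * M.β (a, b) := fun y hy e => by
      have := hc y hy
      rwa [mul_assoc, e, ← mul_assoc, ← mul_assoc, mul_left_inj] at this
    exact mul_mem (key a b (k _ M.τ_mem rfl) (k _ (hd t H.tQ) (M.sw _ _)) (k _ (hd s H.sQ) (M.sw _ _))) M.τ_mem

theorem QG.q8 (H : QG Q t s) (h : Fintype.card F % 8 = 3 ∨ Fintype.card F % 8 = 5) {P : SL(2, F) → Prop}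
    (ht : P t) (hs : P s) (hm : ∀ x y, P x → P y → P (x * y)) : ∀ x ∈ (Q : Subgroup SL(2, F)), P x := by
  have hr := H.rs
  have i2 := hr.index_subgroupOf H.le fun e => H.sT (e H.sQ)
  have cT : Nat.card Q = 2 * Nat.card ((C2 t).subgroupOf Q) := by
    rw [← ((C2 t).subgroupOf Q).index_mul_card, i2]
  have cG := H10.card_SL2 (F := F)
  obtain ⟨m, hm'⟩ : ∃ m, Fintype.card F = 2 * m + 1 := ⟨Fintype.card F / 2, by omega⟩
  have n16 : ¬ 2 ^ 4 ∣ Nat.card SL(2, F) := by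
    rw [cG, mul_assoc, hm', Nat.add_sub_cancel, show 2 * m * (2 * m + 1 + 1) = 2 ^ 2 * (m * (m + 1)) by ring]
    intro d
    have d := (Nat.Coprime.pow_left 4 (by simp : Nat.Coprime 2 (2 * m + 1))).dvd_of_dvd_mul_left d
    have d : 4 ∣ m * (m + 1) := Nat.dvd_of_mul_dvd_mul_left four_pos d
    obtain ⟨k, rfl | rfl⟩ : ∃ k, m = 4 * k + 1 ∨ m = 4 * k + 2 := ⟨m / 4, by omega⟩
    · rw [show (4 * k + 1) * (4 * k + 1 + 1) = 4 * (4 * k ^ 2 + 3 * k) + 2 by ring] at d; omega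
    · rw [show (4 * k + 2) * (4 * k + 2 + 1) = 4 * (4 * k ^ 2 + 5 * k + 1) + 2 by ring] at d; omega
  have o4 : orderOf t = 2 ^ (1 + 1) := orderOf_eq_prime_pow
    (by rw [pow_one, pow_two, H.tt]; exact neg_one_ne_one_SL H.h2)
    (by rw [show 2 ^ (1 + 1) = 2 * 2 from rfl, pow_mul, pow_two t, H.tt]; simp)
  have c8 : Nat.card Q ≤ 8 := by
    obtain ⟨k, hk⟩ := Q.isPGroup'.exists_card_eq
    have b : ¬ 2 ^ 4 ∣ 2 ^ k := fun e => n16 (e.trans (hk ▸ card_subgroup_dvd_card _))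
    rw [Nat.pow_dvd_pow_iff_le_right one_lt_two] at b
    rw [hk]
    exact Nat.pow_le_pow_right two_pos (show k ≤ 3 by omega)
  have zt : zpowers t = C2 t ⊓ Q := eq_of_le_of_card_ge
    (zpowers_le_of_mem ⟨self_mem_C2 t, H.tQ⟩) (by
      rw [Nat.card_zpowers, o4, ← Nat.card_congr (subgroupOfEquivOfLe (inf_le_right :
        C2 t ⊓ (Q : Subgroup SL(2, F)) ≤ Q)).toEquiv, inf_subgroupOf_right]
      omega)
  have hp : ∀ n : ℕ, P (t ^ (n + 1)) := fun n => by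
    induction n with
    | zero => simpa using ht
    | succ n ih => rw [pow_succ]; exact hm _ _ ih ht
  have a : ∀ x ∈ C2 t, x ∈ (Q : Subgroup SL(2, F)) → P x := fun x h1 h3 => by
    have hx : x ∈ zpowers t := zt ▸ ⟨h1, h3⟩
    obtain ⟨k, rfl⟩ := (mem_powers_iff_mem_zpowers.2 hx : x ∈ Submonoid.powers t)
    have := hp (k + 3)
    rwa [add_assoc, pow_add, show 3 + 1 = orderOf t from o4.symm, pow_orderOf_eq_one, mul_one] at this
  intro x hx
  by_cases k : x ∈ C2 t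
  · exact a x k hx
  · have : x * s⁻¹ ∈ C2 t := (mul_mem_iff_of_index_two i2 (a := ⟨x, hx⟩) (b := ⟨s, H.sQ⟩⁻¹)).2
      (by simp [mem_subgroupOf, k, H.sT])
    simpa using hm _ _ (a _ this (mul_mem hx (inv_mem H.sQ))) hs

theorem gd_SS [Finite G] (hodd : Odd (Fintype.card F)) (H : QG Q t s) {g : G}
    (hg : g ∈ normalizer (M.SS Q : Set G)) : Gd 2 ⊤ (M.SS Q) (M.SS Q) g := by
  obtain ⟨u, hu, b, hb, rfl⟩ := M.norm_SS H hg
  have hS : ∀ u ∈ M.SS Q, u ∈ GdN 2 ⊤ (M.SS Q) (M.SS Q) le_rfl := fun u hu =>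
    pelt_mem_GdN _ (mem_top _) (le_normalizer hu) (pElt_of_mem (M.pgroup_SS Q) hu)
  have hb' := (Subgroup.mul_mem_cancel_left _ (le_normalizer hu)).1 hg
  refine (mul_mem (hS u hu) (?_ : _ ∈ GdN 2 ⊤ (M.SS Q) (M.SS Q) le_rfl)).2
  obtain ⟨-, n1, n3⟩ := Cfsg.Agent.S2431.result hodd Q
  by_cases hq : Fintype.card F % 8 = 1 ∨ Fintype.card F % 8 = 7
  · rw [n1 hq] at hb
    exact hS _ (M.β_SS.2 ⟨hb, hb⟩)
  have hq' : Fintype.card F % 8 = 3 ∨ Fintype.card F % 8 = 5 := by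
    have := Nat.odd_iff.1 hodd
    omega
  set R := M.ex _ (sy_DD H) with hR
  have hRS : R ≤ M.SS Q := by
    rintro _ ⟨x, y, h, e⟩
    refine ⟨x, y, ⟨h.1, ?_⟩, e⟩
    rcases h.2 with e | e <;> simp only at e <;> rw [e]
    exacts [h.1, H.neg_mem h.1]
  have hd : ∀ x ∈ (Q : Subgroup SL(2, F)), M.β (x, x) ∈ R := fun x hx => M.β_mem.2 ⟨hx, .inl rfl⟩
  have hzR : M.β (1, -1) ∈ R := M.β_mem.2 ⟨one_mem _, .inr rfl⟩
  have nR : ∀ g : G, (∀ x ∈ (Q : Subgroup SL(2, F)), g * M.β (x, x) * g⁻¹ ∈ R) → g * M.β (1, -1) * g⁻¹ ∈ R →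
      g * M.τ * g⁻¹ ∈ R → g ∈ normalizer (R : Set G) := fun g h1 h2 h3 => by
    have k : ∀ x y, (x, y) ∈ DD Q → g * M.β (x, y) * g⁻¹ ∈ R := fun x y h => by
      rcases h.2 with e | e <;> simp only at e <;> rw [e]
      · exact h1 x h.1
      · have := mul_mem (h1 x h.1) h2
        rwa [conj_mul, β_mul, mul_one, mul_neg, mul_one] at this
    refine mem_normalizer_of_conj ?_
    rintro _ ⟨x, y, h, rfl | rfl⟩
    · exact k x y h
    · rw [← conj_mul]; exact mul_mem (k x y h) h3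
  have nb : ∀ b ∈ normalizer ((Q : Subgroup SL(2, F)) : Set SL(2, F)), M.β (b, b) ∈ normalizer (R : Set G) :=
    fun b hb => nR _ (fun x hx => by rw [β_inv, β_mul, β_mul]; exact hd _ (conj_mem_of_mem_normalizer hb hx))
      (by rw [β_inv, β_mul, β_mul]; simpa using hzR) (by rw [← M.sw, mul_inv_cancel_right]; exact M.τ_mem)
  obtain ⟨A, hA, At, As, AA⟩ := H.exists_A
  obtain ⟨ν, ν1, ν2, ν3, ν4⟩ := M.nu A hA
  have hA0 : IsUnit A.det := isUnit_iff_ne_zero.2 fun e => by simp [e] at hA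
  -- conjugation by `A`
  obtain ⟨κ, hκ⟩ : ∃ κ : SL(2, F) → SL(2, F), ∀ x : SL(2, F), A * x = κ x * A :=
    ⟨fun x => ⟨A * x * A⁻¹, by rw [det_mul, det_mul, x.2, mul_one, ← det_mul, mul_nonsing_inv _ hA0, det_one]⟩,
      fun x => by simp [Matrix.mul_assoc, nonsing_inv_mul _ hA0]⟩
  have κu : ∀ x y : SL(2, F), A * x = y * A → κ x = y := fun x y e => by
    rw [hκ] at e
    have := congrArg (· * A⁻¹) e
    simp only [Matrix.mul_assoc, mul_nonsing_inv _ hA0, Matrix.mul_one] at this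
    exact Subtype.ext this
  have κm : ∀ x y, κ (x * y) = κ x * κ y := fun x y => κu _ _ (by
    rw [coe_mul_SL, coe_mul_SL, ← Matrix.mul_assoc, hκ, Matrix.mul_assoc, hκ, Matrix.mul_assoc])
  have κt := κu _ _ At
  have κs := κu _ _ As
  have κQ : ∀ x ∈ (Q : Subgroup SL(2, F)), κ x ∈ (Q : Subgroup SL(2, F)) :=
    H.q8 hq' (κt ▸ H.sQ) (κs ▸ H.tQ) fun x y hx hy => κm x y ▸ mul_mem hx hy
  have κQ' : ∀ x ∈ (Q : Subgroup SL(2, F)), ∃ y ∈ (Q : Subgroup SL(2, F)), κ y = x :=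
    H.q8 hq' ⟨s, H.sQ, κs⟩ ⟨t, H.tQ, κt⟩ (by
      rintro _ _ ⟨x, hx, rfl⟩ ⟨y, hy, rfl⟩
      exact ⟨_, mul_mem hx hy, κm x y⟩)
  have νκ : ∀ x, ν * M.β (x, x) * ν⁻¹ = M.β (κ x, κ x) := fun x => by rw [ν1 x _ (hκ x), mul_inv_cancel_right]
  have νR : ν ∈ normalizer (R : Set G) := nR _ (fun x hx => νκ x ▸ hd _ (κQ x hx))
    (by rw [ν2, mul_inv_cancel_right]; exact M.τ_mem) (by rw [ν3, mul_inv_cancel_right]; exact hzR)
  have νP : PElt 2 ν := ⟨1, by rw [pow_one, pow_two, ν4 AA]⟩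
  obtain ⟨w, w1, w2⟩ := Cfsg.Agent.S2431.exists_om H.h2 H.t0 H.ss H.st
  have wN : w ∈ normalizer ((Q : Subgroup SL(2, F)) : Set SL(2, F)) := mem_normalizer_of_conj
    (H.q8 hq' (P := fun x => w * x * w⁻¹ ∈ (Q : Subgroup SL(2, F))) (by rw [w1, mul_inv_cancel_right]; exact H.sQ)
      (by rw [w2, mul_inv_cancel_right]; exact mul_mem H.tQ H.sQ) fun x y hx hy => by simpa using mul_mem hx hy)
  have κc : ∀ x, κ w * κ x * (κ w)⁻¹ = κ (w * x * w⁻¹) := fun x => by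
    rw [mul_inv_eq_iff_eq_mul, ← κm, ← κm, inv_mul_cancel_right]
  have κN : κ w ∈ normalizer ((Q : Subgroup SL(2, F)) : Set SL(2, F)) := mem_normalizer_of_conj fun x hx => by
    obtain ⟨y, hy, rfl⟩ := κQ' x hx
    exact κc y ▸ κQ _ (conj_mem_of_mem_normalizer wN hy)
  let δ : SL(2, F) →* G := M.β.comp ((MonoidHom.id _).prod (MonoidHom.id _))
  let Y := (GdN 2 ⊤ (M.SS Q) R hRS).comap δ ⊓ normalizer ((Q : Subgroup SL(2, F)) : Set SL(2, F))
  have QY : (Q : Subgroup SL(2, F)) ≤ Y := fun x hx => ⟨pelt_mem_GdN hRS (mem_top _) (le_normalizer (hd x hx))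
    (pElt_of_mem (M.pgroup_SS Q) (hRS (hd x hx))), le_normalizer hx⟩
  have cY : κ w * w⁻¹ ∈ Y := by
    refine mem_inf.2 ⟨?_, mul_mem κN (inv_mem wN)⟩
    have e : δ (κ w * w⁻¹) = ν * (M.β (w, w) * ν⁻¹ * (M.β (w, w))⁻¹) := by
      rw [map_mul, map_inv]
      change M.β (κ w, κ w) * (M.β (w, w))⁻¹ = _
      rw [← νκ]; group
    rw [mem_comap, e]
    exact mul_mem (pelt_mem_GdN hRS (mem_top _) νR νP) (pelt_mem_GdN hRS (mem_top _)
      (mul_mem (mul_mem (nb w wN) (inv_mem νR)) (inv_mem (nb w wN))) (νP.inv.conj _))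
  have cQ : κ w * w⁻¹ ∉ (Q : Subgroup SL(2, F)) := fun hc => by
    have e : κ w * w⁻¹ * (t * s) * (κ w * w⁻¹)⁻¹ = t := by
      have e1 : w⁻¹ * (t * s) * w = s := by rw [mul_assoc, ← w2]; simp
      have e2 : w * t * w⁻¹ = s := by rw [w1, mul_inv_cancel_right]
      calc κ w * w⁻¹ * (t * s) * (κ w * w⁻¹)⁻¹ = κ w * (w⁻¹ * (t * s) * w) * (κ w)⁻¹ := by group
        _ = t := by rw [e1, ← κt, κc, e2, κs]
    have := (mem_normalizer_iff.1 (H.le hc) (t * s)).2 (e.symm ▸ self_mem_C2 t)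
    exact H.sT ((Subgroup.mul_mem_cancel_left _ (self_mem_C2 t)).1 this)
  have hY : Y = normalizer ((Q : Subgroup SL(2, F)) : Set SL(2, F)) := by
    obtain ⟨k, hk⟩ := card_dvd_of_le QY
    have h1 := card_dvd_of_le (inf_le_right : Y ≤ _)
    have hpos : 0 < Nat.card (Q : Subgroup SL(2, F)) := Nat.card_pos
    rw [n3 hq', hk, mul_comm 3] at h1
    rcases (Nat.dvd_prime Nat.prime_three).1 (Nat.dvd_of_mul_dvd_mul_left hpos h1) with rfl | rfl
    · exact absurd ((eq_of_le_of_card_ge QY (by omega)).ge cY) cQ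
    · exact eq_of_le_of_card_ge inf_le_right (by rw [n3 hq', hk, mul_comm])
  exact ⟨hb', Gd.move (M.cen_R H) le_rfl hb' (nb b hb) (hY.ge hb).1.2⟩

include M in
theorem simple [Finite G] (hodd : Odd (Fintype.card F)) (S : Sylow 2 G) :
    (Cfsg.groupFusionSystem (S : Subgroup G)).IsSimple 2 := by
  obtain ⟨Q⟩ : Nonempty (Sylow 2 SL(2, F)) := inferInstance
  obtain ⟨t, s, H⟩ := exists_qg (two_ne_zero_of_odd hodd) Q
  refine simple_of_gd (K := ⊤) (⊤ : Subgroup G).subtype (fun x => ⟨⟨x, mem_top x⟩, rfl⟩) (fun x hx => ?_)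
    (M.syl_SS H) (fun e => M.nt 1 ?_) (fun T hT h1 => M.closed_SS H hT h1) (fun g _ hg => M.gd_SS hodd H hg) S
  · have : (x : G) = 1 := hx
    rw [this]
    exact ⟨by simp [QElt], by simp⟩
  · rw [map_one]; exact (mem_bot.1 (e.le M.τ_mem)).symm

end Md

end H9.P4
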