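import Mathlib

/-! Fixed-point-free elements of prime order in matrix representations: `fpf_of_count` (counting fixed
vectors mod `s`), `fpf_of_sylow` (transfer from one generator of a Sylow subgroup of prime order),
`fpf_pow`. -/

set_option autoImplicit false

namespace H9
open Matrix

theorem fpf_of_count {F n : Type*} [Field F] [Fintype F] [Fintype n] [DecidableEq n]
    (A : Matrix n n F) {s : ℕ} (hs : s.Prime) (hA : A ^ s = 1) (h1 : A ≠ 1)
    (h : ∀ d, 0 < d → d < Fintype.card n →
      ¬ Fintype.card F ^ Fintype.card n ≡ Fintype.card F ^ d [MOD s])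
    (v : n → F) (hv : A *ᵥ v = v) : v = 0 := by
  classical
  have : Fact s.Prime := ⟨hs⟩
  let W : Submodule F (n → F) := LinearMap.ker (Matrix.toLin' A - LinearMap.id)
  have hW : ∀ w, w ∈ W ↔ A *ᵥ w = w := fun w => by simp [W, sub_eq_zero]
  let f : Function.End (n → F) := fun w => A *ᵥ w
  have hf : ∀ k : ℕ, f ^ k = fun w => A ^ k *ᵥ w := by
    intro k
    induction k with
    | zero => funext w; simp; rfl
    | succ k ih => rw [pow_succ, ih]; funext w; rw [pow_succ, ← mulVec_mulVec]; rfl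
  have h2 := Equiv.Perm.card_fixedPoints_modEq (f := f) (p := s) (n := 1)
    (by rw [pow_one, hf, hA]; funext w; simp; rfl)
  have h3 : Fintype.card f.fixedPoints = Fintype.card F ^ Module.finrank F W := by
    rw [← Module.card_eq_pow_finrank]
    exact Fintype.card_congr (Equiv.subtypeEquivRight fun w => (hW w).symm)
  rw [h3, Fintype.card_fun] at h2
  have h4 : Module.finrank F W ≤ Fintype.card n := by
    simpa using Submodule.finrank_le W
  by_contra h0
  have h5 : 0 < Module.finrank F W := by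
    rw [Module.finrank_pos_iff_exists_ne_zero]
    exact ⟨⟨v, (hW v).2 hv⟩, fun k => h0 (congrArg Subtype.val k)⟩
  rcases h4.lt_or_eq with h6 | h6
  · exact h _ h5 h6 h2
  · have : W = ⊤ := Submodule.eq_top_of_finrank_eq (by simpa using h6)
    apply h1
    ext i j
    have := (hW (Pi.single j 1)).1 (this ▸ trivial)
    have := congrFun this i
    simpa [one_apply, Pi.single_apply] using this

theorem fpf_pow {G V : Type*} [Group G] [Finite G] (a : G → V → V)
    (hm : ∀ x y v, a (x * y) v = a x (a y v)) {y : G} {s : ℕ} (hs : s.Prime)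
    (hy : orderOf y = s) {k : ℕ} (hk : y ^ k ≠ 1) {v : V} (hv : a (y ^ k) v = v) :
    a y v = v := by
  have h1 : y ∈ Submonoid.powers (y ^ k) := by
    have : (orderOf y).Coprime k := by
      rw [hy, hs.coprime_iff_not_dvd]
      intro h
      exact hk (orderOf_dvd_iff_pow_eq_one.1 (hy ▸ h))
    obtain ⟨m, hm⟩ := exists_pow_eq_self_of_coprime this.symm
    exact ⟨m, hm⟩
  obtain ⟨m, hm'⟩ := h1
  have h2 : ∀ m : ℕ, a ((y ^ k) ^ (m + 1)) v = v := by
    intro m
    induction m with
    | zero => simpa using hv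
    | succ m ih => rw [pow_succ, hm, hv, ih]
  rcases m with _ | m
  · exfalso
    simp only [pow_zero] at hm'
    rw [← hm'] at hk
    simp at hk
  · simp only at hm'
    rw [← hm']; exact h2 m

theorem conj_of_sylow_prime {G : Type*} [Group G] [Finite G] {s : ℕ} (hs : s.Prime)
    (h2 : ¬ s ^ 2 ∣ Nat.card G) {x y : G} (hx : orderOf x = s) (hy : orderOf y = s) :
    ∃ g : G, ∃ k : ℕ, x = g * y ^ k * g⁻¹ := by
  have : Fact s.Prime := ⟨hs⟩
  have key : ∀ z : G, orderOf z = s → Nat.card (Subgroup.zpowers z) =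
      s ^ (Nat.card G).factorization s := by
    intro z hz
    have h3 : s ∣ Nat.card G := hz ▸ orderOf_dvd_natCard z
    have h4 : (Nat.card G).factorization s = 1 := by
      have a1 := (hs.dvd_iff_one_le_factorization Nat.card_pos.ne').1 h3
      have a2 : ¬ 2 ≤ (Nat.card G).factorization s := fun k =>
        h2 ((hs.pow_dvd_iff_le_factorization Nat.card_pos.ne').2 k)
      omega
    rw [h4, pow_one, Nat.card_zpowers, hz]
  obtain ⟨g, hg⟩ := MulAction.exists_smul_eq G (Sylow.ofCard _ (key y hy)) (Sylow.ofCard _ (key x hx))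
  have h5 : x ∈ ((g • Sylow.ofCard _ (key y hy) : Sylow s G) : Subgroup G) := by
    rw [hg]; exact Subgroup.mem_zpowers x
  rw [Sylow.coe_subgroup_smul, Subgroup.mem_pointwise_smul_iff_inv_smul_mem] at h5
  obtain ⟨k, hk⟩ := (mem_powers_iff_mem_zpowers.2 h5 : _ ∈ Submonoid.powers y)
  refine ⟨g, k, ?_⟩
  simp only at hk
  rw [hk]
  simp [MulAut.smul_def]
  group

theorem fpf_of_sylow {G V : Type*} [Group G] [Finite G] [Zero V] (a : G → V → V)
    (hm : ∀ x y v, a (x * y) v = a x (a y v)) (h1 : ∀ v, a 1 v = v) (h0 : ∀ x, a x 0 = 0)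
    {s : ℕ} (hs : s.Prime) (h2 : ¬ s ^ 2 ∣ Nat.card G) {y : G} (hy : orderOf y = s)
    (hf : ∀ v, a y v = v → v = 0) {x : G} (hx : orderOf x = s) (v : V) (hv : a x v = v) :
    v = 0 := by
  obtain ⟨g, k, rfl⟩ := conj_of_sylow_prime hs h2 hx hy
  have h3 : y ^ k ≠ 1 := by
    intro h
    rw [h] at hx
    exact hs.one_lt.ne (by simpa using hx)
  have h4 : a (y ^ k) (a g⁻¹ v) = a g⁻¹ v := by
    conv_rhs => rw [← hv]
    rw [← hm, ← hm]; congr 1; group
  have h5 := hf _ (fpf_pow a hm hs hy h3 h4)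
  rw [← h1 v, ← mul_inv_cancel g, hm, h5, h0]

end H9
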