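import Cfsg.Agent.H7.FrobAb

/-! Counting `p`-singular products of two conjugates with the principal block: `psolv_pair`
(`xy` or `x⁻¹y` is `p`-singular in a `p`-solvable `⟨x, y⟩`), `const_int` (a character constant on
`P#` has value `χ(1) - |P| a`), `num_bound`. -/

open H5 H7 Cfsg
open scoped ComplexConjugate

namespace H9.PSg

variable {G : Type*} [Group G]

theorem mem_of_cop {N : Subgroup G} {g : G} {a b : ℕ} (h : a.Coprime b) (ha : g ^ a ∈ N)
    (hb : g ^ b ∈ N) : g ∈ N := by
  have e := Nat.gcd_eq_gcd_ab a b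
  rw [h.gcd_eq_one] at e
  have : g = (g ^ a) ^ (a.gcdA b) * (g ^ b) ^ (a.gcdB b) := by
    rw [← zpow_natCast, ← zpow_natCast, ← zpow_mul, ← zpow_mul, ← zpow_add, ← e]; simp
  rw [this]; exact mul_mem (zpow_mem ha _) (zpow_mem hb _)

theorem psolv_top [Finite G] {p : ℕ} (hp : p.Prime) (h2 : p ≠ 2) (h : IsPSolvable p G) {x y : G}
    (hx : x ^ p = 1) (hy : y ^ p = 1) (ht : Subgroup.closure ({x, y} : Set G) = ⊤)
    (h1 : ¬ p ∣ orderOf (x * y)) (h3 : ¬ p ∣ orderOf (x⁻¹ * y)) : x = 1 := by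
  obtain ⟨n, H, H0, Hl, -, Hn, Hi⟩ := h
  have key : ∀ i, H i = ⊤ := by
    intro i
    induction i using Fin.reverseInduction with
    | last => exact Hl
    | cast i ih =>
      haveI := Hn i.castSucc
      have hi := Hi i
      rw [ih, Subgroup.relIndex_top_right] at hi
      suffices x ∈ H i.castSucc ∧ y ∈ H i.castSucc by
        rw [eq_top_iff, ← ht, Subgroup.closure_le]
        rintro _ (rfl | rfl)
        exacts [this.1, this.2]
      rcases hi with ⟨m, hm⟩ | hi
      · have k : ∀ g : G, ¬ p ∣ orderOf g → g ∈ H i.castSucc := fun g hg =>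
          mem_of_cop (((hp.coprime_iff_not_dvd).2 hg).pow_left m)
            (hm ▸ Subgroup.pow_index_mem _ g) (by rw [pow_orderOf_eq_one]; exact one_mem _)
        have a := k _ h1
        have b := k _ h3
        have c : x ^ 2 ∈ H i.castSucc := by
          have := mul_mem a (inv_mem b)
          rwa [show x * y * (x⁻¹ * y)⁻¹ = x ^ 2 by rw [sq]; group] at this
        have d : x ∈ H i.castSucc :=
          mem_of_cop ((Nat.coprime_primes Nat.prime_two hp).2 h2.symm) c (hx ▸ one_mem _)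
        exact ⟨d, by simpa using mul_mem (inv_mem d) a⟩
      · exact ⟨mem_of_cop hi (Subgroup.pow_index_mem _ _) (hx ▸ one_mem _),
          mem_of_cop hi (Subgroup.pow_index_mem _ _) (hy ▸ one_mem _)⟩
  have : x ∈ H 0 := key 0 ▸ Subgroup.mem_top x
  rwa [H0] at this

theorem psolv_pair [Finite G] {p : ℕ} (hp : p.Prime) (h2 : p ≠ 2) {x y : G}
    (h : IsPSolvable p (Subgroup.closure ({x, y} : Set G))) (hx : x ^ p = 1) (hy : y ^ p = 1)
    (x1 : x ≠ 1) : p ∣ orderOf (x * y) ∨ p ∣ orderOf (x⁻¹ * y) := by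
  by_contra! hh
  have mx : x ∈ Subgroup.closure ({x, y} : Set G) := Subgroup.subset_closure (by simp)
  have my : y ∈ Subgroup.closure ({x, y} : Set G) := Subgroup.subset_closure (by simp)
  refine x1 (congrArg Subtype.val (psolv_top hp h2 h (x := ⟨x, mx⟩) (y := ⟨y, my⟩)
    (Subtype.ext hx) (Subtype.ext hy) ?_ ?_ ?_))
  · apply Subgroup.map_injective (Subgroup.subtype_injective _)
    rw [MonoidHom.map_closure, ← MonoidHom.range_eq_map, Subgroup.range_subtype]
    simp [Set.image_pair]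
  · rw [← Subgroup.orderOf_coe]; exact hh.1
  · rw [← Subgroup.orderOf_coe]; exact hh.2

theorem const_int {P : Type*} [Group P] [Finite P] [Nontrivial P] (hc : ∀ a b : P, a * b = b * a)
    {ψ : P → ℂ} (hψ : IsCharacter P ψ) {d : ℂ} (hd : ∀ v ≠ 1, ψ v = d) :
    ∃ a : ℕ, d = ψ 1 - Nat.card P * a := by
  classical
  have := Fintype.ofFinite P
  obtain ⟨v, hv⟩ := exists_ne (1 : P)
  obtain ⟨l, hl, hk⟩ := exists_irr_not_mem_charKer hv
  have l1 : (fun _ => 1) ≠ l := fun e => hk (by rw [← e, charKer_one]; trivial)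
  obtain ⟨a, ha⟩ := hψ.exists_classInner_nat hl.isCharacter
  refine ⟨a, ?_⟩
  have h0 := isIrrCharacter_one.classInner_of_ne hl l1
  have e0 := card_mul_classInner (φ := fun _ : P => (1 : ℂ)) (ψ := l)
  rw [h0, mul_zero] at e0
  have e1 := card_mul_classInner (φ := ψ) (ψ := l)
  have e2 : ∑ g, ψ g * conj (l g) =
      ∑ g, (d * (1 * conj (l g)) + if g = 1 then (ψ 1 - d) else 0) :=
    Finset.sum_congr rfl fun g _ => by
      split_ifs with e
      · rw [e, hl.apply_one_of_comm hc]; simp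
      · rw [hd g e]; simp
  rw [e2, Finset.sum_add_distrib, ← Finset.mul_sum, ← e0, ha] at e1
  simp only [mul_zero, Finset.sum_ite_eq', Finset.mem_univ, if_true, zero_add] at e1
  rw [e1]; ring

theorem num_bound {ι : Type*} (B : Finset ι) (D n : ι → ℤ) (q : ℤ) (hq : 3 ≤ q) {o : ι}
    (ho : o ∈ B) (Do : D o = 1) (no : n o = 1) (hn : ∀ i ∈ B, 0 < n i)
    (hD : ∀ i ∈ B, i ≠ o → D i + q ≤ n i) (s2 : ∑ i ∈ B, D i ^ 2 = q)
    (s1 : ∑ i ∈ B, n i * D i = 0) : ∑ i ∈ B, (D i : ℚ) ^ 3 / n i < q / 2 := by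
  classical
  obtain ⟨j, hj, Dj⟩ : ∃ j ∈ B, D j < 0 := by
    by_contra! h
    have := Finset.single_le_sum (f := fun i => n i * D i)
      (fun i hi => mul_nonneg (hn i hi).le (h i hi)) ho
    simp only [Do, no, s1] at this; omega
  have key : ∀ i ∈ B, (D i : ℚ) ^ 3 / n i ≤
      (D i : ℚ) ^ 2 / 3 + (if i = o then 2 / 3 else 0) - (if i = j then 1 / 3 else 0) := by
    intro i hi
    have npos : (0 : ℚ) < n i := by exact_mod_cast hn i hi
    by_cases e : i = o
    · have : i ≠ j := fun e' => by rw [← e', e, Do] at Dj; omega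
      rw [if_pos e, if_neg this, e, Do, no]; norm_num
    rw [if_neg e]
    rcases le_or_gt (D i) 0 with h | h
    · have a : (D i : ℚ) ^ 3 / n i ≤ 0 :=
        div_nonpos_of_nonpos_of_nonneg (Odd.pow_nonpos (by decide) (by exact_mod_cast h)) npos.le
      split_ifs with e'
      · have : (1 : ℚ) ≤ (D i : ℚ) ^ 2 := by
          have : 1 ≤ D i ^ 2 := by rw [e']; nlinarith
          exact_mod_cast this
        linarith
      · have : (0 : ℚ) ≤ (D i : ℚ) ^ 2 := sq_nonneg _
        linarith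
    · rw [if_neg (fun e' => by rw [← e'] at Dj; omega)]
      have b : D i ^ 2 + 1 ≤ q := by
        have := Finset.sum_le_sum_of_subset_of_nonneg (f := fun i => D i ^ 2)
          (show ({i, o} : Finset ι) ⊆ B by simp [Finset.insert_subset_iff, hi, ho])
          (fun _ _ _ => sq_nonneg _)
        rwa [Finset.sum_pair e, Do, s2, one_pow] at this
      have c : 3 * D i ≤ n i := by have := hD i hi e; nlinarith [sq_nonneg (D i - 1)]
      have c' : 3 * (D i : ℚ) ≤ n i := by exact_mod_cast c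
      have h' : (0 : ℚ) < D i := by exact_mod_cast h
      rw [add_zero, sub_zero, div_le_div_iff₀ npos (by norm_num)]
      nlinarith [mul_le_mul_of_nonneg_left c' (sq_nonneg (D i : ℚ))]
  refine (Finset.sum_le_sum key).trans_lt ?_
  rw [Finset.sum_sub_distrib, Finset.sum_add_distrib, ← Finset.sum_div, Finset.sum_ite_eq',
    Finset.sum_ite_eq', if_pos ho, if_pos hj]
  have : ∑ i ∈ B, (D i : ℚ) ^ 2 = q := by exact_mod_cast s2
  have hq' : (3 : ℚ) ≤ q := by exact_mod_cast hq
  rw [this]; linarith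

end H9.PSg
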