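import Cfsg.Agent.H9.Pn4
import Cfsg.Agent.H9.Glaub

/-! The pair lemma `pair4` in `Sp₄(q)`, `q` odd: if a subgroup contains `diag(i, 1)` with `i² = -1` and the involution
`z = diag(-1, 1)` is isolated modulo `-1`, then any involution `t` has corner entry `±1`. -/

set_option autoImplicit false
set_option linter.unusedSectionVars false

namespace H9.Pn
open Subgroup H17 Matrix
open scoped commutatorElement

variable {F : Type*} [Field F]

/-- the symplectic form of rank two -/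
def J0 (F : Type*) [Field F] : Matrix (Fin 2) (Fin 2) F := !![0, 1; -1, 0]

/-- symplectic group of the matrix `J` -/
abbrev Sp {ι : Type} [Fintype ι] [DecidableEq ι] (J : Matrix ι ι F) : Subgroup (GL ι F) := Iso True (RingHom.id F) J

theorem mem_Sp {ι : Type} [Fintype ι] [DecidableEq ι] {J : Matrix ι ι F} {g : GL ι F} :
    g ∈ Sp J ↔ g.1ᵀ * J * g.1 = J := ⟨fun h => h trivial, fun h _ => h⟩

local notation "J4" => fromBlocks (J0 F) 0 0 (J0 F)
local notation "G4" => GL (Fin 2 ⊕ Fin 2) F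
local notation "z4" => (D ((-1 : GL (Fin 2) F), 1))

theorem z4_sq : z4 * z4 = 1 := by simp [D_mul, ← Prod.one_eq_mk]

theorem q4 (h2 : (2 : F) ≠ 0) {y : G4} (hy : y ∈ Sp J4) (h : z4 * y * z4 = y⁻¹) :
    (y * y = 1 ∧ y.1 (.inl 0) (.inl 0) ^ 2 = 1) ∨ y.1 + (y⁻¹).1 = (2 * y.1 (.inl 0) (.inl 0)) • 1 := by
  have h1 : y.1ᵀ * J4 = J4 * (z4 * y * z4).1 := by
    rw [h, Units.eq_mul_inv_iff_mul_eq, mem_Sp.1 hy]
  have h3 : (z4 * y * z4).1 * y.1 = 1 := by rw [h]; simp
  have h4 : y * y = 1 ↔ y.1 * y.1 = 1 := by simp [Units.ext_iff]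
  rw [← h, h4]
  simp only [Units.val_mul, D_val] at h1 h3 ⊢
  generalize y.1 = Y at *
  obtain ⟨A, B, C, E, rfl⟩ : ∃ A B C E, Y = fromBlocks A B C E := ⟨_, _, _, _, (fromBlocks_toBlocks Y).symm⟩
  have k : ∀ A : Matrix (Fin 2) (Fin 2) F, Aᵀ * J0 F = J0 F * A → A = A 0 0 • 1 := fun A e => by
    have e1 := congrFun₂ e 0 0
    have e2 := congrFun₂ e 0 1
    have e3 := congrFun₂ e 1 1
    simp [J0, mul_apply] at e1 e2 e3
    ext i j; fin_cases i <;> fin_cases j <;> simp <;> grind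
  rw [← fromBlocks_one] at h3
  simp only [fromBlocks_transpose, fromBlocks_multiply, fromBlocks_inj] at h1 h3
  obtain ⟨α, rfl⟩ : Sc A := ⟨_, k A (by simpa using h1.1)⟩
  obtain ⟨ε, rfl⟩ : Sc E := ⟨_, k E (by simpa using h1.2.2.2)⟩
  by_cases e : α = ε
  · right; subst e
    rw [← fromBlocks_one, fromBlocks_smul]
    simp [fromBlocks_multiply, fromBlocks_add, ← add_smul, two_mul]
  · obtain rfl : B = 0 := by
      refine (smul_eq_zero.1 (?_ : (α - ε) • B = 0)).resolve_left (sub_ne_zero.2 e)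
      rw [sub_smul]; simpa [sub_eq_add_neg] using h3.2.1
    obtain rfl : C = 0 := by
      refine (smul_eq_zero.1 (?_ : (ε - α) • C = 0)).resolve_left (sub_ne_zero.2 (Ne.symm e))
      rw [sub_smul]; simpa [sub_eq_neg_add] using h3.2.2.1
    refine .inl ⟨?_, by simpa [pow_two] using congrFun₂ h3.1 0 0⟩
    rw [← fromBlocks_one, fromBlocks_multiply, fromBlocks_inj]
    simpa using h3

section
variable {ι : Type} [Fintype ι] [DecidableEq ι] [Nonempty ι] {p : ℕ} [Fact p.Prime] [CharP F p]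

theorem unip {x : GL ι F} (h : (x.1 - 1) ^ 2 = 0) : x ^ p = 1 := by
  have := sub_pow_char_of_commute p (Commute.one_right x.1)
  rw [pow_eq_zero_of_le (Fact.out : p.Prime).two_le h, one_pow, eq_comm, sub_eq_zero] at this
  exact Units.ext (by simpa using this)

theorem quad {y : GL ι F} {c : F} (h : y.1 + (y⁻¹).1 = c • 1) : y.1 * y.1 = c • y.1 - 1 := by
  have := congrArg (y.1 * ·) h
  simp only [mul_add, Units.mul_inv, mul_smul_comm, mul_one] at this
  rw [← this]; abel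

theorem zeta {x y w : GL ι F} {c : F} (h : y.1 + (y⁻¹).1 = c • 1) (h1 : x * y * x⁻¹ = w * y) (h3 : Commute w x)
    (h4 : Commute w y) : w ^ (2 * p) = 1 := by
  have k : ∀ x : GL ι F, (x * y * x⁻¹).1 * (x * y * x⁻¹).1 = c • (x * y * x⁻¹).1 - 1 := fun x => by
    simp only [Units.val_mul, mul_assoc, Units.inv_mul_cancel_left]
    rw [← mul_assoc y.1, quad h]; simp [sub_mul, mul_sub]
  have e0 := quad h
  have e1 := k x
  have e2 := k (x * x)
  rw [show x * x * y * (x * x)⁻¹ = w * w * y by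
    rw [show x * x * y * (x * x)⁻¹ = x * (x * y * x⁻¹) * x⁻¹ by group, h1, ← mul_assoc, ← h3.eq, mul_assoc w, mul_assoc w,
      h1, mul_assoc]] at e2
  rw [h1] at e1
  have c1 : y.1 * w.1 = w.1 * y.1 := congrArg Units.val h4.eq.symm
  have c2 : ∀ m, y.1 * (w.1 * m) = w.1 * (y.1 * m) := fun m => by rw [← mul_assoc, c1, mul_assoc]
  simp only [Units.val_mul, mul_assoc, c2] at e1 e2
  have : ((w * w).1 - 1) ^ 2 * (w * (y * y)).1 = 0 := by
    simp only [Units.val_mul]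
    linear_combination (norm := noncomm_ring) (w.1 + 1) * (e2 - w.1 * w.1 * e0) -
      (w.1 + 1) * (w.1 + 1) * (e1 - w.1 * e0)
  rw [pow_mul, pow_two, unip ((Units.mul_left_eq_zero _).1 this)]

theorem frob [Fintype F] (h2 : (2 : F) ≠ 0) {y : GL ι F} {α : F} (h : y.1 + (y⁻¹).1 = (2 * α) • 1) (hα : α ^ 2 ≠ 1) :
    ¬ p ∣ orderOf y := by
  obtain ⟨n, -, hn⟩ := FiniteField.card F p
  obtain ⟨m, hm⟩ : Odd (Fintype.card F) := Nat.odd_iff.2 (FiniteField.odd_card_of_char_ne_two fun e => h2 (by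
    simpa [e] using ringChar.Nat.cast_ringChar (R := F)))
  have e1 : (y.1 - α • 1) ^ 2 = (α ^ 2 - 1) • 1 := by
    simp only [pow_two, sub_mul, mul_sub, quad h, mul_smul_comm, smul_mul_assoc, mul_one, one_mul]; module
  have e2 := sub_pow_char_pow_of_commute p n (((Commute.one_right y.1).smul_right α))
  rw [← hn, smul_pow, FiniteField.pow_card, one_pow, hm, pow_succ, pow_mul, e1, smul_pow, one_pow, ← hm] at e2
  have e3 : (α ^ 2 - 1) ^ m * (α ^ 2 - 1) ^ m = 1 := by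
    simpa [hm, ← pow_add, two_mul] using FiniteField.pow_card_sub_one_eq_one _ (sub_ne_zero.2 hα)
  have e4 : y ^ Fintype.card F = y ∨ y ^ Fintype.card F = y⁻¹ := (mul_self_eq_one_iff.1 e3).imp
    (fun e => Units.ext (by simpa [e] using e2.symm)) fun e => Units.ext (by
      rw [e, smul_mul_assoc, one_mul] at e2
      rw [Units.val_pow_eq_pow_val, eq_sub_of_add_eq' h]
      linear_combination (norm := module) -e2)
  intro d
  have hp : p ∣ Fintype.card F := hn ▸ dvd_pow_self p n.ne_zero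
  refine (Fact.out : p.Prime).not_dvd_one ?_
  rcases e4 with e | e
  · have : y ^ (2 * m) = 1 := by rwa [hm, pow_succ, mul_eq_right] at e
    exact (Nat.dvd_add_right (d.trans (orderOf_dvd_of_pow_eq_one this))).1 (hm ▸ hp)
  · exact (Nat.dvd_add_right hp).1 (d.trans (orderOf_dvd_of_pow_eq_one (by rw [pow_succ, e, inv_mul_cancel])))
end

theorem fin4 (h2 : (2 : F) ≠ 0) {p : ℕ} [Fact p.Prime] [CharP F p] {u y : G4} (hu : u ∈ Sp J4) (hy : y ∈ Sp J4)
    (h1 : u * u = z4) (h3 : z4 * y * z4 = y⁻¹) (h4 : Commute y (u * y * u⁻¹)) (ho : Odd (orderOf y))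
    (hp : ¬ p ∣ orderOf y) : y = 1 := by
  have k0 : ∀ x : G4, Odd (orderOf x) → x * x = 1 → x = 1 := fun x a b =>
    eq_one_of_pow_of_not_dvd (p := 2) (k := 1) (by simpa [pow_two] using b) a.not_two_dvd_nat
  have zi : z4⁻¹ = z4 := inv_eq_of_mul_eq_one_right z4_sq
  have k1 : ∀ x : G4, x ^ (2 * p) = 1 → Odd (orderOf x) → ¬ p ∣ orderOf x → x = 1 := fun x a b c =>
    k0 x b (eq_one_of_pow_of_not_dvd (p := p) (k := 1) (by rwa [pow_one, ← pow_two, ← pow_mul]) fun d =>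
      c (d.trans (by rw [← pow_two]; exact orderOf_pow_dvd 2)))
  suffices u * y * u⁻¹ = y ∨ u * y * u⁻¹ = y⁻¹ by
    have e0 : y⁻¹ = u * (u * y * u⁻¹) * u⁻¹ := by rw [← h3]; nth_rw 2 [← zi]; rw [← h1]; group
    refine k0 y ho (eq_inv_iff_mul_eq_one.1 ?_)
    rcases this with e | e
    · rw [e0, e, e]
    · rw [e, ← conj_inv, e, inv_inv] at e0; exact e0.symm
  by_contra! h5
  have h6 : z4 * (u * y * u⁻¹) * z4 = (u * y * u⁻¹)⁻¹ := by rw [conj_inv, ← h3, ← zi, zi, ← h1]; group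
  obtain ⟨α, hα⟩ : ∃ α : F, y.1 + (y⁻¹).1 = (2 * α) • 1 :=
    ⟨_, (q4 h2 hy h3).resolve_left fun e => h5.1 (by simp [k0 y ho e.1])⟩
  have hα' : (u * y * u⁻¹).1 + ((u * y * u⁻¹)⁻¹).1 = (2 * α) • 1 := by
    rw [conj_inv, Units.val_mul, Units.val_mul, Units.val_mul, Units.val_mul, ← add_mul, ← mul_add, hα]; simp
  have h7 : Odd (orderOf (y * (u * y * u⁻¹))) := ho.of_dvd_nat (orderOf_dvd_of_pow_eq_one (by
    rw [h4.mul_pow, conj_pow, pow_orderOf_eq_one]; simp))
  have h8 := mul_mem (mul_mem hu hy) (inv_mem hu)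
  have y1 : y ≠ 1 := fun e => h5.1 (by simp [e])
  generalize u * y * u⁻¹ = x at h4 h5 h6 hα' h7 h8
  obtain ⟨β, hβ⟩ : ∃ β : F, (y * x).1 + ((y * x)⁻¹).1 = (2 * β) • 1 := ⟨_, (q4 h2 (mul_mem hy h8) (by
    rw [h4.eq, _root_.mul_inv_rev, ← h3, ← h6, ← h4.eq]; simp [mul_assoc, ← mul_assoc z4 z4, z4_sq])).resolve_left
    fun e => h5.2 (eq_inv_of_mul_eq_one_right (k0 _ h7 e.1))⟩
  have k2 : ∀ y : G4, y.1 + (y⁻¹).1 = (2 * α) • 1 → (y.1 - α • 1) * (y.1 - α • 1) = (α ^ 2 - 1) • 1 := fun y h => by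
    simp only [sub_mul, mul_sub, quad h, mul_smul_comm, smul_mul_assoc, mul_one, one_mul]; module
  have hd : α ^ 2 - 1 ≠ 0 := fun e => y1 <| k1 y (by
    rw [pow_mul, pow_two]
    refine unip ?_
    rw [Units.val_mul, quad hα, show (2 * α) • y.1 - 1 - 1 = (2 * α) • (y.1 - α • 1) by
      linear_combination (norm := module) (2 * e) • (1 : Matrix (Fin 2 ⊕ Fin 2) (Fin 2 ⊕ Fin 2) F), smul_pow,
      pow_two (_ - _), k2 y hα, e]
    simp) ho hp
  have h9 : (y.1 - α • 1) * (x.1 - α • 1) = (β - α ^ 2) • 1 := by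
    rw [h4.eq, _root_.mul_inv_rev, ← h4.eq, Units.val_mul, Units.val_mul, eq_sub_of_add_eq' hα, eq_sub_of_add_eq' hα'] at hβ
    refine smul_right_injective _ h2 ?_
    simp only [sub_mul, mul_sub, mul_smul_comm, smul_mul_assoc, mul_one, one_mul] at hβ ⊢
    linear_combination (norm := module) hβ
  have h10 : x.1 - α • 1 = ((β - α ^ 2) / (α ^ 2 - 1)) • (y.1 - α • 1) := by
    have := congrArg ((y.1 - α • 1) * ·) h9
    simp only [← mul_assoc, k2 y hα, smul_mul_assoc, one_mul, mul_smul_comm, mul_one] at this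
    rw [div_eq_inv_mul, mul_smul, ← this, smul_smul, inv_mul_cancel₀ hd, one_smul]
  have h11 := k2 x hα'
  rw [h10, smul_mul_smul_comm, k2 y hα, smul_smul] at h11
  have h12 := congrFun₂ h11 (.inl 0) (.inl 0)
  simp only [Matrix.smul_apply, one_apply_eq, smul_eq_mul, mul_one, mul_eq_right₀ hd, mul_self_eq_one_iff] at h12
  rcases h12 with e | e <;> rw [e] at h10
  · exact h5.1 (Units.ext (by simpa using h10))
  · exact h5.2 (Units.ext (by rw [eq_sub_of_add_eq' hα]; linear_combination (norm := module) h10))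

theorem J0_conj (M : Matrix (Fin 2) (Fin 2) F) : Mᵀ * J0 F * M = M.det • J0 F := by
  ext i j; fin_cases i <;> fin_cases j <;> simp [J0, mul_apply, det_fin_two] <;> ring

theorem sp2 {g : GL (Fin 2) F} : g ∈ Sp (J0 F) ↔ g ∈ GeneralLinearGroup.det.ker := by
  rw [mem_Sp, J0_conj, MonoidHom.mem_ker, Units.ext_iff]
  exact ⟨fun h => by simpa [J0] using congrFun₂ h 0 1, fun h => by simp [show g.1.det = 1 from h]⟩

theorem D_Sp {ι : Type} [Fintype ι] [DecidableEq ι] {J : Matrix ι ι F} {a b : GL ι F}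
    (h : D (a, b) ∈ Sp (fromBlocks J 0 0 J)) : a ∈ Sp J ∧ b ∈ Sp J := by
  simpa [mem_Sp, D_val, fromBlocks_transpose, fromBlocks_multiply, fromBlocks_inj] using h

theorem inv2 [Finite F] (h2 : (2 : F) ≠ 0) {a : GL (Fin 2) F} (h : a ∈ GeneralLinearGroup.det.ker) (h1 : a * a = 1) :
    a = 1 ∨ a = -1 := by
  have e : a.1 * a.1 = 1 := congrArg Units.val h1
  have e0 := congrFun₂ e 0 0
  have e1 := congrFun₂ e 0 1
  have e2 := congrFun₂ e 1 0
  have e3 := congrFun₂ e 1 1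
  have d : a.1.det = 1 := congrArg Units.val h
  simp [mul_apply, det_fin_two] at e0 e1 e2 e3 d
  exact sc_pm h ⟨a.1 0 0, by ext i j; fin_cases i <;> fin_cases j <;> simp <;> grind⟩

theorem pair4 [Finite F] (h2 : (2 : F) ≠ 0) {i : GL (Fin 2) F} (hi : i * i = -1) {Y : Subgroup G4} (hY : Y ≤ Sp J4)
    (hu : D (i, 1) ∈ Y) {t : G4} (ht : t ∈ Y) (h1 : t * t = 1) (h3 : ∀ y ∈ Y, (z4 * (y * z4 * y⁻¹)) ^ 2 ≠ -1)
    (h4 : (z4 * t) ^ 2 ≠ -1) : t.1 (.inl 0) (.inl 0) ^ 2 = 1 := by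
  obtain ⟨p, _⟩ := CharP.exists F
  have := Fintype.ofFinite F
  have : Fact p.Prime := ⟨CharP.char_is_prime F p⟩
  have zi : z4⁻¹ = z4 := inv_eq_of_mul_eq_one_right z4_sq
  have hu2 : D (i, 1) * D (i, 1) = z4 := by rw [D_mul, hi, one_mul]
  have hz : z4 ∈ Y := hu2 ▸ mul_mem hu hu
  have hn : (-1 : G4) ∈ Sp J4 := mem_Sp.2 (by simp)
  have c1 : (-1 : G4) ∈ center G4 := Sc.center ⟨-1, by simp⟩
  have : (zpowers (-1 : G4)).Normal := ⟨fun n hn g => by
    rwa [mem_center_iff.1 (zpowers_le.2 c1 hn) g, mul_inv_cancel_right]⟩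
  have zp : ∀ x ∈ zpowers (-1 : G4), x = 1 ∨ x = -1 := by
    rintro _ ⟨k, rfl⟩; rcases k.even_or_odd with e | e <;> simp [e.neg_one_zpow]
  let π := QuotientGroup.mk' (zpowers (-1 : G4))
  have hπ : ∀ x y, π x = π y → y = x ∨ y = -x := fun x y e =>
    (zp _ (QuotientGroup.eq.1 e)).imp (fun e => (inv_mul_eq_one.1 e).symm) fun e => by
      rw [inv_mul_eq_iff_eq_mul] at e; simpa using e
  by_contra h5
  have h6 : z4 * (z4 * t) * z4 = (z4 * t)⁻¹ := by
    rw [← mul_assoc, z4_sq, one_mul, _root_.mul_inv_rev, zi, inv_eq_of_mul_eq_one_right h1]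
  have h7' : (z4 * t).1 (.inl 0) (.inl 0) ^ 2 ≠ 1 := by simpa [D_val, mul_apply] using h5
  obtain ⟨α, h7, hα⟩ : ∃ α : F, α ^ 2 ≠ 1 ∧ (z4 * t).1 + ((z4 * t)⁻¹).1 = (2 * α) • 1 :=
    ⟨_, h7', (q4 h2 (hY (mul_mem hz ht)) h6).resolve_left fun e => h7' e.2⟩
  have h8 := zstar_sub (H := Y.map π) (mem_map_of_mem π hz) (k := 1) (by rw [← map_pow, pow_one, pow_two, z4_sq, map_one])
    (by
      rintro _ ⟨y, hy, rfl⟩ e
      rw [← map_inv, ← map_mul, ← map_mul] at e ⊢
      rcases hπ _ _ (by simpa only [map_mul] using e.eq : π (z4 * (y * z4 * y⁻¹)) = π (y * z4 * y⁻¹ * z4)) with e | e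
      · obtain ⟨a, b, e'⟩ := exists_D h2 (x := y * z4 * y⁻¹) (by
          simpa [D_neg] using (show Commute (y * z4 * y⁻¹) z4 from e).neg_right)
        have k1 := D_Sp (e' ▸ hY (mul_mem (mul_mem hy hz) (inv_mem hy)))
        have k2 : y * z4 * y⁻¹ * (y * z4 * y⁻¹) = 1 := by simp [mul_assoc, ← mul_assoc z4 z4, z4_sq]
        have k3 : a ≠ b ∨ ¬ Sc a.1 := by
          by_contra! k
          obtain ⟨rfl, c, k⟩ := k
          refine sc_conj (v := z4) (fun ⟨c, k⟩ => neg_ne h2 (1 : GL (Fin 2) F) ?_) y ⟨c, by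
            rw [e', D_val, k, ← fromBlocks_one (l := Fin 2) (m := Fin 2), fromBlocks_smul]; simp⟩
          rw [D_val, ← fromBlocks_one (l := Fin 2) (m := Fin 2), fromBlocks_smul, fromBlocks_inj] at k
          exact Units.ext (k.1.trans k.2.2.2.symm)
        rw [e', D_mul, ← map_one D, Prod.one_eq_mk, D_inj] at k2
        rw [e']
        rcases inv2 h2 (sp2.1 k1.1) k2.1 with rfl | rfl <;> rcases inv2 h2 (sp2.1 k1.2) k2.2 with rfl | rfl
        · exact absurd k3 (by simpa using ⟨1, by simp⟩)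
        · exact QuotientGroup.eq.2 (by simp [D_inv, D_mul, ← D_neg, ← Prod.one_eq_mk])
        · rfl
        · exact absurd k3 (by simpa using ⟨-1, by simp⟩)
      · refine absurd ?_ (h3 y hy)
        rw [pow_two, mul_assoc, ← mul_assoc (y * z4 * y⁻¹), e]
        simp [mul_assoc, ← mul_assoc z4 z4, z4_sq]) (mem_map_of_mem π ht)
  set O1 := (Cfsg.pPrimeCore 2 (Y.map π)).map (Y.map π).subtype
  have h9 : Odd (Nat.card O1) := by
    rw [card_map_of_injective (subtype_injective _)]; exact odd_card_pPrimeCore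
  have h10 : Y.map π ≤ normalizer O1 := by
    have := (map_mono (normalizer_eq_top (Cfsg.pPrimeCore 2 (Y.map π))).ge).trans (le_normalizer_map (Y.map π).subtype)
    rwa [← MonoidHom.range_eq_map, range_subtype] at this
  have h11 : IsSyl 2 (zpowers (-1 : G4)) (O1.comap π) := ⟨zpowers_le.2 (by
    rw [mem_comap, show π (-1) = 1 from (QuotientGroup.eq_one_iff _).2 (mem_zpowers _)]; exact one_mem _),
    isPGroup_zpowers_of_pow (k := 1) (by simp), by
      have e : π.ker.relIndex (O1.comap π) = _ := relIndex_ker ..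
      rw [QuotientGroup.ker_mk', map_comap_eq_self_of_surjective (QuotientGroup.mk'_surjective _)] at e
      exact e ▸ h9.not_two_dvd_nat⟩
  obtain ⟨O', -, h12, h13⟩ := ncomp h11 fun Q hQ x _ _ _ v hv => (mem_center_iff.1 (zpowers_le.2 c1 (hQ hv)) x).symm
  replace h12 := not_dvd_card_of_le (inf_le_left (b := O1.comap π)) h12
  set O := O' ⊓ O1.comap π
  have ko : ∀ x ∈ O, Odd (orderOf x) := fun x hx => Nat.not_even_iff_odd.1 fun e =>
    h12 (e.two_dvd.trans (orderOf_dvd_card_of_mem hx))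
  have h14 : Y ≤ normalizer O := fun y hy => mem_normalizer_of_conj_mem fun x hx => by
    have : y * x * y⁻¹ ∈ O1.comap π := by
      simpa using (mem_normalizer_iff.1 (h10 (mem_map_of_mem π hy)) _).1 (mem_inf.1 hx).2
    exact ⟨h13 _ this (by
      rw [show orderOf (y * x * y⁻¹) = orderOf x from MulEquiv.orderOf_eq (MulAut.conj y) x]; exact ko x hx), this⟩
  have h15 : O ≤ Sp J4 := fun x hx => by
    obtain ⟨y, hy, e⟩ := map_subtype_le _ (mem_inf.1 hx).2
    rcases hπ _ _ e with rfl | rfl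
    · exact hY hy
    · simpa using mul_mem hn (hY hy)
  have h16 : (z4 * t) ^ 2 ∈ O1.comap π := by
    rwa [mem_comap, pow_two, ← mul_assoc, show z4 * t * z4 * t = ⁅z4, t⁆ by
      rw [commutatorElement_def, zi, inv_eq_of_mul_eq_one_right h1], map_commutatorElement]
  have h17 : ((z4 * t) ^ 2) ^ 2 ∈ O := ⟨h13 _ (pow_mem h16 2) (h9.of_dvd_nat (orderOf_dvd_of_pow_eq_one (by
    rw [pow_right_comm]
    rcases zp _ ((QuotientGroup.eq_one_iff (((z4 * t) ^ 2) ^ Nat.card O1)).1 ((map_pow π _ _).trans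
      (orderOf_dvd_iff_pow_eq_one.1 (orderOf_dvd_card_of_mem h16)))) with e | e <;> simp [e]))), pow_mem h16 2⟩
  have h18 : ((z4 * t) ^ 2) ^ 2 ≠ 1 := fun e => by
    generalize z4 * t = y at *
    have k1 : y⁻¹ * y⁻¹ = y * y := by rw [← _root_.mul_inv_rev, inv_eq_iff_mul_eq_one, ← pow_two, ← pow_two, e]
    have k2 := congrArg (fun M => M * M) hα
    simp only [mul_add, add_mul, ← Units.val_mul, k1, mul_inv_cancel, inv_mul_cancel,
      Units.val_one, smul_mul_smul_comm, mul_one] at k2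
    have k3 : (y ^ 2).1 = (2 * α ^ 2 - 1) • 1 := smul_right_injective _ h2 (by
      rw [pow_two]; linear_combination (norm := module) k2)
    have k4 := congrArg (fun g : G4 => g.1 (.inl 0) (.inl 0)) e
    simp only [Units.val_pow_eq_pow_val (y ^ 2), k3, smul_pow, one_pow, Matrix.smul_apply, one_apply_eq, smul_eq_mul,
      mul_one, Units.val_one, pow_two (_ - _), mul_self_eq_one_iff] at k4
    rcases k4 with k | k
    · exact h7 (mul_left_cancel₀ h2 (by linear_combination k))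
    · exact h4 (Units.ext (by rw [k3, k]; simp))
  obtain ⟨r, hr, d⟩ := Nat.exists_prime_and_dvd (mt orderOf_eq_one_iff.1 h18)
  have := Fact.mk hr
  have h19 : r ≠ p := fun e => frob h2 hα h7 (e ▸ d.trans ((orderOf_pow_dvd 2).trans (orderOf_pow_dvd 2)))
  obtain ⟨y, hy, k1, k2⟩ : ∃ y ∈ O, orderOf y = r ∧ z4 * y * z4⁻¹ = y⁻¹ :=
    ⟨_, pow_mem h17 _, orderOf_pow_orderOf_div (orderOf_pos _).ne' d, by
      simp only [← conj_pow]; rw [zi, h6]; simp only [inv_pow]⟩
  have pu : IsPGroup 2 (zpowers (D (i, 1))) := isPGroup_zpowers_of_pow (k := 2) (by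
    rw [show 2 ^ 2 = 2 * 2 from rfl, pow_mul, pow_two (D _), hu2, pow_two, z4_sq])
  have cu := Cop.of_pgroup pu h12 (zpowers_le.2 (h14 hu))
  have hzu : zpowers z4 ≤ zpowers (D (i, 1)) := zpowers_le.2 (hu2 ▸ mul_mem (mem_zpowers _) (mem_zpowers _))
  obtain ⟨R, hR, k3⟩ := cu.exists_isSyl r
  obtain ⟨c, hc, k4⟩ := (cu.mono_left hzu).exists_le_cj hR (hzu.trans k3) (isPGroup_zpowers_of_orderOf k1)
    (zpowers_le.2 hy) (zpowers_le.2 (mem_normalizer_iff_cj.2 (by
      rw [cj, MonoidHom.map_zpowers, ← zpowers_inv (g := y)]; exact congrArg _ k2)))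
  have kr : ∀ x ∈ R, ¬ p ∣ orderOf x := fun x hx d => h19 <| by
    obtain ⟨k, e⟩ := isPGroup_iff_forall.1 hR.pgroup x hx
    exact ((Nat.prime_dvd_prime_iff_eq Fact.out hr).1 ((Fact.out : p.Prime).dvd_of_dvd_pow
      (d.trans (orderOf_dvd_of_pow_eq_one e)))).symm
  have k5 : ∀ A ≤ R, D (i, 1) ∈ normalizer (A : Set G4) → z4 ∈ centralizer (A : Set G4) := fun A => by
    induction A using WellFoundedLT.induction with
    | ind A ih =>
    intro hA hn x hx
    by_cases hb : A = ⊥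
    · simp [mem_bot.1 (hb ▸ hx)]
    have l1 := ih _ (commutator_lt_of_solvable (solvable_of_pgroup (hR.pgroup.to_le hA)) hb) ((commutator_le_left_of_le_normalizer le_normalizer).trans hA)
      (le_normalizer_commutator le_rfl le_rfl hn)
    have l2 : A ≤ normalizer (centralizer ((⁅A, A⁆ : Subgroup G4) : Set G4) : Set G4) :=
      le_normalizer_centralizer (le_normalizer_commutator le_normalizer le_normalizer)
    have l3 : x⁻¹ * z4 * x * z4 ∈ A := by
      have := mul_mem (inv_mem hx) ((mem_normalizer_iff.1 (mul_mem hn hn) x).1 hx)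
      rwa [hu2, zi, ← mul_assoc, ← mul_assoc] at this
    have l4 := mul_mem ((mem_normalizer_iff''.1 (l2 hx) _).1 l1) l1
    have l5 : z4 * (x⁻¹ * z4 * x * z4) * z4 = (x⁻¹ * z4 * x * z4)⁻¹ := by simp [mul_assoc, zi, z4_sq]
    suffices x⁻¹ * z4 * x * z4 = 1 by
      rw [mul_eq_one_iff_eq_inv, zi, mul_assoc, inv_mul_eq_iff_eq_mul] at this; exact this.symm
    generalize x⁻¹ * z4 * x * z4 = y at l3 l4 l5
    have l6 := (mem_normalizer_iff.1 hn y).1 l3
    have l7 := (mem_normalizer_iff.1 (le_normalizer_centralizer (le_normalizer_commutator le_rfl le_rfl) hn) y).1 l4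
    have l8 := h15 (hR.le (hA l3))
    refine fin4 h2 (hY hu) l8 hu2 l5 ?_ (ko _ (hR.le (hA l3))) (kr _ (hA l3))
    rcases q4 h2 l8 l5 with e | e
    · rw [eq_one_of_pow_of_not_dvd (p := 2) (k := 1) (by simpa [pow_two] using e.1)
        (ko _ (hR.le (hA l3))).not_two_dvd_nat]; simp
    have l9 := commutator_mem_commutator l6 l3
    have l10 := (commutator_le_left_of_le_normalizer le_normalizer).trans hA l9
    have l11 := zeta (p := p) e (w := ⁅D (i, 1) * y * (D (i, 1))⁻¹, y⁆) (by simp [commutatorElement_def]) (l7 _ l9) (l4 _ l9)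
    rw [mul_comm, pow_mul] at l11
    refine (commutatorElement_eq_one_iff_commute.1 (eq_one_of_pow_of_not_dvd (p := p) (k := 1) ?_ (kr _ l10))).symm
    rw [pow_one]
    exact eq_one_of_pow_of_not_dvd (p := 2) (k := 1) l11 (ko _ (pow_mem (hR.le l10) p)).not_two_dvd_nat
  have k6 := k5 R le_rfl (k3 (mem_zpowers _)) _ (mem_cj.1 (k4 (mem_zpowers y)))
  have k7 : z4 * c = c * z4 := (mem_inf.1 hc).2 _ (mem_zpowers _)
  replace k6 : y * z4 = z4 * y := by
    simpa [mul_assoc] using (((show Commute c z4 from k7.symm).mul_left k6).mul_left (Commute.inv_left k7.symm)).eq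
  rw [← k6, mul_inv_cancel_right, eq_inv_iff_mul_eq_one] at k2
  exact hr.ne_one (by rw [← k1, eq_one_of_pow_of_not_dvd (p := 2) (k := 1) (by simpa [pow_two] using k2)
    (ko _ hy).not_two_dvd_nat, orderOf_one])

end H9.Pn
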