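import Cfsg.Agent.H9.Pn5

/-! Embeddings `E` of small linear groups along a pair of matrices, symplectic planes `Pl`, the pair lemma `Pl.pair`, the
two-by-two lemma `gram` and the quaternion identity `word`. -/

set_option autoImplicit false
set_option linter.unusedSectionVars false

namespace H9.Pn
open Subgroup H17 Matrix

variable {F : Type*} [Field F] {ι κ μ : Type} [Fintype ι] [DecidableEq ι] [Fintype κ] [DecidableEq κ] [Fintype μ]
  [DecidableEq μ]

/-- embedding along `B`, `C` with `C * B = 1` -/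
def E (B : Matrix ι κ F) (C : Matrix κ ι F) (h : C * B = 1) : GL κ F →* GL ι F := MonoidHom.toHomUnits
  { toFun := fun x => 1 + B * (x.1 - 1) * C
    map_one' := by simp
    map_mul' := fun x y => by
      simp only [Units.val_mul, mul_add, add_mul, one_mul, mul_one, Matrix.mul_assoc, ← Matrix.mul_assoc C, h,
        Matrix.one_mul, Matrix.mul_sub, Matrix.sub_mul]
      abel }

variable {B B' : Matrix ι κ F} {C C' : Matrix κ ι F} (h : C * B = 1) (h' : C' * B' = 1)

theorem E_val (x : GL κ F) : (E B C h x).1 = 1 + B * (x.1 - 1) * C := rfl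

theorem E_mul (x : GL κ F) : (E B C h x).1 * B = B * x.1 := by
  simp [E_val, Matrix.add_mul, Matrix.mul_assoc, h, Matrix.mul_sub]

theorem mul_E (x : GL κ F) : C * (E B C h x).1 = x.1 * C := by
  simp [E_val, Matrix.mul_add, ← Matrix.mul_assoc, h, Matrix.sub_mul]

theorem E_inj : Function.Injective (E B C h) := fun x y e => Units.ext <| by
  have := congrArg (fun g : GL ι F => C * (g.1 * B)) e
  simpa only [E_mul, ← Matrix.mul_assoc, h, Matrix.one_mul] using this

theorem E_conj {g : GL ι F} {φ : GL κ F} (h1 : g.1 * B = B' * φ.1) (h2 : C' * g.1 = φ.1 * C) (y : GL κ F) :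
    g * E B C h y * g⁻¹ = E B' C' h' (φ * y * φ⁻¹) := mul_inv_eq_iff_eq_mul.2 <| Units.ext <| by
  simp only [Units.val_mul, E_val, mul_add, add_mul, mul_one, one_mul, ← Matrix.mul_assoc, h1]
  simp [Matrix.mul_assoc, h2, Matrix.mul_sub, Matrix.sub_mul, ← Matrix.mul_assoc φ.1⁻¹]

include h h' in
theorem exists_phi {g : GL ι F} (e : g.1 * (B * C) = B' * C' * g.1) :
    ∃ φ : GL κ F, g.1 * B = B' * φ.1 ∧ C' * g.1 = φ.1 * C := by
  have h1 : g.1 * B = B' * (C' * g.1 * B) := by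
    rw [← Matrix.mul_assoc, ← Matrix.mul_assoc, ← e, Matrix.mul_assoc, Matrix.mul_assoc, h, Matrix.mul_one]
  have h2 : C' * g.1 = C' * g.1 * B * C := by
    rw [Matrix.mul_assoc, Matrix.mul_assoc, e, ← Matrix.mul_assoc, ← Matrix.mul_assoc, h', Matrix.one_mul]
  have h3 : C * (g⁻¹).1 * B' * (C' * g.1 * B) = 1 := by
    rw [Matrix.mul_assoc, ← h1, Matrix.mul_assoc, ← Matrix.mul_assoc _ g.1]; simp [h]
  exact ⟨⟨_, _, mul_eq_one_comm.1 h3, h3⟩, h1, h2⟩

theorem E_E {β : Matrix κ μ F} {γ : Matrix μ κ F} (e : γ * β = 1) {B' : Matrix ι μ F} {C' : Matrix μ ι F}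
    (h' : C' * B' = 1) (h1 : B * β = B') (h2 : γ * C = C') (x : GL μ F) : E B C h (E β γ e x) = E B' C' h' x :=
  Units.ext (by simp [E_val, ← h1, ← h2, Matrix.mul_assoc])

theorem E_Sp {J : Matrix ι ι F} {J' : Matrix κ κ F} (e : Bᵀ * J = J' * C) {x : GL κ F} (hx : E B C h x ∈ Sp J) :
    x ∈ Sp J' := by
  have := congrArg (fun M => Bᵀ * M * B) (mem_Sp.1 hx)
  simp only [← Matrix.mul_assoc, ← transpose_mul, E_mul, e] at this
  rw [Matrix.mul_assoc, E_mul, transpose_mul, Matrix.mul_assoc _ _ J, e] at this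
  simpa only [Matrix.mul_assoc, h, ← Matrix.mul_assoc C, Matrix.mul_one, Matrix.one_mul, mem_Sp] using this

theorem E_D {B₁ B₂ : Matrix ι κ F} {C₁ C₂ : Matrix κ ι F} (e : fromRows C₁ C₂ * fromCols B₁ B₂ = 1) (x y : GL κ F) :
    (E _ _ e (D (x, y))).1 = 1 + B₁ * (x.1 - 1) * C₁ + B₂ * (y.1 - 1) * C₂ := by
  rw [E_val, D_val, ← fromBlocks_one, sub_eq_add_neg (fromBlocks _ _ _ _), fromBlocks_neg, fromBlocks_add,
    fromCols_mul_fromBlocks, fromCols_mul_fromRows]
  simp [sub_eq_add_neg, add_assoc]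

theorem J0_adj (M : Matrix (Fin 2) (Fin 2) F) : Mᵀ * J0 F = J0 F * adjugate M := by
  ext i j; fin_cases i <;> fin_cases j <;> simp [J0, mul_apply, adjugate_fin_two]

theorem J0_cancel {X Y : Matrix (Fin 2) κ F} (e : J0 F * X = J0 F * Y) : X = Y := by
  have := congrArg ((-J0 F) * ·) e
  have k : -J0 F * J0 F = 1 := by ext i j; fin_cases i <;> fin_cases j <;> simp [J0]
  simpa only [← Matrix.mul_assoc, k, Matrix.one_mul] using this

/-- symplectic planes -/
structure Pl (J : Matrix ι ι F) (B : Matrix ι (Fin 2) F) (C : Matrix (Fin 2) ι F) : Prop where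
  cb : C * B = 1
  adj : Bᵀ * J = J0 F * C

section
variable {J : Matrix ι ι F} {B B' : Matrix ι (Fin 2) F} {C C' : Matrix (Fin 2) ι F}

theorem Pl.map (h : Pl J B C) {g : GL ι F} (hg : g ∈ Sp J) : Pl J (g.1 * B) (C * (g⁻¹).1) :=
  ⟨by rw [Matrix.mul_assoc, ← Matrix.mul_assoc _ g.1]; simp [h.cb], by
    rw [← Matrix.mul_assoc, ← h.adj, transpose_mul, Matrix.mul_assoc, Matrix.mul_assoc,
      (Units.eq_mul_inv_iff_mul_eq g).2 (mem_Sp.1 hg)]⟩

theorem Pl.adj2 (hJ : Jᵀ = -J) (h : Pl J B C) (h' : Pl J B' C') : C' * B = adjugate (C * B') := J0_cancel <| by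
  have := congrArg (fun M => (M * B')ᵀ) h.adj
  simp only [transpose_mul, transpose_transpose, hJ, Matrix.mul_assoc, show (J0 F)ᵀ = -J0 F by
    ext i j; fin_cases i <;> fin_cases j <;> simp [J0], Matrix.neg_mul, Matrix.mul_neg, neg_inj] at this
  rw [← J0_adj, ← Matrix.mul_assoc, ← h'.adj, transpose_mul, Matrix.mul_assoc, this, Matrix.mul_assoc]

theorem Pl.act (h : Pl J B C) (h' : Pl J B' C') {g : GL ι F} (hg : g ∈ Sp J) {φ : Matrix (Fin 2) (Fin 2) F}
    (e : g.1 * B = B' * φ) : φ.det = 1 ∧ C' * g.1 = φ * C := by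
  have h1 := (h.map hg).adj
  rw [e, transpose_mul, Matrix.mul_assoc, h'.adj, ← Matrix.mul_assoc, J0_adj, Matrix.mul_assoc] at h1
  have h2 := congrArg (· * g.1) (J0_cancel h1)
  simp only [Matrix.mul_assoc, Units.inv_mul, Matrix.mul_one] at h2
  have h3 := congrArg (· * B) h2
  simp only [Matrix.mul_assoc, e, h.cb, ← Matrix.mul_assoc C', h'.cb, Matrix.one_mul, adjugate_mul] at h3
  have h4 : φ.det = 1 := by simpa using congrFun₂ h3 0 0
  exact ⟨h4, by rw [← h2, ← Matrix.mul_assoc, mul_adjugate, h4]; simp⟩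

theorem Pl.pair [Finite F] (h2 : (2 : F) ≠ 0) (hJ : Jᵀ = -J) (h : Pl J B C) {K : Subgroup (GL ι F)} (hK : K ≤ Sp J)
    {i : GL (Fin 2) F} (hi : i * i = -1) (hu : E B C h.cb i ∈ K) (hc : ∀ k ∈ K,
      (E B C h.cb (-1) * (k * E B C h.cb (-1) * k⁻¹)) ^ 4 = 1 → (E B C h.cb (-1) * (k * E B C h.cb (-1) * k⁻¹)) ^ 2 = 1)
    {k : GL ι F} (hk : k ∈ K) : (C * k.1 * B).det = 0 ∨ (C * k.1 * B).det = 1 := by
  have h' := h.map (hK hk)
  have ht := E_conj h.cb h'.cb (g := k) (φ := 1) (by simp) (by simp [Matrix.mul_assoc]) (-1)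
  have hz : E B C h.cb (-1) ∈ K := by simpa [← map_mul, hi] using mul_mem hu hu
  have ht' := mul_mem (mul_mem hk hz) (inv_mem hk)
  have hc' := hc k hk
  rw [ht, show (1 : GL (Fin 2) F) * -1 * 1⁻¹ = -1 by simp] at ht' hc'
  rw [Matrix.mul_assoc]
  generalize k.1 * B = B', C * (k⁻¹).1 = C' at *
  have h3 := h.adj2 hJ h'
  generalize hM : C * B' = M at *
  by_contra! ha
  have h4 : 1 - M.det ≠ 0 := sub_ne_zero.2 ha.2.symm
  let N : Matrix (Fin 2) (Fin 2) F := !![1, 0; 0, (1 - M.det)⁻¹]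
  have hN : (1 - M.det) • (N * adjugate N) = 1 := by rw [mul_adjugate]; simp [N, smul_smul, h4]
  have hN' : (1 - M.det) • (adjugate N * N) = 1 := by rw [adjugate_mul]; simp [N, smul_smul, h4]
  have e1 : (C' - adjugate M * C) * B = 0 := by simp [Matrix.sub_mul, Matrix.mul_assoc, h3, h.cb]
  have e2 : (C' - adjugate M * C) * B' = (1 - M.det) • 1 := by
    simp [Matrix.sub_mul, Matrix.mul_assoc, hM, h'.cb, adjugate_mul, sub_smul]
  have e3 : C * (B' - B * M) = 0 := by simp [Matrix.mul_sub, ← Matrix.mul_assoc, hM, h.cb]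
  have e4 : C' * (B' - B * M) = (1 - M.det) • 1 := by
    simp [Matrix.mul_sub, ← Matrix.mul_assoc, h3, h'.cb, adjugate_mul, sub_smul]
  have e5 : fromRows C (adjugate N * (C' - adjugate M * C)) * fromCols B ((B' - B * M) * N) = 1 := by
    rw [fromRows_mul_fromCols, h.cb, ← Matrix.mul_assoc, e3, Matrix.mul_assoc, e1, Matrix.mul_assoc,
      ← Matrix.mul_assoc (_ - _), Matrix.mul_sub, ← Matrix.mul_assoc _ B, e1, e2]
    simp [hN']
  have e6 : (fromCols B ((B' - B * M) * N))ᵀ * J =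
      fromBlocks (J0 F) 0 0 (J0 F) * fromRows C (adjugate N * (C' - adjugate M * C)) := by
    rw [transpose_fromCols, fromRows_mul, fromBlocks_mul_fromRows, h.adj, transpose_mul, Matrix.mul_assoc,
      transpose_sub, Matrix.sub_mul, h'.adj, transpose_mul, Matrix.mul_assoc, h.adj, ← Matrix.mul_assoc Mᵀ, J0_adj,
      Matrix.mul_assoc, ← Matrix.mul_sub, ← Matrix.mul_assoc Nᵀ, J0_adj]
    simp [Matrix.mul_assoc]
  have e7 : fromCols B ((B' - B * M) * N) * (fromRows C (adjugate N * (C' - adjugate M * C)) * B') = B' := by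
    rw [fromRows_mul, fromCols_mul_fromRows, hM, Matrix.mul_assoc (adjugate N), e2, Matrix.mul_assoc]
    simp [hN]
  have e8 : C' * fromCols B ((B' - B * M) * N) * fromRows C (adjugate N * (C' - adjugate M * C)) = C' := by
    rw [mul_fromCols, fromCols_mul_fromRows, h3, ← Matrix.mul_assoc C', e4, ← Matrix.mul_assoc]
    simp [hN]
  have e9 : C' * fromCols B ((B' - B * M) * N) * (fromRows C (adjugate N * (C' - adjugate M * C)) * B') = 1 := by
    rw [Matrix.mul_assoc, e7, h'.cb]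
  have f1 : ∀ x, E _ _ e5 (D (x, 1)) = E B C h.cb x := fun x => Units.ext (by rw [E_D, E_val]; simp)
  have f2 := E_E e5 e9 h'.cb e7 e8 (-1)
  have f3 : ∀ y, ((E _ _ e5 (D ((-1 : GL (Fin 2) F), 1) * y)) ^ 4 = 1 → (E _ _ e5 (D ((-1 : GL (Fin 2) F), 1) * y)) ^ 2 = 1) → (D ((-1 : GL (Fin 2) F), 1) * y) ^ 2 ≠ -1 :=
    fun y k e => neg_ne h2 1 (E_inj e5 (by
      rw [← e, map_pow, map_one, k (by rw [← map_pow, show 4 = 2 * 2 from rfl, pow_mul, e]; simp)]))
  have := pair4 h2 hi (Y := K.comap (E _ _ e5)) (fun x hx => E_Sp e5 e6 (hK hx)) (by rwa [mem_comap, f1])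
    (t := E _ _ e9 (-1)) (by rwa [mem_comap, f2]) (by simp [← map_mul])
    (fun y hy => f3 _ (by simpa only [map_mul, map_inv, f1] using hc _ hy)) (f3 _ (by rwa [map_mul, f1, f2]))
  rw [E_val, fromRows_mul, mul_fromCols, hM, h3, fromRows_mul, fromRows_mul_fromCols] at this
  have k : M * ((-1 : GL (Fin 2) F).1 - 1) * adjugate M = (-2 * M.det) • 1 := by
    simp only [Units.val_neg, Units.val_one, mul_sub, sub_mul, mul_neg, neg_mul, mul_one, mul_adjugate]; module
  simp only [k, Matrix.add_apply, one_apply_eq, fromBlocks_apply₁₁, Matrix.smul_apply, smul_eq_mul, mul_one] at this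
  have : 4 * (M.det * (M.det - 1)) = 0 := by linear_combination this
  simp [ha.1, sub_eq_zero, ha.2, show (4 : F) = 2 * 2 by norm_num, h2] at this
end

theorem span0 (h2 : (2 : F) ≠ 0) {a b : GL (Fin 2) F} (h : b * a = -(a * b)) {M : Matrix (Fin 2) (Fin 2) F}
    (h0 : M.trace = 0) (h1 : (a.1 * M).trace = 0) (h3 : (b.1 * M).trace = 0) (h4 : ((a * b).1 * M).trace = 0) : M = 0 := by
  have k : ∀ X : Matrix (Fin 2) (Fin 2) F, X.trace = 0 → (X * M).trace = 0 → X * M = -(M * X) := fun X e e' => by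
    simp only [trace_fin_two, mul_apply, Fin.sum_univ_two] at e e' h0
    ext i j; fin_cases i <;> fin_cases j <;> simp [mul_apply] <;> grind
  have e1 := k _ (tr0 h2 h) h1
  have e2 := k _ (tr0 h2 (neg_eq_iff_eq_neg.1 h.symm)) h3
  have e3 := k _ (tr0 h2 (s := a) (t := a * b) (by simp [mul_assoc, h])) h4
  rw [Units.val_mul, mul_assoc, e2, mul_neg, ← mul_assoc, e1, neg_mul, neg_neg, mul_assoc, eq_neg_iff_add_eq_zero,
    ← two_smul F, smul_eq_zero, ← Units.val_mul, Units.mul_left_eq_zero] at e3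
  exact e3.resolve_left h2

theorem gram [Finite F] (h2 : (2 : F) ≠ 0) {Q : Subgroup (GL (Fin 2) F)} (h : Q8 Q) {φ ψ : Matrix (Fin 2) (Fin 2) F}
    (h1 : φ.det = 1) (h3 : ψ.det = 0 ∨ ψ.det = 1) (h4 : ∀ u ∈ Q, ∀ v ∈ Q, ∀ d,
      d = (1 + adjugate φ * (u.1 - 1) * φ + adjugate ψ * (v.1 - 1) * ψ).det → d = 0 ∨ d = 1) : ψ = 0 := by
  obtain ⟨a, ha, -, k1, k2⟩ := h.good.ns
  obtain ⟨b, hb, k4⟩ := h.anti h2 ha fun e => (sc_pm (h.syl.le ha) e).elim k1 k2
  have t1 := tr0 h2 k4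
  have t2 := tr0 h2 (neg_eq_iff_eq_neg.1 k4.symm)
  have t3 := tr0 h2 (s := a) (t := a * b) (by simp [mul_assoc, k4])
  have h5 : ψ.det = 0 ∨ ψ.det = 1 ∧ (3 : F) = 0 := h3.imp id fun e => ⟨e, by
    have := h4 _ h.good.neg _ h.good.neg 9 (by
      rw [show 1 + adjugate φ * ((-1 : GL (Fin 2) F).1 - 1) * φ + adjugate ψ * ((-1 : GL (Fin 2) F).1 - 1) * ψ =
        (-3 : F) • 1 by simp [mul_sub, sub_mul, adjugate_mul, h1, e]; module]
      rw [det_smul]; simp; norm_num)
    rcases this with e | e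
    · exact pow_eq_zero_iff (two_ne_zero) |>.1 (by linear_combination e : (3 : F) ^ 2 = 0)
    · exact absurd (pow_eq_zero_iff (three_ne_zero) |>.1 (by linear_combination e : (2 : F) ^ 3 = 0)) h2⟩
  have k : ∀ X Y : Matrix (Fin 2) (Fin 2) F, ∀ e : F, X.trace = 0 → Y.trace = 0 →
      (X + Y - e • 1).det = X.det + Y.det - (X * Y).trace + e ^ 2 := fun X Y e a b => by
    simp only [trace_fin_two, det_fin_two, mul_apply, Fin.sum_univ_two] at a b ⊢
    simp; grind
  have tr : ∀ (φ : Matrix (Fin 2) (Fin 2) F) (u : GL (Fin 2) F), u.1.trace = 0 → (adjugate φ * u.1 * φ).trace = 0 :=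
    fun φ u e => by rw [trace_mul_cycle, mul_adjugate]; simp [e]
  have h6 : ∀ v ∈ Q, v.1.trace = 0 → adjugate ψ * v.1 * ψ = 0 := fun v hv e => by
    have k5 : ∀ u ∈ Q, u.1.trace = 0 → ∀ d, d = 1 + 2 * ψ.det ^ 2 - (u.1 * (φ * (adjugate ψ * v.1 * ψ) * adjugate φ)).trace →
        d = 0 ∨ d = 1 := fun u hu e' d hd => h4 u hu v hv d (by
      rw [hd, show 1 + adjugate φ * (u.1 - 1) * φ + adjugate ψ * (v.1 - 1) * ψ = adjugate φ * u.1 * φ +
        adjugate ψ * v.1 * ψ - ψ.det • 1 by simp [mul_sub, sub_mul, adjugate_mul, h1]; abel, k _ _ _ (tr φ u e') (tr ψ v e),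
        ← mul_assoc, trace_mul_comm]
      simp [det_adjugate, h1, show u.1.det = 1 from congrArg Units.val (h.syl.le hu),
        show v.1.det = 1 from congrArg Units.val (h.syl.le hv), mul_assoc]
      ring)
    have k6 : ∀ u ∈ Q, u.1.trace = 0 → (u.1 * (φ * (adjugate ψ * v.1 * ψ) * adjugate φ)).trace = 0 := fun u hu e' => by
      have a1 := k5 u hu e' _ rfl
      have a2 := k5 (-u) (by simpa using mul_mem h.good.neg hu) (by simp [e']) _ rfl
      simp only [Units.val_neg, neg_mul, trace_neg] at a2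
      grind
    have := congrArg (adjugate φ * · * φ) (span0 h2 k4 (by
      rw [trace_mul_cycle, adjugate_mul, h1, one_smul, one_mul, tr ψ v e]) (k6 a ha t1) (k6 b hb t2)
      (k6 _ (mul_mem ha hb) t3))
    simpa [← mul_assoc, adjugate_mul, mul_assoc _ (adjugate φ), h1] using this
  rcases h5 with e | e
  · have : ∀ X, ψ * X * adjugate ψ = 0 := fun X => by
      have k : ∀ v : Matrix (Fin 2) (Fin 2) F, (v * (ψ * X * adjugate ψ)).trace = (X * (adjugate ψ * v * ψ)).trace :=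
        fun v => by rw [← mul_assoc, trace_mul_comm, ← mul_assoc, ← mul_assoc, trace_mul_comm]
      exact span0 h2 k4 (by simpa [adjugate_mul, e] using k 1) (by simp [k, h6 a ha t1]) (by simp [k, h6 b hb t2])
        (by rw [k, h6 _ (mul_mem ha hb) t3]; simp)
    have a1 := congrFun₂ (this !![0, 1; 0, 0]) 0 1
    have a2 := congrFun₂ (this !![0, 0; 1, 0]) 0 1
    have a3 := congrFun₂ (this !![0, 1; 0, 0]) 1 0
    have a4 := congrFun₂ (this !![0, 0; 1, 0]) 1 0
    simp [mul_apply, adjugate_fin_two, vecMul, vecHead, vecTail] at a1 a2 a3 a4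
    ext i j; fin_cases i <;> fin_cases j <;> simpa
  · simpa [det_adjugate, e.1, a.det_ne_zero] using congrArg det (h6 a ha t1)

theorem cb_s (h2 : (2 : F) ≠ 0) : fromCols ((2 : F)⁻¹ • (1 : Matrix κ κ F)) (-(2 : F)⁻¹ • (1 : Matrix κ κ F)) *
    fromRows (1 : Matrix κ κ F) (-1 : Matrix κ κ F) = (1 : Matrix κ κ F) := by
  rw [fromCols_mul_fromRows]; simp only [smul_mul_assoc, mul_one, mul_neg]; match_scalars; field_simp; ring

theorem word (h2 : (2 : F) ≠ 0) {a b w : GL κ F} (ha : a * a = -1) (hb : b * b = -1) (h : b * a = -(a * b))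
    (hw : w.1 = (2 : F)⁻¹ • (1 + a.1 + b.1 + a.1 * b.1)) :
    E _ _ (cb_s h2) b * D (a, 1) * E _ _ (cb_s h2) (a * b) * D (b, 1) = D (w, w) := Units.ext <| by
  have k : ∀ x : GL κ F, (E _ _ (cb_s h2) x).1 = (2 : F)⁻¹ • fromBlocks (1 + x.1) (1 - x.1) (1 - x.1) (1 + x.1) :=
    fun x => by
    rw [E_val, fromRows_mul, fromRows_mul_fromCols, ← fromBlocks_one, fromBlocks_add, fromBlocks_smul, fromBlocks_inj]
    simp only [one_mul, neg_mul, mul_smul_comm, mul_one, zero_add]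
    refine ⟨?_, ?_, ?_, ?_⟩ <;> match_scalars <;> field_simp <;> ring
  have a1 : a.1 * a.1 = -1 := congrArg Units.val ha
  have b1 : b.1 * b.1 = -1 := congrArg Units.val hb
  have c1 : b.1 * a.1 = -(a.1 * b.1) := congrArg Units.val h
  have a2 : ∀ x, a.1 * (a.1 * x) = -x := fun x => by rw [← mul_assoc, a1, neg_one_mul]
  have b2 : ∀ x, b.1 * (b.1 * x) = -x := fun x => by rw [← mul_assoc, b1, neg_one_mul]
  have c2 : ∀ x, b.1 * (a.1 * x) = -(a.1 * (b.1 * x)) := fun x => by rw [← mul_assoc, c1, neg_mul, mul_assoc]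
  simp only [Units.val_mul, k, D_val, hw, smul_mul_assoc, mul_smul_comm, fromBlocks_multiply, fromBlocks_smul,
    fromBlocks_inj, Units.val_one, mul_add, add_mul, mul_sub, sub_mul, mul_assoc, mul_one, one_mul, mul_zero, zero_mul,
    a1, a2, b1, b2, c1, c2, mul_neg, neg_mul, neg_neg, smul_add, smul_sub, smul_zero, smul_neg]
  refine ⟨?_, ?_, ?_, ?_⟩ <;> match_scalars <;> field_simp <;> ring

end H9.Pn
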