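import Cfsg.Agent.H9.Pn6
import Cfsg.Agent.S0245

/-! The model `Md` of a Sylow 2-subgroup of `Sp_{2^(w+1)}(q)`, `q` odd, as an iterated wreath product acting on a frame of
symplectic planes; `Md.step`, `exists_md`. -/

set_option autoImplicit false
set_option linter.unusedSectionVars false

namespace H9.Pn
open Subgroup H17 Matrix

variable {F : Type*} [Field F] {ι α : Type} [Fintype ι] [DecidableEq ι] [Fintype α] [DecidableEq α]

local notation "L₂" => (GeneralLinearGroup.det.ker : Subgroup (GL (Fin 2) F))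

/-- the size of the `-1` eigenspace -/
noncomputable def wt (y : GL ι F) : ℕ := Nat.card {v // y.1 *ᵥ v = -v}

theorem wt_pos [Finite F] (y : GL ι F) : 0 < wt y := Nat.card_pos_iff.2 ⟨⟨⟨0, by simp⟩⟩, inferInstance⟩

theorem wt_D [Finite F] (a b : GL ι F) : wt a * wt b ≤ wt (D (a, b)) := by
  rw [wt, wt, ← Nat.card_prod]
  exact Nat.card_le_card_of_injective (fun x => ⟨Sum.elim x.1.1 x.2.1, by
    simp [D_val, fromBlocks_mulVec, x.1.2, x.2.2, Sum.elim_neg_neg]⟩) fun x y e => by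
    simpa [Prod.ext_iff, Subtype.ext_iff, funext_iff] using e

theorem wt_sw [Finite F] {a b : GL ι F} (h : b * a = 1) : Nat.card F ^ Fintype.card ι ≤ wt (D (a, b) * sw) := by
  rw [← Nat.card_eq_fintype_card, ← Nat.card_fun]
  exact Nat.card_le_card_of_injective (fun x => ⟨Sum.elim (a.1 *ᵥ x) (-x), by
    simp [D_val, sw, fromBlocks_multiply, fromBlocks_mulVec, ← Units.val_mul, h, mulVec_neg, ← Sum.elim_neg_neg]⟩)
    fun x y e => by simpa [funext_iff] using congrArg (fun v => v.1 ∘ Sum.inr) e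

theorem wt_E [Finite F] (h2 : (2 : F) ≠ 0) {B : Matrix ι (Fin 2) F} {C : Matrix (Fin 2) ι F} (h : C * B = 1) :
    wt (E B C h (-1)) ≤ Nat.card F ^ 2 := by
  have k : ∀ v, (E B C h (-1)).1 *ᵥ v = -v → v = B *ᵥ (C *ᵥ v) := fun v e => smul_right_injective _ h2 <| by
    simp only [E_val, add_mulVec, Units.val_neg, Units.val_one, Matrix.mul_sub, Matrix.sub_mul, sub_mulVec, neg_mulVec,
      Matrix.mul_neg, Matrix.neg_mul, Matrix.mul_one, one_mulVec, ← mulVec_mulVec] at e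
    linear_combination (norm := module) e
  simpa [wt, Nat.card_fun] using Nat.card_le_card_of_injective (fun x : {v // (E B C h (-1)).1 *ᵥ v = -v} => C *ᵥ x.1)
    fun x y e => Subtype.ext (by rw [k _ x.2, k _ y.2]; exact congrArg _ e)

/-- the model -/
structure Md (Q : Subgroup (GL (Fin 2) F)) (J : Matrix ι ι F) (B : α → Matrix ι (Fin 2) F) (C : α → Matrix (Fin 2) ι F)
    (Δ : GL (Fin 2) F →* GL ι F) (S : Subgroup (GL ι F)) : Prop where
  pl : ∀ a, Pl J (B a) (C a)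
  cb : ∀ a b, a ≠ b → C a * B b = 0
  sum : ∑ a, B a * C a = 1
  ex : ∃ e : ι ≃ α ⊕ α, ∀ i j, J i j = -Matrix.J α F (e i) (e j)
  dB : ∀ x a, (Δ x).1 * B a = B a * x.1
  syl : IsSyl 2 S (Sp J)
  good : Good0 S
  s2 : ∀ a b, ∃ s ∈ S, s.1 * B a = B b
  s5 : ∀ a, ∀ x ∈ Q, E _ _ (pl a).cb x ∈ S
  s4 : ∀ x ∈ Sp J, Odd (orderOf x) → x ∈ normalizer (S : Set (GL ι F)) →
    ∃ y ∈ L₂ ⊓ normalizer (Q : Set (GL (Fin 2) F)), (Δ y)⁻¹ * x ∈ S
  s1 : ∀ y ∈ S, y * y = 1 → wt y ≤ Nat.card F → y = 1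
  s3 : ∀ y ∈ S, y * y = 1 → wt y ≤ Nat.card F ^ 2 → (∀ a, y.1 * B a = B a ∨ y.1 * B a = -B a) ∨
    ∃ s ∈ S, ∃ a b, a ≠ b ∧ (s * y * s⁻¹).1 = 1 - (B a - B b) * (C a - C b) ∧
      ∀ K, S ≤ K → ∀ x, E _ _ (pl a).cb x * E _ _ (pl b).cb x ∈ K → Δ x ∈ K

theorem ext_B {B : α → Matrix ι (Fin 2) F} {C : α → Matrix (Fin 2) ι F} (h : ∑ a, B a * C a = 1) {g g' : GL ι F}
    (e : ∀ a, g.1 * B a = g'.1 * B a) : g = g' := Units.ext <| by
  rw [← Matrix.mul_one g.1, ← Matrix.mul_one g'.1, ← h]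
  simp only [Finset.mul_sum, ← Matrix.mul_assoc, e]

theorem E_B {B B' : Matrix ι (Fin 2) F} {C : Matrix (Fin 2) ι F} (h : C * B = 1) (h' : C * B' = 0) (x : GL (Fin 2) F) :
    (E B C h x).1 * B' = B' := by
  simp [E_val, Matrix.add_mul, Matrix.mul_assoc, h']

theorem sp_rho {m : ℕ} {J : Matrix ι ι F} (e : ι ≃ Fin m ⊕ Fin m) (h : ∀ i j, J i j = -Matrix.J (Fin m) F (e i) (e j)) :
    ∃ ρ : symplecticGroup (Fin m) F →* GL ι F, Function.Injective ρ ∧ ρ.range = Sp J := by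
  let ρ : symplecticGroup (Fin m) F →* GL _ F := (symplecticGroup (Fin m) F).subtype.toHomUnits
  have h1 : ρ.range = Sp (-Matrix.J (Fin m) F) := by
    ext g
    rw [mem_Sp, Matrix.mul_neg, Matrix.neg_mul, neg_inj, ← SymplecticGroup.mem_iff']
    exact ⟨fun ⟨x, e⟩ => e ▸ x.2, fun h => ⟨⟨_, h⟩, Units.ext rfl⟩⟩
  refine ⟨(R e.symm).toMonoidHom.comp ρ, (R _).injective.comp fun x y e => Subtype.ext (congrArg Units.val e), ?_⟩
  rw [MonoidHom.range_comp, h1, map_R]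
  congr 1
  ext i j; simp [h]

theorem em_sp [Finite F] (h2 : (2 : F) ≠ 0) {J : Matrix ι ι F} (e : ι ≃ α ⊕ α)
    (h : ∀ i j, J i j = -Matrix.J α F (e i) (e j)) :
    emultiplicity 2 (Nat.card (Sp J)) = ev (Nat.card F ^ 2) (Fintype.card α) := by
  have := Fintype.ofFinite F
  let f := Fintype.equivFin α
  obtain ⟨ρ, h3, h4⟩ := sp_rho (J := J) (e.trans (f.sumCongr f)) fun i j => by
    rw [h, Equiv.trans_apply, Equiv.trans_apply]
    rcases e i with a | a <;> rcases e j with b | b <;> simp [Matrix.J, one_apply]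
  have ho : Odd (Fintype.card F) := Nat.odd_iff.2 (FiniteField.odd_card_of_char_ne_two fun e => h2 (by
    simpa [e] using ringChar.Nat.cast_ringChar (R := F)))
  rw [← h4, ← Nat.card_congr (ρ.ofInjective h3).toEquiv, Cfsg.Agent.S0245.result rfl,
    Nat.prime_two.emultiplicity_mul, emultiplicity_eq_zero.2 ho.pow.not_two_dvd_nat, zero_add,
    Finset.emultiplicity_prod Nat.prime_two.prime, ev]
  refine Finset.sum_congr rfl fun i _ => ?_
  rw [← Int.natCast_emultiplicity, Nat.cast_sub (Nat.one_le_pow _ _ ho.pos)]; simp [pow_mul]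

theorem md_base [Finite F] (h2 : (2 : F) ≠ 0) {Q : Subgroup (GL (Fin 2) F)} (h : IsSyl 2 Q L₂) (hg : Good0 Q) :
    Md Q (J0 F) (fun _ : Unit => 1) (fun _ => 1) (.id _) Q where
  pl _ := ⟨by simp, by simp⟩
  cb _ _ e := absurd rfl e
  sum := by simp
  ex := ⟨finTwoEquiv.trans (Equiv.boolEquivPUnitSumPUnit), fun i j => by
    fin_cases i <;> fin_cases j <;> simp [J0, Matrix.J, finTwoEquiv, Equiv.boolEquivPUnitSumPUnit]⟩
  dB := by simp
  syl := by rwa [show Sp (J0 F) = L₂ from Subgroup.ext fun _ => sp2]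
  good := hg
  s2 _ _ := ⟨1, one_mem _, by simp⟩
  s5 _ x hx := by convert hx; ext; simp [E_val]
  s4 x hx _ hn := ⟨x, ⟨sp2.1 hx, hn⟩, by simp⟩
  s1 y hy e k := (inv2 h2 (h.le hy) e).resolve_right fun e => by
    subst e
    have := Finite.one_lt_card (α := F)
    simp [wt, neg_mulVec, Nat.card_fun] at k
    nlinarith
  s3 y hy e _ := .inl fun _ => (inv2 h2 (h.le hy) e).imp (by simp +contextual) (by simp +contextual)

theorem E_l {B : Matrix ι (Fin 2) F} {C : Matrix (Fin 2) ι F} (h : C * B = 1) (h' : fromCols C 0 * fromRows B 0 = 1)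
    (x : GL (Fin 2) F) : E (fromRows B 0) (fromCols C 0) h' x = D (E B C h x, 1) := Units.ext <| by
  rw [E_val, fromRows_mul, fromRows_mul_fromCols, D_val, E_val, ← fromBlocks_one, fromBlocks_add]; simp

theorem E_r {B : Matrix ι (Fin 2) F} {C : Matrix (Fin 2) ι F} (h : C * B = 1) (h' : fromCols 0 C * fromRows 0 B = 1)
    (x : GL (Fin 2) F) : E (fromRows 0 B) (fromCols 0 C) h' x = D (1, E B C h x) := Units.ext <| by
  rw [E_val, fromRows_mul, fromRows_mul_fromCols, D_val, E_val, ← fromBlocks_one, fromBlocks_add]; simp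

theorem sw_inv : (sw : GL (ι ⊕ ι) F)⁻¹ = sw := rfl

theorem Md.step [Finite F] (h2 : (2 : F) ≠ 0) {Q : Subgroup (GL (Fin 2) F)} {J : Matrix ι ι F}
    {B : α → Matrix ι (Fin 2) F} {C : α → Matrix (Fin 2) ι F} {Δ : GL (Fin 2) F →* GL ι F} {S : Subgroup (GL ι F)}
    (h : Md Q J B C Δ S) {w : ℕ} (hw : Fintype.card α = 2 ^ w) :
    Md Q (fromBlocks J 0 0 J) (Sum.elim (fun a => fromRows (B a) 0) fun a => fromRows 0 (B a))
      (Sum.elim (fun a => fromCols (C a) 0) fun a => fromCols 0 (C a)) (D.comp (Δ.prod Δ)) (Wr S) := by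
  obtain ⟨e, he⟩ := h.ex
  have : Nonempty α := Fintype.card_pos_iff.1 (by rw [hw]; positivity)
  have : Nonempty ι := e.nonempty
  have hq := Finite.one_lt_card (α := F)
  have hc : Fintype.card ι = 2 ^ w + 2 ^ w := by rw [Fintype.card_congr e, Fintype.card_sum, hw]
  have he' : ∀ i j, fromBlocks J 0 0 J i j = -Matrix.J (α ⊕ α) F
      (((e.sumCongr e).trans (Equiv.sumSumSumComm _ _ _ _)) i) (((e.sumCongr e).trans (Equiv.sumSumSumComm _ _ _ _)) j) := by
    rintro (i | i) (j | j) <;> simp only [fromBlocks_apply₁₁, fromBlocks_apply₁₂, fromBlocks_apply₂₁, fromBlocks_apply₂₂,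
      he, Equiv.trans_apply, Equiv.sumCongr_apply, Sum.map_inl, Sum.map_inr] <;>
    rcases e i with a | a <;> rcases e j with b | b <;> simp [Matrix.J, one_apply]
  have k1 : ∀ (u v : GL ι F) (X Y : Matrix ι (Fin 2) F), (D (u, v)).1 * fromRows X Y = fromRows (u.1 * X) (v.1 * Y) :=
    fun u v X Y => by simp [D_val, fromBlocks_mul_fromRows]
  have k3 : ∀ X Y : Matrix ι (Fin 2) F, (sw : GL (ι ⊕ ι) F).1 * fromRows X Y = fromRows Y X :=
    fun X Y => by simp [sw, fromBlocks_mul_fromRows]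
  have pl : ∀ a, Pl (fromBlocks J 0 0 J) (Sum.elim (fun a => fromRows (B a) 0) (fun a => fromRows 0 (B a)) a)
      (Sum.elim (fun a => fromCols (C a) 0) (fun a => fromCols 0 (C a)) a) := by
    rintro (a | a) <;> exact ⟨by simp [fromCols_mul_fromRows, (h.pl a).cb],
      by simp [transpose_fromRows, fromCols_mul_fromBlocks, (h.pl a).adj]⟩
  have k4 : ∀ {a b}, a ∈ S → b ∈ S → D (a, b) * sw * (D (a, b) * sw) = 1 → ∀ n, wt (D (a, b) * sw) ≤ Nat.card F ^ n →
      b * a = 1 ∧ 2 ^ w + 2 ^ w ≤ n := fun {a b} _ _ e n k => by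
    rw [mul_assoc, sw_D', sw_sw, mul_one, D_mul, ← map_one D, Prod.one_eq_mk, D_inj] at e
    exact ⟨e.2, hc ▸ (Nat.pow_le_pow_iff_right hq).1 ((wt_sw e.2).trans k)⟩
  have k5 : ∀ {a b : GL ι F}, D (a, b) * D (a, b) = 1 → a * a = 1 ∧ b * b = 1 := fun e => by
    rwa [D_mul, ← map_one D, Prod.one_eq_mk, D_inj] at e
  refine ⟨pl, ?_, ?_, ⟨_, he'⟩, ?_, syl_step h.syl (wr_le h.syl.le) ?_, h.good.wr h2, ?_, ?_, fun x hx ho hn => ?_, ?_, ?_⟩
  · rintro (a | a) (b | b) k <;> simp [fromCols_mul_fromRows]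
    all_goals exact h.cb a b (by simpa using k)
  · rw [← fromBlocks_one, ← h.sum]
    ext (i | i) (j | j) <;> simp [Matrix.sum_apply, fromRows_mul_fromCols]
  · rintro x (a | a) <;> simp [k1, h.dB, fromRows_mul]
  · rw [em_sp h2 _ he', em_sp h2 e he, Fintype.card_sum, hw]
    have := Fintype.ofFinite F
    have ho : Odd (Nat.card F : ℤ) := by
      exact_mod_cast Nat.odd_iff.2 (Nat.card_eq_fintype_card (α := F) ▸ FiniteField.odd_card_of_char_ne_two fun e => h2 (by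
        simpa [e] using ringChar.Nat.cast_ringChar (R := F)))
    refine ev_step ho.pow w ?_
    rw [← pow_mul, mul_comm, pow_mul]
    exact (show (4 : ℤ) ∣ 8 by norm_num).trans (Int.eight_dvd_sq_sub_one_of_odd ho.pow)
  · rintro (a | a) (b | b) <;> obtain ⟨s, hs, k⟩ := h.s2 a b
    · exact ⟨_, D_mem hs hs, by simp [k1, k]⟩
    · exact ⟨_, mul_mem sw_mem (D_mem hs hs), by simp [k1, k3, k, Matrix.mul_assoc]⟩
    · exact ⟨_, mul_mem sw_mem (D_mem hs hs), by simp [k1, k3, k, Matrix.mul_assoc]⟩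
    · exact ⟨_, D_mem hs hs, by simp [k1, k]⟩
  · rintro (a | a) x hx
    · exact (E_l (h.pl a).cb _ x).symm ▸ D_mem (h.s5 a x hx) (one_mem _)
    · exact (E_r (h.pl a).cb _ x).symm ▸ D_mem (one_mem _) (h.s5 a x hx)
  · have hn' := le_normalizer_inf (L := GeneralLinearGroup.det.ker) le_rfl le_normalizer_of_normal hn
    obtain ⟨a, b, rfl⟩ := h.good.comm h2 ho hn'
    obtain ⟨y, hy, k⟩ := h.s4 a (D_Sp hx).1 (odd_D ho).1 (Good0.norm hn').1
    have := mul_mem ((mem_normalizer_iff''.1 hn _).1 sw_mem) (sw_mem (T := S))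
    rw [mul_assoc, mul_assoc, ← mul_assoc sw, sw_D, mul_assoc, sw_sw, mul_one, D_inv, D_mul] at this
    refine ⟨y, hy, ?_⟩
    rw [MonoidHom.comp_apply, MonoidHom.prod_apply, D_inv, D_mul]
    exact D_mem k (by simpa [mul_assoc] using mul_mem k (of_D_mem this).1)
  · rintro _ ⟨a, ha, b, hb, rfl | rfl⟩ e k
    · replace k := (wt_D a b).trans k
      rw [h.s1 a ha (k5 e).1 ((Nat.le_mul_of_pos_right _ (wt_pos b)).trans k),
        h.s1 b hb (k5 e).2 ((Nat.le_mul_of_pos_left _ (wt_pos a)).trans k), ← Prod.one_eq_mk, map_one]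
    · have := (k4 ha hb e 1 (by simpa using k)).2
      have := Nat.one_le_two_pow (n := w); omega
  have k6 : ∀ a ∈ S, (∃ s ∈ S, ∃ c d, c ≠ d ∧ (s * a * s⁻¹).1 = 1 - (B c - B d) * (C c - C d) ∧
      ∀ K, S ≤ K → ∀ x, E _ _ (h.pl c).cb x * E _ _ (h.pl d).cb x ∈ K → Δ x ∈ K) → ∀ t ∈ Wr S, ∀ y, t * y * t⁻¹ = D (a, 1) →
      ∃ s ∈ Wr S, ∃ c d, c ≠ d ∧ (s * y * s⁻¹).1 = 1 - (Sum.elim (fun a => fromRows (B a) 0) (fun a => fromRows 0 (B a)) c -
        Sum.elim (fun a => fromRows (B a) 0) (fun a => fromRows 0 (B a)) d) *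
        (Sum.elim (fun a => fromCols (C a) 0) (fun a => fromCols 0 (C a)) c -
        Sum.elim (fun a => fromCols (C a) 0) (fun a => fromCols 0 (C a)) d) ∧
      ∀ K, Wr S ≤ K → ∀ x, E _ _ (pl c).cb x * E _ _ (pl d).cb x ∈ K → D.comp (Δ.prod Δ) x ∈ K := by
    rintro a ha ⟨s, hs, c, d, e, k, k'⟩ t ht y hy
    refine ⟨D (s, 1) * t, mul_mem (D_mem hs (one_mem _)) ht, .inl c, .inl d, by simpa, ?_, fun K hK x hx => ?_⟩
    · rw [show D (s, 1) * t * y * (D (s, 1) * t)⁻¹ = D (s, 1) * (t * y * t⁻¹) * (D (s, 1))⁻¹ by group, hy, D_inv, D_mul,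
        D_mul, D_val, k]
      ext (i | i) (j | j) <;> simp [mul_apply, one_apply]
    · have : D (Δ x, 1) ∈ K := k' (K.comap (D.comp (.inl _ _))) (fun u hu => hK (D_mem hu (one_mem _))) x (by
        simpa [E_l (h.pl c).cb, E_l (h.pl d).cb, D_mul] using hx)
      simpa [mul_assoc, sw_D', sw_D, sw_sw, D_mul, ← mul_assoc (D _)] using
        mul_mem this (mul_mem (mul_mem (hK sw_mem) this) (hK sw_mem))
  rintro _ ⟨a, ha, b, hb, rfl | rfl⟩ e k
  · replace k := (wt_D a b).trans k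
    have k7 : a = 1 ∨ b = 1 := by
      by_contra! k7
      have := not_le.1 (mt (h.s1 a ha (k5 e).1) k7.1)
      have := not_le.1 (mt (h.s1 b hb (k5 e).2) k7.2)
      nlinarith
    rcases k7 with rfl | rfl
    · refine (h.s3 b hb (k5 e).2 ((Nat.le_mul_of_pos_left _ (wt_pos 1)).trans k)).imp (fun k8 => ?_)
        fun k8 => k6 b hb k8 sw sw_mem _ (by rw [sw_D, mul_inv_cancel_right])
      rintro (c | c)
      · simp [k1]
      · exact (k8 c).imp (fun e => by simp [k1, e]) fun e => by simp [k1, e, fromRows_neg]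
    · refine (h.s3 a ha (k5 e).1 ((Nat.le_mul_of_pos_right _ (wt_pos 1)).trans k)).imp (fun k8 => ?_)
        fun k8 => k6 a ha k8 1 (one_mem _) _ (by simp)
      rintro (c | c)
      · exact (k8 c).imp (fun e => by simp [k1, e]) fun e => by simp [k1, e, fromRows_neg]
      · simp [k1]
  · obtain ⟨k7, k8⟩ := k4 ha hb e 2 k
    obtain rfl : w = 0 := by
      rcases w with _ | w
      · rfl
      · have := Nat.one_le_two_pow (n := w); omega
    obtain ⟨c, hc⟩ := Fintype.card_eq_one_iff.1 hw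
    have k9 : B c * C c = 1 := by rw [← h.sum, Finset.sum_eq_single c (fun b _ e => absurd (hc b) e) (by simp)]
    refine .inr ⟨D (1, a), D_mem (one_mem _) ha, .inl c, .inr c, by simp, ?_, fun K hK x hx => ?_⟩
    · rw [D_inv, mul_assoc, mul_assoc, sw_D, ← mul_assoc, ← mul_assoc, D_mul, D_mul, mul_eq_one_comm.1 k7]
      simp only [Sum.elim_inl, Sum.elim_inr, Matrix.mul_sub, Matrix.sub_mul, fromRows_mul_fromCols, k9]
      ext (i | i) (j | j) <;> simp [sw, one_apply, ← Prod.one_eq_mk]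
    · convert hx using 1
      simp only [Sum.elim_inl, Sum.elim_inr, E_l (h.pl c).cb, E_r (h.pl c).cb, D_mul, mul_one, one_mul]
      rw [show E _ _ (h.pl c).cb x = Δ x from ext_B h.sum fun a => by rw [hc a, E_mul, h.dB]]
      rfl

theorem exists_md [Finite F] (h2 : (2 : F) ≠ 0) {Q : Subgroup (GL (Fin 2) F)} (h : IsSyl 2 Q L₂) (hg : Good0 Q) (w : ℕ) :
    ∃ (ι α : Type) (_ : Fintype ι) (_ : DecidableEq ι) (_ : Fintype α) (_ : DecidableEq α) (J : Matrix ι ι F)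
      (B : α → Matrix ι (Fin 2) F) (C : α → Matrix (Fin 2) ι F) (Δ : GL (Fin 2) F →* GL ι F) (S : Subgroup (GL ι F)),
      Fintype.card α = 2 ^ w ∧ Md Q J B C Δ S := by
  induction w with
  | zero => exact ⟨_, _, _, _, _, _, _, _, _, _, _, rfl, md_base h2 h hg⟩
  | succ w ih =>
    obtain ⟨ι, α, _, _, _, _, J, B, C, Δ, S, h3, h4⟩ := ih
    exact ⟨_, _, _, _, _, _, _, _, _, _, _, by simp [h3, pow_succ, mul_two], h4.step h2 h3⟩

end H9.Pn
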