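import Cfsg.Agent.H9.Pn7

/-! Overgroups of a Sylow 2-subgroup of `Sp_{2^w}(q)` with quaternion base: either they contain the diagonal normaliser
or they permute the frame of planes (`four`, `Md.perm`, `Md.main`). -/

set_option autoImplicit false
set_option linter.unusedSectionVars false

namespace H9.Pn
open Subgroup H17 Matrix

variable {F : Type*} [Field F] [Finite F] {ι α : Type} [Fintype ι] [DecidableEq ι] [Fintype α] [DecidableEq α]
  (h2 : (2 : F) ≠ 0) {Q : Subgroup (GL (Fin 2) F)}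

local notation "L₂" => (GeneralLinearGroup.det.ker : Subgroup (GL (Fin 2) F))
local notation "N(" Q ")" => normalizer (Q : Set _)

theorem sq_neg {t : GL (Fin 2) F} (h : t ∈ L₂) (ht : t.1.trace = 0) : t * t = -1 := by
  have d : t.1.det = 1 := congrArg Units.val h
  simp only [det_fin_two, trace_fin_two] at d ht
  ext i j; fin_cases i <;> fin_cases j <;> simp [mul_apply] <;> grind

include h2

theorem Q8.ex (h : Q8 Q) : ∃ a ∈ Q, ∃ b ∈ Q, a * a = -1 ∧ b * b = -1 ∧ b * a = -(a * b) ∧ a.1.trace = 0 ∧ b.1.trace = 0 := by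
  obtain ⟨a, ha, -, k1, k2⟩ := h.good.ns
  obtain ⟨b, hb, k4⟩ := h.anti h2 ha fun e => (sc_pm (h.syl.le ha) e).elim k1 k2
  have t1 := tr0 h2 k4
  have t2 := tr0 h2 (neg_eq_iff_eq_neg.1 k4.symm)
  exact ⟨a, ha, b, hb, sq_neg (h.syl.le ha) t1, sq_neg (h.syl.le hb) t2, k4, t1, t2⟩

theorem four (h : Q8 Q) {Y : Subgroup (GL (Fin 2 ⊕ Fin 2) F)} (h1 : ∀ x ∈ Q, ∀ y ∈ Q, D (x, y) ∈ Y) {φ : GL (Fin 2) F}
    (h3 : ∀ x ∈ Q, E _ _ (cb_s h2) (φ * x * φ⁻¹) ∈ Y) : ∃ w ∈ L₂ ⊓ N(Q), w ∉ Q ∧ D (w, w) ∈ Y := by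
  have h4 : Q ≤ N((Y.comap (E _ _ (cb_s h2)) ⊓ L₂ : Subgroup _)) := le_normalizer_inf (fun x hx =>
    mem_normalizer_of_conj_mem fun y hy => by
      rw [mem_comap, ← E_conj (cb_s h2) (cb_s h2) (g := D (x, x)) (by simp [D_val, fromBlocks_mul_fromRows, fromRows_mul])
        (by simp [D_val, fromCols_mul_fromBlocks, mul_fromCols])]
      exact mul_mem (mul_mem (h1 x hx x hx) hy) (inv_mem (h1 x hx x hx))) le_normalizer_of_normal
  have h5 := h.syl.cj_of_mem_normalizer (g := φ) (le_normalizer_of_normal (mem_top φ))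
  have h6 : cj φ Q ≤ Y.comap (E _ _ (cb_s h2)) ⊓ L₂ := le_inf (by rintro _ ⟨x, hx, rfl⟩; exact h3 x hx) h5.le
  have h7 := (Subn.of_normal le_sup_left (sup_le le_normalizer h4)).pgroup_le ((h5.mono (h6.trans le_sup_left)
    (sup_le inf_le_right h.syl.le)).not_dvd_relIndex h6) h.syl.pgroup le_sup_right
  obtain ⟨a, ha, b, hb, a1, b1, c1, t1, t2⟩ := h.ex h2
  have k : ∀ a ∈ Q, a.1.trace = 0 → (1 + a.1).det = 2 := fun a ha t => by
    have d : a.1.det = 1 := congrArg Units.val (h.syl.le ha)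
    simp only [det_fin_two, trace_fin_two] at d t
    simp [det_fin_two]; grind
  have d : ((2 : F)⁻¹ • (1 + a.1 + b.1 + a.1 * b.1)).det = 1 := by
    rw [show 1 + a.1 + b.1 + a.1 * b.1 = (1 + a.1) * (1 + b.1) by noncomm_ring, det_smul, det_mul, k a ha t1, k b hb t2]
    simp; field_simp
  obtain ⟨w, hw⟩ : ∃ w : GL (Fin 2) F, w.1 = (2 : F)⁻¹ • (1 + a.1 + b.1 + a.1 * b.1) :=
    ⟨.mkOfDetNeZero _ (d ▸ one_ne_zero), rfl⟩
  have a1' : a.1 * a.1 = -1 := congrArg Units.val a1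
  have b1' : b.1 * b.1 = -1 := congrArg Units.val b1
  have c1' : b.1 * a.1 = -(a.1 * b.1) := congrArg Units.val c1
  have e1 : w * a = b * w := Units.ext (by
    simp [hw, mul_add, add_mul, mul_assoc, a1', b1', c1', ← mul_assoc a.1 a.1, ← mul_assoc b.1 a.1]; abel)
  have e2 : w * b = a * b * w := Units.ext (by
    simp [hw, mul_add, add_mul, mul_assoc, a1', b1', c1', ← mul_assoc a.1 a.1, ← mul_assoc b.1 a.1]; abel)
  refine ⟨w, ⟨Units.ext (hw ▸ d : w.1.det = 1), mem_normalizer_of_conj_mem fun s hs => h.gen h2 ha hb c1 hs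
    (Q := Q.comap (MulAut.conj w).toMonoidHom) (by simpa [e1]) (by simpa [e2] using mul_mem ha hb)⟩, fun k => ?_, ?_⟩
  · rcases h.ab w k a ha with e | e <;> simp only [e1, ← neg_mul, mul_left_inj] at e <;>
      exact neg_ne h2 (a * a) (by first | simpa [e] using c1.symm | simpa [e] using c1)
  · rw [← word h2 a1 b1 c1 hw]
    exact mul_mem (mul_mem (mul_mem (h7 hb).1 (h1 _ ha _ (one_mem _))) (h7 (mul_mem ha hb)).1) (h1 _ hb _ (one_mem _))

variable {J : Matrix ι ι F} {B : α → Matrix ι (Fin 2) F} {C : α → Matrix (Fin 2) ι F} {Δ : GL (Fin 2) F →* GL ι F}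
  {S K : Subgroup (GL ι F)} (h : Md Q J B C Δ S)
include h

omit h2 in
theorem Md.anti : Jᵀ = -J := by
  obtain ⟨e, he⟩ := h.ex
  ext i j
  simpa [he, neg_eq_iff_eq_neg] using congrFun₂ (J_transpose α F) (e i) (e j)

omit h2 in
theorem Md.prod {x : α → GL (Fin 2) F} (hx : ∀ a, E _ _ (h.pl a).cb (x a) ∈ K) {g : GL ι F}
    (hg : ∀ a, g.1 * B a = B a * (x a).1) : g ∈ K := by
  have : ∀ A : Finset α, ∃ k ∈ K, ∀ a, k.1 * B a = B a * (if a ∈ A then x a else 1).1 := fun A => by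
    induction A using Finset.induction_on with
    | empty => exact ⟨1, one_mem _, by simp⟩
    | insert c A hc ih =>
      obtain ⟨k, hk, e⟩ := ih
      refine ⟨_, mul_mem (hx c) hk, fun a => ?_⟩
      rw [Units.val_mul, Matrix.mul_assoc, e, ← Matrix.mul_assoc]
      by_cases e' : a = c
      · simp [e', hc, E_mul]
      · simp [e', E_B _ (h.cb c a (Ne.symm e'))]
  obtain ⟨k, hk, e⟩ := this Finset.univ
  exact ext_B h.sum (g := k) (g' := g) (fun a => by simp [e, hg]) ▸ hk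

omit h2 in
theorem Md.conj {g : GL ι F} (hg : g ∈ Sp J) {a b : α} {φ : GL (Fin 2) F} (e : g.1 * B a = B b * φ.1) (y : GL (Fin 2) F) :
    g * E _ _ (h.pl a).cb y * g⁻¹ = E _ _ (h.pl b).cb (φ * y * φ⁻¹) :=
  E_conj _ _ e ((h.pl a).act (h.pl b) hg e).2 y

omit h2 in
theorem Md.diag (hS : S ≤ K) {a : α} {x : GL (Fin 2) F} (hx : E _ _ (h.pl a).cb x ∈ K) : Δ x ∈ K :=
  h.prod (x := fun _ => x) (fun b => by
    obtain ⟨s, hs, e⟩ := h.s2 a b
    simpa [h.conj (h.syl.le hs) (φ := 1) (by simpa using e)] using mul_mem (mul_mem (hS hs) hx) (inv_mem (hS hs)))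
    (h.dB x)

theorem Md.sign (hQ : Q8 Q) (hS : S ≤ K) (h1 : ∀ w ∈ L₂ ⊓ N(Q), Δ w ∈ K → w ∈ Q) {k : GL ι F} (hk : k ∈ K) {c : α}
    (hy : k * E _ _ (h.pl c).cb (-1) * k⁻¹ ∈ S) (a : α) : (k * E _ _ (h.pl c).cb (-1) * k⁻¹).1 * B a = B a ∨
      (k * E _ _ (h.pl c).cb (-1) * k⁻¹).1 * B a = -B a := by
  have h3 : C c * (k⁻¹).1 * (k.1 * B c) = 1 := by
    rw [Matrix.mul_assoc, ← Matrix.mul_assoc _ k.1]; simp [(h.pl c).cb]
  refine (h.s3 _ hy (by simp [mul_assoc, ← mul_assoc (E _ _ _ _), ← map_mul]) (by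
    rw [E_conj _ h3 (φ := 1) (by simp) (by simp [Matrix.mul_assoc])]
    simpa using wt_E h2 h3)).resolve_right ?_ a
  rintro ⟨s, hs, a, b, e, h4, h5⟩
  have h6 : fromRows (C a) (C b) * fromCols (B a) (B b) = 1 := by
    simp [fromRows_mul_fromCols, (h.pl _).cb, h.cb a b e, h.cb b a e.symm]
  have h7 : (2 : F)⁻¹ • (C a - C b) * (B a - B b) = 1 := by
    simp only [Matrix.smul_mul, Matrix.mul_sub, Matrix.sub_mul, (h.pl _).cb, h.cb a b e, h.cb b a e.symm]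
    match_scalars; field_simp; ring
  have h8 : ∀ x y, E _ _ h6 (D (x, y)) = E _ _ (h.pl a).cb x * E _ _ (h.pl b).cb y := fun x y => Units.ext (by
    rw [E_D]; simp [E_val, mul_add, add_mul, Matrix.mul_assoc, ← Matrix.mul_assoc (C a), h.cb a b e])
  obtain ⟨φ, e1, e2⟩ := exists_phi (h.pl c).cb h7 (g := s * k) (by
    rw [show s * (k * E _ _ (h.pl c).cb (-1) * k⁻¹) * s⁻¹ = s * k * E _ _ (h.pl c).cb (-1) * (s * k)⁻¹ by group,
      Units.val_mul, Units.mul_inv_eq_iff_eq_mul, Units.val_mul _ (E _ _ _ _), E_val] at h4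
    refine smul_right_injective _ h2 ?_
    generalize B a - B b = X, C a - C b = Y, (s * k).1 = Z at h4 ⊢
    simp only [Units.val_neg, Units.val_one, Matrix.mul_sub, Matrix.sub_mul, Matrix.mul_neg, Matrix.neg_mul,
      Matrix.mul_one, mul_add, Matrix.one_mul, Matrix.mul_smul, Matrix.smul_mul, smul_smul,
      mul_inv_cancel₀ h2, one_smul] at h4 ⊢
    linear_combination (norm := module) -h4)
  obtain ⟨w, hw, k1, k2⟩ := four h2 hQ (Y := K.comap (E _ _ h6)) (φ := φ)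
    (fun x hx y hy => by rw [mem_comap, h8]; exact hS (mul_mem (h.s5 a x hx) (h.s5 b y hy))) fun x hx => by
      rw [mem_comap, E_E h6 _ h7 (by simp [fromCols_mul_fromRows, sub_eq_add_neg])
        (by simp [fromCols_mul_fromRows, sub_eq_add_neg]), ← E_conj (h.pl c).cb h7 e1 e2]
      exact mul_mem (mul_mem (mul_mem (hS hs) hk) (hS (h.s5 c x hx))) (inv_mem (mul_mem (hS hs) hk))
  exact k1 (h1 w hw (h5 K hS w (h8 w w ▸ k2)))

theorem Md.perm (hQ : Q8 Q) (hS : S ≤ K) (hK : K ≤ Sp J) (h1 : ∀ w ∈ L₂ ⊓ N(Q), Δ w ∈ K → w ∈ Q) {k : GL ι F}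
    (hk : k ∈ K) (a : α) : ∃ b, ∃ φ ∈ L₂, k.1 * B a = B b * φ.1 := by
  obtain ⟨i, hi, -, -, h3, -⟩ := hQ.ex h2
  have hz := hS (h.s5 a _ hQ.good.neg)
  have h4 : ∀ k ∈ K, (C a * k.1 * B a).det = 0 ∨ (C a * k.1 * B a).det = 1 := fun k hk =>
    (h.pl a).pair h2 h.anti hK h3 (hS (h.s5 a i hi)) (fun k hk e => by
      have z1 : E _ _ (h.pl a).cb (-1) * E _ _ (h.pl a).cb (-1) = 1 := by simp [← map_mul]
      have hs := fun k hk => h.sign h2 hQ hS h1 (k := k) hk (c := a)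
      generalize E _ _ (h.pl a).cb (-1) = z at *
      have zi : z⁻¹ = z := inv_eq_of_mul_eq_one_right z1
      obtain ⟨o, ho, k1⟩ := (h.syl.mono hS hK).exists_le_cj (isPGroup_sup (H := zpowers z) (zpowers_le.2
        (mem_normalizer_iff_cj.2 (by
          rw [cj, MonoidHom.map_zpowers, ← zpowers_inv (g := z * (k * z * k⁻¹))]
          simp [zi, mul_assoc, ← mul_assoc z z, z1]))) (isPGroup_zpowers_of_pow (k := 1) (by simpa [pow_two]))
        (isPGroup_zpowers_of_pow (k := 2) e)) (sup_le (zpowers_le.2 hz)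
        (zpowers_le.2 (mul_mem hz (mul_mem (mul_mem hk hz) (inv_mem hk)))))
      simp only [sup_le_iff, zpowers_le] at k1
      have k2 := hs _ (inv_mem ho) (by simpa using mem_cj.1 k1.1)
      have k3 := hs _ (mul_mem (inv_mem ho) hk) (by
        simpa [mul_assoc, ← mul_assoc z z, z1] using mem_cj.1 (mul_mem k1.1 k1.2))
      have k4 : Commute (o⁻¹ * z * o⁻¹⁻¹) (o⁻¹ * k * z * (o⁻¹ * k)⁻¹) := ext_B h.sum fun c => by
        rcases k2 c with e | e <;> rcases k3 c with e' | e' <;>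
          simp only [Units.val_mul (_ * _) (_ * _), Matrix.mul_assoc, e, e', Matrix.mul_neg]
      have k5 : Commute z (k * z * k⁻¹) := (Commute.conj_iff o⁻¹).1 (by simpa [mul_assoc] using k4)
      rw [k5.mul_pow, conj_pow, pow_two, z1]; simp) hk
  have h5 : ∀ b, (C b * k.1 * B a).det = 0 ∨ (C b * k.1 * B a).det = 1 := fun b => by
    obtain ⟨s, hs, e⟩ := h.s2 b a
    have := ((h.pl b).act (h.pl a) (h.syl.le hs) (φ := 1) (by simpa using e)).2
    simpa [← Matrix.mul_assoc, this] using h4 _ (mul_mem (hS hs) hk)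
  have h6 := (h.pl a).map (hK hk)
  have h7 : ∑ b, B b * (C b * k.1 * B a) = k.1 * B a := by
    simp only [Matrix.mul_assoc _ k.1, ← Matrix.mul_assoc (B _), ← Matrix.sum_mul, h.sum, Matrix.one_mul]
  obtain ⟨b, hb⟩ : ∃ b, (C b * k.1 * B a).det = 1 := by
    by_contra! hb
    have := h6.cb
    rw [← h7, Matrix.mul_sum, Finset.sum_eq_zero fun b _ => by
      rw [← Matrix.mul_assoc, (h.pl b).adj2 h.anti h6, ← Matrix.mul_assoc (C b), adjugate_mul,
        (h5 b).resolve_right (hb b), zero_smul]] at this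
    exact zero_ne_one this
  refine ⟨b, .mkOfDetNeZero _ (hb ▸ one_ne_zero), Units.ext hb, ?_⟩
  rw [← h7, Finset.sum_eq_single b (fun c _ e => ?_) (by simp)]
  · rfl
  rw [gram h2 hQ hb (h5 c) fun u hu v hv d hd => ?_, Matrix.mul_zero]
  convert h4 _ (mul_mem (mul_mem (inv_mem hk) (hS (mul_mem (h.s5 b u hu) (h.s5 c v hv)))) hk) <;>
  · rw [hd, Matrix.mul_assoc _ k.1, Matrix.mul_assoc _ k.1, ← (h.pl b).adj2 h.anti h6, ← (h.pl c).adj2 h.anti h6]
    simp [E_val, mul_add, add_mul, Matrix.mul_assoc, Matrix.mul_add, Matrix.add_mul, (h.pl a).cb, show ∀ X : Matrix (Fin 2) (Fin 2) F,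
      C b * (B c * X) = 0 from fun X => by rw [← Matrix.mul_assoc, h.cb b c (Ne.symm e), Matrix.zero_mul]]

omit h in
theorem Q8.comm (hQ : Q8 Q) {a b : GL (Fin 2) F} (ha : a ∈ L₂ ⊓ N(Q)) (hb : b ∈ L₂ ⊓ N(Q)) : a * b * a⁻¹ * b⁻¹ ∈ Q := by
  rcases hQ.dich h2 (le_sup_left (b := zpowers a)) with k | k
  · simpa [mul_assoc] using mul_mem (k ⟨⟨mem_sup_right (mem_zpowers a), ha.1⟩, ha.2⟩) ((mem_normalizer_iff.1 hb.2 _).1
      (inv_mem (k ⟨⟨mem_sup_right (mem_zpowers a), ha.1⟩, ha.2⟩)))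
  · obtain ⟨s, hs, _, ⟨n, rfl⟩, rfl⟩ := (mem_sup_of_le_normalizer_left (zpowers_le.2 ha.2)).1 (k hb)
    convert mul_mem ((mem_normalizer_iff.1 ha.2 _).1 hs) (inv_mem hs) using 1
    group

theorem Md.main (hQ : Q8 Q) (hS : S ≤ K) (hK : K ≤ Sp J) {y : GL (Fin 2) F} (hy : y ∈ L₂ ⊓ N(Q)) (hy' : Δ y ∈ Sp J)
    (h1 : Δ y ∉ K ⊔ cj (Δ y) K) : Δ y ∈ N(K) := by
  have h3 : ∀ w ∈ L₂ ⊓ N(Q), Δ w ∈ K → w ∈ Q := fun w hw e =>
    (hQ.dich h2 (M := K.comap Δ) fun x hx => h.prod (fun a => hS (h.s5 a x hx)) (h.dB x)).resolve_right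
      (fun k => h1 (mem_sup_left (k hy))) ⟨⟨e, hw.1⟩, hw.2⟩
  have h4 : ∀ a, K.comap (E _ _ (h.pl a).cb) ⊓ L₂ = Q := fun a =>
    hQ.norm h2 (le_inf (fun x hx => hS (h.s5 a x hx)) hQ.syl.le) inf_le_right hy.1 hy.2 fun k => h1 <|
      h.diag (hS.trans le_sup_left) (a := a) ((sup_le (fun x hx => mem_sup_left (mem_inf.1 hx).1) (by
        rintro _ ⟨x, hx, rfl⟩
        exact mem_sup_right (h.conj hy' (h.dB y a) x ▸ conj_mem_cj (mem_inf.1 hx).1)) :
        _ ≤ (K ⊔ cj (Δ y) K).comap (E _ _ (h.pl a).cb)) k)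
  refine mem_normalizer_of_conj_mem fun k hk => (mul_mem_cancel_right (inv_mem hk)).1 ?_
  choose σ φ h5 h6 using h.perm h2 hQ hS hK h3 (inv_mem hk)
  refine h.prod (x := fun a => y * (φ a)⁻¹ * y⁻¹ * (φ a)⁻¹⁻¹) (fun a => hS (h.s5 a _ (hQ.comm h2 hy (inv_mem (mem_inf.2 ⟨h5 a,
    mem_normalizer_of_conj_mem fun x hx => (h4 (σ a)).le (mem_inf.2 ⟨?_, ?_⟩)⟩))))) fun a => ?_
  · rw [mem_comap, ← h.conj (hK (inv_mem hk)) (h6 a) x]
    exact mul_mem (mul_mem (inv_mem hk) (hS (h.s5 a x hx))) (inv_mem (inv_mem hk))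
  · exact mul_mem (mul_mem (h5 a) (hQ.syl.le hx)) (inv_mem (h5 a))
  · have : k.1 * B (σ a) = B a * ((φ a)⁻¹).1 := by
      have := congrArg (fun X => k.1 * X * ((φ a)⁻¹).1) (h6 a).symm
      simp only [← Matrix.mul_assoc, Units.mul_inv, Matrix.one_mul] at this
      rwa [Matrix.mul_assoc, Units.mul_inv, Matrix.mul_one] at this
    simp only [Units.val_mul, ← map_inv, Matrix.mul_assoc, h6, inv_inv]
    simp only [← Matrix.mul_assoc, h.dB, Matrix.mul_assoc _ (Δ _).1, Matrix.mul_assoc _ k.1, this]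

omit h2 in
theorem Md.dec {g : GL ι F} (hg : g ∈ Sp J ⊓ N(S)) : ∃ y ∈ L₂ ⊓ N(Q), ∃ s ∈ S, Δ y ∈ Sp J ⊓ N(S) ∧ g = Δ y * s := by
  have h3 : Sp J ⊓ N(S) ≤ (L₂ ⊓ N(Q)).map Δ ⊓ N(S) ⊔ S := norm_le h.syl le_rfl le_sup_right fun x hx ho hn => by
    obtain ⟨y, hy, k⟩ := h.s4 x hx ho hn
    have k1 : Δ y ∈ N(S) := by simpa using mul_mem hn (inv_mem (le_normalizer k))
    simpa using mul_mem_sup (mem_inf.2 ⟨mem_map_of_mem Δ hy, k1⟩) k
  obtain ⟨_, ⟨⟨y, hy, rfl⟩, k⟩, s, hs, e⟩ := (mem_sup_of_le_normalizer_right inf_le_right).1 (h3 hg)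
  exact ⟨y, hy, s, hs, ⟨(mul_mem_cancel_right (h.syl.le hs)).1 (e ▸ hg.1), k⟩, e.symm⟩

end H9.Pn

namespace H9.Pn
open Subgroup H17

/-- the property passing to direct products -/
structure Ok {G : Type*} [Group G] (L S : Subgroup G) : Prop where
  syl : IsSyl 2 S L
  comm : ∀ a ∈ L ⊓ normalizer (S : Set G), ∀ b ∈ L ⊓ normalizer (S : Set G), a * b * a⁻¹ * b⁻¹ ∈ S
  alt : ∀ K, S ≤ K → K ≤ L → ∀ g ∈ L ⊓ normalizer (S : Set G), g ∉ K ⊔ cj g K → g ∈ normalizer (K : Set G)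

theorem Md.ok {F : Type*} [Field F] [Finite F] {ι α : Type} [Fintype ι] [DecidableEq ι] [Fintype α] [DecidableEq α]
    (h2 : (2 : F) ≠ 0) {Q : Subgroup (GL (Fin 2) F)} {J : Matrix ι ι F} {B : α → Matrix ι (Fin 2) F}
    {C : α → Matrix (Fin 2) ι F} {Δ : GL (Fin 2) F →* GL ι F} {S : Subgroup (GL ι F)} (h : Md Q J B C Δ S)
    (hQ : IsSyl 2 Q Matrix.GeneralLinearGroup.det.ker) (hr : Rig Q ∨ Q8 Q) : Ok (Sp J) S := by
  have k : ∀ x ∈ Q, Δ x ∈ S := fun x hx => h.prod (fun a => h.s5 a x hx) (h.dB x)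
  rcases hr with hr | hr
  · have k1 : Sp J ⊓ normalizer (S : Set (GL ι F)) ≤ S := fun g hg => by
      obtain ⟨y, hy, s, hs, -, rfl⟩ := h.dec hg
      exact mul_mem (k y (norm_le hQ le_rfl le_rfl (fun x a b c => sc_odd h2 a (hr x b c) b ▸ one_mem _) hy)) hs
    exact ⟨h.syl, fun a ha b hb => mul_mem (mul_mem (mul_mem (k1 ha) (k1 hb)) (inv_mem (k1 ha))) (inv_mem (k1 hb)),
      fun K a _ g hg _ => le_normalizer (a (k1 hg))⟩
  refine ⟨h.syl, fun a ha b hb => ?_, fun K h3 h4 g hg h5 => ?_⟩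
  · obtain ⟨y, hy, s, hs, k1, rfl⟩ := h.dec ha
    obtain ⟨z, hz, t, ht, k2, rfl⟩ := h.dec hb
    have k3 := k _ (hr.comm h2 hy hz)
    simp only [map_mul, map_inv] at k3
    have n := fun a (ha : a ∈ normalizer (S : Set (GL ι F))) s => (mem_normalizer_iff.1 ha s).1
    convert mul_mem (mul_mem (mul_mem (mul_mem (n _ k1.2 _ hs) (n _ (mul_mem k1.2 k2.2) _ ht))
      (n _ (mul_mem k1.2 k2.2) _ (inv_mem hs))) k3) (n _ k2.2 _ (inv_mem ht)) using 1
    group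
  · obtain ⟨y, hy, s, hs, k1, rfl⟩ := h.dec hg
    rw [cj_mul, cj_eq_of_mem (h3 hs), mul_mem_cancel_right (mem_sup_left (h3 hs))] at h5
    exact mul_mem (h.main h2 hr h3 h4 hy k1.1 h5) (le_normalizer (h3 hs))

theorem Ok.pi {t : Type*} [Finite t] {G : t → Type*} [∀ i, Group (G i)] [∀ i, Finite (G i)] {L S : ∀ i, Subgroup (G i)}
    (h : ∀ i, Ok (L i) (S i)) : SP 2 (Subgroup.pi Set.univ L) := by
  classical
  have := Fintype.ofFinite t
  have hn : ∀ g ∈ normalizer ((Subgroup.pi Set.univ S : Subgroup (∀ i, G i)) : Set (∀ i, G i)), ∀ i, g i ∈ normalizer (S i : Set (G i)) :=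
    fun g hg i => mem_normalizer_of_conj_mem fun x hx => by
      simpa using (mem_normalizer_iff.1 hg _).1 ((mulSingle_mem_pi (H := S) i x).2 fun _ => hx) i trivial
  have hS : IsSyl 2 (Subgroup.pi Set.univ S) (Subgroup.pi Set.univ L) := isSyl_of_max (fun x hx i _ => (h i).syl.le (hx i trivial))
    (isPGroup_iff_forall.2 fun x hx => by
      choose k hk using fun i => isPGroup_iff_forall.1 (h i).syl.pgroup _ (hx i trivial)
      exact ⟨∑ i, k i, funext fun i => orderOf_dvd_iff_pow_eq_one.1 ((orderOf_dvd_of_pow_eq_one (hk i)).trans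
        (pow_dvd_pow 2 (Finset.single_le_sum (fun _ _ => Nat.zero_le _) (Finset.mem_univ i))))⟩)
    fun P hP h1 h3 x hx i _ => ((h i).syl.eq_of_le (hP.map (Pi.evalMonoidHom G i))
      (fun s hs => ⟨_, h1 ((mulSingle_mem_pi (H := S) i s).2 fun _ => hs), by simp⟩)
      (by rintro _ ⟨y, hy, rfl⟩; exact h3 hy i trivial)).le (mem_map_of_mem _ hx)
  refine crit hS fun H h1 h3 g hg hg' => ?_
  let K := fun i => H.comap (MonoidHom.mulSingle G i)
  have k1 : ∀ i, S i ≤ K i := fun i s hs => h1 ((mulSingle_mem_pi (H := S) i s).2 fun _ => hs)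
  have k2 : ∀ i, K i ≤ L i := fun i s hs => by simpa using h3 hs i trivial
  have k3 : Subgroup.pi Set.univ K ≤ H := fun x hx => pi_mem_of_mulSingle_mem x fun i => hx i trivial
  refine ⟨fun i => if g i ∈ K i ⊔ cj (g i) (K i) then g i else 1, pi_mem_of_mulSingle_mem _ fun i => ?_, ?_⟩
  · split_ifs with e
    · refine (sup_le (fun x hx => mem_sup_left hx) ?_ : _ ≤ (H ⊔ cj g H).comap (MonoidHom.mulSingle G i)) e
      rintro _ ⟨x, hx, rfl⟩
      refine mem_sup_right ⟨_, hx, funext fun j => ?_⟩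
      by_cases e : j = i
      · subst e; simp
      · simp [e]
    · simp
  set x : ∀ i, G i := fun i => if g i ∈ K i ⊔ cj (g i) (K i) then g i else 1
  have k4 : ∀ i, (x⁻¹ * g) i ∈ L i ⊓ normalizer (S i : Set (G i)) ⊓ normalizer (K i : Set (G i)) := fun i => by
    by_cases e : g i ∈ K i ⊔ cj (g i) (K i)
    · simp [x, e]
    · simpa [x, e] using ⟨⟨hg i trivial, hn g hg' i⟩, (h i).alt _ (k1 i) (k2 i) _ ⟨hg i trivial, hn g hg' i⟩ e⟩
  suffices x⁻¹ * g ∈ normalizer (H : Set (∀ i, G i)) by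
    rw [← mul_inv_cancel_left x g, cj_mul, mem_normalizer_iff_cj.1 this]
  refine mem_normalizer_of_conj_mem fun u hu => ?_
  obtain ⟨n, k5, k6⟩ := (hS.mono (K := Subgroup.pi Set.univ K) (fun s hs i _ => k1 i (hs i trivial))
    (k3.trans h3)).frattini_mem (g := u)
    (mem_normalizer_of_conj_mem fun v hv i _ => by
      have := mul_mem (mul_mem hu (hv i trivial)) (inv_mem hu)
      change MonoidHom.mulSingle G i _ ∈ H
      convert this using 1
      funext j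
      by_cases e : j = i
      · subst e; simp
      · simp [e])
  generalize x⁻¹ * g = y at k4
  have k7 := mul_mem (k3 k5) hu
  convert mul_mem (mul_mem (k3 (x := y * n⁻¹ * y⁻¹) fun i _ => (mem_normalizer_iff.1 (k4 i).2 _).1 (inv_mem (k5 i trivial)))
    (h1 (x := y * (n * u) * y⁻¹ * (n * u)⁻¹) fun i _ => (h i).comm _ (k4 i).1 _ ⟨h3 k7 i trivial, hn _ k6 i⟩)) k7 using 1
  group

end H9.Pn
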