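import Cfsg.Agent.H9.L2
import Cfsg.Agent.H9.MS
import Cfsg.Agent.S0810
import Cfsg.Agent.H10.Klein

/-! Solubilizers in `PSL₂(2^p)`, `PSL₂(3^p)`: `sol_iff` (`⟨x, y⟩` is solvable iff the traces satisfy `P`) and the
counts `card_split`, `card_ell`. -/

set_option autoImplicit false

namespace H9.Sol2
open Matrix H24 H9.L2 Subgroup
open scoped MatrixGroups
open H10 (π π_eq_iff π_eq_one_iff π_surjective ι)

variable {F : Type*} [Field F]

/-- trace -/
abbrev tr (g : SL(2, F)) : F := (g : M2 F).trace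
/-- the prime field, for characteristic 2 or 3 -/
def T (t : F) : Prop := t = 0 ∨ t = 1 ∨ t = -1
/-- the determinant of the Lie bracket -/
abbrev κ (X Y : SL(2, F)) : F := ((X : M2 F) * Y - Y * X).det
/-- the trace condition for solvability -/
def P (X Y : SL(2, F)) : Prop := κ X Y = 0 ∨ (tr X = 0 ∧ tr Y = 0) ∨ (tr X = 0 ∧ tr (X * Y) = 0) ∨
  (tr Y = 0 ∧ tr (X * Y) = 0) ∨ (T (tr X) ∧ T (tr Y) ∧ T (tr (X * Y)))

/-- the fields of order `2^p`, `3^p` -/
structure Hyp (F : Type*) [Field F] [Fintype F] : Prop where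
  ch : (2 : F) = 0 ∨ ((3 : F) = 0 ∧ ∀ c : F, c ^ 2 ≠ -1)
  four : 4 ≤ Fintype.card F
  min : ∀ H : Subgroup PSL(2, F), H ≠ ⊤ → Group.IsSolvable H
  sub : ∀ r m : ℕ, 2 ≤ m → r ^ m = Fintype.card F → r ≤ 3

theorem κ_of_comm {X Y : SL(2, F)} (h : (X : M2 F) * Y = Y * X) : κ X Y = 0 := by
  rw [κ, h, sub_self, det_zero]

theorem comm_of_ell {X Y : M2 F} (he : Ell X) (k : (X * Y - Y * X).det = 0) : X * Y = Y * X := by
  have r0 : (X * Y - Y * X) 1 1 = -(X * Y - Y * X) 0 0 := by simp only [Matrix.sub_apply, mul_apply2]; ring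
  have r2 : (X 0 0 - X 1 1) * (X * Y - Y * X) 0 0 + X 0 1 * (X * Y - Y * X) 1 0 + X 1 0 * (X * Y - Y * X) 0 1 = 0 := by
    simp only [Matrix.sub_apply, mul_apply2]; ring
  rw [← sub_eq_zero]
  generalize X * Y - Y * X = M at *
  rw [det_fin_two, r0] at k
  have c : X 1 0 ≠ 0 := fun c => he (X 0 0) (by rw [trace_fin_two, det_fin_two, c]; ring)
  have g : M 1 0 = 0 := by
    by_contra g
    refine he.det_lin_ne_zero (x := X 1 0 * M 0 0 + X 1 1 * M 1 0) (.inr (neg_ne_zero.2 g)) ?_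
    rw [trace_fin_two, det_fin_two]
    linear_combination -X 1 0 ^ 2 * k - X 1 0 * M 1 0 * r2
  have a : M 0 0 = 0 := by simpa [g] using k
  exact ext2 a (by simpa [a, g, c] using r2) g (by simp [r0, a])

theorem sq_cases {g : SL(2, F)} (h : π F g ^ 2 = 1) : IsScal (g : M2 F) ∨ tr g = 0 := by
  refine or_iff_not_imp_left.2 fun hg => ?_
  have c := cayley (g : M2 F)
  rw [← map_pow, π_eq_one_iff, pow_two] at h
  refine (isScal_lin_iff hg (-(g : M2 F).det) _).1 ?_
  rw [← c]
  rcases h with h | h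
  · exact (show (g : M2 F) * g = 1 from congrArg Subtype.val h) ▸ isScal_one
  · rw [show (g : M2 F) * g = (-1 : F) • 1 from (congrArg Subtype.val h).trans (by simp)]
    exact isScal_smul_one _

theorem T_of_pow (ch : (2 : F) = 0 ∨ ((3 : F) = 0 ∧ ∀ c : F, c ^ 2 ≠ -1)) {g : SL(2, F)}
    (h : π F g ^ 3 = 1 ∨ π F g ^ 4 = 1) : T (tr g) := by
  have sc : ∀ g : SL(2, F), IsScal (g : M2 F) → tr g = 2 ∨ tr g = -2 := fun g hg => by
    have d := hg.det_eq
    rw [g.2] at d
    rw [tr, hg.trace_eq]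
    exact (mul_self_eq_one_iff.1 d.symm).imp (fun e => by rw [e]; ring) fun e => by rw [e]; ring
  have c := cayley (g : M2 F)
  rw [g.2] at c
  by_cases hg : IsScal (g : M2 F)
  · rcases sc g hg with e | e <;> rcases ch with h2 | ⟨h3, -⟩
    · exact .inl (e.trans h2)
    · exact .inr (.inr (by linear_combination e + h3))
    · exact .inl (by linear_combination e - h2)
    · exact .inr (.inl (by linear_combination e - h3))
  rcases h with h | h
  · rw [← map_pow, π_eq_one_iff] at h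
    have e : ((g ^ 3 : SL(2, F)) : M2 F) = (-tr g) • (1 : M2 F) + (tr g ^ 2 - 1) • (g : M2 F) := by
      rw [pow_succ, pow_two, coe_mul_SL, coe_mul_SL, c, add_mul, smul_mul_assoc, smul_mul_assoc, c, one_mul]
      module
    have : tr g ^ 2 - 1 = 0 := by
      refine (isScal_lin_iff hg (-tr g) _).1 ?_
      rw [← e]
      rcases h with h | h <;> rw [h]
      · exact isScal_one
      · exact ⟨by simp, by simp, by simp⟩
    exact .inr (sq_eq_one_iff.1 (sub_eq_zero.1 this))
  · rw [show 4 = 2 * 2 from rfl, pow_mul, ← map_pow] at h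
    have e : tr (g ^ 2) = tr g ^ 2 - 2 := by
      rw [tr, pow_two, coe_mul_SL, c, trace_lin]; ring
    rcases sq_cases h with h | h
    · rw [pow_two, coe_mul_SL, c] at h
      exact .inl ((isScal_lin_iff hg _ _).1 h)
    · rcases ch with h2 | ⟨h3, hs⟩
      · exact .inl (pow_eq_zero_iff two_ne_zero |>.1 (by linear_combination h - e + h2))
      · exact absurd (by linear_combination h - e + h3) (hs (tr g))

theorem P_of_comm {X Y : SL(2, F)} (h : π F X * π F Y = π F Y * π F X) : P X Y := by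
  rw [← map_mul, ← map_mul, π_eq_iff] at h
  rcases h with h | h
  · exact .inl (κ_of_comm (congrArg Subtype.val h))
  by_cases h2 : (2 : F) = 0
  · refine .inl (κ_of_comm ((congrArg Subtype.val h).trans ?_))
    ext i j
    change -_ = _
    linear_combination (-((Y : M2 F) * X) i j) * h2
  have k : ∀ {X Y : SL(2, F)}, X * Y = -(Y * X) → tr X = 0 := fun {X Y} h => by
    have := trace_conj_SL Y X
    rw [show Y * X * Y⁻¹ = -X by rw [mul_inv_eq_iff_eq_mul, neg_mul, h, neg_neg]] at this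
    rw [SpecialLinearGroup.coe_neg, trace_neg] at this
    exact (mul_eq_zero.1 (by linear_combination -this)).resolve_left h2
  exact .inr (.inl ⟨k h, k (X := Y) (Y := X) (by rw [h, neg_neg])⟩)

theorem κ_scal {X Y : SL(2, F)} (h : IsScal (X : M2 F) ∨ IsScal (Y : M2 F) ∨ IsScal ((X * Y : SL(2, F)) : M2 F)) :
    κ X Y = 0 := by
  rcases h with h | h | h
  · exact κ_of_comm (h.commute _)
  · exact κ_of_comm (h.commute _).symm
  · have : X * Y * X = X * (X * Y) := Subtype.ext (h.commute _)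
    rw [mul_assoc, mul_right_inj] at this
    exact κ_of_comm (congrArg Subtype.val this).symm

theorem pow_of_inj {A B : Type*} [Group A] [Group B] (f : A →* B) (hf : Function.Injective f)
    (h : ∀ b : B, b ^ 3 = 1 ∨ b ^ 4 = 1) (a : A) : a ^ 3 = 1 ∨ a ^ 4 = 1 := by
  simpa only [← map_pow, map_eq_one_iff _ hf] using h (f a)

theorem T_ring (ch : (2 : F) = 0 ∨ (3 : F) = 0) {t : F} : T t ↔ t ∈ (⊥ : Subring F) := by
  refine ⟨?_, fun h => ?_⟩
  · rintro (rfl | rfl | rfl)
    exacts [zero_mem _, one_mem _, neg_mem (one_mem _)]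
  obtain ⟨n, rfl⟩ := Subring.mem_bot.1 h
  induction n using Int.induction_on with
  | zero => exact .inl Int.cast_zero
  | succ n ih =>
    rcases ih (by simp) with h | h | h <;> rw [Int.cast_add, h, Int.cast_one]
    · exact .inr (.inl (zero_add _))
    · exact ch.elim (fun h => .inl (by linear_combination h)) fun h => .inr (.inr (by linear_combination h))
    · exact .inl (neg_add_cancel _)
  | pred n ih =>
    rcases ih (by simp) with h | h | h <;> rw [Int.cast_sub, h, Int.cast_one]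
    · exact .inr (.inr (zero_sub _))
    · exact .inl (sub_self _)
    · exact ch.elim (fun h => .inl (by linear_combination -h)) fun h => .inr (.inl (by linear_combination -h))

theorem tr_mem {R : Subring F} {X Y : SL(2, F)} (h1 : tr X ∈ R) (h2 : tr Y ∈ R) (h3 : tr (X * Y) ∈ R) {g : SL(2, F)}
    (hg : g ∈ Submonoid.closure {X, Y}) : tr g ∈ R ∧ tr (g * X) ∈ R ∧ tr (g * Y) ∈ R ∧ tr (g * X * Y) ∈ R := by
  have dx := H10.sl_det X
  have dy := H10.sl_det Y
  induction hg using Submonoid.closure_induction_right with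
  | one =>
    refine ⟨?_, by simpa, by simpa, by simpa⟩
    change (1 : M2 F).trace ∈ R
    rw [trace_one]
    exact natCast_mem R _
  | mul_right g _ x hx ih =>
    obtain ⟨a, b, c, d⟩ := ih
    rcases hx with rfl | rfl
    · refine ⟨b, ?_, d, ?_⟩
      · convert sub_mem (mul_mem h1 b) a using 1
        simp only [tr, coe_mul_SL, trace_fin_two, mul_apply2]
        linear_combination (-(g 0 0 + g 1 1)) * dx
      · convert sub_mem (mul_mem h1 d) c using 1
        simp only [tr, coe_mul_SL, trace_fin_two, mul_apply2]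
        linear_combination (-(g 0 0 * Y 0 0 + g 0 1 * Y 1 0 + g 1 0 * Y 0 1 + g 1 1 * Y 1 1)) * dx
    · refine ⟨c, ?_, ?_, ?_⟩
      · convert sub_mem (add_mem (add_mem (mul_mem (sub_mem h3 (mul_mem h1 h2)) a) (mul_mem h2 b)) (mul_mem h1 c)) d
          using 1
        simp only [tr, coe_mul_SL, trace_fin_two, mul_apply2]
        ring
      · convert sub_mem (mul_mem h2 c) a using 1
        simp only [tr, coe_mul_SL, trace_fin_two, mul_apply2]
        linear_combination (-(g 0 0 + g 1 1)) * dy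
      · convert sub_mem (add_mem b (mul_mem h3 c)) (mul_mem h1 a) using 1
        simp only [tr, coe_mul_SL, trace_fin_two, mul_apply2]
        linear_combination (g 0 0 * X 0 0 + g 0 1 * X 1 0 + g 1 0 * X 0 1 + g 1 1 * X 1 1 -
          (g 0 0 + g 1 1) * (X 0 0 + X 1 1)) * dy

variable [Fintype F]

theorem P_of_solv (hF : Hyp F) {X Y : SL(2, F)} (h : Group.IsSolvable (closure ({π F X, π F Y} : Set PSL(2, F)))) :
    P X Y := by
  classical
  have hx : π F X ∈ closure ({π F X, π F Y} : Set PSL(2, F)) := subset_closure (by simp)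
  have hy : π F Y ∈ closure ({π F X, π F Y} : Set PSL(2, F)) := subset_closure (by simp)
  generalize closure ({π F X, π F Y} : Set PSL(2, F)) = H at h hx hy
  have hH : H ≠ ⊤ := by
    rintro rfl
    exact H10.not_isSolvable_PSL2 hF.four (Group.isSolvable_of_surjective (f := (⊤ : Subgroup _).subtype)
      fun a => ⟨⟨a, trivial⟩, rfl⟩)
  have k : (∀ a : H, a ^ 3 = 1 ∨ a ^ 4 = 1) → P X Y := fun ha => by
    have : ∀ g, π F g ∈ H → T (tr g) := fun g hg => T_of_pow hF.ch ((ha ⟨_, hg⟩).imp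
      (congrArg Subtype.val) (congrArg Subtype.val))
    exact .inr (.inr (.inr (.inr ⟨this _ hx, this _ hy, this _ (map_mul (π F) X Y ▸ mul_mem hx hy)⟩)))
  rcases H10.dickson_PSL_proper hH with ⟨x, h1⟩ | ⟨n, -, ⟨h1, -⟩ | ⟨⟨e⟩⟩⟩ | ⟨⟨e⟩⟩ | ⟨⟨e⟩⟩ | ⟨⟨e⟩⟩ |
    ⟨R, _, m, hm, hR, f, hf⟩
  · left
    have h2 := h1 _ hx
    have h3 := h1 _ hy
    obtain ⟨a, b, c, d, _, rfl⟩ := H10.slMk_surj X
    obtain ⟨a', b', c', d', _, rfl⟩ := H10.slMk_surj Y
    rw [H10.ι_π, H10.toPGL_slMk] at h2 h3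
    induction x using OnePoint.rec with
    | infty =>
      rw [H10.mob_smul_infty_eq_infty_iff] at h2 h3
      simp [κ, det_fin_two, h2, h3, mul_comm]
    | coe z =>
      rw [H10.mob_smul_coe_eq_coe_iff, ← eq_sub_iff_add_eq'] at h2 h3
      simp [κ, det_fin_two, h2, h3]
      ring
  · exact P_of_comm (congrArg Subtype.val (h1.commGroup.mul_comm ⟨_, hx⟩ ⟨_, hy⟩))
  · have s : ∀ g (hg : π F g ∈ H) i, e ⟨_, hg⟩ = .sr i → IsScal (g : M2 F) ∨ tr g = 0 := fun g hg i k =>
      sq_cases (congrArg Subtype.val (e.injective (a₁ := ⟨_, hg⟩ ^ 2) (a₂ := 1) (by rw [map_pow, k]; simp [pow_two])))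
    have hz : π F (X * Y) ∈ H := map_mul (π F) X Y ▸ mul_mem hx hy
    have ez : e ⟨_, hz⟩ = e ⟨_, hx⟩ * e ⟨_, hy⟩ := by rw [← map_mul]; exact congrArg e (Subtype.ext (map_mul _ _ _))
    rcases ex : e ⟨_, hx⟩ with i | i <;> rcases ey : e ⟨_, hy⟩ with j | j <;> rw [ex, ey] at ez
    · exact P_of_comm (congrArg Subtype.val (e.injective (a₁ := ⟨_, hx⟩ * ⟨_, hy⟩) (a₂ := ⟨_, hy⟩ * ⟨_, hx⟩)
        (by rw [map_mul, map_mul, ex, ey]; simp [add_comm])))
    · have := s _ _ _ ey; have := s _ _ _ ez; have := @κ_scal _ _ X Y; unfold P; tauto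
    · have := s _ _ _ ex; have := s _ _ _ ez; have := @κ_scal _ _ X Y; unfold P; tauto
    · have := s _ _ _ ex; have := s _ _ _ ey; have := @κ_scal _ _ X Y; unfold P; tauto
  · exact k (pow_of_inj e.toMonoidHom e.injective (by decide +kernel))
  · exact k (pow_of_inj e.toMonoidHom e.injective H10.S4_pow)
  · have := Group.isSolvable_of_surjective (f := e.toMonoidHom) e.surjective
    have := IsSimpleGroup.comm_iff_isSolvable.2 this
    exact absurd this (by decide +kernel)
  · refine k (pow_of_inj f hf fun a => ?_)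
    have h1 := hF.sub _ _ hm hR
    have h2 := Fintype.one_lt_card (α := R)
    have h3 := H10.orderOf_PGL2_dvd a
    simp only [← orderOf_dvd_iff_pow_eq_one]
    obtain h | h : Fintype.card R = 2 ∨ Fintype.card R = 3 := by omega
    all_goals rw [h] at h3
    · rcases h3 with h3 | h3 | h3
      exacts [.inl (h3.trans (one_dvd _)), .inr (h3.trans (by norm_num)), .inl h3]
    · rcases h3 with h3 | h3 | h3
      exacts [.inr (h3.trans (by norm_num)), .inl h3, .inr h3]

theorem solv_of_prop (hF : Hyp F) {X Y : SL(2, F)} (Q : SL(2, F) → Prop)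
    (h : ∀ g ∈ Submonoid.closure {X, Y}, Q g) {g : SL(2, F)} (h1 : ¬ Q g) (h2 : ¬ Q (-g)) :
    Group.IsSolvable (closure ({π F X, π F Y} : Set PSL(2, F))) := by
  refine hF.min _ fun e => ?_
  rw [← Set.image_pair, ← MonoidHom.map_closure] at e
  obtain ⟨s, hs, e⟩ : π F g ∈ (closure {X, Y}).map (π F) := e ▸ mem_top _
  rw [← closure_toSubmonoid_of_finite] at h
  rcases (π_eq_iff _ _).1 e with rfl | rfl
  exacts [h1 (h _ hs), h2 (h _ hs)]

theorem solv_of_P (hF : Hyp F) {X Y : SL(2, F)} (h : P X Y) :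
    Group.IsSolvable (closure ({π F X, π F Y} : Set PSL(2, F))) := by
  have s : ∀ {g : SL(2, F)}, tr g = 0 → π F g * π F g = 1 := fun h => pow_two (π F _) ▸ sq_of_trace_zero h
  rcases h with h | ⟨h1, h2⟩ | ⟨h1, h2⟩ | ⟨h1, h2⟩ | ⟨h1, h2, h3⟩
  · by_cases c : (X : M2 F) * Y = Y * X
    · refine Group.isSolvable_of_comm (isMulCommutative_closure ?_).is_comm.comm
      have : π F X * π F Y = π F Y * π F X := by
        rw [← map_mul, ← map_mul]; exact congrArg _ (Subtype.ext c)
      rintro _ (rfl | rfl) _ (rfl | rfl)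
      exacts [rfl, this, this.symm, rfl]
    obtain ⟨v, hv, e⟩ := exists_mulVec_eq_zero_iff.2 h
    have n := sub_ne_zero.2 c
    have mx : ((X : M2 F) * Y - Y * X) * X = tr X • ((X : M2 F) * Y - Y * X) - X * ((X : M2 F) * Y - Y * X) := by
      ext i j; fin_cases i <;> fin_cases j <;> simp [mul_apply2, tr, trace_fin_two] <;> ring
    have my : ((X : M2 F) * Y - Y * X) * Y = tr Y • ((X : M2 F) * Y - Y * X) - Y * ((X : M2 F) * Y - Y * X) := by
      ext i j; fin_cases i <;> fin_cases j <;> simp [mul_apply2, tr, trace_fin_two] <;> ring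
    generalize (X : M2 F) * Y - Y * X = M at e n mx my
    have : ∃ g : SL(2, F), M *ᵥ ((g : M2 F) *ᵥ v) ≠ 0 := by
      by_contra! k
      refine n (ext fun i j => ?_)
      have e0 := congrFun e i
      have e1 := congrFun (k (H10.slMk 1 1 0 1 (by simp))) i
      have e2 := congrFun (k (H10.slMk 1 0 1 1 (by simp))) i
      simp [mulVec, dotProduct] at e0 e1 e2
      by_contra h
      refine hv (funext fun l => ?_)
      have : M i j * v l ^ 2 = 0 := by
        fin_cases j <;> fin_cases l <;> simp only [Fin.zero_eta, Fin.mk_one]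
        · linear_combination v 0 * e0 - v 1 * e2 + v 1 * e0
        · linear_combination v 1 * e1 - v 1 * e0
        · linear_combination v 0 * e2 - v 0 * e0
        · linear_combination v 1 * e0 - v 0 * e1 + v 0 * e0
      simpa [show M i j ≠ 0 from h] using this
    obtain ⟨g, hg⟩ := this
    refine solv_of_prop hF (fun g => M *ᵥ ((g : M2 F) *ᵥ v) = 0) (fun g hg => ?_) hg (by
      rwa [SpecialLinearGroup.coe_neg, neg_mulVec, mulVec_neg, neg_eq_zero])
    induction hg using Submonoid.closure_induction_left with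
    | one => simpa using e
    | mul_left x hx y _ ih =>
      rw [coe_mul_SL, ← mulVec_mulVec, mulVec_mulVec _ M]
      rcases hx with rfl | rfl <;> simp only [mx, my, sub_mulVec, smul_mulVec, ← mulVec_mulVec, ih] <;> simp
  · exact MSi.solv_invol (s h1) (s h2)
  · rw [closure_pair_eq, ← map_mul]; exact MSi.solv_invol (s h1) (s h2)
  · rw [Set.pair_comm, closure_pair_eq, ← map_mul]
    exact MSi.solv_invol (s h1) (s ((trace_mul_comm _ _).trans h2))
  · have ch := hF.ch.imp_right And.left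
    obtain ⟨t, ht⟩ : ∃ t : F, ¬ T t := by
      classical
      by_contra! k
      have : (Finset.univ : Finset F) ⊆ {0, 1, -1} := fun t _ => by simpa [T] using k t
      have := (Finset.card_le_card this).trans Finset.card_le_three
      have := hF.four
      rw [Finset.card_univ] at *
      omega
    refine solv_of_prop hF (fun g => T (tr g)) (fun g hg => (T_ring ch).2 (tr_mem ((T_ring ch).1 h1)
      ((T_ring ch).1 h2) ((T_ring ch).1 h3) hg).1) (g := H10.slMk t (-1) 1 0 (by simp)) (by simpa [trace_fin_two]) ?_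
    simpa [trace_fin_two, T_ring ch] using ht

theorem sol_iff (hF : Hyp F) {X Y : SL(2, F)} :
    Group.IsSolvable (closure ({π F X, π F Y} : Set PSL(2, F))) ↔ P X Y := ⟨P_of_solv hF, solv_of_P hF⟩

/-- the size of the solubilizer -/
noncomputable abbrev NS {G : Type*} [Group G] (x : G) : ℕ :=
  Nat.card {y : G // Group.IsSolvable (closure ({x, y} : Set G))}

theorem NS_conj {G : Type*} [Group G] {x x' : G} (h : IsConj x x') : NS x = NS x' := by
  obtain ⟨c, rfl⟩ := isConj_iff.1 h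
  refine Nat.card_congr ((MulAut.conj c).toEquiv.subtypeEquiv fun y => ?_)
  have : closure {c * x * c⁻¹, (MulAut.conj c).toEquiv y} = (closure {x, y}).map (MulAut.conj c).toMonoidHom := by
    rw [MonoidHom.map_closure, Set.image_pair]; rfl
  rw [this]
  have e := (closure {x, y}).equivMapOfInjective (MulAut.conj c).toMonoidHom (MulAut.conj c).injective
  exact ⟨fun _ => Group.isSolvable_of_surjective (f := e.toMonoidHom) e.surjective,
    fun _ => Group.isSolvable_of_isSolvable_injective (f := e.toMonoidHom) e.injective⟩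

theorem NS_eq (hF : Hyp F) (X : SL(2, F)) :
    Nat.gcd 2 (Fintype.card F - 1) * NS (π F X) = Nat.card {Y // P X Y} := by
  rw [← H10.card_center_SL2]
  exact (QuotientGroup.card_preimage_mk _ {y | Group.IsSolvable (closure ({π F X, y} : Set PSL(2, F)))}).symm.trans
    (Nat.card_congr (Equiv.subtypeEquivRight fun Y => sol_iff hF))

theorem card_SL (Q : SL(2, F) → Prop) (S : F → Prop) (R : F → F → F → Prop) {k : ℕ} (S0 : ¬ S 0)
    (h : ∀ a b c d h, Q (H10.slMk a b c d h) ↔ c = 0 ∨ (S c ∧ R a c d))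
    (hk : ∀ a c, S c → Nat.card {d // R a c d} = k) :
    Nat.card {Y // Q Y} = Fintype.card F * (Fintype.card F - 1) + Fintype.card F * Nat.card {c // S c} * k := by
  classical
  have n : ∀ c : {c // S c}, c.1 ≠ 0 := fun c e => S0 (e ▸ c.2)
  let f : (F × {a : F // a ≠ 0}) ⊕ (Σ p : F × {c // S c}, {d // R p.1 p.2 d}) → {Y // Q Y} := Sum.elim
    (fun p => ⟨H10.slMk p.2 p.1 0 p.2.1⁻¹ (by simp [p.2.2]), (h ..).2 (.inl rfl)⟩)
    fun p => ⟨H10.slMk p.1.1 ((p.1.1 * p.2 - 1) / p.1.2) p.1.2 p.2 (by have := n p.1.2; field_simp; ring),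
      (h ..).2 (.inr ⟨p.1.2.2, p.2.2⟩)⟩
  rw [← Nat.card_eq_of_bijective f ⟨?_, ?_⟩, Nat.card_sum, Nat.card_prod, card_ne_zero_field, Nat.card_sigma,
    Finset.sum_congr rfl fun p _ => hk p.1 p.2 p.2.2]
  · simp
  · rintro (⟨a, b⟩ | ⟨⟨a, b⟩, c⟩) (⟨a', b'⟩ | ⟨⟨a', b'⟩, c'⟩) e <;>
      have k := fun i j => congrArg (fun Y : {Y // Q Y} => Y.1.1 i j) e
    · rw [show b = b' from Subtype.ext (k 0 0), show a = a' from k 0 1]
    · exact absurd (k 1 0).symm (n _)
    · exact absurd (k 1 0) (n _)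
    · obtain rfl : a = a' := k 0 0
      obtain rfl : b = b' := Subtype.ext (k 1 0)
      rw [show c = c' from Subtype.ext (k 1 1)]
  · rintro ⟨Y, hY⟩
    obtain ⟨a, b, c, d, e, rfl⟩ := H10.slMk_surj Y
    rcases (h ..).1 hY with rfl | ⟨h1, h2⟩
    · have : a * d = 1 := by simpa using e
      obtain rfl := eq_inv_of_mul_eq_one_right this
      exact ⟨.inl (b, ⟨a, left_ne_zero_of_mul_eq_one this⟩), rfl⟩
    · obtain rfl : b = (a * d - 1) / c := by have := n ⟨c, h1⟩; field_simp; linear_combination -e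
      exact ⟨.inr ⟨(a, ⟨c, h1⟩), ⟨d, h2⟩⟩, rfl⟩

omit [Fintype F] in
theorem κ_eq (X Y : SL(2, F)) : κ X Y = 4 + tr X * tr Y * tr (X * Y) - tr X ^ 2 - tr Y ^ 2 - tr (X * Y) ^ 2 := by
  simp only [κ, tr, coe_mul_SL, trace_fin_two, det_fin_two, Matrix.sub_apply, mul_apply2]
  linear_combination (4 * (Y 0 0 * Y 1 1 - Y 0 1 * Y 1 0) - (Y 0 0 + Y 1 1) ^ 2) * H10.sl_det X +
    (4 - (X 0 0 + X 1 1) ^ 2) * H10.sl_det Y

omit [Fintype F] in
theorem P_two (h2 : (2 : F) = 0) {X Y : SL(2, F)} : P X Y ↔ κ X Y = 0 ∨ (tr X = 0 ∧ tr Y = 0) ∨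
    (tr X = 0 ∧ tr (X * Y) = 0) ∨ (tr Y = 0 ∧ tr (X * Y) = 0) := by
  refine ⟨?_, fun h => by unfold P; tauto⟩
  rintro (h | h | h | h | ⟨h1, h3, h4⟩)
  exacts [.inl h, .inr (.inl h), .inr (.inr (.inl h)), .inr (.inr (.inr h)), by
    rw [κ_eq]
    rcases h1 with h1 | h1 | h1 <;> rcases h3 with h3 | h3 | h3 <;> rcases h4 with h4 | h4 | h4 <;>
      rw [h1, h3, h4] <;> grind]

theorem P_rs (hF : Hyp F) {X Y : SL(2, F)} (h : RS X) (h0 : tr X ≠ 0) :
    P X Y ↔ κ X Y = 0 ∨ (tr Y = 0 ∧ tr (X * Y) = 0) := by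
  rcases hF.ch with h2 | ⟨h3, -⟩
  · rw [P_two h2]; tauto
  have : ¬ T (tr X) := by
    rintro (k | k | k)
    exacts [h0 k, h (by rw [show trace _ = _ from k]; linear_combination -h3),
      h (by rw [show trace _ = _ from k]; linear_combination -h3)]
  unfold P; tauto

theorem rs_of_pow {X : SL(2, F)} {n : ℕ} (h2 : π F X ^ 2 ≠ 1) (h : π F X ^ n = 1)
    (hn : n = Fintype.card F - 1 ∨ n = Fintype.card F + 1) : RS X ∧ tr X ≠ 0 ∧ Nat.card (C2 X) = n := by
  have h1 := Fintype.one_lt_card (α := F)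
  have hr : RS X := by
    by_contra k
    obtain ⟨p, _⟩ := CharP.exists F
    have := Fact.mk (CharP.char_is_prime F p)
    have e : π F X ^ Fintype.card F = 1 := by
      obtain ⟨m, hm⟩ := char_dvd_card (F := F) p
      rw [hm, pow_mul, pow_char_of_not_rs p k, one_pow]
    refine h2 ?_
    rcases hn with rfl | rfl
    · rw [← Nat.sub_add_cancel h1.le, pow_succ, h, one_mul] at e
      rw [e, one_pow]
    · rw [pow_succ, e, one_mul] at h
      rw [h, one_pow]
  refine ⟨hr, fun k => h2 (sq_of_trace_zero k), ?_⟩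
  have e : π F X ^ Nat.card (C2 X) = 1 := by
    rw [← map_pow, show X ^ Nat.card (C2 X) = 1 from
      congrArg Subtype.val (pow_card_eq_one' (x := (⟨X, self_mem_C2 X⟩ : C2 X))), map_one]
  have s : Fintype.card F + 1 = Fintype.card F - 1 + 2 := by omega
  rcases hr.cases with ⟨-, k⟩ | ⟨-, k⟩ <;> rcases hn with rfl | rfl <;> try exact k
  · rw [k, s, pow_add, h, one_mul] at e; exact absurd e h2
  · rw [k] at e; rw [s, pow_add, e, one_mul] at h; exact absurd h h2

theorem count_sub (hF : Hyp F) {x : PSL(2, F)} (h2 : x ^ 2 ≠ 1) (h : x ^ (Fintype.card F - 1) = 1) :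
    Nat.gcd 2 (Fintype.card F - 1) * NS x = 2 * (Fintype.card F * (Fintype.card F - 1)) := by
  obtain ⟨X, rfl⟩ := π_surjective x
  obtain ⟨hr, h0, hc⟩ := rs_of_pow h2 h (.inl rfl)
  obtain ⟨s, t, st, ht, hd⟩ : ∃ a b : F, a ≠ b ∧ (X : M2 F).trace = a + b ∧ a * b = 1 :=
    hr.cases.elim (fun k => by omega) And.left
  let X' := H10.slMk s 0 0 t (by simpa)
  have t' : tr X' = tr X := by simp [X', trace_fin_two, ht]
  have hr' : RS X' := by rwa [RS, show trace _ = _ from t']
  rw [NS_conj ((π F).map_isConj (isConj_SL_of_trace hr' t'.symm)), NS_eq hF,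
    card_SL _ (· ≠ 0) (fun a _ d => d = a⁻¹) (k := 1) (by simp) (fun a b c d e => ?_) (by simp), card_ne_zero_field]
  · ring
  rw [P_rs hF hr' (t' ▸ h0)]
  have st' := sub_ne_zero.2 st
  have : κ X' (H10.slMk a b c d e) = b * c * (s - t) ^ 2 := by simp [κ, X', det_fin_two]; ring
  rw [this, H10.slMk_mul]
  simp only [tr, H10.slMk_val, trace_fin_two_of]
  grind

theorem count_add (hF : Hyp F) {x : PSL(2, F)} (h2 : x ^ 2 ≠ 1) (h : x ^ (Fintype.card F + 1) = 1) :
    Nat.gcd 2 (Fintype.card F - 1) * NS x = 2 * (Fintype.card F + 1) := by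
  obtain ⟨X, rfl⟩ := π_surjective x
  obtain ⟨hr, h0, hc⟩ := rs_of_pow h2 h (.inr rfl)
  have he : Ell (X : M2 F) := hr.cases.elim And.left fun k => by omega
  rw [NS_eq hF, ← hc, ← hr.card_norm]
  refine Nat.card_congr (Equiv.subtypeEquivRight fun Y => ?_)
  rw [P_rs hF hr h0, hr.mem_norm_iff]
  refine or_congr ⟨fun k => ?_, fun k => κ_of_comm (congrArg Subtype.val (mul_inv_eq_iff_eq_mul (a := Y * X).1 k)).symm⟩
    ⟨fun ⟨a, b⟩ => ?_, fun k => ?_⟩
  · rw [mul_inv_eq_iff_eq_mul]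
    exact Subtype.ext (comm_of_ell he k).symm
  · have := (mul_self_of_trace_zero b).trans (mul_self_of_trace_zero a).symm
    rw [← mul_assoc, mul_left_inj] at this
    rw [mul_inv_eq_iff_eq_mul, eq_inv_mul_iff_mul_eq, ← mul_assoc, this]
  · exact ⟨H10.trace_eq_zero_of_mul_self (H10.mul_self_of_inverts k hr.ne_inv),
      H10.trace_eq_zero_of_mul_self (H10.mul_self_of_inverts (c := X) (by
        rw [show X * Y * X * (X * Y)⁻¹ = X * (Y * X * Y⁻¹) * X⁻¹ by group, k]; group) hr.ne_inv)⟩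

omit [Fintype F] in
theorem exists_up {x : PSL(2, F)} (h1 : x ≠ 1) (h : ∀ X, π F X = x → ¬ RS X) :
    ∃ β : F, β ≠ 0 ∧ IsConj x (π F (H10.slMk 1 β 0 1 (by simp))) := by
  obtain ⟨X, rfl⟩ := π_surjective x
  have k : ∀ X : SL(2, F), π F X ≠ 1 → tr X = 2 → ∃ β : F, β ≠ 0 ∧ IsConj (π F X) (π F (H10.slMk 1 β 0 1 (by simp))) :=
    fun X h1 h2 => (exists_isConj_upSL (not_isScal_of_ne_one h1) (one_mul 1) (h2.trans one_add_one_eq_two.symm)).imp
      fun _ k => ⟨k.1, (π F).map_isConj k.2⟩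
  rcases sq_eq_sq_iff_eq_or_eq_neg.1 ((not_not.1 (h X rfl)).trans (show (4 : F) = 2 ^ 2 by norm_num)) with e | e
  · exact k X h1 e
  · exact π_neg X ▸ k (-X) (by rwa [π_neg]) (by rw [tr, SpecialLinearGroup.coe_neg, trace_neg, e, neg_neg])

omit [Fintype F] in
theorem κ_up (β a b c d : F) (e) : κ (H10.slMk 1 β 0 1 (by simp)) (H10.slMk a b c d e) = -(β * c) ^ 2 := by
  simp [κ, det_fin_two]; ring

theorem count_par2 (hF : Hyp F) (h2 : (2 : F) = 0) {x : PSL(2, F)} (h : orderOf x = 2) :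
    Nat.gcd 2 (Fintype.card F - 1) * NS x = 3 * (Fintype.card F * (Fintype.card F - 1)) := by
  classical
  have h1 : x ≠ 1 := fun e => by simp [e] at h
  obtain ⟨β, b0, c⟩ := exists_up h1 fun X e hr => by
    subst e
    rcases sq_cases (h ▸ pow_orderOf_eq_one _) with k | k
    · exact hr.not_isScal k
    · exact hr (by rw [show trace _ = _ from k]; linear_combination -2 * h2)
  rw [NS_conj c, NS_eq hF, card_SL _ (· ≠ 0) (fun a c d => d ∈ ({-a, -a - β * c} : Finset F)) (k := 2) (by simp)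
    (fun a b c d e => ?_) fun a c c0 => ?_, card_ne_zero_field]
  · ring
  · rw [P_two h2, κ_up, H10.slMk_mul]
    simp only [tr, H10.slMk_val, trace_fin_two_of, Finset.mem_insert, Finset.mem_singleton]
    grind
  · rw [Nat.subtype_card _ fun _ => Iff.rfl, Finset.card_pair (by grind)]

theorem count_par3 (hF : Hyp F) (h3 : (3 : F) = 0) {x : PSL(2, F)} (h : orderOf x = 3) :
    Nat.gcd 2 (Fintype.card F - 1) * NS x = Fintype.card F * (Fintype.card F - 1) + 6 * Fintype.card F := by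
  classical
  have h1 : x ≠ 1 := fun e => by simp [e] at h
  obtain ⟨β, b0, c⟩ := exists_up h1 fun X e hr => by
    subst e
    rcases T_of_pow hF.ch (.inl (h ▸ pow_orderOf_eq_one _)) with k | k | k
    · exact absurd (h ▸ orderOf_dvd_of_pow_eq_one (sq_of_trace_zero k)) (by norm_num)
    all_goals exact hr (by rw [show trace _ = _ from k]; linear_combination -h3)
  rw [NS_conj c, NS_eq hF, card_SL _ (fun c => β * c = 1 ∨ β * c = -1) (fun a c d => T (a + d)) (k := 3) (by simp)
    (fun a b c d e => ?_) fun a c _ => ?_, Nat.subtype_card {β⁻¹, -β⁻¹} fun _ => by grind, Finset.card_pair (by grind)]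
  · ring
  · rw [P, κ_up, H10.slMk_mul]
    simp only [tr, H10.slMk_val, trace_fin_two_of, T]
    grind
  · rw [Nat.subtype_card {-a, 1 - a, -1 - a} fun _ => by unfold T; grind, Finset.card_eq_three]
    exact ⟨_, _, _, by grind, by grind, by grind, rfl⟩

theorem card_circle (hs : ∀ c : F, c ^ 2 ≠ -1) {n : F} (hn : n ≠ 0) :
    Nat.card {p : F × F // p.1 ^ 2 + p.2 ^ 2 = n} = Fintype.card F + 1 := by
  have he : Ell (H10.slMk (0 : F) (-1) 1 0 (by simp) : M2 F) := fun c e =>
    hs c (by simpa [trace_fin_two, det_fin_two, add_eq_zero_iff_eq_neg] using e)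
  have c := (card_cent_SL_eq he.not_isScal).symm.trans (card_cent_SL_ell he)
  obtain ⟨x, y, e⟩ := he.exists_form_eq n
  simp only [H10.slMk_val, trace_fin_two_of, det_fin_two_of] at c e
  rw [← c]
  exact Nat.card_congr ⟨fun p => ⟨((x * p.1.1 + y * p.1.2) / n, (x * p.1.2 - y * p.1.1) / n), by have := p.2; grind⟩,
    fun p => ⟨(x * p.1.1 - y * p.1.2, x * p.1.2 + y * p.1.1), by have := p.2; grind⟩,
    fun p => Subtype.ext (Prod.ext (by grind) (by grind)), fun p => Subtype.ext (Prod.ext (by grind) (by grind))⟩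

theorem count_inv3 (hF : Hyp F) (h3 : (3 : F) = 0) {x : PSL(2, F)} (h : orderOf x = 2) :
    Nat.gcd 2 (Fintype.card F - 1) * NS x = 2 * (Fintype.card F * (Fintype.card F + 1)) := by
  classical
  have h2 : (2 : F) ≠ 0 := fun e => one_ne_zero (α := F) (by linear_combination h3 - e)
  have hs := (hF.ch.resolve_left h2).2
  obtain ⟨X, rfl⟩ := π_surjective x
  have t0 := (sq_cases (h ▸ pow_orderOf_eq_one _)).resolve_left (not_isScal_of_ne_one fun e => by
    rw [e, orderOf_one] at h; omega)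
  let X' := H10.slMk (0 : F) (-1) 1 0 (by simp)
  have t' : tr X' = 0 := by simp [X', trace_fin_two]
  let S : F × F → Prop := fun p => p.1 ^ 2 + p.2 ^ 2 = 1 ∨ p.1 = 0 ∨ p.2 = 0 ∨ (T p.1 ∧ T p.2)
  have hP : ∀ a b c d e, P X' (H10.slMk a b c d e) ↔ S (a + d, b - c) := fun a b c d e => by
    rw [P, κ_eq, t', H10.slMk_mul]
    simp only [tr, H10.slMk_val, trace_fin_two_of, T, S]
    grind
  let B : Finset (F × F) := ({0} ×ˢ {1, -1}ᶜ ∪ {0, 1, -1}ᶜ ×ˢ {0}) ∪ {1, -1} ×ˢ {1, -1}
  have cB : B.card + 1 = 2 * Fintype.card F := by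
    have c2 : ({1, -1} : Finset F).card = 2 := Finset.card_pair (by grind)
    have c3 : ({0, 1, -1} : Finset F).card = 3 := Finset.card_eq_three.2 ⟨_, _, _, by grind, by grind, by grind, rfl⟩
    have := hF.four
    rw [Finset.card_union_of_disjoint (by simp [Finset.disjoint_left]; grind),
      Finset.card_union_of_disjoint (by simp [Finset.disjoint_left]; grind)]
    simp only [Finset.card_product, Finset.card_compl, c2, c3, Finset.card_singleton]
    omega
  have hB : ∀ p, p ∈ B ↔ S p ∧ p.1 ^ 2 + p.2 ^ 2 ≠ 1 := fun p => by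
    simp only [B, S, T, Finset.mem_union, Finset.mem_product, Finset.mem_compl, Finset.mem_insert, Finset.mem_singleton]
    grind
  let e : {Y // P X' Y} ≃ Σ p : F × F, {w : F × F // S p ∧ w.1 ^ 2 + w.2 ^ 2 = p.1 ^ 2 + p.2 ^ 2 - 1} :=
    ⟨fun Y => ⟨(Y.1 0 0 + Y.1 1 1, Y.1 0 1 - Y.1 1 0), (Y.1 0 0 - Y.1 1 1, Y.1 0 1 + Y.1 1 0),
      (hP ..).1 (by rw [H10.slMk_eta]; exact Y.2), by have := H10.sl_det Y.1; grind⟩,
    fun p => ⟨H10.slMk (-(p.1.1 + p.2.1.1)) (-(p.2.1.2 + p.1.2)) (-(p.2.1.2 - p.1.2)) (-(p.1.1 - p.2.1.1))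
      (by have := p.2.2.2; grind), (hP ..).2 (by convert p.2.2.1 <;> grind)⟩,
    fun Y => Subtype.ext (Subtype.ext (ext2 (by simp; grind) (by simp; grind) (by simp; grind) (by simp; grind))),
    fun ⟨⟨u, v⟩, ⟨w, z⟩, _⟩ => Sigma.subtype_ext (by simp; grind) (by simp; grind)⟩
  have k : ∀ p : F × F, Nat.card {w : F × F // S p ∧ w.1 ^ 2 + w.2 ^ 2 = p.1 ^ 2 + p.2 ^ 2 - 1} =
      (if p.1 ^ 2 + p.2 ^ 2 = 1 then 1 else 0) + if p ∈ B then Fintype.card F + 1 else 0 := fun p => by
    simp only [hB]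
    by_cases c : p.1 ^ 2 + p.2 ^ 2 = 1
    · simp only [c, show S p from .inl c, true_and, sub_self, if_true, ne_eq, not_true, if_false, add_zero]
      refine Nat.subtype_card {0} fun w => ⟨by simp +contextual, fun k => Finset.mem_singleton.2 ?_⟩
      have : w.2 = 0 := by_contra fun n => hs (w.1 / w.2) (by grind)
      exact Prod.ext (by simpa [this] using k) this
    by_cases s : S p
    · simp only [s, true_and, card_circle hs (sub_ne_zero.2 c)]; simp [c]
    · simp [c, s]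
  rw [NS_conj ((π F).map_isConj (isConj_SL_of_trace (rs_of_trace_zero h2 t') (t0.trans t'.symm))), NS_eq hF,
    Nat.card_congr e, Nat.card_sigma, Finset.sum_congr rfl fun p _ => k p, Finset.sum_add_distrib, Finset.sum_boole,
    Finset.sum_ite_mem, Finset.univ_inter, Finset.sum_const, Nat.cast_id, ← Fintype.card_subtype,
    ← Nat.card_eq_fintype_card, card_circle hs one_ne_zero, smul_eq_mul, ← mul_assoc, ← cB]
  ring

theorem hyp_of {r p : ℕ} (hp : p.Prime) (h : Fintype.card F = r ^ p) (hr : r = 2 ∨ (r = 3 ∧ Odd p)) : Hyp F := by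
  have r0 : (r : F) = 0 := pow_eq_zero_iff hp.ne_zero |>.1 (by rw [← Nat.cast_pow, ← h, FiniteField.cast_card_eq_zero])
  have pr : r.Prime := by rcases hr with rfl | ⟨rfl, -⟩ <;> norm_num
  refine ⟨hr.imp (fun e => by simpa [e] using r0) fun ⟨e, k, hk⟩ => ⟨by simpa [e] using r0, fun c e' =>
      FiniteField.isSquare_neg_one_iff.1 ⟨c, by rw [← e', pow_two]⟩ (by
        rw [h, e, hk, pow_succ, pow_mul, Nat.mul_mod, Nat.pow_mod]; norm_num)⟩, ?_,
    ((Cfsg.Agent.S0810.result h).2 (hr.imp (fun e => ⟨p, hp, by rw [e]⟩) fun e => .inl ⟨p, hp, by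
      rintro rfl; exact absurd e.2 (by norm_num), by rw [e.1]⟩)).2.2, fun x m hm hx => ?_⟩
  · exact h ▸ (Nat.pow_le_pow_left pr.two_le 2).trans (Nat.pow_le_pow_right pr.pos hp.two_le)
  · rw [h] at hx
    obtain ⟨j, -, rfl⟩ := (Nat.dvd_prime_pow pr).1 (hx ▸ dvd_pow_self x (by omega) : x ∣ r ^ p)
    rw [← pow_mul] at hx
    have h1 := Nat.pow_right_injective pr.two_le hx
    rcases (Nat.dvd_prime hp).1 (Dvd.intro _ h1) with h2 | h2
    · rw [h2, pow_one]; omega
    · subst h2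
      have := hp.pos
      nlinarith

end H9.Sol2
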