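import Mathlib

/-! The Weil representation of a unitary-type group in even characteristic, reduced modulo a prime `p`.
`WD B z p`: `V` elementary abelian 2-group with a `Γ`-invariant bi-additive form `B`, non-degenerate
commutator form, `z` central of order `p` acting freely.  `Om B g` is the intertwiner `∑ e_{gv} e_v⁻¹` in the
twisted group ring; `WD.rep : Γ →* Matrix V V (ZMod p)`, `WD.sum_rep` (the sum over a
fixed-point-free subgroup of order `√|V| + 1` vanishes). -/

set_option autoImplicit false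
set_option linter.unusedSectionVars false

namespace H9
namespace Weil
open Matrix Finset

/-- the sign character of `ZMod 2` -/
def sg (a : ZMod 2) : ℤ := if a = 0 then 1 else -1
theorem sg_add (a b : ZMod 2) : sg (a + b) = sg a * sg b := by revert a b; decide
theorem sg_sq (a : ZMod 2) : sg a * sg a = 1 := by revert a; decide
theorem sg_inj {a b : ZMod 2} (h : sg a = sg b) : a = b := by revert a b; decide
@[simp] theorem sg_zero : sg 0 = 1 := rfl

variable {V Γ : Type*} [AddCommGroup V] [Fintype V] [DecidableEq V] [Group Γ] [DistribMulAction Γ V]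

/-- the data of the construction -/
structure WD (B : V →+ V →+ ZMod 2) (z : Γ) (p : ℕ) : Prop where
  two : ∀ v : V, v + v = 0
  nd : ∀ v : V, v ≠ 0 → ∃ w, B v w ≠ B w v
  inv : ∀ (g : Γ) u v, B (g • u) (g • v) = B u v
  pr : p.Prime
  zp : z ^ p = 1
  zc : ∀ g, z * g = g * z
  zf : ∀ v : V, z • v = v → v = 0

variable (B : V →+ V →+ ZMod 2)

/-- coefficients of the intertwiner -/
def co (g : Γ) (u : V) : ℤ := ∑ v, if g • v + v = u then sg (B u v) else 0
/-- the intertwiner -/
def Om (g : Γ) : Matrix V V ℤ := of fun x y => co B g (x + y) * sg (B (x + y) y)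

/-- left multiplications -/
def Tw (T : Matrix V V ℤ) : Prop := ∀ x y, T x y = T (x + y) 0 * sg (B (x + y) y)
/-- intertwiners -/
def It (g : Γ) (T : Matrix V V ℤ) : Prop :=
  ∀ w x y, sg (B (g • w) (x + g • w)) * T (x + g • w) y = T x (y + w) * sg (B w y)
/-- invariant matrices -/
def Iv (z : Γ) (T : Matrix V V ℤ) : Prop := ∀ x y, T (z • x) (z • y) = T x y

variable {B} {z : Γ} {p : ℕ}

theorem tw_Om (g : Γ) : Tw B (Om B g) := fun x y => by simp [Om]

theorem It.mul {g h : Γ} {T T' : Matrix V V ℤ} (h1 : It B g T) (h2 : It B h T')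
    (two : ∀ v : V, v + v = 0) : It B (g * h) (T * T') := by
  intro w x y
  rw [mul_apply, mul_apply, mul_sum, sum_mul, mul_smul,
    ← Equiv.sum_comp (Equiv.addRight (h • w))]
  refine sum_congr rfl fun t _ => ?_
  simp only [Equiv.coe_addRight]
  rw [← mul_assoc, h1, mul_assoc, h2, add_assoc, two, add_zero, mul_assoc]

theorem Iv.mul {T T' : Matrix V V ℤ} (h1 : Iv z T) (h2 : Iv z T') : Iv z (T * T') := by
  intro x y
  rw [mul_apply, mul_apply, ← Equiv.sum_comp (MulAction.toPerm z)]
  refine sum_congr rfl fun t _ => ?_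
  simp only [MulAction.toPerm_apply]
  rw [h1, h2]

namespace WD
variable (D : WD B z p)
include D

theorem tw_mul {T T' : Matrix V V ℤ} (h1 : Tw B T) (h2 : Tw B T') : Tw B (T * T') := by
  intro x y
  rw [mul_apply, mul_apply, sum_mul, ← Equiv.sum_comp (Equiv.addRight y) (fun t => T (x + y) t * T' t 0 * _)]
  refine sum_congr rfl fun t _ => ?_
  simp only [Equiv.coe_addRight]
  have e : x + y + (t + y) = x + t := by rw [add_add_add_comm, D.two, add_zero]
  rw [h1 x t, h2 t y, h1 (x + y) (t + y), e]
  have : sg (B (x + t) t) * sg (B (t + y) y) = sg (B (x + t) (t + y)) * sg (B (x + y) y) := by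
    rw [← sg_add, ← sg_add]; congr 1
    simp only [map_add, AddMonoidHom.add_apply]
    grind
  linear_combination (T (x + t) 0 * T' (t + y) 0) * this

theorem it_Om (g : Γ) : It B g (Om B g) := by
  intro w x y
  simp only [Om, of_apply, co, mul_sum, sum_mul]
  rw [← Equiv.sum_comp (Equiv.addRight w)]
  refine sum_congr rfl fun v _ => ?_
  simp only [Equiv.coe_addRight]
  have e : g • (v + w) + (v + w) = x + g • w + y ↔ g • v + v = x + (y + w) := by
    rw [smul_add]
    constructor
    · intro k
      linear_combination (norm := abel1) k - D.two w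
    · intro k
      linear_combination (norm := abel1) k + D.two w
  by_cases k : g • v + v = x + (y + w)
  · simp only [if_pos k, e.2 k, if_pos]
    have hx : x = g • v + v + y + w := by
      linear_combination (norm := abel1) - k - D.two w - D.two y
    simp only [← sg_add]; congr 1
    have i1 := D.inv g w v
    have i2 := D.inv g w w
    subst hx
    simp only [map_add, AddMonoidHom.add_apply]
    grind
  · simp only [e, k, if_false, zero_mul, mul_zero]

theorem iv_Om (g : Γ) : Iv z (Om B g) := by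
  intro x y
  simp only [Om, of_apply, co, ← smul_add, D.inv]
  congr 1
  rw [← Equiv.sum_comp (MulAction.toPerm z)]
  refine sum_congr rfl fun v _ => ?_
  simp only [MulAction.toPerm_apply, D.inv]
  rw [← mul_smul, ← D.zc, mul_smul, ← smul_add]
  simp only [smul_left_cancel_iff]

theorem scalar {T : Matrix V V ℤ} (h1 : Tw B T) (h2 : It B (1 : Γ) T) : T = T 0 0 • (1 : Matrix V V ℤ) := by
  have h3 : ∀ v, v ≠ 0 → T v 0 = 0 := by
    intro v hv
    obtain ⟨w, hw⟩ := D.nd v hv
    have := h2 w (v + w) 0
    simp only [one_smul, add_assoc, D.two, add_zero, zero_add, map_zero, sg_zero, mul_one] at this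
    rw [h1 (v + w) w, add_assoc, D.two, add_zero, mul_comm] at this
    by_contra h0
    exact hw (sg_inj (mul_left_cancel₀ h0 this)).symm
  ext x y
  rw [h1 x y]
  by_cases h : x = y
  · subst h; simp [D.two]
  · have : x + y ≠ 0 := fun k => h (by linear_combination (norm := abel1) k - D.two y)
    simp [h3 _ this, h]

omit [DecidableEq V] in
theorem brauer (f : V → ℤ) (hf : ∀ v, f (z • v) = f v) :
    ((∑ v, f v : ℤ) : ZMod p) = (f 0 : ZMod p) := by
  classical
  have : Fact p.Prime := ⟨D.pr⟩
  have h1 := Finset.sum_comp (s := (univ : Finset V)) (fun t : ℤ => (t : ZMod p)) f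
  rw [Int.cast_sum, h1]
  have h2 : ∀ t : ℤ, ((#{a ∈ univ | f a = t} : ℕ) : ZMod p) = if f 0 = t then 1 else 0 := by
    intro t
    let φ : Function.End {a // f a = t} := fun a => ⟨z • a.1, (hf _).trans a.2⟩
    have h3 : ∀ k : ℕ, ∀ a, ((φ ^ k) a).1 = z ^ k • a.1 := by
      intro k
      induction k with
      | zero => intro a; simp; rfl
      | succ k ih => intro a; rw [pow_succ, pow_succ, mul_smul]; exact ih (φ a)
    have h4 := Equiv.Perm.card_fixedPoints_modEq (f := φ) (p := p) (n := 1) (by
      funext a; apply Subtype.ext; rw [pow_one, h3, D.zp, one_smul]; rfl)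
    rw [Fintype.card_subtype] at h4
    rw [(ZMod.natCast_eq_natCast_iff _ _ _).2 h4]
    split_ifs with h5
    · have : Fintype.card (Function.fixedPoints φ) = 1 :=
        Fintype.card_eq_one_iff.2 ⟨⟨⟨0, h5⟩, Subtype.ext (smul_zero z)⟩, fun a =>
          Subtype.ext (Subtype.ext (D.zf _ (congrArg Subtype.val a.2)))⟩
      exact (congrArg Nat.cast this).trans Nat.cast_one
    · have : Fintype.card (Function.fixedPoints φ) = 0 :=
        Fintype.card_eq_zero_iff.2 ⟨fun a => h5 (by
          have := D.zf _ (congrArg Subtype.val a.2)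
          rw [← this]; exact a.1.2)⟩
      exact (congrArg Nat.cast this).trans Nat.cast_zero
  simp only [nsmul_eq_mul, h2, ite_mul, one_mul, zero_mul]
  rw [Finset.sum_ite_eq]
  simp

theorem tau_mul {T T' : Matrix V V ℤ} (h1 : Iv z T) (h2 : Iv z T') :
    (((T * T') 0 0 : ℤ) : ZMod p) = (T 0 0 : ZMod p) * (T' 0 0 : ZMod p) := by
  rw [mul_apply, D.brauer (fun v => T 0 v * T' v 0), Int.cast_mul]
  intro v
  have a := h1 0 v
  have b := h2 v 0
  rw [smul_zero] at a b
  rw [a, b]

theorem tau_Om (g : Γ) : ((Om B g 0 0 : ℤ) : ZMod p) = 1 := by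
  simp only [Om, of_apply, add_zero, map_zero, sg_zero, mul_one, co, AddMonoidHom.zero_apply]
  rw [D.brauer]
  · simp
  · intro v
    rw [← mul_smul, ← D.zc, mul_smul, ← smul_add]
    simp only [smul_eq_zero_iff_eq]

theorem three (g h : Γ) : ∃ k : ℤ, (k : ZMod p) = 1 ∧
    Om B (g * h)⁻¹ * (Om B g * Om B h) = k • (1 : Matrix V V ℤ) := by
  refine ⟨_, ?_, D.scalar (D.tw_mul (tw_Om _) (D.tw_mul (tw_Om _) (tw_Om _))) ?_⟩
  · rw [D.tau_mul (D.iv_Om _) ((D.iv_Om _).mul (D.iv_Om _)), D.tau_mul (D.iv_Om _) (D.iv_Om _),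
      D.tau_Om, D.tau_Om, D.tau_Om]; simp
  · have := (D.it_Om (g * h)⁻¹).mul ((D.it_Om g).mul (D.it_Om h) D.two) D.two
    rwa [inv_mul_cancel] at this

theorem Om_one : Om B (1 : Γ) = (Fintype.card V : ℤ) • (1 : Matrix V V ℤ) := by
  rw [D.scalar (tw_Om 1) (D.it_Om 1)]
  simp [Om, co, D.two]

theorem card_one : ((Fintype.card V : ℤ) : ZMod p) = 1 := by
  have := D.tau_Om 1
  rw [D.Om_one] at this
  simpa using this

/-- the Weil representation modulo `p` -/
def rep : Γ →* Matrix V V (ZMod p) where
  toFun g := (Int.castRingHom (ZMod p)).mapMatrix (Om B g)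
  map_one' := by rw [D.Om_one, map_zsmul, map_one, ← Int.cast_smul_eq_zsmul (ZMod p), D.card_one, one_smul]
  map_mul' g h := by
    have h1 : (Int.castRingHom (ZMod p)).mapMatrix (Om B (1 : Γ)) = 1 := by
      rw [D.Om_one, map_zsmul, map_one, ← Int.cast_smul_eq_zsmul (ZMod p), D.card_one, one_smul]
    have h2 : ∀ g h : Γ, (Int.castRingHom (ZMod p)).mapMatrix (Om B (g * h)⁻¹) *
        ((Int.castRingHom (ZMod p)).mapMatrix (Om B g) * (Int.castRingHom (ZMod p)).mapMatrix (Om B h)) = 1 := by
      intro g h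
      obtain ⟨k, k1, k2⟩ := D.three g h
      rw [← map_mul, ← map_mul, k2, map_zsmul, map_one, ← Int.cast_smul_eq_zsmul (ZMod p), k1, one_smul]
    have h3 := h2 (g * h)⁻¹ 1
    rw [h1, mul_one, mul_one, inv_inv] at h3
    rw [← mul_one ((Int.castRingHom (ZMod p)).mapMatrix (Om B (g * h))), ← h2 g h, ← mul_assoc, h3, one_mul]

theorem rep_apply (g : Γ) (x y : V) : D.rep g x y = (Om B g x y : ZMod p) := rfl

theorem Om_inv (g : Γ) : Om B g⁻¹ = (Om B g)ᵀ := by
  ext x y
  simp only [Om, of_apply, transpose_apply, co, sum_mul]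
  rw [← Equiv.sum_comp (MulAction.toPerm g)]
  refine sum_congr rfl fun v _ => ?_
  simp only [MulAction.toPerm_apply, inv_smul_smul]
  rw [add_comm v, add_comm y x]
  split_ifs with k
  · have hx : x = g • v + v + y := by
      linear_combination (norm := abel1) - k - D.two y
    simp only [← sg_add]; congr 1
    have i2 := D.inv g v v
    subst hx
    simp only [map_add, AddMonoidHom.add_apply]
    grind
  · simp

theorem co_sq {g : Γ} (hg : ∀ v : V, g • v = v → v = 0) (u : V) : co B g u * co B g u = 1 := by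
  have h1 : Function.Bijective fun v : V => g • v + v := by
    apply Finite.injective_iff_bijective.1
    intro a b k
    have : g • (a + b) = a + b := by
      rw [smul_add]
      simp only at k
      linear_combination (norm := abel1) k + D.two (g • b) - D.two a
    have := hg _ this
    linear_combination (norm := abel1) this - D.two b
  obtain ⟨v, hv⟩ := h1.2 u
  have : co B g u = sg (B u v) := by
    rw [co, sum_eq_single v]
    · exact if_pos hv
    · intro b _ hb
      exact if_neg fun k => hb (h1.1 (k.trans hv.symm))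
    · simp
  rw [this, sg_sq]

theorem tau_fpf {g : Γ} (hg : ∀ v : V, g • v = v → v = 0) : Om B g 0 0 = 1 := by
  simp only [Om, of_apply, add_zero, map_zero, sg_zero, mul_one, co, AddMonoidHom.zero_apply]
  rw [sum_eq_single 0]
  · simp
  · intro b _ hb
    exact if_neg fun k => hb (hg _ (by linear_combination (norm := abel1) k - D.two b))
  · simp

theorem Om_mul_inv {g : Γ} (hg : ∀ v : V, g • v = v → v = 0) :
    Om B g * Om B g⁻¹ = (Fintype.card V : ℤ) • (1 : Matrix V V ℤ) := by
  have := (D.it_Om g).mul (D.it_Om g⁻¹) D.two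
  rw [mul_inv_cancel] at this
  rw [D.scalar (D.tw_mul (tw_Om _) (tw_Om _)) this, D.Om_inv, mul_apply]
  congr 1
  have : ∀ y, Om B g 0 y * (Om B g)ᵀ y 0 = 1 := by
    intro y
    simp only [Om, of_apply, transpose_apply]
    linear_combination (sg (B (0 + y) y) * sg (B (0 + y) y)) * D.co_sq hg (0 + y) + sg_sq (B (0 + y) y)
  rw [sum_congr rfl fun y _ => this y]
  simp

theorem Om_mul {m : ℕ} (hm : Fintype.card V = m ^ 2) (hp : p ∣ m + 1) (hp2 : p ≠ 2) {g h : Γ}
    (hg : ∀ v : V, g • v = v → v = 0) (hh : ∀ v : V, h • v = v → v = 0)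
    (hgh : ∀ v : V, (g * h) • v = v → v = 0) : Om B g * Om B h = -(m : ℤ) • Om B (g * h) := by
  obtain ⟨k, k1, k2⟩ := D.three g h
  have m0 : (m : ℤ) ≠ 0 := by
    have : 0 < Fintype.card V := Fintype.card_pos
    intro h0
    have : m = 0 := by exact_mod_cast h0
    simp_all
  have cV : (Fintype.card V : ℤ) = (m : ℤ) ^ 2 := by rw [hm]; push_cast; rfl
  have e1 : ((m : ℤ) ^ 2) • (Om B g * Om B h) = k • Om B (g * h) := by
    rw [← cV, ← one_mul (Om B g * Om B h), ← smul_mul_assoc, ← D.Om_mul_inv hgh, mul_assoc, k2,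
      mul_smul_comm, mul_one]
  have e2 : (((m : ℤ) ^ 2) • (Om B g * Om B h)) * (((m : ℤ) ^ 2) • (Om B g * Om B h))ᵀ =
      ((m : ℤ) ^ 8) • (1 : Matrix V V ℤ) := by
    rw [transpose_smul, transpose_mul, ← D.Om_inv, ← D.Om_inv, smul_mul_smul_comm, mul_assoc,
      ← mul_assoc (Om B h), D.Om_mul_inv hh, smul_mul_assoc, one_mul, mul_smul_comm,
      D.Om_mul_inv hg, cV, smul_smul, smul_smul]
    congr 1; ring
  rw [e1, transpose_smul, ← D.Om_inv, smul_mul_smul_comm, D.Om_mul_inv hgh, smul_smul, cV] at e2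
  have e3 := congrFun (congrFun e2 0) 0
  simp only [Matrix.smul_apply, one_apply_eq, smul_eq_mul, mul_one] at e3
  have e4 : (k - m ^ 3) * (k + m ^ 3) = 0 := by
    apply mul_right_cancel₀ (pow_ne_zero 2 m0)
    linear_combination e3
  have mp : (m : ZMod p) = -1 := by
    have := (ZMod.natCast_eq_zero_iff _ _).2 hp
    push_cast at this
    exact eq_neg_of_add_eq_zero_left this
  have e5 : k = -m ^ 3 := by
    rcases mul_eq_zero.1 e4 with e | e
    · exfalso
      have : Fact p.Prime := ⟨D.pr⟩
      rw [sub_eq_zero] at e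
      rw [e] at k1
      push_cast at k1
      rw [mp] at k1
      have : ((2 : ℕ) : ZMod p) = 0 := by push_cast; linear_combination -k1
      exact hp2 ((Nat.prime_dvd_prime_iff_eq D.pr Nat.prime_two).1 ((ZMod.natCast_eq_zero_iff _ _).1 this))
    · exact eq_neg_of_add_eq_zero_left e
  apply smul_right_injective _ (pow_ne_zero 2 m0)
  simp only
  rw [e1, e5, smul_smul]
  congr 1; ring

theorem sum_rep {m : ℕ} (hm : Fintype.card V = m ^ 2) (hp : p ∣ m + 1) (hp2 : p ≠ 2)
    {C : Type*} [Group C] [Fintype C] (hC : Fintype.card C = m + 1) (ι : C →* Γ)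
    (hι : ∀ c, c ≠ 1 → ∀ v : V, ι c • v = v → v = 0) : ∑ c, D.rep (ι c) = 0 := by
  classical
  have cV : (Fintype.card V : ℤ) = (m : ℤ) ^ 2 := by rw [hm]; push_cast; rfl
  let ω : C → Matrix V V ℤ := fun c => if c = 1 then -(m : ℤ) • 1 else Om B (ι c)
  have hω : ∀ c d, ω c * ω d = -(m : ℤ) • ω (c * d) := by
    intro c d
    by_cases hc : c = 1
    · subst hc; simp only [ω, if_pos, one_mul, smul_mul_assoc]
    by_cases hd : d = 1
    · subst hd; simp only [ω, if_pos, mul_one, mul_smul_comm]
    by_cases hcd : c * d = 1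
    · simp only [ω, if_neg hc, if_neg hd, if_pos hcd]
      rw [← eq_inv_of_mul_eq_one_right hcd |>.symm, map_inv, D.Om_mul_inv (hι c hc), cV, smul_smul]
      congr 1; ring
    · simp only [ω, if_neg hc, if_neg hd, if_neg hcd]
      rw [map_mul]
      exact D.Om_mul hm hp hp2 (hι c hc) (hι d hd) (map_mul ι c d ▸ hι _ hcd)
  have hT : ∀ c, (ω c)ᵀ = ω c⁻¹ := by
    intro c
    by_cases hc : c = 1
    · subst hc; simp [ω]
    · simp only [ω, if_neg hc, if_neg (inv_ne_one.2 hc), map_inv, D.Om_inv]
  have hW : ∀ c, Tw B (ω c) := by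
    intro c
    by_cases hc : c = 1
    · intro x y
      by_cases h : x = y
      · subst h
        simp only [ω, if_pos hc, Matrix.smul_apply, one_apply_eq, D.two, map_zero,
          AddMonoidHom.zero_apply, sg_zero, mul_one]
      · have : x + y ≠ 0 := fun k => h (by linear_combination (norm := abel1) k - D.two y)
        simp only [ω, if_pos hc, Matrix.smul_apply, one_apply_ne h, one_apply_ne this, smul_zero,
          zero_mul]
    · simp only [ω, if_neg hc]; exact tw_Om _
  set P := ∑ c, ω c with hP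
  have t0 : P 0 0 = 0 := by
    rw [hP, Matrix.sum_apply, ← Finset.add_sum_erase _ _ (mem_univ 1),
      sum_congr rfl (g := fun _ => (1 : ℤ))]
    · simp only [ω, if_pos, Matrix.smul_apply, one_apply_eq]
      simp [hC]
    · intro c hc
      have := ne_of_mem_erase hc
      simp only [ω, if_neg this]
      exact D.tau_fpf (hι c this)
  have PT : Pᵀ = P := by
    rw [hP, transpose_sum, ← Equiv.sum_comp (Equiv.inv C)]
    simp [hT]
  have PP : (P * Pᵀ) 0 0 = 0 := by
    have : P * P = ∑ _c : C, -(m : ℤ) • P := by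
      conv_lhs => rw [hP, sum_mul]
      refine sum_congr rfl fun c _ => ?_
      rw [mul_sum, hP, smul_sum, ← Equiv.sum_comp (Equiv.mulLeft c) (fun d => -(m : ℤ) • ω d)]
      exact sum_congr rfl fun d _ => hω c d
    rw [PT, this, Matrix.sum_apply]
    simp [t0]
  have P0 : ∀ y, P y 0 = 0 := by
    intro y
    rw [mul_apply] at PP
    have := (sum_eq_zero_iff_of_nonneg (fun i _ => mul_self_nonneg (P 0 i))).1 PP y (mem_univ _)
    rw [← PT]
    exact mul_self_eq_zero.1 this
  have Pz : P = 0 := by
    ext x y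
    have : P x y = P (x + y) 0 * sg (B (x + y) y) := by
      simp only [hP, Matrix.sum_apply, sum_mul]
      exact sum_congr rfl fun c _ => hW c x y
    rw [this, P0, zero_mul, Matrix.zero_apply]
  have mp : (m : ZMod p) = -1 := by
    have := (ZMod.natCast_eq_zero_iff _ _).2 hp
    push_cast at this
    exact eq_neg_of_add_eq_zero_left this
  have := congrArg (Int.castRingHom (ZMod p)).mapMatrix Pz
  rw [map_zero, hP, map_sum] at this
  rw [← this]
  refine sum_congr rfl fun c _ => ?_
  by_cases hc : c = 1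
  · simp only [ω, if_pos hc]
    rw [hc, map_one, map_one, map_zsmul, map_one, ← Int.cast_smul_eq_zsmul (ZMod p)]
    simp [mp]
  · simp only [ω, if_neg hc]; rfl

end WD
end Weil
end H9
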